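import Mathlib

set_option autoImplicit false

namespace Cfsg.Agent.Lib.Helper3

open Equiv Equiv.Perm Subgroup


theorem aa_fact_two (k m : ℕ) (hk : 2 ≤ k) :
    2 * 3 ^ k * (k + 1).factorial * m.factorial < (m + 3 * k).factorial := by
  induction k, hk using Nat.le_induction with
  | base =>
    have e : m + 3 * 2 = m + 1 + 1 + 1 + 1 + 1 + 1 := by ring
    rw [e]
    simp only [Nat.factorial_succ]
    have hpos : 0 < m.factorial := Nat.factorial_pos m
    have h720 : 6 * (5 * (4 * (3 * (2 * 1)))) ≤
        (m + 1 + 1 + 1 + 1 + 1 + 1) * ((m + 1 + 1 + 1 + 1 + 1) * ((m + 1 + 1 + 1 + 1) *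
          ((m + 1 + 1 + 1) * ((m + 1 + 1) * (m + 1))))) := by
      gcongr <;> omega
    have h0 : (0 : ℕ).factorial = 1 := rfl
    calc 2 * 3 ^ 2 * ((1 + 1 + 1) * ((1 + 1) * ((0 + 1) * Nat.factorial 0))) * m.factorial
        = 108 * m.factorial := by rw [h0]; norm_num
      _ < 6 * (5 * (4 * (3 * (2 * 1)))) * m.factorial := by
          exact Nat.mul_lt_mul_of_pos_right (by norm_num) hpos
      _ ≤ ((m + 1 + 1 + 1 + 1 + 1 + 1) * ((m + 1 + 1 + 1 + 1 + 1) * ((m + 1 + 1 + 1 + 1) *
          ((m + 1 + 1 + 1) * ((m + 1 + 1) * (m + 1)))))) * m.factorial :=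
          Nat.mul_le_mul_right _ h720
      _ = _ := by ring
  | succ k hk ih =>
    have e : m + 3 * (k + 1) = (m + 3 * k) + 1 + 1 + 1 := by ring
    rw [e]
    simp only [Nat.factorial_succ] at ih ⊢
    have h1 : 3 * (k + 1 + 1) ≤
        (m + 3 * k + 1 + 1 + 1) * ((m + 3 * k + 1 + 1) * (m + 3 * k + 1)) := by
      have a1 : 3 ≤ m + 3 * k + 1 + 1 + 1 := by omega
      have a2 : k + 1 + 1 ≤ (m + 3 * k + 1 + 1) * (m + 3 * k + 1) := by
        calc k + 1 + 1 = (k + 1 + 1) * 1 := by ring
          _ ≤ (m + 3 * k + 1 + 1) * (m + 3 * k + 1) := by gcongr <;> omega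
      exact Nat.mul_le_mul a1 a2
    calc 2 * 3 ^ (k + 1) * ((k + 1 + 1) * ((k + 1) * k.factorial)) * m.factorial
        = 3 * (k + 1 + 1) * (2 * 3 ^ k * ((k + 1) * k.factorial) * m.factorial) := by ring
      _ < 3 * (k + 1 + 1) * (m + 3 * k).factorial := by
          exact Nat.mul_lt_mul_of_pos_left ih (by omega)
      _ ≤ ((m + 3 * k + 1 + 1 + 1) * ((m + 3 * k + 1 + 1) * (m + 3 * k + 1))) *
            (m + 3 * k).factorial := Nat.mul_le_mul_right _ h1
      _ = _ := by ring

theorem aa_fact_one (m : ℕ) (hm : 1 ≤ m) :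
    2 * 3 ^ 1 * (1 + 1).factorial * m.factorial < (m + 3 * 1).factorial := by
  have e : m + 3 * 1 = m + 1 + 1 + 1 := by ring
  rw [e]
  simp only [Nat.factorial_succ]
  have hpos : 0 < m.factorial := Nat.factorial_pos m
  have h0 : (0 : ℕ).factorial = 1 := rfl
  have h24 : 4 * (3 * 2) ≤ (m + 1 + 1 + 1) * ((m + 1 + 1) * (m + 1)) := by
    gcongr <;> omega
  calc 2 * 3 ^ 1 * ((1 + 1) * ((0 + 1) * Nat.factorial 0)) * m.factorial
      = 12 * m.factorial := by rw [h0]; norm_num
    _ < 4 * (3 * 2) * m.factorial := Nat.mul_lt_mul_of_pos_right (by norm_num) hpos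
    _ ≤ ((m + 1 + 1 + 1) * ((m + 1 + 1) * (m + 1))) * m.factorial :=
        Nat.mul_le_mul_right _ h24
    _ = _ := by ring

theorem aa_fact_ineq (k m : ℕ) (hk : 1 ≤ k) (h : ¬ (m = 0 ∧ k = 1)) :
    2 * 3 ^ k * (k + 1).factorial * m.factorial < (m + 3 * k).factorial := by
  rcases Nat.lt_or_ge k 2 with h2 | h2
  · have hk1 : k = 1 := by omega
    subst hk1
    exact aa_fact_one m (by omega)
  · exact aa_fact_two k m h2

theorem aa_centralizer_card_map {G : Type*} [Group G] (φ : MulAut G) (g : G) :
    Nat.card (centralizer {φ g}) = Nat.card (centralizer {g}) := by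
  apply Nat.card_congr
  refine (φ.toEquiv.subtypeEquiv (fun x => ?_)).symm
  simp only [mem_centralizer_iff, Set.mem_singleton_iff, forall_eq]
  constructor
  · intro h
    show φ g * φ x = φ x * φ g
    rw [← map_mul, ← map_mul, h]
  · intro h
    have h' : φ g * φ x = φ x * φ g := h
    rw [← map_mul, ← map_mul] at h'
    exact φ.injective h'

theorem aa_centralizer_card {α : Type*} [Fintype α] [DecidableEq α] [Nontrivial α]
    (g : alternatingGroup α) :
    Nat.card (centralizer {g}) ≤ Nat.card (centralizer {(g : Perm α)}) ∧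
    Nat.card (centralizer {(g : Perm α)}) ≤ 2 * Nat.card (centralizer {g}) := by
  have hC : centralizer {g} = (centralizer {(g : Perm α)}).subgroupOf (alternatingGroup α) := by
    ext x
    simp only [mem_centralizer_iff, Set.mem_singleton_iff, forall_eq, mem_subgroupOf]
    constructor
    · intro h
      have := congrArg Subtype.val h
      simpa using this
    · intro h
      exact Subtype.ext (by simpa using h)
  let e : ((centralizer {(g : Perm α)}).subgroupOf (alternatingGroup α)) ≃
      ((alternatingGroup α).subgroupOf (centralizer {(g : Perm α)})) :=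
    { toFun := fun x => ⟨⟨x.1.1, x.2⟩, x.1.2⟩
      invFun := fun y => ⟨⟨y.1.1, y.2⟩, y.1.2⟩
      left_inv := fun x => rfl
      right_inv := fun y => rfl }
  have hcard : Nat.card (centralizer {g}) =
      Nat.card ((alternatingGroup α).subgroupOf (centralizer {(g : Perm α)})) := by
    rw [hC]; exact Nat.card_congr e
  have hmul := Subgroup.card_mul_index
    ((alternatingGroup α).subgroupOf (centralizer {(g : Perm α)}))
  have hdvd : ((alternatingGroup α).subgroupOf (centralizer {(g : Perm α)})).index ∣ 2 := by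
    have := Subgroup.relIndex_dvd_index_of_normal (alternatingGroup α)
      (centralizer {(g : Perm α)})
    rwa [alternatingGroup.index_eq_two] at this
  have hle : ((alternatingGroup α).subgroupOf (centralizer {(g : Perm α)})).index ≤ 2 :=
    Nat.le_of_dvd (by norm_num) hdvd
  have hpos : 0 < ((alternatingGroup α).subgroupOf (centralizer {(g : Perm α)})).index :=
    Nat.pos_of_dvd_of_pos hdvd (by norm_num)
  rw [hcard]
  constructor
  · calc Nat.card ((alternatingGroup α).subgroupOf (centralizer {(g : Perm α)}))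
        = Nat.card ((alternatingGroup α).subgroupOf (centralizer {(g : Perm α)})) * 1 := by ring
      _ ≤ _ := by rw [← hmul]; exact Nat.mul_le_mul_left _ hpos
  · rw [← hmul, mul_comm]
    exact Nat.mul_le_mul_right _ hle


theorem aa_three_cycle_map {n : ℕ} (h6 : n ≠ 6) (φ : MulAut (alternatingGroup (Fin n)))
    (x : alternatingGroup (Fin n)) (hx : IsThreeCycle (x : Perm (Fin n))) :
    IsThreeCycle ((φ x : alternatingGroup (Fin n)) : Perm (Fin n)) := by
  have hn3 : 3 ≤ n := by
    have h1 := hx.card_support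
    have h2 := Finset.card_le_univ (x : Perm (Fin n)).support
    simp only [Fintype.card_fin] at h2
    omega
  have : Nontrivial (Fin n) := Fin.nontrivial_iff_two_le.mpr (by omega)
  have ho : orderOf ((φ x : alternatingGroup (Fin n)) : Perm (Fin n)) = 3 := by
    rw [Subgroup.orderOf_coe, MulEquiv.orderOf_eq, ← Subgroup.orderOf_coe, hx.orderOf]
  obtain ⟨k, hk⟩ := Equiv.Perm.cycleType_prime_order
    (σ := ((φ x : alternatingGroup (Fin n)) : Perm (Fin n))) (by rw [ho]; norm_num)
  rw [ho] at hk
  rcases Nat.eq_zero_or_pos k with hk0 | hkpos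
  · rw [hk0] at hk
    unfold IsThreeCycle
    rw [hk]; rfl
  exfalso
  -- sizes of centralizers
  have c1 := Equiv.Perm.nat_card_centralizer (x : Perm (Fin n))
  have c2 := Equiv.Perm.nat_card_centralizer ((φ x : alternatingGroup (Fin n)) : Perm (Fin n))
  have hsum : 3 * (k + 1) ≤ n := by
    have h1 := Equiv.Perm.sum_cycleType ((φ x : alternatingGroup (Fin n)) : Perm (Fin n))
    have h2 := Finset.card_le_univ ((φ x : alternatingGroup (Fin n)) : Perm (Fin n)).support
    rw [hk] at h1
    simp only [Multiset.sum_replicate, smul_eq_mul, Fintype.card_fin] at h1 h2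
    omega
  rw [hx.cycleType] at c1
  rw [hk] at c2
  have hfin : (Multiset.replicate (k + 1) 3).toFinset = {3} := by
    ext a
    simp only [Multiset.mem_toFinset, Multiset.mem_replicate, Finset.mem_singleton]
    exact ⟨fun h => h.2, fun h => ⟨by omega, h⟩⟩
  rw [hfin] at c2
  simp only [Multiset.sum_singleton, Multiset.prod_singleton, Multiset.toFinset_singleton,
    Finset.prod_singleton, Multiset.count_singleton_self, Nat.factorial_one, mul_one,
    Fintype.card_fin] at c1
  simp only [Multiset.sum_replicate, Multiset.prod_replicate, smul_eq_mul,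
    Finset.prod_singleton, Multiset.count_replicate_self, Fintype.card_fin] at c2
  have a1 := aa_centralizer_card x
  have a2 := aa_centralizer_card (φ x)
  have a3 := aa_centralizer_card_map φ x
  obtain ⟨m, hm⟩ : ∃ m, n = m + 3 * (k + 1) := ⟨n - 3 * (k + 1), by omega⟩
  have e1 : n - 3 = m + 3 * k := by omega
  have e2 : n - (k + 1) * 3 = m := by omega
  rw [e1] at c1
  rw [e2] at c2
  have hineq := aa_fact_ineq k m hkpos (by omega)
  have hle : (m + 3 * k).factorial * 3 ≤ 2 * (m.factorial * 3 ^ (k + 1) * (k + 1).factorial) := by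
    rw [← c1, ← c2]
    calc Nat.card (centralizer {(x : Perm (Fin n))})
        ≤ 2 * Nat.card (centralizer {x}) := a1.2
      _ = 2 * Nat.card (centralizer {φ x}) := by rw [a3]
      _ ≤ _ := Nat.mul_le_mul_left 2 a2.1
  have : 2 * (m.factorial * 3 ^ (k + 1) * (k + 1).factorial) =
      (2 * 3 ^ k * (k + 1).factorial * m.factorial) * 3 := by ring
  rw [this] at hle
  have := Nat.le_of_mul_le_mul_right hle (by norm_num)
  omega



section three
variable {α : Type*} [Fintype α] [DecidableEq α]

theorem aa_cube {t : Perm α} (ht : IsThreeCycle t) (x : α) : t (t (t x)) = x := by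
  have h : t ^ 3 = 1 := by rw [← ht.orderOf]; exact pow_orderOf_eq_one t
  have := congrArg (fun f : Perm α => f x) h
  simpa [pow_succ] using this

theorem aa_P3 {t : Perm α} (ht : IsThreeCycle t) {x y : α} (hx : t x ≠ x) (hy : t y ≠ y) :
    y = x ∨ y = t x ∨ y = t (t x) := by
  have h1 := ht.support_eq_iff_mem_support.mpr (Perm.mem_support.mpr hx)
  have h2 : y ∈ t.support := Perm.mem_support.mpr hy
  rw [h1] at h2
  simpa using h2

theorem aa_ne {t : Perm α} (ht : IsThreeCycle t) {a : α} (ha : t a ≠ a) :
    t (t a) ≠ t a ∧ t (t a) ≠ a := by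
  refine ⟨fun h => ha (t.injective h), fun h => ha ?_⟩
  have := aa_cube ht a
  rw [h] at this
  exact this

theorem aa_uniq {s t : Perm α} (hs : IsThreeCycle s) (ht : IsThreeCycle t) {a : α}
    (ha : s a ≠ a) (h1 : t a = s a) (h2 : t (s a) = s (s a)) : s = t := by
  have e1 := hs.eq_swap_mul_swap_iff_mem_support.mpr (Perm.mem_support.mpr ha)
  have e2 := ht.eq_swap_mul_swap_iff_mem_support.mpr (Perm.mem_support.mpr (h1 ▸ ha))
  calc s = swap a (s a) * swap (s a) (s (s a)) := e1
    _ = swap a (t a) * swap (t a) (t (t a)) := by rw [h1, h2]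
    _ = t := e2.symm

theorem aa_common_edge {s t : Perm α} (hs : IsThreeCycle s) (ht : IsThreeCycle t)
    (h2 : (s * t) * (s * t) = 1) (h1 : s * t ≠ 1) : ∃ a, s a ≠ a ∧ t a = s a := by
  obtain ⟨x, hx⟩ : ∃ x, s (t x) ≠ x := by
    by_contra hcon
    simp only [not_exists, not_not] at hcon
    exact h1 (Perm.ext hcon)
  have hu : s (t (s (t x))) = x := by
    have := congrArg (fun f : Perm α => f x) h2
    simpa using this
  by_cases htx : t x = x
  · rw [htx] at hx hu
    refine ⟨s x, ?_, ?_⟩
    · intro h; exact hx (s.injective h)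
    · apply s.injective; rw [hu, aa_cube hs]
  · by_cases hsw : s (t x) = t x
    · rw [hsw] at hu
      refine ⟨t (t x), ?_, ?_⟩
      · rw [hu]; intro h
        apply htx
        have := aa_cube ht x
        rw [← h] at this
        exact this
      · rw [hu, aa_cube ht]
    · by_cases hty : t (s (t x)) = s (t x)
      · rw [hty] at hu
        have e : s x = t x := by
          calc s x = s (s (s (t x))) := by rw [hu]
            _ = t x := aa_cube hs (t x)
        exact ⟨x, by rw [e]; exact htx, e.symm⟩
      · rcases aa_P3 ht htx hty with h | h | h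
        · exact absurd h hx
        · exact absurd h hsw
        · exact ⟨t x, hsw, h.symm⟩

theorem aa_recon {o e p q : α} (hoe : o ≠ e) (hpo : p ≠ o) (hpe : p ≠ e) (hqo : q ≠ o)
    (hqe : q ≠ e) (hpq : p ≠ q) (d : α → Perm α)
    (h3 : ∀ i, i ≠ o → i ≠ e → IsThreeCycle (d i))
    (hinj : ∀ i j, i ≠ o → i ≠ e → j ≠ o → j ≠ e → d i = d j → i = j)
    (h2 : ∀ i j, i ≠ o → i ≠ e → j ≠ o → j ≠ e → i ≠ j →
      (d i * d j) * (d i * d j) = 1 ∧ d i * d j ≠ 1) :
    ∃ σ : Perm α, ∀ i, i ≠ o → i ≠ e → d i = σ * (swap e o * swap e i) * σ⁻¹ := by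
  have tp := h3 p hpo hpe
  have tq := h3 q hqo hqe
  obtain ⟨a, ha, hab⟩ := aa_common_edge tp tq (h2 p q hpo hpe hqo hqe hpq).1
    (h2 p q hpo hpe hqo hqe hpq).2
  have haq : d q a ≠ a := by rw [hab]; exact ha
  have hu_ne : d p (d p a) ≠ d q (d p a) := by
    intro h
    exact hpq (hinj p q hpo hpe hqo hqe (aa_uniq tp tq ha hab h.symm))
  have hpb := aa_ne tp ha
  have hqb := aa_ne tq haq
  rw [hab] at hqb
  have hqcube : d q (d q (d p a)) = a := by
    have := aa_cube tq a
    rwa [hab] at this
  have key : ∀ i, i ≠ o → i ≠ e → d i a = d p a := by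
    intro i hio hie
    by_cases hip : i = p
    · rw [hip]
    by_cases hiq : i = q
    · rw [hiq]; exact hab
    have ti := h3 i hio hie
    obtain ⟨x, hx, hxi⟩ := aa_common_edge tp ti (h2 p i hpo hpe hio hie (Ne.symm hip)).1
      (h2 p i hpo hpe hio hie (Ne.symm hip)).2
    obtain ⟨y, hy, hyi⟩ := aa_common_edge tq ti (h2 q i hqo hqe hio hie (Ne.symm hiq)).1
      (h2 q i hqo hqe hio hie (Ne.symm hiq)).2
    rcases aa_P3 tp ha hx with hx1 | hx1 | hx1
    · rw [hx1] at hxi; exact hxi
    · -- x = d p a
      rw [hx1] at hxi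
      rcases aa_P3 tq haq hy with hy1 | hy1 | hy1
      · rw [hy1] at hyi; exact hyi.trans hab
      · rw [hy1, hab] at hyi
        exact absurd (hxi.symm.trans hyi) hu_ne
      · -- y = d q (d q a) = d q (d p a) =: v ; d i v = d q v = a
        rw [hy1, hab, hqcube] at hyi
        -- hyi : d i (d q (d p a)) = a ; hxi : d i (d p a) = d p (d p a)
        have hib : d i (d p a) ≠ d p a := by rw [hxi]; exact hpb.1
        have hiv : d i (d q (d p a)) ≠ d q (d p a) := by rw [hyi]; exact hqb.2.symm
        rcases aa_P3 ti hib hiv with h | h | h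
        · exact absurd h hqb.1
        · rw [hxi] at h; exact absurd h.symm hu_ne
        · have h' := congrArg (d i) h
          rw [hyi, aa_cube ti] at h'
          exact absurd h'.symm ha
    · -- x = d p (d p a) =: u ; d i u = d p u = a
      rw [hx1, aa_cube tp] at hxi
      rcases aa_P3 tq haq hy with hy1 | hy1 | hy1
      · rw [hy1] at hyi; exact hyi.trans hab
      · rw [hy1, hab] at hyi
        -- hyi : d i (d p a) = d q (d p a)
        have hib : d i (d p a) ≠ d p a := by rw [hyi]; exact hqb.1
        have hiu : d i (d p (d p a)) ≠ d p (d p a) := by rw [hxi]; exact hpb.2.symm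
        rcases aa_P3 ti hib hiu with h | h | h
        · exact absurd h hpb.1
        · rw [hyi] at h; exact absurd h hu_ne
        · have h' := congrArg (d i) h
          rw [hxi, aa_cube ti] at h'
          exact absurd h'.symm ha
      · rw [hy1, hab, hqcube] at hyi
        exact absurd ((d i).injective (hxi.trans hyi.symm)) hu_ne
  -- the point map
  let f : α → α := fun i => if i = o then a else if i = e then d p a else d i (d p a)
  have hfo : f o = a := by simp [f]
  have hfe : f e = d p a := by simp [f, hoe.symm]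
  have hfi : ∀ i, i ≠ o → i ≠ e → f i = d i (d p a) := by
    intro i hio hie; simp [f, hio, hie]
  have hia : ∀ i, i ≠ o → i ≠ e → d i (d p a) ≠ d p a ∧ d i (d p a) ≠ a := by
    intro i hio hie
    have h := aa_ne (h3 i hio hie) (a := a) (by rw [key i hio hie]; exact ha)
    rw [key i hio hie] at h
    exact h
  have hf_inj : Function.Injective f := by
    intro i j hij
    rcases eq_or_ne i o with rfl | hio
    · rcases eq_or_ne j i with rfl | hjo
      · rfl
      · rcases eq_or_ne j e with rfl | hje
        · rw [hfo, hfe] at hij; exact absurd hij.symm ha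
        · rw [hfo, hfi j hjo hje] at hij; exact absurd hij.symm (hia j hjo hje).2
    · rcases eq_or_ne i e with rfl | hie
      · rcases eq_or_ne j o with rfl | hjo
        · rw [hfo, hfe] at hij; exact absurd hij ha
        · rcases eq_or_ne j i with rfl | hje
          · rfl
          · rw [hfe, hfi j hjo hje] at hij; exact absurd hij.symm (hia j hjo hje).1
      · rcases eq_or_ne j o with rfl | hjo
        · rw [hfo, hfi i hio hie] at hij; exact absurd hij (hia i hio hie).2
        · rcases eq_or_ne j e with rfl | hje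
          · rw [hfe, hfi i hio hie] at hij; exact absurd hij (hia i hio hie).1
          · rw [hfi i hio hie, hfi j hjo hje] at hij
            apply hinj i j hio hie hjo hje
            apply aa_uniq (h3 i hio hie) (h3 j hjo hje) (a := a)
            · rw [key i hio hie]; exact ha
            · rw [key i hio hie, key j hjo hje]
            · rw [key i hio hie]; exact hij.symm
  let σ : Perm α := Equiv.ofBijective f (Finite.injective_iff_bijective.mp hf_inj)
  have hσ : ∀ z, σ z = f z := fun z => rfl
  refine ⟨σ, fun i hio hie => ?_⟩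
  have hc : IsThreeCycle (σ * (swap e o * swap e i) * σ⁻¹) := by
    unfold IsThreeCycle
    rw [Equiv.Perm.cycleType_conj]
    exact isThreeCycle_swap_mul_swap_same hoe.symm (Ne.symm hie) (Ne.symm hio)
  have hinv_a : σ⁻¹ a = o := by
    rw [Perm.inv_eq_iff_eq, hσ, hfo]
  have hinv_b : σ⁻¹ (d p a) = e := by
    rw [Perm.inv_eq_iff_eq, hσ, hfe]
  apply aa_uniq (h3 i hio hie) hc (a := a)
  · rw [key i hio hie]; exact ha
  · rw [key i hio hie]
    simp only [Perm.mul_apply, hinv_a]
    rw [swap_apply_of_ne_of_ne hoe (Ne.symm hio), swap_apply_right, hσ, hfe]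
  · rw [key i hio hie]
    simp only [Perm.mul_apply, hinv_b]
    rw [swap_apply_left, swap_apply_of_ne_of_ne hie hio, hσ, hfi i hio hie]

end three



section gen
variable {α : Type*} [DecidableEq α]

theorem aa_swap_id1 {o e y : α} (hoe : o ≠ e) (hyo : y ≠ o) (hye : y ≠ e) :
    swap o y * swap o e = swap e o * swap e y := by
  ext z
  simp only [Perm.mul_apply, swap_apply_def]
  grind

theorem aa_swap_id2 {o e x y : α} (hoe : o ≠ e) (hxo : x ≠ o) (hxe : x ≠ e) (hyo : y ≠ o)
    (hye : y ≠ e) (hxy : x ≠ y) :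
    swap x y * swap o e =
      (swap e o * swap e x)⁻¹ * (swap e o * swap e y) * (swap e o * swap e x)⁻¹ := by
  rw [mul_inv_rev, swap_inv, swap_inv]
  ext z
  simp only [Perm.mul_apply, swap_apply_def]
  grind

theorem aa_sq_id {o e i j : α} (hoe : o ≠ e) (hio : i ≠ o) (hie : i ≠ e) (hjo : j ≠ o)
    (hje : j ≠ e) (hij : i ≠ j) :
    ((swap e o * swap e i) * (swap e o * swap e j)) *
      ((swap e o * swap e i) * (swap e o * swap e j)) = 1 := by
  ext z
  simp only [Perm.mul_apply, swap_apply_def, Perm.one_apply]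
  grind

variable [Fintype α]

theorem aa_gen {o e : α} (hoe : o ≠ e) (H : Subgroup (Perm α))
    (hH : ∀ i, i ≠ o → i ≠ e → swap e o * swap e i ∈ H) :
    alternatingGroup α ≤ H := by
  have hev : ∀ i, i ≠ e → swap e o * swap e i ∈ alternatingGroup α := by
    intro i hi
    rw [mem_alternatingGroup, map_mul, sign_swap hoe.symm, sign_swap (Ne.symm hi)]
    rfl
  have hH0 : ∀ i, i ≠ o → i ≠ e → swap e o * swap e i ∈ H ⊓ alternatingGroup α :=
    fun i hio hie => ⟨hH i hio hie, hev i hie⟩
  have E1 : ∀ x y : α, x ≠ y → swap x y * swap o e ∈ H ⊓ alternatingGroup α := by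
    intro x y hxy
    rcases eq_or_ne x o with rfl | hxo
    · rcases eq_or_ne y e with rfl | hye
      · rw [swap_mul_self]; exact one_mem _
      · rw [aa_swap_id1 hoe (Ne.symm hxy) hye]
        exact hH0 y (Ne.symm hxy) hye
    · rcases eq_or_ne x e with rfl | hxe
      · rcases eq_or_ne y o with rfl | hyo
        · rw [swap_comm x y, swap_mul_self]; exact one_mem _
        · have h := inv_mem (hH0 y hyo (Ne.symm hxy))
          rw [mul_inv_rev, swap_inv, swap_inv, swap_comm x o] at h
          exact h
      · rcases eq_or_ne y o with rfl | hyo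
        · rw [swap_comm x y, aa_swap_id1 hoe hxo hxe]
          exact hH0 x hxo hxe
        · rcases eq_or_ne y e with rfl | hye
          · have h := inv_mem (hH0 x hxo hxe)
            rw [mul_inv_rev, swap_inv, swap_inv, swap_comm y o, swap_comm y x] at h
            exact h
          · rw [aa_swap_id2 hoe hxo hxe hyo hye hxy]
            exact mul_mem (mul_mem (inv_mem (hH0 x hxo hxe)) (hH0 y hyo hye))
              (inv_mem (hH0 x hxo hxe))
  have E2 : ∀ x y : α, x ≠ y → swap o e * swap x y ∈ H ⊓ alternatingGroup α := by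
    intro x y hxy
    have h := inv_mem (E1 x y hxy)
    rw [mul_inv_rev, swap_inv, swap_inv] at h
    exact h
  have claim : ∀ g : Perm α, g ∈ H ⊓ alternatingGroup α ∨
      g * swap o e ∈ H ⊓ alternatingGroup α := by
    intro g
    induction g using Equiv.Perm.swap_induction_on' with
    | one => exact Or.inl (one_mem _)
    | mul_swap f x y hxy ih =>
      rcases ih with h | h
      · right
        rw [mul_assoc]
        exact mul_mem h (E1 x y hxy)
      · left
        have : f * swap x y = (f * swap o e) * (swap o e * swap x y) := by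
          rw [mul_assoc, ← mul_assoc (swap o e), swap_mul_self, one_mul]
        rw [this]
        exact mul_mem h (E2 x y hxy)
  intro g hg
  rcases claim g with h | h
  · exact h.1
  · exfalso
    have h1 : g * swap o e ∈ alternatingGroup α := h.2
    rw [mem_alternatingGroup, map_mul, mem_alternatingGroup.mp hg, sign_swap hoe, one_mul] at h1
    exact absurd h1 (by decide)

theorem aa_exists_two (h : 4 ≤ Fintype.card α) (x y : α) :
    ∃ z w, z ≠ x ∧ z ≠ y ∧ w ≠ x ∧ w ≠ y ∧ z ≠ w := by
  have hc : 1 < (({x, y} : Finset α)ᶜ).card := by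
    rw [Finset.card_compl]
    have := Finset.card_le_two (a := x) (b := y)
    omega
  obtain ⟨z, hz, w, hw, hzw⟩ := Finset.one_lt_card.mp hc
  simp only [Finset.mem_compl, Finset.mem_insert, Finset.mem_singleton, not_or] at hz hw
  exact ⟨z, w, hz.1, hz.2, hw.1, hw.2, hzw⟩

end gen


/-- the even permutation `(o e i)` as an element of the alternating group -/
noncomputable def aaC {α : Type*} [Fintype α] [DecidableEq α] (o e i : α) :
    alternatingGroup α :=
  if h : Equiv.Perm.sign (swap e o * swap e i) = 1 then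
    ⟨swap e o * swap e i, mem_alternatingGroup.mpr h⟩ else 1

theorem aaC_val {α : Type*} [Fintype α] [DecidableEq α] {o e i : α} (hoe : o ≠ e)
    (hie : i ≠ e) :
    ((aaC o e i : alternatingGroup α) : Perm α) = swap e o * swap e i := by
  have h : Equiv.Perm.sign (swap e o * swap e i) = 1 := by
    rw [map_mul, sign_swap hoe.symm, sign_swap (Ne.symm hie)]
    rfl
  unfold aaC
  rw [dif_pos h]

theorem aa_surj_core {α : Type*} [Fintype α] [DecidableEq α]
    (φ : MulAut (alternatingGroup α))
    (hφ : ∀ x : alternatingGroup α, IsThreeCycle (x : Perm α) →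
      IsThreeCycle ((φ x : alternatingGroup α) : Perm α))
    {o e p q : α} (hoe : o ≠ e) (hpo : p ≠ o) (hpe : p ≠ e) (hqo : q ≠ o)
    (hqe : q ≠ e) (hpq : p ≠ q) :
    ∃ σ : Perm α, (MulAut.conjNormal σ : MulAut (alternatingGroup α)) = φ := by
  have hce : ∀ i : α, i ≠ o → i ≠ e → (swap e o * swap e i) e = i := by
    intro i hio hie
    rw [Perm.mul_apply, swap_apply_left, swap_apply_of_ne_of_ne hie hio]
  have hmul : ∀ a b : alternatingGroup α,
      ((φ a : alternatingGroup α) : Perm α) * ((φ b : alternatingGroup α) : Perm α) =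
        ((φ (a * b) : alternatingGroup α) : Perm α) := by
    intro a b
    rw [map_mul, Subgroup.coe_mul]
  obtain ⟨σ, hσ⟩ := aa_recon hoe hpo hpe hqo hqe hpq
    (fun i => ((φ (aaC o e i) : alternatingGroup α) : Perm α))
    (by
      intro i hio hie
      apply hφ
      rw [aaC_val hoe hie]
      exact isThreeCycle_swap_mul_swap_same hoe.symm (Ne.symm hie) (Ne.symm hio))
    (by
      intro i j hio hie hjo hje hij
      have h1 := φ.injective (Subtype.ext hij)
      have h2 := congrArg (fun g : alternatingGroup α => (g : Perm α) e) h1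
      simp only [aaC_val hoe hie, aaC_val hoe hje, hce i hio hie, hce j hjo hje] at h2
      exact h2)
    (by
      intro i j hio hie hjo hje hij
      simp only [hmul]
      constructor
      · have h2 : (aaC o e i * aaC o e j) * (aaC o e i * aaC o e j) = 1 := by
          apply Subtype.ext
          simp only [Subgroup.coe_mul, Subgroup.coe_one, aaC_val hoe hie, aaC_val hoe hje]
          exact aa_sq_id hoe hio hie hjo hje hij
        rw [h2, map_one]
        rfl
      · intro h
        have h1 : φ (aaC o e i * aaC o e j) = 1 := Subtype.ext h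
        rw [map_eq_one_iff _ φ.injective] at h1
        have h2 := congrArg (fun g : alternatingGroup α => (g : Perm α) e) h1
        simp only [Subgroup.coe_mul, Subgroup.coe_one, aaC_val hoe hie, aaC_val hoe hje,
          Perm.mul_apply, Perm.one_apply] at h2
        rw [swap_apply_left, swap_apply_of_ne_of_ne hje hjo,
          swap_apply_of_ne_of_ne hje hij.symm, swap_apply_of_ne_of_ne hje hjo] at h2
        exact hje h2)
  refine ⟨σ, ?_⟩
  have hK : alternatingGroup α ≤
      ((MulAut.conjNormal σ : MulAut (alternatingGroup α)).toMonoidHom.eqLocus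
        φ.toMonoidHom).map (alternatingGroup α).subtype := by
    apply aa_gen hoe
    intro i hio hie
    refine ⟨aaC o e i, ?_, aaC_val hoe hie⟩
    show (MulAut.conjNormal σ : MulAut (alternatingGroup α)) (aaC o e i) = φ (aaC o e i)
    apply Subtype.ext
    rw [MulAut.conjNormal_apply, aaC_val hoe hie]
    exact (hσ i hio hie).symm
  apply MulEquiv.ext
  intro g
  obtain ⟨k, hk, hkg⟩ := hK g.2
  have : k = g := Subtype.ext hkg
  rw [← this]
  exact hk

theorem aa_main (n : ℕ) (hn : 4 ≤ n) (h6 : n ≠ 6) :
    Function.Bijective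
      (MulAut.conjNormal : Perm (Fin n) →* MulAut ↥(alternatingGroup (Fin n))) := by
  constructor
  · rw [injective_iff_map_eq_one]
    intro σ hσ
    by_contra hne
    obtain ⟨x, hx⟩ : ∃ x, σ x ≠ x := by
      by_contra hcon
      simp only [not_exists, not_not] at hcon
      exact hne (Perm.ext hcon)
    obtain ⟨z, w, hzx, hzy, hwx, hwy, hzw⟩ :=
      aa_exists_two (α := Fin n) (by simpa using hn) x (σ x)
    have hc3 : IsThreeCycle (swap x z * swap x w) :=
      isThreeCycle_swap_mul_swap_same hzx.symm hwx.symm hzw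
    have h1 := congrArg (fun ψ : MulAut (alternatingGroup (Fin n)) =>
      ((ψ ⟨_, hc3.mem_alternatingGroup⟩ : alternatingGroup (Fin n)) : Perm (Fin n))) hσ
    simp only [MulAut.conjNormal_apply, MulAut.one_apply] at h1
    have h2 := congrArg (fun f : Perm (Fin n) => f (σ x)) h1
    simp only [Perm.mul_apply] at h2
    have h3 : σ⁻¹ (σ x) = x := σ.symm_apply_apply x
    rw [h3, swap_apply_left, swap_apply_of_ne_of_ne hwx hzw.symm,
      swap_apply_of_ne_of_ne hx hwy.symm, swap_apply_of_ne_of_ne hx hzy.symm] at h2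
    exact hwx (σ.injective h2)
  · intro φ
    have hoe : (⟨0, by omega⟩ : Fin n) ≠ ⟨1, by omega⟩ := by simp [Fin.ext_iff]
    have hpo : (⟨2, by omega⟩ : Fin n) ≠ ⟨0, by omega⟩ := by simp [Fin.ext_iff]
    have hpe : (⟨2, by omega⟩ : Fin n) ≠ ⟨1, by omega⟩ := by simp [Fin.ext_iff]
    have hqo : (⟨3, by omega⟩ : Fin n) ≠ ⟨0, by omega⟩ := by simp [Fin.ext_iff]
    have hqe : (⟨3, by omega⟩ : Fin n) ≠ ⟨1, by omega⟩ := by simp [Fin.ext_iff]
    have hpq : (⟨2, by omega⟩ : Fin n) ≠ ⟨3, by omega⟩ := by simp [Fin.ext_iff]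
    exact aa_surj_core φ (fun x hx => aa_three_cycle_map h6 φ x hx) hoe hpo hpe hqo hqe hpq

end Cfsg.Agent.Lib.Helper3
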