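import Mathlib
import Cfsg.Agent.Lib.Helper3.Invol
import Cfsg.Agent.Lib.Helper3.Dihedral
import Cfsg.Agent.S0263

set_option autoImplicit false

namespace Cfsg.Agent.Lib.Helper3

open Matrix
open scoped Pointwise

section GL2

variable {F : Type*} [Field F]

/-- The upper unitriangular matrix. -/
def uMat (x : F) : Matrix (Fin 2) (Fin 2) F := !![1, x; 0, 1]

theorem uMat_mul (x y : F) : uMat x * uMat y = uMat (x + y) := by
  ext i j
  fin_cases i <;> fin_cases j <;> simp [uMat, Matrix.mul_apply, Fin.sum_univ_two, add_comm]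

theorem uMat_zero : uMat (0 : F) = 1 := by
  ext i j
  fin_cases i <;> fin_cases j <;> simp [uMat]

/-- Upper unitriangular matrices as a homomorphism into the general linear group. -/
def uGL : Multiplicative F →* GL (Fin 2) F where
  toFun x := ⟨uMat (Multiplicative.toAdd x), uMat (-(Multiplicative.toAdd x)),
    by rw [uMat_mul, add_neg_cancel, uMat_zero], by rw [uMat_mul, neg_add_cancel, uMat_zero]⟩
  map_one' := Units.ext uMat_zero
  map_mul' x y := Units.ext (by simp [uMat_mul])

theorem uGL_val (x : Multiplicative F) :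
    ((uGL x : GL (Fin 2) F) : Matrix (Fin 2) (Fin 2) F) = uMat (Multiplicative.toAdd x) := rfl

theorem uGL_injective : Function.Injective (uGL : Multiplicative F → GL (Fin 2) F) := by
  intro x y h
  have := congrArg (fun g : GL (Fin 2) F => (g : Matrix (Fin 2) (Fin 2) F) 0 1) h
  simpa [uGL_val, uMat] using this

theorem mem_range_uGL {g : GL (Fin 2) F} :
    g ∈ (uGL : Multiplicative F →* GL (Fin 2) F).range ↔
      ∃ x : F, (g : Matrix (Fin 2) (Fin 2) F) = uMat x := by
  constructor
  · rintro ⟨x, rfl⟩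
    exact ⟨_, rfl⟩
  · rintro ⟨x, hx⟩
    exact ⟨Multiplicative.ofAdd x, Units.ext hx.symm⟩

theorem gl2_det_ne_zero (g : GL (Fin 2) F) :
    (g : Matrix (Fin 2) (Fin 2) F) 0 0 * (g : Matrix (Fin 2) (Fin 2) F) 1 1 -
      (g : Matrix (Fin 2) (Fin 2) F) 0 1 * (g : Matrix (Fin 2) (Fin 2) F) 1 0 ≠ 0 := by
  have := ((Matrix.isUnit_iff_isUnit_det _).mp g.isUnit).ne_zero
  rwa [Matrix.det_fin_two] at this

/-- Conjugating an upper unitriangular matrix by an upper triangular one. -/
theorem triang_mul_uGL (g : GL (Fin 2) F) (hg : (g : Matrix (Fin 2) (Fin 2) F) 1 0 = 0) (x : F) :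
    g * uGL (Multiplicative.ofAdd x) =
      uGL (Multiplicative.ofAdd ((g : Matrix (Fin 2) (Fin 2) F) 0 0 * x /
        (g : Matrix (Fin 2) (Fin 2) F) 1 1)) * g := by
  have hdet := gl2_det_ne_zero g
  rw [hg, mul_zero, sub_zero] at hdet
  have hd : (g : Matrix (Fin 2) (Fin 2) F) 1 1 ≠ 0 := right_ne_zero_of_mul hdet
  apply Units.ext
  ext i j
  fin_cases i <;> fin_cases j <;>
    simp [uGL_val, uMat, Matrix.mul_apply, Fin.sum_univ_two, hg]
  field_simp
  ring

theorem mem_normalizer_uGL {g : GL (Fin 2) F} :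
    g ∈ Subgroup.normalizer (((uGL : Multiplicative F →* GL (Fin 2) F).range :
      Subgroup (GL (Fin 2) F)) : Set (GL (Fin 2) F)) ↔
      (g : Matrix (Fin 2) (Fin 2) F) 1 0 = 0 := by
  constructor
  · intro hg
    have h1 := (Subgroup.mem_normalizer_iff.mp hg (uGL (Multiplicative.ofAdd (1 : F)))).mp ⟨_, rfl⟩
    rw [mem_range_uGL] at h1
    obtain ⟨x, hx⟩ := h1
    have key : ∀ (w : GL (Fin 2) F), (w : Matrix (Fin 2) (Fin 2) F) = uMat x →
        g * uGL (Multiplicative.ofAdd (1 : F)) = w * g →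
        (g : Matrix (Fin 2) (Fin 2) F) 1 0 = 0 := by
      intro w hw hk
      have := congrArg (fun m : GL (Fin 2) F => (m : Matrix (Fin 2) (Fin 2) F) 1 1) hk
      simp only [Units.val_mul, Matrix.mul_apply, Fin.sum_univ_two, hw, uGL_val] at this
      simpa [uMat] using this
    exact key _ hx (by group)
  · intro hg
    have hdet := gl2_det_ne_zero g
    rw [hg, mul_zero, sub_zero] at hdet
    have ha : (g : Matrix (Fin 2) (Fin 2) F) 0 0 ≠ 0 := left_ne_zero_of_mul hdet
    have hd : (g : Matrix (Fin 2) (Fin 2) F) 1 1 ≠ 0 := right_ne_zero_of_mul hdet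
    rw [Subgroup.mem_normalizer_iff]
    intro h
    constructor
    · rintro ⟨x, rfl⟩
      have := triang_mul_uGL g hg (Multiplicative.toAdd x)
      rw [ofAdd_toAdd] at this
      rw [this, mul_inv_cancel_right]
      exact ⟨_, rfl⟩
    · rintro ⟨y, hy⟩
      have := triang_mul_uGL g hg ((g : Matrix (Fin 2) (Fin 2) F) 1 1 * Multiplicative.toAdd y /
        (g : Matrix (Fin 2) (Fin 2) F) 0 0)
      have e : (g : Matrix (Fin 2) (Fin 2) F) 0 0 * ((g : Matrix (Fin 2) (Fin 2) F) 1 1 *
          Multiplicative.toAdd y / (g : Matrix (Fin 2) (Fin 2) F) 0 0) /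
          (g : Matrix (Fin 2) (Fin 2) F) 1 1 = Multiplicative.toAdd y := by
        field_simp
      rw [e, ofAdd_toAdd, hy] at this
      have h2 : h = uGL (Multiplicative.ofAdd ((g : Matrix (Fin 2) (Fin 2) F) 1 1 *
          Multiplicative.toAdd y / (g : Matrix (Fin 2) (Fin 2) F) 0 0)) := by
        have h3 : g * h = g * uGL (Multiplicative.ofAdd ((g : Matrix (Fin 2) (Fin 2) F) 1 1 *
          Multiplicative.toAdd y / (g : Matrix (Fin 2) (Fin 2) F) 0 0)) := by
          rw [this]
          group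
        exact mul_left_cancel h3
      rw [h2]
      exact ⟨_, rfl⟩

theorem uGL_mul_eq_mul_uGL {h : GL (Fin 2) F} {s t : F}
    (hk : uGL (Multiplicative.ofAdd s) * h = h * uGL (Multiplicative.ofAdd t)) (hs : s ≠ 0) :
    (h : Matrix (Fin 2) (Fin 2) F) 1 0 = 0 := by
  have := congrArg (fun m : GL (Fin 2) F => (m : Matrix (Fin 2) (Fin 2) F) 0 0) hk
  simp [uGL_val, uMat, Matrix.mul_apply, Fin.sum_univ_two] at this
  exact this.resolve_left hs

theorem mem_centralizer_uGL {s : F} (hs : s ≠ 0) {z : GL (Fin 2) F} :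
    z ∈ Subgroup.centralizer ({uGL (Multiplicative.ofAdd s)} : Set (GL (Fin 2) F)) ↔
      (z : Matrix (Fin 2) (Fin 2) F) 1 0 = 0 ∧
        (z : Matrix (Fin 2) (Fin 2) F) 0 0 = (z : Matrix (Fin 2) (Fin 2) F) 1 1 := by
  rw [mem_cent_singleton]
  constructor
  · intro hk
    have h0 := uGL_mul_eq_mul_uGL hk hs
    refine ⟨h0, ?_⟩
    have := congrArg (fun m : GL (Fin 2) F => (m : Matrix (Fin 2) (Fin 2) F) 0 1) hk
    simp [uGL_val, uMat, Matrix.mul_apply, Fin.sum_univ_two] at this
    have h2 : s * ((z : Matrix (Fin 2) (Fin 2) F) 0 0 - (z : Matrix (Fin 2) (Fin 2) F) 1 1) = 0 := by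
      linear_combination -this
    have := (mul_eq_zero.mp h2).resolve_left hs
    linear_combination this
  · rintro ⟨h0, h1⟩
    apply Units.ext
    ext i j
    fin_cases i <;> fin_cases j <;>
      simp [uGL_val, uMat, Matrix.mul_apply, Fin.sum_univ_two, h0, h1]
    ring

theorem card_centralizer_conj {G : Type*} [Group G] (g u : G) :
    Nat.card (Subgroup.centralizer ({g * u * g⁻¹} : Set G)) =
      Nat.card (Subgroup.centralizer ({u} : Set G)) := by
  refine Nat.card_congr ⟨fun z => ⟨g⁻¹ * z.1 * g, ?_⟩, fun z => ⟨g * z.1 * g⁻¹, ?_⟩, ?_, ?_⟩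
  · have := mem_cent_singleton.mp z.2
    rw [mem_cent_singleton]
    calc u * (g⁻¹ * z.1 * g) = g⁻¹ * (g * u * g⁻¹ * z.1) * g := by group
      _ = g⁻¹ * (z.1 * (g * u * g⁻¹)) * g := by rw [this]
      _ = g⁻¹ * z.1 * g * u := by group
  · have := mem_cent_singleton.mp z.2
    rw [mem_cent_singleton]
    calc g * u * g⁻¹ * (g * z.1 * g⁻¹) = g * (u * z.1) * g⁻¹ := by group
      _ = g * (z.1 * u) * g⁻¹ := by rw [this]
      _ = g * z.1 * g⁻¹ * (g * u * g⁻¹) := by group
  · intro z
    apply Subtype.ext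
    simp only
    group
  · intro z
    apply Subtype.ext
    simp only
    group

end GL2

section FiniteGL2

variable {F : Type*} [Field F] [Fintype F]

theorem card_range_uGL :
    Nat.card ((uGL : Multiplicative F →* GL (Fin 2) F).range) = Fintype.card F := by
  rw [Nat.card_congr (MonoidHom.ofInjective uGL_injective).toEquiv.symm,
    Nat.card_congr Multiplicative.toAdd, Nat.card_eq_fintype_card]

theorem card_normalizer_uGL :
    Nat.card (Subgroup.normalizer (((uGL : Multiplicative F →* GL (Fin 2) F).range :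
      Subgroup (GL (Fin 2) F)) : Set (GL (Fin 2) F))) =
      Fintype.card F * (Fintype.card F - 1) ^ 2 := by
  classical
  have e : (Fˣ × Fˣ) × F ≃ Subgroup.normalizer (((uGL : Multiplicative F →* GL (Fin 2) F).range :
      Subgroup (GL (Fin 2) F)) : Set (GL (Fin 2) F)) := by
    refine Equiv.ofBijective (fun t => ⟨Matrix.GeneralLinearGroup.mk''
      !![(t.1.1 : F), t.2; 0, (t.1.2 : F)] (by rw [Matrix.det_fin_two_of]; simp), ?_⟩) ⟨?_, ?_⟩
    · rw [mem_normalizer_uGL]
      simp
    · rintro ⟨⟨a, d⟩, b⟩ ⟨⟨a', d'⟩, b'⟩ h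
      have h1 := congrArg (fun c : Subgroup.normalizer (((uGL : Multiplicative F →* GL (Fin 2) F).range :
        Subgroup (GL (Fin 2) F)) : Set (GL (Fin 2) F)) =>
          ((c : GL (Fin 2) F) : Matrix (Fin 2) (Fin 2) F)) h
      have e00 := congrFun (congrFun h1 0) 0
      have e01 := congrFun (congrFun h1 0) 1
      have e11 := congrFun (congrFun h1 1) 1
      simp at e00 e01 e11
      obtain rfl := Units.ext e00
      obtain rfl := Units.ext e11
      subst e01
      rfl
    · rintro ⟨g, hg⟩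
      have hg' := mem_normalizer_uGL.mp hg
      have hdet := gl2_det_ne_zero g
      rw [hg', mul_zero, sub_zero] at hdet
      refine ⟨((Units.mk0 _ (left_ne_zero_of_mul hdet), Units.mk0 _ (right_ne_zero_of_mul hdet)),
        (g : Matrix (Fin 2) (Fin 2) F) 0 1), ?_⟩
      apply Subtype.ext
      apply Units.ext
      ext i j
      fin_cases i <;> fin_cases j <;> simp [hg']
  rw [← Nat.card_congr e, Nat.card_prod, Nat.card_prod, Nat.card_eq_fintype_card,
    Nat.card_eq_fintype_card, Fintype.card_units]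
  ring

theorem card_centralizer_uGL {s : F} (hs : s ≠ 0) :
    Nat.card (Subgroup.centralizer ({uGL (Multiplicative.ofAdd s)} : Set (GL (Fin 2) F))) =
      Fintype.card F * (Fintype.card F - 1) := by
  classical
  have e : Fˣ × F ≃ Subgroup.centralizer ({uGL (Multiplicative.ofAdd s)} : Set (GL (Fin 2) F)) := by
    refine Equiv.ofBijective (fun t => ⟨Matrix.GeneralLinearGroup.mk''
      !![(t.1 : F), t.2; 0, (t.1 : F)] (by rw [Matrix.det_fin_two_of]; simp), ?_⟩) ⟨?_, ?_⟩
    · rw [mem_centralizer_uGL hs]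
      simp
    · rintro ⟨a, b⟩ ⟨a', b'⟩ h
      have h1 := congrArg (fun c : Subgroup.centralizer ({uGL (Multiplicative.ofAdd s)} : Set (GL (Fin 2) F)) =>
          ((c : GL (Fin 2) F) : Matrix (Fin 2) (Fin 2) F)) h
      have e00 := congrFun (congrFun h1 0) 0
      have e01 := congrFun (congrFun h1 0) 1
      simp at e00 e01
      obtain rfl := Units.ext e00
      subst e01
      rfl
    · rintro ⟨g, hg⟩
      have hg' := (mem_centralizer_uGL hs).mp hg
      have hdet := gl2_det_ne_zero g
      rw [hg'.1, mul_zero, sub_zero] at hdet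
      refine ⟨(Units.mk0 _ (left_ne_zero_of_mul hdet), (g : Matrix (Fin 2) (Fin 2) F) 0 1), ?_⟩
      apply Subtype.ext
      apply Units.ext
      ext i j
      fin_cases i <;> fin_cases j <;> simp [hg'.1, hg'.2]
  rw [← Nat.card_congr e, Nat.card_prod, Nat.card_eq_fintype_card,
    Nat.card_eq_fintype_card, Fintype.card_units]
  ring

theorem exists_sylow_eq_uGL (p : ℕ) [Fact p.Prime] [CharP F p] :
    ∃ P₀ : Sylow p (GL (Fin 2) F),
      (P₀ : Subgroup (GL (Fin 2) F)) = (uGL : Multiplicative F →* GL (Fin 2) F).range := by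
  obtain ⟨f, hp, hq⟩ := FiniteField.card F p
  have hU : IsPGroup p ((uGL : Multiplicative F →* GL (Fin 2) F).range) :=
    IsPGroup.of_card (n := f) (by rw [card_range_uGL, hq])
  obtain ⟨P, hP⟩ := hU.exists_le_sylow
  refine ⟨P, (Subgroup.eq_of_le_of_card_ge hP ?_).symm⟩
  have := Cfsg.Agent.S0263.result (F := F) rfl p 2 P
  rw [card_range_uGL]
  have h2 : Nat.card (P : Subgroup (GL (Fin 2) F)) = Fintype.card F := by
    rw [this]
    norm_num
  exact h2.le

end FiniteGL2

end Cfsg.Agent.Lib.Helper3
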