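import Mathlib
import Cfsg.Agent.Lib.Helper3.GL2Sylow
import Cfsg.Agent.Lib.Helper3.SylowCard
import Cfsg.Agent.S0242

set_option autoImplicit false

namespace Cfsg.Agent.Lib.Helper3

open Matrix
open scoped Pointwise

section SL2

variable {F : Type*} [Field F]

/-- Upper unitriangular matrices as a homomorphism into the special linear group. -/
def uSL : Multiplicative F →* Matrix.SpecialLinearGroup (Fin 2) F where
  toFun x := ⟨uMat (Multiplicative.toAdd x), by simp [uMat, Matrix.det_fin_two_of]⟩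
  map_one' := Subtype.ext uMat_zero
  map_mul' x y := Subtype.ext (by
    show uMat (Multiplicative.toAdd (x * y)) = uMat _ * uMat _
    rw [uMat_mul]
    rfl)

theorem mul_fin_two_apply (A B : Matrix (Fin 2) (Fin 2) F) (i j : Fin 2) :
    (A * B) i j = A i 0 * B 0 j + A i 1 * B 1 j := by
  rw [Matrix.mul_apply, Fin.sum_univ_two]

theorem uSL_val (x : Multiplicative F) :
    ((uSL x : Matrix.SpecialLinearGroup (Fin 2) F) : Matrix (Fin 2) (Fin 2) F) =
      uMat (Multiplicative.toAdd x) := rfl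

theorem uSL_injective :
    Function.Injective (uSL : Multiplicative F → Matrix.SpecialLinearGroup (Fin 2) F) := by
  intro x y h
  have := congrArg (fun g : Matrix.SpecialLinearGroup (Fin 2) F =>
    (g : Matrix (Fin 2) (Fin 2) F) 0 1) h
  simpa [uSL_val, uMat] using this

theorem transvection_zero_one_eq (x : F) :
    Matrix.SpecialLinearGroup.transvection (zero_ne_one : (0 : Fin 2) ≠ 1) x =
      uSL (Multiplicative.ofAdd x) := by
  apply Subtype.ext
  rw [Matrix.SpecialLinearGroup.transvection_coe, uSL_val]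
  ext i j
  fin_cases i <;> fin_cases j <;> simp [uMat]

theorem sl2_det (g : Matrix.SpecialLinearGroup (Fin 2) F) :
    (g : Matrix (Fin 2) (Fin 2) F) 0 0 * (g : Matrix (Fin 2) (Fin 2) F) 1 1 -
      (g : Matrix (Fin 2) (Fin 2) F) 0 1 * (g : Matrix (Fin 2) (Fin 2) F) 1 0 = 1 := by
  have := g.det_coe
  rwa [Matrix.det_fin_two] at this

theorem sl2_triang_mul_uSL (g : Matrix.SpecialLinearGroup (Fin 2) F)
    (hg : (g : Matrix (Fin 2) (Fin 2) F) 1 0 = 0) (x : F) :
    g * uSL (Multiplicative.ofAdd x) =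
      uSL (Multiplicative.ofAdd ((g : Matrix (Fin 2) (Fin 2) F) 0 0 * x /
        (g : Matrix (Fin 2) (Fin 2) F) 1 1)) * g := by
  have hdet := sl2_det g
  rw [hg, mul_zero, sub_zero] at hdet
  have hd : (g : Matrix (Fin 2) (Fin 2) F) 1 1 ≠ 0 := by
    intro h0
    rw [h0, mul_zero] at hdet
    exact zero_ne_one hdet
  apply Subtype.ext
  ext i j
  fin_cases i <;> fin_cases j <;>
    simp [uSL_val, uMat, Matrix.mul_apply, Fin.sum_univ_two, hg]
  field_simp
  ring

theorem mem_normalizer_uSL_of {g : Matrix.SpecialLinearGroup (Fin 2) F}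
    (hg : (g : Matrix (Fin 2) (Fin 2) F) 1 0 = 0) :
    g ∈ Subgroup.normalizer (((uSL : Multiplicative F →* Matrix.SpecialLinearGroup (Fin 2) F).range :
      Subgroup (Matrix.SpecialLinearGroup (Fin 2) F)) : Set (Matrix.SpecialLinearGroup (Fin 2) F)) := by
  have hdet := sl2_det g
  rw [hg, mul_zero, sub_zero] at hdet
  have ha : (g : Matrix (Fin 2) (Fin 2) F) 0 0 ≠ 0 := by
    intro h0
    rw [h0, zero_mul] at hdet
    exact zero_ne_one hdet
  have hd : (g : Matrix (Fin 2) (Fin 2) F) 1 1 ≠ 0 := by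
    intro h0
    rw [h0, mul_zero] at hdet
    exact zero_ne_one hdet
  rw [Subgroup.mem_normalizer_iff]
  intro h
  constructor
  · rintro ⟨x, rfl⟩
    have := sl2_triang_mul_uSL g hg (Multiplicative.toAdd x)
    rw [ofAdd_toAdd] at this
    rw [this, mul_inv_cancel_right]
    exact ⟨_, rfl⟩
  · rintro ⟨y, hy⟩
    have := sl2_triang_mul_uSL g hg ((g : Matrix (Fin 2) (Fin 2) F) 1 1 * Multiplicative.toAdd y /
      (g : Matrix (Fin 2) (Fin 2) F) 0 0)
    have e : (g : Matrix (Fin 2) (Fin 2) F) 0 0 * ((g : Matrix (Fin 2) (Fin 2) F) 1 1 *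
        Multiplicative.toAdd y / (g : Matrix (Fin 2) (Fin 2) F) 0 0) /
        (g : Matrix (Fin 2) (Fin 2) F) 1 1 = Multiplicative.toAdd y := by
      field_simp
    rw [e, ofAdd_toAdd, hy] at this
    have h2 : h = uSL (Multiplicative.ofAdd ((g : Matrix (Fin 2) (Fin 2) F) 1 1 *
        Multiplicative.toAdd y / (g : Matrix (Fin 2) (Fin 2) F) 0 0)) := by
      have h3 : g * h = g * uSL (Multiplicative.ofAdd ((g : Matrix (Fin 2) (Fin 2) F) 1 1 *
        Multiplicative.toAdd y / (g : Matrix (Fin 2) (Fin 2) F) 0 0)) := by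
        rw [this]
        group
      exact mul_left_cancel h3
    rw [h2]
    exact ⟨_, rfl⟩

/-- A lower transvection is obtained from an upper one by a suitable conjugation. -/
theorem lower_transvection_mul (h : Matrix.SpecialLinearGroup (Fin 2) F)
    (hc : (h : Matrix (Fin 2) (Fin 2) F) 1 0 ≠ 0) (x : F) :
    Matrix.SpecialLinearGroup.transvection (one_ne_zero : (1 : Fin 2) ≠ 0) x *
      (uSL (Multiplicative.ofAdd (-(h : Matrix (Fin 2) (Fin 2) F) 0 0 /
        (h : Matrix (Fin 2) (Fin 2) F) 1 0)) * h) =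
      (uSL (Multiplicative.ofAdd (-(h : Matrix (Fin 2) (Fin 2) F) 0 0 /
        (h : Matrix (Fin 2) (Fin 2) F) 1 0)) * h) *
        uSL (Multiplicative.ofAdd (-x / (h : Matrix (Fin 2) (Fin 2) F) 1 0 ^ 2)) := by
  have hdet := sl2_det h
  apply Subtype.ext
  ext i j
  fin_cases i <;> fin_cases j <;>
    simp only [Matrix.SpecialLinearGroup.coe_mul, mul_fin_two_apply] <;>
    simp [uSL_val, uMat, Matrix.SpecialLinearGroup.transvection_coe]
  · left
    field_simp
    ring
  · right
    field_simp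
    ring
  · field_simp
    linear_combination (-x) * hdet

end SL2

section FiniteSL2

variable {F : Type*} [Field F] [Fintype F]

theorem card_range_uSL :
    Nat.card ((uSL : Multiplicative F →* Matrix.SpecialLinearGroup (Fin 2) F).range) =
      Fintype.card F := by
  rw [Nat.card_congr (MonoidHom.ofInjective uSL_injective).toEquiv.symm,
    Nat.card_congr Multiplicative.toAdd, Nat.card_eq_fintype_card]

theorem card_SL2_eq :
    Nat.card (Matrix.SpecialLinearGroup (Fin 2) F) =
      Fintype.card F * (Fintype.card F ^ 2 - 1) := by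
  have h1 := Cfsg.Agent.S0242.result (F := F) rfl 2 (by norm_num)
  rw [Fin.prod_univ_two] at h1
  simp only [Fin.val_zero, pow_zero, Fin.val_one, pow_one] at h1
  have hq : 2 ≤ Fintype.card F := Fintype.one_lt_card
  obtain ⟨k, hk⟩ : ∃ k, Fintype.card F = k + 2 := ⟨Fintype.card F - 2, by omega⟩
  rw [hk] at h1 ⊢
  have e1 : (k + 2) ^ 2 - 1 = (k + 1) * (k + 3) := Nat.sub_eq_of_eq_add (by ring)
  have e2 : (k + 2) ^ 2 - (k + 2) = (k + 2) * (k + 1) := Nat.sub_eq_of_eq_add (by ring)
  have e3 : k + 2 - 1 = k + 1 := rfl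
  rw [e1, e2, e3] at h1
  rw [e1]
  have hpos : 0 < k + 1 := Nat.succ_pos k
  have h5 : (k + 1) * Nat.card (Matrix.SpecialLinearGroup (Fin 2) F) =
      (k + 1) * ((k + 2) * ((k + 1) * (k + 3))) := by
    rw [h1]
    ring
  exact Nat.eq_of_mul_eq_mul_left hpos h5

theorem card_sylow_SL2 (p : ℕ) [Fact p.Prime] [CharP F p]
    (P : Sylow p (Matrix.SpecialLinearGroup (Fin 2) F)) : Nat.card P = Fintype.card F := by
  obtain ⟨f, hp, hq⟩ := FiniteField.card F p
  have h1 : Nat.card (Matrix.SpecialLinearGroup (Fin 2) F) = p ^ (f : ℕ) * (Fintype.card F ^ 2 - 1) := by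
    rw [card_SL2_eq, hq]
  rw [hq]
  refine sylow_card_of P h1 ?_
  intro hdvd
  have h2 : p ∣ Fintype.card F ^ 2 := by
    rw [hq]
    exact dvd_pow (dvd_pow_self p (PNat.ne_zero f)) two_ne_zero
  have h3 : 0 < Fintype.card F ^ 2 := pow_pos Fintype.card_pos _
  have h5 := Nat.dvd_sub h2 hdvd
  rw [Nat.sub_sub_self h3] at h5
  exact hp.one_lt.ne' (Nat.dvd_one.mp h5)

theorem exists_sylow_eq_uSL (p : ℕ) [Fact p.Prime] [CharP F p] :
    ∃ P₀ : Sylow p (Matrix.SpecialLinearGroup (Fin 2) F),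
      (P₀ : Subgroup (Matrix.SpecialLinearGroup (Fin 2) F)) =
        (uSL : Multiplicative F →* Matrix.SpecialLinearGroup (Fin 2) F).range := by
  obtain ⟨f, hp, hq⟩ := FiniteField.card F p
  have hU : IsPGroup p ((uSL : Multiplicative F →* Matrix.SpecialLinearGroup (Fin 2) F).range) :=
    IsPGroup.of_card (n := f) (by rw [card_range_uSL, hq])
  obtain ⟨P, hP⟩ := hU.exists_le_sylow
  refine ⟨P, (Subgroup.eq_of_le_of_card_ge hP ?_).symm⟩
  rw [card_range_uSL]
  exact (card_sylow_SL2 p P).le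

end FiniteSL2

end Cfsg.Agent.Lib.Helper3
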