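import Mathlib
import Cfsg.Agent.Lib.Helper3.Dihedral
import Cfsg.Agent.Lib.Helper3.SL2Sylow

set_option autoImplicit false

namespace Cfsg.Agent.Lib.Helper3

open Matrix

/-- If a cyclic subgroup has index prime to `r`, every Sylow `r`-subgroup is cyclic. -/
theorem sylow_isCyclic_of_cyclic_subgroup {G : Type*} [Group G] [Finite G] {r : ℕ}
    [hr : Fact r.Prime] (C : Subgroup G) [hCc : IsCyclic C] (hC : ¬ r ∣ C.index) (R : Sylow r G) :
    IsCyclic (R : Subgroup G) := by
  classical
  obtain ⟨Q⟩ : Nonempty (Sylow r C) := inferInstance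
  have hfac : (Nat.card G).factorization r = (Nat.card C).factorization r := by
    rw [← Subgroup.card_mul_index C, Nat.factorization_mul Nat.card_pos.ne'
      Subgroup.index_ne_zero_of_finite]
    simp [Nat.factorization_eq_zero_of_not_dvd hC]
  have hQ' : Nat.card ((Q : Subgroup C).map C.subtype) = r ^ (Nat.card G).factorization r := by
    rw [Subgroup.card_map_of_injective C.subtype_injective, hfac]
    exact Sylow.card_eq_multiplicity Q
  have hp : IsPGroup r ((Q : Subgroup C).map C.subtype) := IsPGroup.of_card hQ'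
  obtain ⟨R', hR'⟩ := hp.exists_le_sylow
  have hR'card : Nat.card (R' : Subgroup G) = r ^ (Nat.card G).factorization r :=
    Sylow.card_eq_multiplicity R'
  have heq : (Q : Subgroup C).map C.subtype = (R' : Subgroup G) :=
    Subgroup.eq_of_le_of_card_ge hR' (by rw [hQ', hR'card])
  obtain ⟨g, rfl⟩ := MulAction.exists_smul_eq G R' R
  have hmem : ∀ y : ((g • R' : Sylow r G) : Subgroup G), g⁻¹ * (y : G) * g ∈ C := by
    intro y
    have h1 : g * (g⁻¹ * (y : G) * g) * g⁻¹ ∈ g • R' := by
      have e : g * (g⁻¹ * (y : G) * g) * g⁻¹ = (y : G) := by group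
      rw [e]
      exact y.2
    have h2 : g⁻¹ * (y : G) * g ∈ (R' : Subgroup G) := mem_conj_sylow.mp h1
    rw [← heq] at h2
    obtain ⟨c, -, hc⟩ := h2
    rw [← hc]
    exact c.2
  let f : ((g • R' : Sylow r G) : Subgroup G) →* C :=
    { toFun := fun y => ⟨g⁻¹ * (y : G) * g, hmem y⟩
      map_one' := by
        apply Subtype.ext
        simp
      map_mul' := fun a b => by
        apply Subtype.ext
        simp only [Subgroup.coe_mul]
        group }
  have hf : Function.Injective f := by
    intro a b hab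
    have h1 := congrArg (fun c : C => (c : G)) hab
    simp only [f, MonoidHom.coe_mk, OneHom.coe_mk] at h1
    apply Subtype.ext
    have h2 : g * (g⁻¹ * (a : G) * g) * g⁻¹ = g * (g⁻¹ * (b : G) * g) * g⁻¹ := by rw [h1]
    have e1 : g * (g⁻¹ * (a : G) * g) * g⁻¹ = (a : G) := by group
    have e2 : g * (g⁻¹ * (b : G) * g) * g⁻¹ = (b : G) := by group
    rw [e1, e2] at h2
    exact h2
  exact isCyclic_of_injective f hf

section Split

variable {F : Type*} [Field F]

/-- A diagonal matrix. -/
def dMat (a b : F) : Matrix (Fin 2) (Fin 2) F := !![a, 0; 0, b]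

theorem dMat_mul (a b c d : F) : dMat a b * dMat c d = dMat (a * c) (b * d) := by
  ext i j
  fin_cases i <;> fin_cases j <;> simp [dMat, Matrix.mul_apply, Fin.sum_univ_two]

theorem dMat_one : dMat (1 : F) 1 = 1 := by
  ext i j
  fin_cases i <;> fin_cases j <;> simp [dMat]

/-- The diagonal torus of the special linear group in dimension two. -/
def dSL : Fˣ →* Matrix.SpecialLinearGroup (Fin 2) F where
  toFun a := ⟨dMat (a : F) ((a⁻¹ : Fˣ) : F), by simp [dMat, Matrix.det_fin_two_of]⟩
  map_one' := Subtype.ext (by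
    show dMat ((1 : Fˣ) : F) (((1 : Fˣ)⁻¹ : Fˣ) : F) = 1
    simp [dMat_one])
  map_mul' a b := Subtype.ext (by
    show dMat ((a * b : Fˣ) : F) (((a * b)⁻¹ : Fˣ) : F) =
      dMat (a : F) ((a⁻¹ : Fˣ) : F) * dMat (b : F) ((b⁻¹ : Fˣ) : F)
    rw [dMat_mul, mul_inv, Units.val_mul, Units.val_mul])

theorem dSL_val (a : Fˣ) :
    ((dSL a : Matrix.SpecialLinearGroup (Fin 2) F) : Matrix (Fin 2) (Fin 2) F) =
      dMat (a : F) ((a⁻¹ : Fˣ) : F) := rfl

theorem dSL_injective : Function.Injective (dSL : Fˣ → Matrix.SpecialLinearGroup (Fin 2) F) := by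
  intro a b h
  have := congrArg (fun g : Matrix.SpecialLinearGroup (Fin 2) F =>
    (g : Matrix (Fin 2) (Fin 2) F) 0 0) h
  simp only [dSL_val, dMat] at this
  exact Units.ext (by simpa using this)

theorem card_range_dSL [Fintype F] :
    Nat.card ((dSL : Fˣ →* Matrix.SpecialLinearGroup (Fin 2) F).range) = Fintype.card F - 1 := by
  classical
  rw [Nat.card_congr (MonoidHom.ofInjective dSL_injective).toEquiv.symm, Nat.card_eq_fintype_card,
    Fintype.card_units]

theorem isCyclic_range_dSL [Finite F] :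
    IsCyclic ((dSL : Fˣ →* Matrix.SpecialLinearGroup (Fin 2) F).range) :=
  isCyclic_of_surjective (dSL : Fˣ →* Matrix.SpecialLinearGroup (Fin 2) F).rangeRestrict
    (MonoidHom.rangeRestrict_surjective _)

end Split

section NonSplit

variable {F : Type*} [Field F]

/-- The companion matrix of `X² - tX + 1`. -/
def compSL (t : F) : Matrix.SpecialLinearGroup (Fin 2) F :=
  ⟨!![0, -1; 1, t], by simp [Matrix.det_fin_two_of]⟩

theorem compSL_val (t : F) :
    ((compSL t : Matrix.SpecialLinearGroup (Fin 2) F) : Matrix (Fin 2) (Fin 2) F) = !![0, -1; 1, t] :=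
  rfl

theorem commute_comp_iff (t : F) (z : Matrix (Fin 2) (Fin 2) F) :
    (!![0, -1; 1, t] : Matrix (Fin 2) (Fin 2) F) * z = z * !![0, -1; 1, t] ↔
      z 0 1 = - z 1 0 ∧ z 1 1 = z 0 0 + t * z 1 0 := by
  constructor
  · intro h
    have e00 := congrFun (congrFun h 0) 0
    have e10 := congrFun (congrFun h 1) 0
    simp [Matrix.mul_apply, Fin.sum_univ_two] at e00 e10
    refine ⟨by linear_combination -e00, by linear_combination -e10⟩
  · rintro ⟨h1, h2⟩
    ext i j
    fin_cases i <;> fin_cases j <;>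
      simp [Matrix.mul_apply, Fin.sum_univ_two, h1, h2] <;> ring

theorem exists_aniso [Fintype F] :
    ∃ t : F, ∀ x y : F, x ^ 2 + t * x * y + y ^ 2 = 0 → x = 0 ∧ y = 0 := by
  classical
  have hns : ¬ Function.Surjective (fun l : Fˣ => (l : F) + ((l⁻¹ : Fˣ) : F)) := by
    intro hs
    have h1 := Fintype.card_le_of_surjective _ hs
    rw [Fintype.card_units] at h1
    have h2 := Fintype.card_pos (α := F)
    omega
  simp only [Function.Surjective, not_forall, not_exists] at hns
  obtain ⟨t, ht⟩ := hns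
  refine ⟨t, fun x y h => ?_⟩
  by_cases hy : y = 0
  · subst hy
    simp at h
    exact ⟨h, rfl⟩
  · exfalso
    have hx : x ≠ 0 := by
      rintro rfl
      simp at h
      exact hy h
    apply ht (Units.mk0 (-x / y) (div_ne_zero (neg_ne_zero.mpr hx) hy))
    simp only [Units.val_mk0, Units.val_inv_eq_inv_val]
    field_simp
    linear_combination -h

theorem centralizer_comp_rel {t : F}
    (z : Subgroup.centralizer ({compSL t} : Set (Matrix.SpecialLinearGroup (Fin 2) F))) :
    ((z : Matrix.SpecialLinearGroup (Fin 2) F) : Matrix (Fin 2) (Fin 2) F) 0 1 =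
      -((z : Matrix.SpecialLinearGroup (Fin 2) F) : Matrix (Fin 2) (Fin 2) F) 1 0 ∧
    ((z : Matrix.SpecialLinearGroup (Fin 2) F) : Matrix (Fin 2) (Fin 2) F) 1 1 =
      ((z : Matrix.SpecialLinearGroup (Fin 2) F) : Matrix (Fin 2) (Fin 2) F) 0 0 +
        t * ((z : Matrix.SpecialLinearGroup (Fin 2) F) : Matrix (Fin 2) (Fin 2) F) 1 0 := by
  have h1 := mem_cent_singleton.mp z.2
  have h2 := congrArg (fun g : Matrix.SpecialLinearGroup (Fin 2) F =>
    (g : Matrix (Fin 2) (Fin 2) F)) h1
  simp only [Matrix.SpecialLinearGroup.coe_mul, compSL_val] at h2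
  exact (commute_comp_iff t _).mp h2

theorem isCyclic_centralizer_comp [Fintype F] {t : F}
    (ht : ∀ x y : F, x ^ 2 + t * x * y + y ^ 2 = 0 → x = 0 ∧ y = 0) :
    IsCyclic (Subgroup.centralizer ({compSL t} : Set (Matrix.SpecialLinearGroup (Fin 2) F))) := by
  classical
  obtain ⟨l, hl⟩ : ∃ l : AlgebraicClosure F,
      l ^ 2 - algebraMap F (AlgebraicClosure F) t * l + 1 = 0 := by
    obtain ⟨l, hl⟩ := IsAlgClosed.exists_root
      (Polynomial.C (1 : AlgebraicClosure F) * Polynomial.X ^ 2 +
        Polynomial.C (-(algebraMap F (AlgebraicClosure F) t)) * Polynomial.X + Polynomial.C 1)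
      (by
        rw [Polynomial.degree_quadratic one_ne_zero]
        decide)
    refine ⟨l, ?_⟩
    simp [Polynomial.IsRoot] at hl
    linear_combination hl
  let μ : Subgroup.centralizer ({compSL t} : Set (Matrix.SpecialLinearGroup (Fin 2) F)) →*
      AlgebraicClosure F :=
    { toFun := fun z => algebraMap F (AlgebraicClosure F)
          (((z : Matrix.SpecialLinearGroup (Fin 2) F) : Matrix (Fin 2) (Fin 2) F) 0 0) +
        algebraMap F (AlgebraicClosure F)
          (((z : Matrix.SpecialLinearGroup (Fin 2) F) : Matrix (Fin 2) (Fin 2) F) 1 0) * l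
      map_one' := by simp
      map_mul' := fun z w => by
        obtain ⟨h1, h2⟩ := centralizer_comp_rel z
        simp only [Subgroup.coe_mul, Matrix.SpecialLinearGroup.coe_mul, mul_fin_two_apply, h1, h2,
          map_add, map_mul, map_neg]
        linear_combination (-(algebraMap F (AlgebraicClosure F)
          (((z : Matrix.SpecialLinearGroup (Fin 2) F) : Matrix (Fin 2) (Fin 2) F) 1 0) *
          algebraMap F (AlgebraicClosure F)
          (((w : Matrix.SpecialLinearGroup (Fin 2) F) : Matrix (Fin 2) (Fin 2) F) 1 0))) * hl }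
  have hμ : Function.Injective μ := by
    intro z w h
    have h' : algebraMap F (AlgebraicClosure F)
          (((z : Matrix.SpecialLinearGroup (Fin 2) F) : Matrix (Fin 2) (Fin 2) F) 0 0) +
        algebraMap F (AlgebraicClosure F)
          (((z : Matrix.SpecialLinearGroup (Fin 2) F) : Matrix (Fin 2) (Fin 2) F) 1 0) * l =
        algebraMap F (AlgebraicClosure F)
          (((w : Matrix.SpecialLinearGroup (Fin 2) F) : Matrix (Fin 2) (Fin 2) F) 0 0) +
        algebraMap F (AlgebraicClosure F)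
          (((w : Matrix.SpecialLinearGroup (Fin 2) F) : Matrix (Fin 2) (Fin 2) F) 1 0) * l := h
    obtain ⟨a, ha⟩ : ∃ a : F, a = ((z : Matrix.SpecialLinearGroup (Fin 2) F) : Matrix (Fin 2) (Fin 2) F) 0 0 := ⟨_, rfl⟩
    obtain ⟨c, hc⟩ : ∃ c : F, c = ((z : Matrix.SpecialLinearGroup (Fin 2) F) : Matrix (Fin 2) (Fin 2) F) 1 0 := ⟨_, rfl⟩
    obtain ⟨a', ha'⟩ : ∃ a : F, a = ((w : Matrix.SpecialLinearGroup (Fin 2) F) : Matrix (Fin 2) (Fin 2) F) 0 0 := ⟨_, rfl⟩
    obtain ⟨c', hc'⟩ : ∃ c : F, c = ((w : Matrix.SpecialLinearGroup (Fin 2) F) : Matrix (Fin 2) (Fin 2) F) 1 0 := ⟨_, rfl⟩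
    rw [← ha, ← hc, ← ha', ← hc'] at h'
    have hinj := (algebraMap F (AlgebraicClosure F)).injective
    have hcc : c = c' := by
      by_contra hne
      have hne' : algebraMap F (AlgebraicClosure F) c - algebraMap F (AlgebraicClosure F) c' ≠ 0 := by
        rw [← map_sub]
        intro h0
        exact hne (sub_eq_zero.mp (hinj (by rw [h0, map_zero])))
      have hl' : l = algebraMap F (AlgebraicClosure F) ((a' - a) / (c - c')) := by
        rw [map_div₀, map_sub, map_sub, eq_div_iff hne']
        linear_combination h'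
      obtain ⟨s, hs⟩ : ∃ s : F, s = (a' - a) / (c - c') := ⟨_, rfl⟩
      rw [← hs] at hl'
      have h3 : algebraMap F (AlgebraicClosure F) (s ^ 2 - t * s + 1) = 0 := by
        rw [map_add, map_sub, map_pow, map_mul, map_one, ← hl']
        exact hl
      have h4 : s ^ 2 - t * s + 1 = 0 := hinj (by rw [h3, map_zero])
      have h5 := ht s (-1) (by linear_combination h4)
      exact absurd h5.2 (neg_ne_zero.mpr one_ne_zero)
    have haa : a = a' := by
      rw [hcc] at h'
      exact hinj (add_right_cancel h')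
    obtain ⟨h1, h2⟩ := centralizer_comp_rel z
    obtain ⟨h1', h2'⟩ := centralizer_comp_rel w
    apply Subtype.ext
    apply Subtype.ext
    ext i j
    fin_cases i <;> fin_cases j
    · exact ha.symm.trans (haa.trans ha')
    · show ((z : Matrix.SpecialLinearGroup (Fin 2) F) : Matrix (Fin 2) (Fin 2) F) 0 1 =
        ((w : Matrix.SpecialLinearGroup (Fin 2) F) : Matrix (Fin 2) (Fin 2) F) 0 1
      rw [h1, h1', ← hc, ← hc', hcc]
    · exact hc.symm.trans (hcc.trans hc')
    · show ((z : Matrix.SpecialLinearGroup (Fin 2) F) : Matrix (Fin 2) (Fin 2) F) 1 1 =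
        ((w : Matrix.SpecialLinearGroup (Fin 2) F) : Matrix (Fin 2) (Fin 2) F) 1 1
      rw [h2, h2', ← hc, ← hc', ← ha, ← ha', hcc, haa]
  exact isCyclic_of_injective_ringHom μ hμ

theorem card_centralizer_GL_comp [Fintype F] {t : F}
    (ht : ∀ x y : F, x ^ 2 + t * x * y + y ^ 2 = 0 → x = 0 ∧ y = 0) :
    Nat.card (Subgroup.centralizer
      ({Matrix.SpecialLinearGroup.toGL (compSL t)} : Set (GL (Fin 2) F))) =
      Fintype.card F ^ 2 - 1 := by
  classical
  have hdet : ∀ p : {p : F × F // p ≠ 0},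
      (!![p.1.1, -p.1.2; p.1.2, p.1.1 + t * p.1.2] : Matrix (Fin 2) (Fin 2) F).det ≠ 0 := by
    intro p hp
    rw [Matrix.det_fin_two_of] at hp
    obtain ⟨h1, h2⟩ := ht p.1.1 p.1.2 (by linear_combination hp)
    exact p.2 (Prod.ext h1 h2)
  have e : {p : F × F // p ≠ 0} ≃ Subgroup.centralizer
      ({Matrix.SpecialLinearGroup.toGL (compSL t)} : Set (GL (Fin 2) F)) := by
    refine Equiv.ofBijective (fun p => ⟨Matrix.GeneralLinearGroup.mkOfDetNeZero _ (hdet p), ?_⟩)
      ⟨?_, ?_⟩
    · rw [mem_cent_singleton]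
      apply Units.ext
      simp only [Units.val_mul, Matrix.SpecialLinearGroup.coe_GL_coe_matrix, compSL_val,
        Matrix.GeneralLinearGroup.val_mkOfDetNeZero]
      rw [commute_comp_iff]
      simp
    · rintro ⟨⟨x, y⟩, hp⟩ ⟨⟨x', y'⟩, hp'⟩ h
      have h1 := congrArg (fun c : Subgroup.centralizer
        ({Matrix.SpecialLinearGroup.toGL (compSL t)} : Set (GL (Fin 2) F)) =>
          ((c : GL (Fin 2) F) : Matrix (Fin 2) (Fin 2) F)) h
      have e00 := congrFun (congrFun h1 0) 0
      have e10 := congrFun (congrFun h1 1) 0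
      simp at e00 e10
      subst e00 e10
      rfl
    · rintro ⟨z, hz⟩
      have h1 := mem_cent_singleton.mp hz
      have h2 := congrArg (fun g : GL (Fin 2) F => (g : Matrix (Fin 2) (Fin 2) F)) h1
      simp only [Units.val_mul, Matrix.SpecialLinearGroup.coe_GL_coe_matrix, compSL_val] at h2
      obtain ⟨r1, r2⟩ := (commute_comp_iff t _).mp h2
      have hne : ((z : Matrix (Fin 2) (Fin 2) F) 0 0, (z : Matrix (Fin 2) (Fin 2) F) 1 0) ≠ (0 : F × F) := by
        intro h0
        have h00 : (z : Matrix (Fin 2) (Fin 2) F) 0 0 = 0 := congrArg Prod.fst h0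
        have h10 : (z : Matrix (Fin 2) (Fin 2) F) 1 0 = 0 := congrArg Prod.snd h0
        have hd := gl2_det_ne_zero z
        rw [h00, h10] at hd
        simp at hd
      refine ⟨⟨((z : Matrix (Fin 2) (Fin 2) F) 0 0, (z : Matrix (Fin 2) (Fin 2) F) 1 0), hne⟩, ?_⟩
      apply Subtype.ext
      apply Units.ext
      ext i j
      fin_cases i <;> fin_cases j <;> simp [r1, r2]
  rw [← Nat.card_congr e, Nat.card_eq_fintype_card, Fintype.card_subtype_compl,
    Fintype.card_subtype_eq, Fintype.card_prod, pow_two]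

theorem card_centralizer_comp_mul [Fintype F] {t : F}
    (ht : ∀ x y : F, x ^ 2 + t * x * y + y ^ 2 = 0 → x = 0 ∧ y = 0) :
    ∃ m : ℕ, m ∣ Fintype.card F - 1 ∧
      Nat.card (Subgroup.centralizer ({compSL t} : Set (Matrix.SpecialLinearGroup (Fin 2) F))) * m =
        Fintype.card F ^ 2 - 1 := by
  classical
  have hmap : (Subgroup.centralizer ({compSL t} : Set (Matrix.SpecialLinearGroup (Fin 2) F))).map
      (Matrix.SpecialLinearGroup.toGL : Matrix.SpecialLinearGroup (Fin 2) F →* GL (Fin 2) F) =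
      (Matrix.GeneralLinearGroup.det : GL (Fin 2) F →* Fˣ).ker ⊓
        Subgroup.centralizer ({Matrix.SpecialLinearGroup.toGL (compSL t)} : Set (GL (Fin 2) F)) := by
    ext d
    rw [Subgroup.mem_map, Subgroup.mem_inf]
    constructor
    · rintro ⟨z, hz, rfl⟩
      refine ⟨?_, ?_⟩
      · rw [MonoidHom.mem_ker]
        exact Matrix.SpecialLinearGroup.coeToGL_det z
      · rw [mem_cent_singleton, ← map_mul, ← map_mul, mem_cent_singleton.mp hz]
    · rintro ⟨hd1, hd2⟩
      have hx' : d ∈ Set.range (Matrix.SpecialLinearGroup.toGL :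
          Matrix.SpecialLinearGroup (Fin 2) F → GL (Fin 2) F) := by
        rw [Matrix.SpecialLinearGroup.range_toGL]
        simpa [MonoidHom.mem_ker] using hd1
      obtain ⟨z, rfl⟩ := hx'
      refine ⟨z, ?_, rfl⟩
      rw [mem_cent_singleton] at hd2 ⊢
      rw [← map_mul, ← map_mul] at hd2
      exact Matrix.SpecialLinearGroup.toGL_injective hd2
  have hcard : Nat.card (Subgroup.centralizer ({compSL t} : Set (Matrix.SpecialLinearGroup (Fin 2) F))) =
      Nat.card ((Matrix.GeneralLinearGroup.det : GL (Fin 2) F →* Fˣ).ker ⊓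
        Subgroup.centralizer ({Matrix.SpecialLinearGroup.toGL (compSL t)} : Set (GL (Fin 2) F)) :
          Subgroup (GL (Fin 2) F)) := by
    rw [← hmap, Subgroup.card_map_of_injective Matrix.SpecialLinearGroup.toGL_injective]
  have h1 := Subgroup.relIndex_mul_relIndex (H := (⊥ : Subgroup (GL (Fin 2) F)))
    (K := (Matrix.GeneralLinearGroup.det : GL (Fin 2) F →* Fˣ).ker ⊓
        Subgroup.centralizer ({Matrix.SpecialLinearGroup.toGL (compSL t)} : Set (GL (Fin 2) F)))
    (L := Subgroup.centralizer ({Matrix.SpecialLinearGroup.toGL (compSL t)} : Set (GL (Fin 2) F)))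
    bot_le inf_le_right
  rw [Subgroup.relIndex_bot_left, Subgroup.relIndex_bot_left, Subgroup.inf_relIndex_right,
    card_centralizer_GL_comp ht, ← hcard] at h1
  refine ⟨_, ?_, h1⟩
  have h2 : ((Matrix.GeneralLinearGroup.det : GL (Fin 2) F →* Fˣ).ker).relIndex
      (Subgroup.centralizer ({Matrix.SpecialLinearGroup.toGL (compSL t)} : Set (GL (Fin 2) F))) ∣
      ((Matrix.GeneralLinearGroup.det : GL (Fin 2) F →* Fˣ).ker).index :=
    Subgroup.relIndex_dvd_index_of_normal _ _
  rw [Subgroup.index_ker] at h2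
  have h3 := Subgroup.card_subgroup_dvd_card (Matrix.GeneralLinearGroup.det : GL (Fin 2) F →* Fˣ).range
  rw [Nat.card_eq_fintype_card (α := Fˣ), Fintype.card_units] at h3
  exact h2.trans h3

end NonSplit

end Cfsg.Agent.Lib.Helper3
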