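import Mathlib
import Cfsg.Agent.Lib.Helper3.WreathDL

/-!
Derived length of `2`-subgroups of a permutational wreath product `D ≀ Sym(n)` sitting inside a
group `X` as a pair of homs `ι : (Fin n → D) →* X`, `π : Perm (Fin n) →* X`.
-/

set_option autoImplicit false

namespace Cfsg.Agent.Lib.Helper3

open RegularWreathProduct

universe u v

/-- a copy of the permutational wreath product of `D` by `Perm Ω` inside `X` -/
structure MonSys (Ω : Type) (D : Type u) (X : Type v) [Group D] [Group X] where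
  ι : (Ω → D) →* X
  π : Equiv.Perm Ω →* X
  star : ∀ (σ : Equiv.Perm Ω) (g : Ω → D), π σ * ι g = ι (fun i => g (σ⁻¹ i)) * π σ
  inj : Function.Injective (fun p : (Ω → D) × Equiv.Perm Ω => ι p.1 * π p.2)

namespace MonSys

variable {Ω Ω' Ω'' : Type} {D : Type u} {X : Type v} [Group D] [Group X]

theorem ι_injective (S : MonSys Ω D X) : Function.Injective S.ι := by
  intro g g' h
  have h1 : (fun p : (Ω → D) × Equiv.Perm Ω => S.ι p.1 * S.π p.2) (g, 1) =
      (fun p : (Ω → D) × Equiv.Perm Ω => S.ι p.1 * S.π p.2) (g', 1) := by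
    show S.ι g * S.π 1 = S.ι g' * S.π 1
    rw [h]
  exact (Prod.mk.inj (S.inj h1)).1

/-- pull back along an injective hom of the base group -/
def pull {W : Type u} [Group W] (S : MonSys Ω D X) (f : W →* D) (hf : Function.Injective f) :
    MonSys Ω W X where
  ι := S.ι.comp (f.compLeft Ω)
  π := S.π
  star σ g := S.star σ (fun i => f (g i))
  inj := by
    rintro ⟨g, σ⟩ ⟨g', σ'⟩ h
    have h1 := S.inj (a₁ := (fun i => f (g i), σ)) (a₂ := (fun i => f (g' i), σ')) h
    have h2 := Prod.mk.inj h1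
    exact Prod.ext (funext fun i => hf (congrFun h2.1 i)) h2.2

/-- the perm of `Ω` induced from a perm of `Ω'` along an equivalence -/
def conjPerm (ε : Ω' ≃ Ω) : Equiv.Perm Ω' →* Equiv.Perm Ω where
  toFun σ := ⟨fun x => ε (σ (ε.symm x)), fun x => ε (σ.symm (ε.symm x)),
    fun x => by simp, fun x => by simp⟩
  map_one' := by
    refine Equiv.ext fun x => ?_
    show ε ((1 : Equiv.Perm Ω') (ε.symm x)) = x
    simp
  map_mul' σ τ := by
    refine Equiv.ext fun x => ?_
    show ε ((σ * τ) (ε.symm x)) = ε (σ (ε.symm (ε (τ (ε.symm x)))))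
    simp

theorem conjPerm_injective (ε : Ω' ≃ Ω) : Function.Injective (conjPerm ε) := by
  intro σ τ h
  refine Equiv.ext fun x => ?_
  have h1 : ε (σ (ε.symm (ε x))) = ε (τ (ε.symm (ε x))) :=
    congrArg (fun ρ : Equiv.Perm Ω => ρ (ε x)) h
  simpa using h1

/-- transport along an equivalence of index types -/
def reindex (S : MonSys Ω D X) (ε : Ω' ≃ Ω) : MonSys Ω' D X where
  ι := S.ι.comp
    { toFun := fun g x => g (ε.symm x), map_one' := rfl, map_mul' := fun _ _ => rfl }
  π := S.π.comp (conjPerm ε)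
  star σ g := by
    show S.π (conjPerm ε σ) * S.ι (fun x => g (ε.symm x)) =
      S.ι (fun x => g (σ⁻¹ (ε.symm x))) * S.π (conjPerm ε σ)
    rw [S.star]
    have h : (fun i => (fun x => g (ε.symm x)) ((conjPerm ε σ)⁻¹ i)) =
        (fun x => g (σ⁻¹ (ε.symm x))) := by
      funext x
      rw [← map_inv]
      show g (ε.symm (ε (σ⁻¹ (ε.symm x)))) = g (σ⁻¹ (ε.symm x))
      rw [Equiv.symm_apply_apply]
    rw [h]
  inj := by
    rintro ⟨g, σ⟩ ⟨g', σ'⟩ h
    have h1 := S.inj (a₁ := (fun x => g (ε.symm x), conjPerm ε σ))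
      (a₂ := (fun x => g' (ε.symm x), conjPerm ε σ')) h
    have h2 := Prod.mk.inj h1
    refine Prod.ext (funext fun i => ?_) (conjPerm_injective ε h2.2)
    have h3 := congrFun h2.1 (ε i)
    simpa using h3

/-- a perm of the left summand, extended by the identity -/
def inlPerm (Ω Ω'' : Type) : Equiv.Perm Ω →* Equiv.Perm (Ω ⊕ Ω'') where
  toFun σ := Equiv.sumCongr σ (Equiv.refl Ω'')
  map_one' := by
    refine Equiv.ext fun x => ?_
    cases x <;> rfl
  map_mul' σ τ := by
    refine Equiv.ext fun x => ?_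
    cases x <;> rfl

theorem inlPerm_injective (Ω Ω'' : Type) : Function.Injective (inlPerm Ω Ω'') := by
  intro σ τ h
  refine Equiv.ext fun x => ?_
  have h1 : (Sum.inl (σ x) : Ω ⊕ Ω'') = Sum.inl (τ x) :=
    congrArg (fun ρ : Equiv.Perm (Ω ⊕ Ω'') => ρ (Sum.inl x)) h
  exact Sum.inl.inj h1

/-- restriction to a summand of the index type -/
def sumL (S : MonSys (Ω ⊕ Ω'') D X) : MonSys Ω D X where
  ι := S.ι.comp
    { toFun := fun g => Sum.elim g 1
      map_one' := by
        funext x
        cases x <;> rfl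
      map_mul' := fun g h => by
        funext x
        cases x <;> simp }
  π := S.π.comp (inlPerm Ω Ω'')
  star σ g := by
    show S.π (inlPerm Ω Ω'' σ) * S.ι (Sum.elim g 1) =
      S.ι (Sum.elim (fun i => g (σ⁻¹ i)) 1) * S.π (inlPerm Ω Ω'' σ)
    rw [S.star]
    have h : (fun i => (Sum.elim g 1 : Ω ⊕ Ω'' → D) ((inlPerm Ω Ω'' σ)⁻¹ i)) =
        Sum.elim (fun i => g (σ⁻¹ i)) 1 := by
      funext x
      rw [← map_inv]
      cases x <;> rfl
    rw [h]
  inj := by
    rintro ⟨g, σ⟩ ⟨g', σ'⟩ h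
    have h1 := S.inj (a₁ := ((Sum.elim g 1 : Ω ⊕ Ω'' → D), inlPerm Ω Ω'' σ))
      (a₂ := ((Sum.elim g' 1 : Ω ⊕ Ω'' → D), inlPerm Ω Ω'' σ')) h
    have h2 := Prod.mk.inj h1
    refine Prod.ext (funext fun i => ?_) (inlPerm_injective Ω Ω'' h2.2)
    exact congrFun h2.1 (Sum.inl i)

variable {C : Type} [Group C]

/-- the permutation of `C × Ω` given by the right parts -/
def shearPerm (g : Ω → D ≀ᵣ C) : Equiv.Perm (C × Ω) where
  toFun p := ((g p.2).right * p.1, p.2)
  invFun p := ((g p.2).right⁻¹ * p.1, p.2)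
  left_inv p := by simp
  right_inv p := by simp

theorem shearPerm_mul (g h : Ω → D ≀ᵣ C) : shearPerm (g * h) = shearPerm g * shearPerm h := by
  refine Equiv.ext fun p => Prod.ext ?_ rfl
  show ((g * h) p.2).right * p.1 = (g p.2).right * ((h p.2).right * p.1)
  rw [Pi.mul_apply, RegularWreathProduct.mul_right, mul_assoc]

theorem shearPerm_one : shearPerm (1 : Ω → D ≀ᵣ C) = 1 := by
  refine Equiv.ext fun p => Prod.ext ?_ rfl
  show ((1 : Ω → D ≀ᵣ C) p.2).right * p.1 = p.1
  rw [Pi.one_apply, RegularWreathProduct.one_right, one_mul]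

/-- a perm of `Ω`, acting on the second coordinate of `C × Ω` -/
def liftPerm (C Ω : Type) : Equiv.Perm Ω →* Equiv.Perm (C × Ω) where
  toFun σ := ⟨fun p => (p.1, σ p.2), fun p => (p.1, σ.symm p.2), fun p => by simp,
    fun p => by simp⟩
  map_one' := Equiv.ext fun _ => rfl
  map_mul' _ _ := Equiv.ext fun _ => rfl

/-- the base part of the step system -/
def stepι (S : MonSys (C × Ω) D X) : (Ω → D ≀ᵣ C) →* X where
  toFun g := S.ι (fun p => (g p.2).left p.1) * S.π (shearPerm g)
  map_one' := by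
    have h1 : (fun p : C × Ω => ((1 : Ω → D ≀ᵣ C) p.2).left p.1) = 1 := rfl
    rw [h1, shearPerm_one, map_one, map_one, one_mul]
  map_mul' g h := by
    have h1 : (fun p : C × Ω => ((g * h) p.2).left p.1) =
        (fun p : C × Ω => (g p.2).left p.1) *
          (fun p => (fun p : C × Ω => (h p.2).left p.1) ((shearPerm g)⁻¹ p)) := by
      funext p
      show ((g p.2) * (h p.2)).left p.1 =
        (g p.2).left p.1 * (h p.2).left ((g p.2).right⁻¹ * p.1)
      rw [RegularWreathProduct.mul_left]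
      rfl
    rw [h1, shearPerm_mul, map_mul, map_mul]
    have h2 := S.star (shearPerm g) (fun p : C × Ω => (h p.2).left p.1)
    have key : ∀ a b c d e : X, c * e = b * c → a * b * (c * d) = a * c * (e * d) := by
      intro a b c d e hce
      rw [mul_assoc a c, ← mul_assoc c e, hce]
      simp only [mul_assoc]
    exact key _ _ _ _ _ h2

/-- the wreath step: a system on `C × Ω` with base `D` gives one on `Ω` with base `D ≀ᵣ C` -/
def step (S : MonSys (C × Ω) D X) : MonSys Ω (D ≀ᵣ C) X where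
  ι := stepι S
  π := S.π.comp (liftPerm C Ω)
  star σ g := by
    show S.π (liftPerm C Ω σ) * (S.ι (fun p : C × Ω => (g p.2).left p.1) * S.π (shearPerm g)) =
      S.ι (fun p : C × Ω => (g (σ⁻¹ p.2)).left p.1) * S.π (shearPerm (fun i => g (σ⁻¹ i))) *
        S.π (liftPerm C Ω σ)
    have h1 := S.star (liftPerm C Ω σ) (fun p : C × Ω => (g p.2).left p.1)
    have h2 : (fun i : C × Ω => (fun p : C × Ω => (g p.2).left p.1) ((liftPerm C Ω σ)⁻¹ i)) =
        (fun p : C × Ω => (g (σ⁻¹ p.2)).left p.1) := by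
      funext p
      rw [← map_inv]
      rfl
    rw [h2] at h1
    have h3 : liftPerm C Ω σ * shearPerm g =
        shearPerm (fun i => g (σ⁻¹ i)) * liftPerm C Ω σ := by
      refine Equiv.ext fun p => Prod.ext ?_ rfl
      show (g p.2).right * p.1 = (g (σ⁻¹ (σ p.2))).right * p.1
      have h5 : σ⁻¹ (σ p.2) = p.2 := by simp
      rw [h5]
    rw [← mul_assoc, h1, mul_assoc, ← map_mul, h3, map_mul, mul_assoc]
  inj := by
    rintro ⟨g, σ⟩ ⟨g', σ'⟩ h
    have h' : S.ι (fun p : C × Ω => (g p.2).left p.1) * S.π (shearPerm g * liftPerm C Ω σ) =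
        S.ι (fun p : C × Ω => (g' p.2).left p.1) * S.π (shearPerm g' * liftPerm C Ω σ') := by
      rw [map_mul, map_mul, ← mul_assoc, ← mul_assoc]
      exact h
    have h1 := Prod.mk.inj (S.inj
      (a₁ := ((fun p : C × Ω => (g p.2).left p.1), shearPerm g * liftPerm C Ω σ))
      (a₂ := ((fun p : C × Ω => (g' p.2).left p.1), shearPerm g' * liftPerm C Ω σ')) h')
    have hσ : σ = σ' := by
      refine Equiv.ext fun ω => ?_
      exact congrArg (fun ρ : Equiv.Perm (C × Ω) => (ρ (1, ω)).2) h1.2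
    subst hσ
    have hg : ∀ ω, g ω = g' ω := by
      intro ω
      have hl : (g ω).left = (g' ω).left := by
        funext c
        exact congrFun h1.1 (c, ω)
      have hr : (g ω).right = (g' ω).right := by
        have h4 : (g (σ (σ⁻¹ ω))).right * 1 = (g' (σ (σ⁻¹ ω))).right * 1 :=
          congrArg (fun ρ : Equiv.Perm (C × Ω) => (ρ (1, σ⁻¹ ω)).1) h1.2
        have h5 : σ (σ⁻¹ ω) = ω := by simp
        rw [h5, mul_one, mul_one] at h4
        exact h4
      exact RegularWreathProduct.ext hl hr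
    exact Prod.ext (funext hg) rfl

end MonSys

/-- derived length of a `2`-subgroup built from a monomial system -/
theorem monSys_derived {X : Type v} [Group X] : ∀ (j : ℕ) {Ω : Type} [Fintype Ω]
    {W : Type u} [Group W] [Finite W] (_ : MonSys Ω W X) (_ : IsPGroup 2 W) (k : ℕ)
    (_ : derivedSeries W k ≠ ⊥) (_ : 2 ^ j ≤ Fintype.card Ω),
    ∃ B : Subgroup X, Finite B ∧ IsPGroup 2 B ∧ derivedSeries ↥B (k + j) ≠ ⊥ := by
  intro j
  induction j with
  | zero =>
    intro Ω _ W _ _ S hW k hk hj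
    classical
    have hne : Nonempty Ω := by
      rw [pow_zero] at hj
      exact Fintype.card_pos_iff.mp hj
    obtain ⟨ω⟩ := hne
    let f : W →* X := S.ι.comp (MonoidHom.mulSingle (fun _ : Ω => W) ω)
    have hf : Function.Injective f := S.ι_injective.comp (Pi.mulSingle_injective (M := fun _ : Ω => W) ω)
    refine ⟨f.range, Finite.of_surjective f.rangeRestrict f.rangeRestrict_surjective,
      IsPGroup.of_surjective hW f.rangeRestrict f.rangeRestrict_surjective, ?_⟩
    have hψi : Function.Injective f.rangeRestrict := by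
      intro a b hab
      exact hf (congrArg Subtype.val hab)
    have key := map_derivedSeries_le_derivedSeries f.rangeRestrict k
    intro h0
    rw [Nat.add_zero] at h0
    rw [h0, le_bot_iff] at key
    apply hk
    rw [eq_bot_iff]
    intro x hx
    have hx' := Subgroup.mem_map_of_mem f.rangeRestrict hx
    rw [key, Subgroup.mem_bot] at hx'
    rw [Subgroup.mem_bot]
    exact hψi (hx'.trans (map_one f.rangeRestrict).symm)
  | succ j ih =>
    intro Ω _ W _ _ S hW k hk hj
    have hc : Fintype.card ((Multiplicative (ZMod 2) × Fin (2 ^ j)) ⊕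
        Fin (Fintype.card Ω - 2 ^ (j + 1))) = Fintype.card Ω := by
      rw [Fintype.card_sum, Fintype.card_prod, Fintype.card_multiplicative, ZMod.card,
        Fintype.card_fin, Fintype.card_fin]
      rw [pow_succ] at hj ⊢
      omega
    let ε : ((Multiplicative (ZMod 2) × Fin (2 ^ j)) ⊕ Fin (Fintype.card Ω - 2 ^ (j + 1))) ≃ Ω :=
      Fintype.equivOfCardEq hc
    let S' : MonSys (Fin (2 ^ j)) (W ≀ᵣ Multiplicative (ZMod 2)) X :=
      ((S.reindex ε).sumL).step
    have hW' : IsPGroup 2 (W ≀ᵣ Multiplicative (ZMod 2)) := by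
      obtain ⟨a, ha⟩ := (IsPGroup.iff_card (p := 2) (G := W)).mp hW
      have hc2 : Nat.card (Multiplicative (ZMod 2)) = 2 := by
        rw [Nat.card_eq_fintype_card, Fintype.card_multiplicative, ZMod.card]
      refine IsPGroup.of_card (n := a * 2 + 1) ?_
      rw [RegularWreathProduct.card, ha, hc2, ← pow_mul, ← pow_succ]
    have hq : (Multiplicative.ofAdd (1 : ZMod 2)) ≠ 1 := by decide
    have hk' : derivedSeries (W ≀ᵣ Multiplicative (ZMod 2)) (k + 1) ≠ ⊥ :=
      wreath_step _ hq k hk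
    obtain ⟨B, hB1, hB2, hB3⟩ := ih S' hW' (k + 1) hk' (by rw [Fintype.card_fin])
    refine ⟨B, hB1, hB2, ?_⟩
    have e : k + 1 + j = k + (j + 1) := by omega
    rw [← e]
    exact hB3

/-- **Derived length in permutational wreath products.**  If `X` contains a copy of
`D ≀ Sym(n)` (given by `ι`, `π` with the commutation rule `hstar` and the injectivity `hinj`),
`Q ≤ D` is a finite `2`-group whose `k`-th derived subgroup is nontrivial and `2 ^ j ≤ n`, then `X`
has a finite `2`-subgroup whose `(k + j)`-th derived subgroup is nontrivial. -/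
theorem perm_wreath_derived {D : Type u} {X : Type v} [Group D] [Group X] (n : ℕ)
    (ι : (Fin n → D) →* X) (π : Equiv.Perm (Fin n) →* X)
    (hstar : ∀ (σ : Equiv.Perm (Fin n)) (g : Fin n → D),
      π σ * ι g = ι (fun i => g (σ⁻¹ i)) * π σ)
    (hinj : Function.Injective (fun p : (Fin n → D) × Equiv.Perm (Fin n) => ι p.1 * π p.2))
    (Q : Subgroup D) [Finite Q] (hQ : IsPGroup 2 Q) (k : ℕ) (hQk : derivedSeries ↥Q k ≠ ⊥)
    (j : ℕ) (hj : 2 ^ j ≤ n) :
    ∃ B : Subgroup X, Finite B ∧ IsPGroup 2 B ∧ derivedSeries ↥B (k + j) ≠ ⊥ := by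
  let S₀ : MonSys (Fin n) D X := ⟨ι, π, hstar, hinj⟩
  exact monSys_derived j (S₀.pull Q.subtype Q.subtype_injective) hQ k hQk
    (by rw [Fintype.card_fin]; exact hj)

end Cfsg.Agent.Lib.Helper3
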