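import Mathlib
import Cfsg.Agent.Lib.Helper3.PermWreathDL
import Cfsg.Agent.Lib.Helper15.SpW

/-!
Squares in Sylow `2`-subgroups of `Sp_{2n}(F)` lie in the commutator subgroup, given the same
fact for `Sp_2(F)` and for the symmetric group of degree `n`.
-/

set_option autoImplicit false

namespace Cfsg.Agent.Lib.Helper3

open scoped commutatorElement
open scoped Pointwise

universe u v

/-- the two ways of saying that squares lie in the commutator subgroup of a subgroup -/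
theorem sq_level {G : Type*} [Group G] (K : Subgroup G) :
    (∀ u : ↥K, u ^ 2 ∈ commutator ↥K) ↔ (∀ x ∈ K, x ^ 2 ∈ ⁅K, K⁆) := by
  have key : (commutator ↥K).map K.subtype = ⁅K, K⁆ := by
    rw [commutator_def, Subgroup.map_commutator, ← MonoidHom.range_eq_map, Subgroup.range_subtype]
  constructor
  · intro h x hx
    rw [← key]
    exact ⟨(⟨x, hx⟩ : ↥K) ^ 2, h ⟨x, hx⟩, rfl⟩
  · intro h u
    have h1 := h (u : G) u.2
    rw [← key] at h1
    obtain ⟨w, hw, hwe⟩ := h1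
    have h2 : w = u ^ 2 := Subtype.ext hwe
    rw [← h2]
    exact hw

namespace MonSys

variable {Ω : Type} {D : Type u} {X : Type v} [Group D] [Group X]

/-- the subgroup `T ≀ H` of a monomial system -/
def sub (S : MonSys Ω D X) (T : Subgroup D) (H : Subgroup (Equiv.Perm Ω)) : Subgroup X where
  carrier := {x | ∃ g : Ω → D, (∀ i, g i ∈ T) ∧ ∃ σ ∈ H, x = S.ι g * S.π σ}
  mul_mem' := by
    rintro x y ⟨g, hg, σ, hσ, rfl⟩ ⟨g', hg', σ', hσ', rfl⟩
    refine ⟨g * (fun i => g' (σ⁻¹ i)), fun i => T.mul_mem (hg i) (hg' _), σ * σ',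
      H.mul_mem hσ hσ', ?_⟩
    calc S.ι g * S.π σ * (S.ι g' * S.π σ')
        = S.ι g * (S.π σ * S.ι g') * S.π σ' := by simp only [mul_assoc]
      _ = S.ι g * (S.ι (fun i => g' (σ⁻¹ i)) * S.π σ) * S.π σ' := by rw [S.star]
      _ = S.ι (g * (fun i => g' (σ⁻¹ i))) * S.π (σ * σ') := by
          rw [map_mul, map_mul]
          simp only [mul_assoc]
  one_mem' := ⟨1, fun _ => T.one_mem, 1, H.one_mem, by rw [map_one, map_one, mul_one]⟩
  inv_mem' := by
    rintro x ⟨g, hg, σ, hσ, rfl⟩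
    refine ⟨fun i => g⁻¹ ((σ⁻¹)⁻¹ i), fun i => T.inv_mem (hg _), σ⁻¹, H.inv_mem hσ, ?_⟩
    rw [mul_inv_rev, ← map_inv, ← map_inv]
    exact S.star σ⁻¹ g⁻¹

theorem card_sub [Finite Ω] (S : MonSys Ω D X) (T : Subgroup D) (H : Subgroup (Equiv.Perm Ω)) :
    Nat.card (S.sub T H) = Nat.card T ^ Nat.card Ω * Nat.card H := by
  have hbij : Function.Bijective (fun p : (Ω → T) × H =>
      (⟨S.ι (fun i => (p.1 i : D)) * S.π (p.2 : Equiv.Perm Ω),
        ⟨fun i => (p.1 i : D), fun i => (p.1 i).2, p.2, p.2.2, rfl⟩⟩ : S.sub T H)) := by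
    constructor
    · rintro ⟨g, σ⟩ ⟨g', σ'⟩ h
      have h1 := S.inj (a₁ := (fun i => (g i : D), (σ : Equiv.Perm Ω)))
        (a₂ := (fun i => (g' i : D), (σ' : Equiv.Perm Ω))) (congrArg Subtype.val h)
      have h2 := Prod.mk.inj h1
      exact Prod.ext (funext fun i => Subtype.ext (congrFun h2.1 i)) (Subtype.ext h2.2)
    · rintro ⟨x, g, hg, σ, hσ, rfl⟩
      exact ⟨(fun i => ⟨g i, hg i⟩, ⟨σ, hσ⟩), rfl⟩
  rw [← Nat.card_eq_of_bijective _ hbij, Nat.card_prod, Nat.card_fun]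

theorem sub_sq_mem [Finite Ω] (S : MonSys Ω D X) (T : Subgroup D) (H : Subgroup (Equiv.Perm Ω))
    (hT : ∀ t ∈ T, t ^ 2 ∈ ⁅T, T⁆) (hH : ∀ σ ∈ H, σ ^ 2 ∈ ⁅H, H⁆) :
    ∀ x ∈ S.sub T H, x ^ 2 ∈ ⁅S.sub T H, S.sub T H⁆ := by
  rintro x ⟨g, hg, σ, hσ, rfl⟩
  have ha : S.ι g ∈ S.sub T H := ⟨g, hg, 1, H.one_mem, by rw [map_one, mul_one]⟩
  have hh : S.π σ ∈ S.sub T H := ⟨1, fun _ => T.one_mem, σ, hσ, by rw [map_one, one_mul]⟩
  have h1 : (S.ι g * S.π σ) ^ 2 = (S.ι g) ^ 2 * ⁅(S.ι g)⁻¹, S.π σ⁆ * (S.π σ) ^ 2 := by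
    rw [commutatorElement_def, pow_two, pow_two, pow_two]
    group
  rw [h1]
  refine Subgroup.mul_mem _ (Subgroup.mul_mem _ ?_ ?_) ?_
  · have hg2 : g ^ 2 ∈ ⁅Subgroup.pi Set.univ (fun _ : Ω => T),
        Subgroup.pi Set.univ (fun _ : Ω => T)⁆ := by
      rw [Subgroup.commutator_pi_pi_of_finite]
      intro i _
      exact hT (g i) (hg i)
    have hle : (Subgroup.pi Set.univ (fun _ : Ω => T)).map S.ι ≤ S.sub T H := by
      rintro _ ⟨g', hg', rfl⟩
      exact ⟨g', fun i => hg' i (Set.mem_univ i), 1, H.one_mem, by rw [map_one, mul_one]⟩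
    have h2 : S.ι (g ^ 2) ∈ (⁅Subgroup.pi Set.univ (fun _ : Ω => T),
        Subgroup.pi Set.univ (fun _ : Ω => T)⁆).map S.ι := Subgroup.mem_map_of_mem _ hg2
    rw [Subgroup.map_commutator] at h2
    rw [← map_pow]
    exact Subgroup.commutator_mono hle hle h2
  · exact Subgroup.commutator_mem_commutator ((S.sub T H).inv_mem ha) hh
  · have hle : H.map S.π ≤ S.sub T H := by
      rintro _ ⟨σ', hσ', rfl⟩
      exact ⟨1, fun _ => T.one_mem, σ', hσ', by rw [map_one, one_mul]⟩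
    have h2 : S.π (σ ^ 2) ∈ (⁅H, H⁆).map S.π := Subgroup.mem_map_of_mem _ (hH σ hσ)
    rw [Subgroup.map_commutator] at h2
    rw [← map_pow]
    exact Subgroup.commutator_mono hle hle h2

end MonSys

open Cfsg.Agent.Lib.Helper15

/-- **Squares in Sylow `2`-subgroups of `Sp_{2n}(F)`**, `F` of odd order, lie in the commutator
subgroup, given the same for `Sp_2(F)` and for `Sym(n)`. -/
theorem sp_sylow_sq_mem_of_base {F : Type*} [Field F] [Fintype F] (hF : Odd (Fintype.card F))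
    (n : ℕ)
    (hbase : ∀ Q : Sylow 2 ↥(Matrix.symplecticGroup (Fin 1) F),
      ∀ u : ↥(Q : Subgroup ↥(Matrix.symplecticGroup (Fin 1) F)),
        u ^ 2 ∈ commutator ↥(Q : Subgroup ↥(Matrix.symplecticGroup (Fin 1) F)))
    (hperm : ∀ T0 : Sylow 2 (Equiv.Perm (Fin n)),
      ∀ u : ↥(T0 : Subgroup (Equiv.Perm (Fin n))),
        u ^ 2 ∈ commutator ↥(T0 : Subgroup (Equiv.Perm (Fin n))))
    (P : Sylow 2 ↥(Matrix.symplecticGroup (Fin n) F)) :
    ∀ x : ↥(P : Subgroup ↥(Matrix.symplecticGroup (Fin n) F)),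
      x ^ 2 ∈ commutator ↥(P : Subgroup ↥(Matrix.symplecticGroup (Fin n) F)) := by
  classical
  let S₀ : MonSys (Fin n) (SpW.Sp2 F) ↥(Matrix.symplecticGroup (Fin n) F) :=
    ⟨SpW.iota F n, SpW.piHom F n, fun σ g => SpW.star σ g, SpW.psi_injective F n⟩
  obtain ⟨Q⟩ : Nonempty (Sylow 2 (SpW.Sp2 F)) := inferInstance
  obtain ⟨T0⟩ : Nonempty (Sylow 2 (Equiv.Perm (Fin n))) := inferInstance
  have hQ := (sq_level (Q : Subgroup (SpW.Sp2 F))).mp (hbase Q)
  have hT := (sq_level (T0 : Subgroup (Equiv.Perm (Fin n)))).mp (hperm T0)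
  have hEB := S₀.sub_sq_mem (Q : Subgroup (SpW.Sp2 F)) (T0 : Subgroup (Equiv.Perm (Fin n))) hQ hT
  have hcB : Nat.card (S₀.sub (Q : Subgroup (SpW.Sp2 F)) (T0 : Subgroup (Equiv.Perm (Fin n)))) =
      Nat.card (Q : Subgroup (SpW.Sp2 F)) ^ n * Nat.card (T0 : Subgroup (Equiv.Perm (Fin n))) := by
    rw [MonSys.card_sub, Nat.card_fin]
  have hcQ : Nat.card (Q : Subgroup (SpW.Sp2 F)) =
      2 ^ (Nat.card (SpW.Sp2 F)).factorization 2 := Q.card_eq_multiplicity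
  have hcT : Nat.card (T0 : Subgroup (Equiv.Perm (Fin n))) =
      2 ^ (Nat.card (Equiv.Perm (Fin n))).factorization 2 := T0.card_eq_multiplicity
  have hne : Nat.card (SpW.Sp2 F) ≠ 0 := Nat.card_pos.ne'
  have hfac : (Nat.card ↥(Matrix.symplecticGroup (Fin n) F)).factorization 2 =
      n * (Nat.card (SpW.Sp2 F)).factorization 2 +
        (Nat.card (Equiv.Perm (Fin n))).factorization 2 := by
    rw [← SpW.fact_eq F hF n, SpW.card_W, ← SpW.card_Sp2 F,
      Nat.factorization_mul (pow_ne_zero _ hne) (Nat.factorial_ne_zero n), Nat.factorization_pow,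
      Nat.card_perm, Nat.card_fin]
    simp
  have hcB' : Nat.card (S₀.sub (Q : Subgroup (SpW.Sp2 F)) (T0 : Subgroup (Equiv.Perm (Fin n)))) =
      2 ^ (Nat.card ↥(Matrix.symplecticGroup (Fin n) F)).factorization 2 := by
    rw [hcB, hcQ, hcT, hfac, ← pow_mul, ← pow_add]
    congr 1
    ring
  have hBp : IsPGroup 2 (S₀.sub (Q : Subgroup (SpW.Sp2 F)) (T0 : Subgroup (Equiv.Perm (Fin n)))) :=
    IsPGroup.of_card hcB'
  obtain ⟨S, hS⟩ := hBp.exists_le_sylow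
  have hBS : S₀.sub (Q : Subgroup (SpW.Sp2 F)) (T0 : Subgroup (Equiv.Perm (Fin n))) =
      (S : Subgroup ↥(Matrix.symplecticGroup (Fin n) F)) :=
    Subgroup.eq_of_le_of_card_ge hS (by rw [S.card_eq_multiplicity, hcB'])
  rw [hBS] at hEB
  obtain ⟨c, hc⟩ := MulAction.exists_smul_eq ↥(Matrix.symplecticGroup (Fin n) F) S P
  rw [sq_level]
  intro x hx
  rw [← hc, Sylow.coe_subgroup_smul] at hx ⊢
  have hmap : MulAut.conj c • (S : Subgroup ↥(Matrix.symplecticGroup (Fin n) F)) =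
      (S : Subgroup ↥(Matrix.symplecticGroup (Fin n) F)).map (MulAut.conj c).toMonoidHom := rfl
  rw [hmap] at hx ⊢
  obtain ⟨y, hy, rfl⟩ := hx
  rw [← Subgroup.map_commutator, ← map_pow]
  exact Subgroup.mem_map_of_mem _ (hEB y hy)

end Cfsg.Agent.Lib.Helper3
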