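import Mathlib

/-!
# Affine groups with restricted multipliers and their element orders

For a finite field `E` and a subgroup `M` of its unit group, the group of maps
`x ↦ a x + b` with `a ∈ M`.  When `M` is the group of `m`-th roots of unity with `m`
dividing the order of the unit group, the orders of its elements are exactly the divisors
of the characteristic and of `m`.
-/

set_option autoImplicit false

namespace Cfsg.Agent.Lib.Helper3

/-- The affine maps `x ↦ a x + b` with multiplier `a` in the subgroup `M`. -/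
structure AffM (E : Type*) [Field E] (M : Subgroup Eˣ) where
  /-- the multiplier -/
  a : M
  /-- the translation part -/
  b : E

namespace AffM

variable {E : Type*} [Field E] {M : Subgroup Eˣ}

theorem ext' {x y : AffM E M} (ha : x.a = y.a) (hb : x.b = y.b) : x = y := by
  cases x
  cases y
  simp_all

instance : Mul (AffM E M) := ⟨fun x y => ⟨x.a * y.a, x.b + ((x.a : Eˣ) : E) * y.b⟩⟩

instance : One (AffM E M) := ⟨⟨1, 0⟩⟩

instance : Inv (AffM E M) := ⟨fun x => ⟨x.a⁻¹, -(((x.a⁻¹ : M) : Eˣ) : E) * x.b⟩⟩

theorem mul_a (x y : AffM E M) : (x * y).a = x.a * y.a := rfl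

theorem mul_b (x y : AffM E M) : (x * y).b = x.b + ((x.a : Eˣ) : E) * y.b := rfl

theorem one_a : (1 : AffM E M).a = 1 := rfl

theorem one_b : (1 : AffM E M).b = 0 := rfl

theorem inv_a (x : AffM E M) : x⁻¹.a = x.a⁻¹ := rfl

theorem inv_b (x : AffM E M) : x⁻¹.b = -(((x.a⁻¹ : M) : Eˣ) : E) * x.b := rfl

instance : Group (AffM E M) where
  mul_assoc x y z := by
    apply ext'
    · simp only [mul_a, mul_assoc]
    · simp only [mul_a, mul_b, Subgroup.coe_mul, Units.val_mul]
      ring
  one_mul x := by
    apply ext'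
    · simp only [mul_a, one_a, one_mul]
    · simp only [mul_b, one_a, one_b, Subgroup.coe_one, Units.val_one, one_mul, zero_add]
  mul_one x := by
    apply ext'
    · simp only [mul_a, one_a, mul_one]
    · simp only [mul_b, one_b, mul_zero, add_zero]
  inv_mul_cancel x := by
    apply ext'
    · simp only [mul_a, inv_a, one_a, inv_mul_cancel]
    · simp only [mul_b, inv_a, inv_b, one_b]
      ring

theorem eq_one_iff (x : AffM E M) : x = 1 ↔ x.a = 1 ∧ x.b = 0 := by
  constructor
  · rintro rfl
    exact ⟨rfl, rfl⟩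
  · rintro ⟨h1, h2⟩
    exact ext' h1 h2

theorem pow_a (x : AffM E M) (k : ℕ) : (x ^ k).a = x.a ^ k := by
  induction k with
  | zero => rw [pow_zero, pow_zero, one_a]
  | succ k ih => rw [pow_succ, mul_a, ih, pow_succ]

theorem pow_b (x : AffM E M) (k : ℕ) :
    (x ^ k).b = (∑ i ∈ Finset.range k, (((x.a : M) : Eˣ) : E) ^ i) * x.b := by
  induction k with
  | zero => simp [one_b]
  | succ k ih =>
    rw [pow_succ, mul_b, ih, pow_a, Finset.sum_range_succ]
    simp only [Subgroup.coe_pow, Units.val_pow_eq_pow_val]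
    ring

/-- An element with nontrivial multiplier has the order of its multiplier. -/
theorem orderOf_of_ne (x : AffM E M) (ha : x.a ≠ 1) : orderOf x = orderOf x.a := by
  rw [orderOf_eq_orderOf_iff]
  intro k
  rw [eq_one_iff, pow_a, pow_b]
  constructor
  · exact fun h => h.1
  · intro h
    refine ⟨h, ?_⟩
    have h1 : ((((x.a : M) : Eˣ) : E)) ^ k = 1 := by
      have h2 := congrArg (fun u : M => ((u : Eˣ) : E)) h
      simpa using h2
    have h3 : (((x.a : M) : Eˣ) : E) - 1 ≠ 0 := by
      intro h0
      apply ha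
      apply Subtype.ext
      apply Units.ext
      simpa using sub_eq_zero.mp h0
    have h4 := mul_geom_sum ((((x.a : M) : Eˣ) : E)) k
    rw [h1, sub_self] at h4
    rcases mul_eq_zero.1 h4 with h5 | h5
    · exact absurd h5 h3
    · rw [h5, zero_mul]

/-- An element with trivial multiplier has order dividing the characteristic. -/
theorem pow_char_eq_one (p : ℕ) [CharP E p] (x : AffM E M) (ha : x.a = 1) : x ^ p = 1 := by
  rw [eq_one_iff, pow_a, pow_b, ha]
  refine ⟨one_pow p, ?_⟩
  simp only [Subgroup.coe_one, Units.val_one, one_pow, Finset.sum_const, Finset.card_range,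
    nsmul_eq_mul, mul_one, CharP.cast_eq_zero, zero_mul]

instance [Finite E] : Finite (AffM E M) :=
  Finite.of_injective (fun x : AffM E M => (x.a, x.b)) (by
    intro x y h
    simp only [Prod.mk.injEq] at h
    exact ext' h.1 h.2)

/-- The projection to the multiplier. -/
def proj : AffM E M →* M where
  toFun x := x.a
  map_one' := rfl
  map_mul' _ _ := rfl

/-- The inclusion of the translations. -/
def transl : Multiplicative E →* AffM E M where
  toFun b := ⟨1, Multiplicative.toAdd b⟩
  map_one' := rfl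
  map_mul' x y := by
    apply ext'
    · simp only [mul_a, mul_one]
    · simp only [mul_b, Subgroup.coe_one, Units.val_one, one_mul, toAdd_mul]

instance : Group.IsSolvable (AffM E M) := by
  apply Group.isSolvable_of_ker_le_range (transl (E := E) (M := M)) (proj (E := E) (M := M))
  intro x hx
  rw [MonoidHom.mem_ker] at hx
  refine ⟨Multiplicative.ofAdd x.b, ?_⟩
  apply ext'
  · exact hx.symm
  · rfl

/-- The orders of the elements of the affine group with multipliers the `m`-th roots of
unity. -/
theorem range_orderOf [Finite E] (p : ℕ) [Fact p.Prime] [CharP E p] (m : ℕ)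
    (hm : m ∣ Nat.card Eˣ) :
    Set.range (orderOf : AffM E (powMonoidHom m : Eˣ →* Eˣ).ker → ℕ)
      = {k : ℕ | k ∣ p ∨ k ∣ m} := by
  ext k
  simp only [Set.mem_range, Set.mem_ofPred_eq]
  constructor
  · rintro ⟨x, rfl⟩
    by_cases ha : x.a = 1
    · left
      exact orderOf_dvd_of_pow_eq_one (pow_char_eq_one p x ha)
    · right
      rw [orderOf_of_ne x ha]
      apply orderOf_dvd_of_pow_eq_one
      apply Subtype.ext
      have h1 := x.a.2
      rw [MonoidHom.mem_ker, powMonoidHom_apply] at h1
      simpa using h1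
  · rintro (hk | hk)
    · rcases (Nat.dvd_prime (Fact.out : p.Prime)).1 hk with rfl | rfl
      · exact ⟨1, orderOf_one⟩
      · refine ⟨⟨1, 1⟩, ?_⟩
        apply orderOf_eq_prime
        · exact pow_char_eq_one k _ rfl
        · intro h
          have h1 := ((eq_one_iff _).1 h).2
          exact one_ne_zero h1
    · have hN : 0 < Nat.card Eˣ := Nat.card_pos
      have hkN : k ∣ Nat.card Eˣ := hk.trans hm
      obtain ⟨g, hg⟩ := IsCyclic.exists_generator (α := Eˣ)
      have hog : orderOf g = Nat.card Eˣ := orderOf_eq_card_of_forall_mem_zpowers hg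
      have hk0 : 0 < k := Nat.pos_of_dvd_of_pos hkN hN
      have hd0 : Nat.card Eˣ / k ≠ 0 := by
        have := Nat.div_pos (Nat.le_of_dvd hN hkN) hk0
        omega
      have hou : orderOf (g ^ (Nat.card Eˣ / k)) = k := by
        rw [orderOf_pow_of_dvd hd0 (by rw [hog]; exact Nat.div_dvd_of_dvd hkN), hog,
          Nat.div_div_self hkN (by omega)]
      have hmem : g ^ (Nat.card Eˣ / k) ∈ (powMonoidHom m : Eˣ →* Eˣ).ker := by
        rw [MonoidHom.mem_ker, powMonoidHom_apply]
        exact orderOf_dvd_iff_pow_eq_one.mp (by rw [hou]; exact hk)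
      by_cases h1 : (⟨g ^ (Nat.card Eˣ / k), hmem⟩ : (powMonoidHom m : Eˣ →* Eˣ).ker) = 1
      · have h2 : g ^ (Nat.card Eˣ / k) = 1 := congrArg Subtype.val h1
        rw [h2, orderOf_one] at hou
        exact ⟨1, by rw [orderOf_one, hou]⟩
      · refine ⟨⟨⟨g ^ (Nat.card Eˣ / k), hmem⟩, 0⟩, ?_⟩
        have h3 : orderOf (⟨g ^ (Nat.card Eˣ / k), hmem⟩ : (powMonoidHom m : Eˣ →* Eˣ).ker)
            = orderOf (g ^ (Nat.card Eˣ / k)) := by
          rw [← Subgroup.orderOf_coe]
        rw [orderOf_of_ne _ h1, h3, hou]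

end AffM

/-- The orders of the elements of a product of two groups. -/
theorem range_orderOf_prod (G H : Type*) [Group G] [Group H] :
    Set.range (orderOf : G × H → ℕ)
      = {k : ℕ | ∃ a ∈ Set.range (orderOf : G → ℕ), ∃ b ∈ Set.range (orderOf : H → ℕ),
          k = Nat.lcm a b} := by
  ext k
  simp only [Set.mem_range, Set.mem_ofPred_eq]
  constructor
  · rintro ⟨x, rfl⟩
    exact ⟨orderOf x.1, ⟨x.1, rfl⟩, orderOf x.2, ⟨x.2, rfl⟩, Prod.orderOf x⟩
  · rintro ⟨a, ⟨x, rfl⟩, b, ⟨y, rfl⟩, rfl⟩
    exact ⟨(x, y), Prod.orderOf (x, y)⟩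

end Cfsg.Agent.Lib.Helper3
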