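import Mathlib
import Cfsg.Agent.Lib.Helper16.SpinWitt
import Cfsg.Agent.Lib.Helper16.SpinForms
import Cfsg.Agent.Lib.Helper17.CDChar2App

/-!
Centre of the commutator subgroup of an orthogonal group: generic tools valid in every
characteristic.
-/

set_option autoImplicit false

namespace Cfsg.Agent.Lib.Helper3

open Cfsg.Agent.Lib.Helper16 Cfsg.Agent.Lib.Helper17 Matrix

section Generic

variable {ι : Type} [Fintype ι] [DecidableEq ι] {F : Type*} [Field F]
variable (Q : QuadraticForm F (ι → F))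

theorem charP_two_of_eq (h2 : (2 : F) = 0) : CharP F 2 :=
  CharTwo.of_one_ne_zero_of_two_eq_zero one_ne_zero h2

/-- A product of two reflections lies in the commutator subgroup as soon as the product of the
two norms is a square (automatic in characteristic two). -/
theorem refl_pair_mem_omega [Fintype F] (hQ : (QuadraticMap.polarBilin Q).Nondegenerate)
    (hex : Fintype.card F ≠ 2 ∨ Fintype.card ι ≠ 4)
    {u v : ι → F} (hu : Q u ≠ 0) (hv : Q v ≠ 0) (hs : IsSquare (Q u * Q v)) :
    reflG Q u hu * reflG Q v hv ∈ commutator ↥(Cfsg.isometryGroup F (⇑Q)) := by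
  by_cases h2 : (2 : F) = 0
  · haveI : CharP F 2 := charP_two_of_eq h2
    have hex' : (∃ β : F, β ≠ 0 ∧ β ≠ 1) ∨ Fintype.card ι ≠ 4 := by
      rcases hex with h | h
      · exact Or.inl (c2_fin_hex h)
      · exact Or.inr h
    exact c2P_le_commutator Q hQ c2_fin_hsq hex'
      (Subgroup.subset_closure (c2P_mem Q u v hu hv))
  · have h := refl_div_mem_commutator Q h2 hu hv hs
    have hinv : (reflG Q v hv)⁻¹ = reflG Q v hv := isomG_ext Q rfl
    rwa [hinv] at h

/-- An isometry commuting with `r_u r_w` maps `u` into the span of `u` and `w`, provided some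
vector is orthogonal to `w` but not to `u`. -/
theorem span_of_comm (z : ↥(Cfsg.isometryGroup F (⇑Q))) {u w x : ι → F}
    (hu : Q u ≠ 0) (hw : Q w ≠ 0)
    (hc : z * (reflG Q u hu * reflG Q w hw) = (reflG Q u hu * reflG Q w hw) * z)
    (hxw : QuadraticMap.polar (⇑Q) w x = 0) (hxu : QuadraticMap.polar (⇑Q) u x ≠ 0) :
    ∃ a b : F, ((z : Matrix.GeneralLinearGroup ι F) : Matrix ι ι F) *ᵥ u = a • u + b • w := by
  set Z := ((z : Matrix.GeneralLinearGroup ι F) : Matrix ι ι F) with hZ
  have hc' := congrArg (fun g : ↥(Cfsg.isometryGroup F (⇑Q)) =>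
      ((g : Matrix.GeneralLinearGroup ι F) : Matrix ι ι F) *ᵥ x) hc
  simp only [isomG_mul_coe, reflG_coe] at hc'
  rw [← hZ, ← Matrix.mulVec_mulVec, ← Matrix.mulVec_mulVec, ← Matrix.mulVec_mulVec,
    ← Matrix.mulVec_mulVec] at hc'
  have e1 : Cfsg.reflectionMatrix (⇑Q) w *ᵥ x = x := by
    rw [refl_mulVec, hxw]
    simp
  rw [e1, refl_mulVec Q u x, Matrix.mulVec_sub, Matrix.mulVec_smul, refl_mulVec Q u,
    refl_mulVec Q w] at hc'
  set y := Z *ᵥ x with hy
  set β := (Q w)⁻¹ * QuadraticMap.polar (⇑Q) w y with hβ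
  set P := QuadraticMap.polar (⇑Q) u (y - β • w) with hP
  refine ⟨(QuadraticMap.polar (⇑Q) u x)⁻¹ * P, (QuadraticMap.polar (⇑Q) u x)⁻¹ * Q u * β, ?_⟩
  funext i
  have := congrFun hc' i
  simp only [Pi.sub_apply, Pi.smul_apply, Pi.add_apply, smul_eq_mul] at this ⊢
  field_simp
  field_simp at this
  linear_combination -this
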