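import Mathlib
import Cfsg.Agent.Lib.Helper16.SpinPlus
import Cfsg.Agent.Lib.Helper17.PlusClass
import Cfsg.Agent.Lib.Helper3.OmegaCenter

/-!
A Dickson-type invariant for an arbitrary quadratic form with nondegenerate polar form in
characteristic two: the orthogonal sum of the form with itself is carried onto the hyperbolic
form by `(v₁, v₂) ↦ (X, Y)`, `X = v₁ + v₂`, `Y = B(v₂, ·) + Δ(v₁ + v₂, ·)` where `Δ` is any
bilinear form with `Δ(x, x) = Q(x)`.  Consequence: the commutator subgroup has index two.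
-/

set_option autoImplicit false

namespace Cfsg.Agent.Lib.Helper3

open Cfsg.Agent.Lib.Helper16 Cfsg.Agent.Lib.Helper17 Matrix

section DicksonGen

variable {ι : Type} [Fintype ι] [DecidableEq ι] {F : Type*} [Field F]
variable (Q : QuadraticForm F (ι → F)) {n : ℕ} (e : ι ≃ Fin n)
variable (Δ : LinearMap.BilinMap F (ι → F) F)

theorem bilin_sum_single (L : LinearMap.BilinMap F (ι → F) F) (x s : ι → F) :
    ∑ i, s i * L x (Pi.single i 1) = L x s := by
  conv_rhs => rw [pi_eq_sum_univ' s]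
  rw [map_sum]
  simp only [map_smul, smul_eq_mul]

/-- The linear map `(v₁, v₂) ↦ (v₁ + v₂, B(v₂, ·) + Δ(v₁ + v₂, ·))`. -/
noncomputable def dkT : (ι ⊕ ι → F) →ₗ[F] (Fin n ⊕ Fin n → F) where
  toFun w := Sum.elim (fun j => w (Sum.inl (e.symm j)) + w (Sum.inr (e.symm j)))
    (fun j => QuadraticMap.polarBilin Q (w ∘ Sum.inr) (Pi.single (e.symm j) 1)
      + Δ (w ∘ Sum.inl + w ∘ Sum.inr) (Pi.single (e.symm j) 1))
  map_add' w w' := by
    funext j
    rcases j with j | j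
    · simp only [Sum.elim_inl, Pi.add_apply]
      ring
    · simp only [Sum.elim_inr, Pi.add_apply]
      have e1 : (w + w') ∘ Sum.inr = w ∘ Sum.inr + w' ∘ (Sum.inr : ι → ι ⊕ ι) := rfl
      have e2 : (w + w') ∘ Sum.inl = w ∘ Sum.inl + w' ∘ (Sum.inl : ι → ι ⊕ ι) := rfl
      have e3 : w ∘ Sum.inl + w' ∘ (Sum.inl : ι → ι ⊕ ι) + (w ∘ Sum.inr + w' ∘ Sum.inr)
          = (w ∘ Sum.inl + w ∘ Sum.inr) + (w' ∘ Sum.inl + w' ∘ Sum.inr) := by abel
      rw [e1, e2, e3, map_add, map_add, LinearMap.add_apply, LinearMap.add_apply]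
      ring
  map_smul' c w := by
    funext j
    rcases j with j | j
    · simp only [Sum.elim_inl, Pi.smul_apply, smul_eq_mul, RingHom.id_apply]
      ring
    · simp only [Sum.elim_inr, Pi.smul_apply, smul_eq_mul, RingHom.id_apply]
      have e1 : (c • w) ∘ Sum.inr = c • (w ∘ (Sum.inr : ι → ι ⊕ ι)) := rfl
      have e2 : (c • w) ∘ Sum.inl = c • (w ∘ (Sum.inl : ι → ι ⊕ ι)) := rfl
      rw [e1, e2, ← smul_add, map_smul, map_smul, LinearMap.smul_apply, LinearMap.smul_apply,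
        smul_eq_mul, smul_eq_mul]
      ring

theorem dkT_inl (w : ι ⊕ ι → F) (j : Fin n) :
    dkT Q e Δ w (Sum.inl j) = w (Sum.inl (e.symm j)) + w (Sum.inr (e.symm j)) := rfl

theorem dkT_inr (w : ι ⊕ ι → F) (j : Fin n) :
    dkT Q e Δ w (Sum.inr j) = QuadraticMap.polarBilin Q (w ∘ Sum.inr) (Pi.single (e.symm j) 1)
      + Δ (w ∘ Sum.inl + w ∘ Sum.inr) (Pi.single (e.symm j) 1) := rfl

theorem dkT_quad (h2 : (2 : F) = 0) (hΔ : ∀ x, Δ x x = Q x) (w : ι ⊕ ι → F) :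
    qfPlus n F (dkT Q e Δ w) = Q (w ∘ Sum.inl) + Q (w ∘ Sum.inr) := by
  show Cfsg.quadFormPlus n F _ = _
  unfold Cfsg.quadFormPlus
  simp only [dkT_inl, dkT_inr]
  rw [← Equiv.sum_comp e]
  simp only [Equiv.symm_apply_apply]
  have key : ∀ i, w (Sum.inl i) + w (Sum.inr i) = (w ∘ Sum.inl + w ∘ Sum.inr) i := fun i => rfl
  simp only [key, mul_add, Finset.sum_add_distrib]
  rw [bilin_sum_single (QuadraticMap.polarBilin Q), bilin_sum_single Δ, hΔ,
    QuadraticMap.polarBilin_apply_apply, QuadraticMap.polar_add_right, QuadraticMap.polar_self,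
    QuadraticMap.map_add (⇑Q) (w ∘ Sum.inl) (w ∘ Sum.inr),
    QuadraticMap.polar_comm (⇑Q) (w ∘ Sum.inr) (w ∘ Sum.inl), nsmul_eq_mul]
  push_cast
  linear_combination (QuadraticMap.polar (⇑Q) (w ∘ Sum.inl) (w ∘ Sum.inr) + Q (w ∘ Sum.inr)) * h2

theorem dkT_injective (_h2 : (2 : F) = 0) (hQ : (QuadraticMap.polarBilin Q).Nondegenerate) :
    Function.Injective (dkT Q e Δ) := by
  rw [injective_iff_map_eq_zero]
  intro w hw
  have hs : w ∘ Sum.inl + w ∘ Sum.inr = 0 := by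
    funext i
    have := congrFun hw (Sum.inl (e i))
    rw [dkT_inl, Equiv.symm_apply_apply] at this
    exact this
  have hv2 : w ∘ Sum.inr = 0 := by
    apply hQ.1
    intro y
    rw [← bilin_sum_single]
    apply Finset.sum_eq_zero
    intro i _
    have := congrFun hw (Sum.inr (e i))
    rw [dkT_inr, Equiv.symm_apply_apply, hs, map_zero, LinearMap.zero_apply, add_zero] at this
    rw [this]
    simp
  have hv1 : w ∘ Sum.inl = 0 := by
    rw [hv2, add_zero] at hs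
    exact hs
  funext i
  rcases i with i | i
  · exact congrFun hv1 i
  · exact congrFun hv2 i

/-- The isometry from `Q ⊕ Q` onto the hyperbolic form, as a linear equivalence. -/
noncomputable def dkE (h2 : (2 : F) = 0) (hQ : (QuadraticMap.polarBilin Q).Nondegenerate) :
    (ι ⊕ ι → F) ≃ₗ[F] (Fin n ⊕ Fin n → F) :=
  LinearMap.linearEquivOfInjective (dkT Q e Δ) (dkT_injective Q e Δ h2 hQ) (by
    rw [Module.finrank_fintype_fun_eq_card, Module.finrank_fintype_fun_eq_card,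
      Fintype.card_sum, Fintype.card_sum, Fintype.card_congr e])

theorem dkE_apply (h2 : (2 : F) = 0) (hQ : (QuadraticMap.polarBilin Q).Nondegenerate)
    (w : ι ⊕ ι → F) : dkE Q e Δ h2 hQ w = dkT Q e Δ w := rfl

theorem big_mulVec (G : Matrix ι ι F) (w : ι ⊕ ι → F) :
    Matrix.fromBlocks G 0 0 1 *ᵥ w = Sum.elim (G *ᵥ (w ∘ Sum.inl)) (w ∘ Sum.inr) := by
  conv_lhs => rw [← Sum.elim_comp_inl_inr w]
  rw [Matrix.fromBlocks_mulVec]
  simp

/-- The matrix of `diag(g, 1)` transported to the hyperbolic form. -/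
noncomputable def dkM (h2 : (2 : F) = 0) (hQ : (QuadraticMap.polarBilin Q).Nondegenerate)
    (G : Matrix ι ι F) : Matrix (Fin n ⊕ Fin n) (Fin n ⊕ Fin n) F :=
  LinearMap.toMatrix' ((dkE Q e Δ h2 hQ).toLinearMap ∘ₗ (Matrix.fromBlocks G 0 0 1).mulVecLin ∘ₗ
    (dkE Q e Δ h2 hQ).symm.toLinearMap)

theorem dkM_mulVec (h2 : (2 : F) = 0) (hQ : (QuadraticMap.polarBilin Q).Nondegenerate)
    (G : Matrix ι ι F) (x : Fin n ⊕ Fin n → F) :
    dkM Q e Δ h2 hQ G *ᵥ x
      = dkE Q e Δ h2 hQ (Matrix.fromBlocks G 0 0 1 *ᵥ (dkE Q e Δ h2 hQ).symm x) := by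
  unfold dkM
  rw [LinearMap.toMatrix'_mulVec]
  rfl

theorem dkM_mul (h2 : (2 : F) = 0) (hQ : (QuadraticMap.polarBilin Q).Nondegenerate)
    (G H : Matrix ι ι F) :
    dkM Q e Δ h2 hQ (G * H) = dkM Q e Δ h2 hQ G * dkM Q e Δ h2 hQ H := by
  apply Matrix.mulVec_injective
  funext x
  rw [← Matrix.mulVec_mulVec, dkM_mulVec, dkM_mulVec, dkM_mulVec, LinearEquiv.symm_apply_apply,
    big_mulVec, big_mulVec, big_mulVec]
  simp [Matrix.mulVec_mulVec]

theorem dkM_one (h2 : (2 : F) = 0) (hQ : (QuadraticMap.polarBilin Q).Nondegenerate) :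
    dkM Q e Δ h2 hQ 1 = 1 := by
  apply Matrix.mulVec_injective
  funext x
  rw [dkM_mulVec, Matrix.fromBlocks_one, Matrix.one_mulVec, Matrix.one_mulVec,
    LinearEquiv.apply_symm_apply]

theorem dkM_quad (h2 : (2 : F) = 0) (hQ : (QuadraticMap.polarBilin Q).Nondegenerate)
    (hΔ : ∀ x, Δ x x = Q x) (g : ↥(Cfsg.isometryGroup F (⇑Q))) (x : Fin n ⊕ Fin n → F) :
    qfPlus n F (dkM Q e Δ h2 hQ ((g : Matrix.GeneralLinearGroup ι F) : Matrix ι ι F) *ᵥ x)
      = qfPlus n F x := by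
  rw [dkM_mulVec, dkE_apply, dkT_quad Q e Δ h2 hΔ, big_mulVec, Sum.elim_comp_inl,
    Sum.elim_comp_inr, isomG_map]
  conv_rhs => rw [← LinearEquiv.apply_symm_apply (dkE Q e Δ h2 hQ) x, dkE_apply,
    dkT_quad Q e Δ h2 hΔ]

/-- The transported isometry of the hyperbolic form. -/
noncomputable def dkG (h2 : (2 : F) = 0) (hQ : (QuadraticMap.polarBilin Q).Nondegenerate)
    (hΔ : ∀ x, Δ x x = Q x) (g : ↥(Cfsg.isometryGroup F (⇑Q))) :
    ↥(Cfsg.isometryGroup F (⇑(qfPlus n F))) :=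
  ⟨⟨dkM Q e Δ h2 hQ ((g : Matrix.GeneralLinearGroup ι F) : Matrix ι ι F),
    dkM Q e Δ h2 hQ (((g : Matrix.GeneralLinearGroup ι F)⁻¹ : Matrix.GeneralLinearGroup ι F) :
      Matrix ι ι F),
    by rw [← dkM_mul, Units.mul_inv, dkM_one], by rw [← dkM_mul, Units.inv_mul, dkM_one]⟩,
    (Cfsg.Agent.Lib.Helper16.mem_isometryGroup_iff (qfPlus n F) _).2
      (fun x => dkM_quad Q e Δ h2 hQ hΔ g x)⟩

theorem dkG_coe (h2 : (2 : F) = 0) (hQ : (QuadraticMap.polarBilin Q).Nondegenerate)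
    (hΔ : ∀ x, Δ x x = Q x) (g : ↥(Cfsg.isometryGroup F (⇑Q))) :
    ((dkG Q e Δ h2 hQ hΔ g : Matrix.GeneralLinearGroup (Fin n ⊕ Fin n) F) :
      Matrix (Fin n ⊕ Fin n) (Fin n ⊕ Fin n) F)
      = dkM Q e Δ h2 hQ ((g : Matrix.GeneralLinearGroup ι F) : Matrix ι ι F) := rfl

/-- The embedding `g ↦ diag(g, 1)` into the isometry group of the hyperbolic form. -/
noncomputable def dkHom (h2 : (2 : F) = 0) (hQ : (QuadraticMap.polarBilin Q).Nondegenerate)
    (hΔ : ∀ x, Δ x x = Q x) :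
    ↥(Cfsg.isometryGroup F (⇑Q)) →* ↥(Cfsg.isometryGroup F (⇑(qfPlus n F))) where
  toFun := dkG Q e Δ h2 hQ hΔ
  map_one' := by
    apply isomG_ext (qfPlus n F)
    rw [dkG_coe, isomG_one_coe, isomG_one_coe, dkM_one]
  map_mul' g h := by
    apply isomG_ext (qfPlus n F)
    rw [dkG_coe, isomG_mul_coe, isomG_mul_coe, dkG_coe, dkG_coe, dkM_mul]

theorem dkM_refl (h2 : (2 : F) = 0) (hQ : (QuadraticMap.polarBilin Q).Nondegenerate)
    (hΔ : ∀ x, Δ x x = Q x) (v : ι → F) :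
    dkM Q e Δ h2 hQ (Cfsg.reflectionMatrix (⇑Q) v)
      = Cfsg.reflectionMatrix (⇑(qfPlus n F)) (dkT Q e Δ (Sum.elim v 0)) := by
  apply Matrix.mulVec_injective
  funext x
  rw [dkM_mulVec, big_mulVec, refl_mulVec Q v, refl_mulVec (qfPlus n F)]
  set w := (dkE Q e Δ h2 hQ).symm x with hw
  have hx : x = dkT Q e Δ w := by
    rw [hw, ← dkE_apply Q e Δ h2 hQ, LinearEquiv.apply_symm_apply]
  have e1 : ∀ c : F, Sum.elim (w ∘ Sum.inl - c • v) (w ∘ Sum.inr)
      = w - c • (Sum.elim v 0 : ι ⊕ ι → F) := by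
    intro c
    funext i
    rcases i with i | i <;> simp
  have hq : qfPlus n F (dkT Q e Δ (Sum.elim v 0)) = Q v := by
    rw [dkT_quad Q e Δ h2 hΔ]
    simp
  have hp : QuadraticMap.polar (⇑(qfPlus n F)) (dkT Q e Δ (Sum.elim v 0)) (dkT Q e Δ w)
      = QuadraticMap.polar (⇑Q) v (w ∘ Sum.inl) := by
    unfold QuadraticMap.polar
    rw [← map_add, dkT_quad Q e Δ h2 hΔ, dkT_quad Q e Δ h2 hΔ, dkT_quad Q e Δ h2 hΔ]
    have e2 : ((Sum.elim v 0 : ι ⊕ ι → F) + w) ∘ Sum.inl = v + w ∘ Sum.inl := by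
      funext i
      simp
    have e3 : ((Sum.elim v 0 : ι ⊕ ι → F) + w) ∘ Sum.inr = w ∘ Sum.inr := by
      funext i
      simp
    rw [e2, e3]
    simp
    ring
  rw [← hx] at hp
  rw [e1, map_sub, map_smul, dkE_apply, dkE_apply, ← hx, hq, hp]

/-- A Dickson-type homomorphism in characteristic two: value `1` on every reflection. -/
theorem exists_dickson_hom (h2 : (2 : F) = 0)
    (hQ : (QuadraticMap.polarBilin Q).Nondegenerate) :
    ∃ D : ↥(Cfsg.isometryGroup F (⇑Q)) →* Multiplicative F,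
      ∀ (v : ι → F) (hv : Q v ≠ 0), D (reflG Q v hv) = Multiplicative.ofAdd 1 := by
  obtain ⟨Δ, hΔ'⟩ := LinearMap.BilinMap.toQuadraticMap_surjective Q
  have hΔ : ∀ x, Δ x x = Q x := by
    intro x
    rw [← hΔ']
    rfl
  refine ⟨(dicksonHom (m := Fintype.card ι) h2).comp
    (dkHom Q (Fintype.equivFin ι) Δ h2 hQ hΔ), ?_⟩
  intro v hv
  show Multiplicative.ofAdd (dicksonT (dkM Q (Fintype.equivFin ι) Δ h2 hQ
    (Cfsg.reflectionMatrix (⇑Q) v))) = Multiplicative.ofAdd 1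
  rw [dkM_refl Q (Fintype.equivFin ι) Δ h2 hQ hΔ, dicksonT_refl]
  rw [dkT_quad Q (Fintype.equivFin ι) Δ h2 hΔ]
  simpa using hv

/-- In characteristic two the commutator subgroup of the orthogonal group of a quadratic form
with nondegenerate polar form has index two (the hyperbolic form in dimension four over the
field with two elements excepted). -/
theorem omega_index_char_two [Fintype F] [Nonempty ι] (h2 : (2 : F) = 0)
    (hQ : (QuadraticMap.polarBilin Q).Nondegenerate)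
    (hex : Fintype.card F ≠ 2 ∨ Fintype.card ι ≠ 4) :
    (Cfsg.Omega F (⇑Q)).index = 2 := by
  have : CharP F 2 := charP_two_of_eq h2
  have hex' : (∃ β : F, β ≠ 0 ∧ β ≠ 1) ∨ Fintype.card ι ≠ 4 := by
    rcases hex with h | h
    · exact Or.inl (c2_fin_hex h)
    · exact Or.inr h
  obtain ⟨v0, hv0⟩ : ∃ v : ι → F, Q v ≠ 0 := by
    by_contra hcon
    push Not at hcon
    obtain ⟨i⟩ := ‹Nonempty ι›
    have h1 : (Pi.single i 1 : ι → F) = 0 := by
      apply hQ.1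
      intro y
      rw [QuadraticMap.polarBilin_apply_apply]
      unfold QuadraticMap.polar
      rw [hcon, hcon, hcon]
      simp
    have h3 := congrFun h1 i
    simp at h3
  obtain ⟨D, hD⟩ := exists_dickson_hom Q h2 hQ
  have hle := c2P_le_commutator Q hQ c2_fin_hsq hex'
  rw [Subgroup.index_eq_two_iff]
  refine ⟨reflG Q v0 hv0, ?_⟩
  intro g
  have hgen := fin_cartan_dieudonne Q hQ hex g
  have hker : ∀ x ∈ Cfsg.Omega F (⇑Q), D x = 1 := by
    intro x hx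
    have := Abelianization.commutator_subset_ker D hx
    rwa [MonoidHom.mem_ker] at this
  have hnot : ¬ (g ∈ Cfsg.Omega F (⇑Q) ∧ g * reflG Q v0 hv0 ∈ Cfsg.Omega F (⇑Q)) := by
    rintro ⟨h1, h3⟩
    have e3 := hker _ h3
    rw [map_mul, hker _ h1, one_mul, hD] at e3
    have e4 : (1 : F) = 0 := by
      have := congrArg Multiplicative.toAdd e3
      simp at this
    exact one_ne_zero e4
  rcases cd_parity Q (reflG Q v0 hv0) ⟨_, hv0, rfl⟩ g hgen with h1 | h1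
  · exact Or.inr ⟨hle h1, fun h => hnot ⟨hle h1, h⟩⟩
  · exact Or.inl ⟨hle h1, fun h => hnot ⟨h, hle h1⟩⟩

end DicksonGen

end Cfsg.Agent.Lib.Helper3
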