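import Mathlib
import Cfsg.Agent.Lib.Helper16.SpinIndex
import Cfsg.Agent.Lib.Helper3.DicksonGen

/-!
Orthogonal direct sums `Q₁ ⊕ Q₂`: the embedding `g ↦ diag(g, 1)` of isometry groups and the
fact that it reflects membership in the commutator subgroup (all characteristics).
-/

set_option autoImplicit false

namespace Cfsg.Agent.Lib.Helper3

open Cfsg.Agent.Lib.Helper16 Cfsg.Agent.Lib.Helper17 Matrix

section DicksonMem

variable {ι : Type} [Fintype ι] [DecidableEq ι] {F : Type*} [Field F]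
variable (Q : QuadraticForm F (ι → F))

/-- In characteristic two, the kernel of a Dickson-type homomorphism is the commutator
subgroup. -/
theorem mem_omega_of_dickson [Fintype F] [Nonempty ι] (h2 : (2 : F) = 0)
    (hQ : (QuadraticMap.polarBilin Q).Nondegenerate)
    (hex : Fintype.card F ≠ 2 ∨ Fintype.card ι ≠ 4)
    (D : ↥(Cfsg.isometryGroup F (⇑Q)) →* Multiplicative F)
    (hD : ∀ (v : ι → F) (hv : Q v ≠ 0), D (reflG Q v hv) = Multiplicative.ofAdd 1)
    (g : ↥(Cfsg.isometryGroup F (⇑Q))) (hg : D g = 1) : g ∈ Cfsg.Omega F (⇑Q) := by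
  have : CharP F 2 := charP_two_of_eq h2
  have hex' : (∃ β : F, β ≠ 0 ∧ β ≠ 1) ∨ Fintype.card ι ≠ 4 := by
    rcases hex with h | h
    · exact Or.inl (c2_fin_hex h)
    · exact Or.inr h
  obtain ⟨v0, hv0⟩ : ∃ v : ι → F, Q v ≠ 0 := by
    by_contra hcon
    push Not at hcon
    obtain ⟨i⟩ := ‹Nonempty ι›
    have h1 : (Pi.single i 1 : ι → F) = 0 := by
      apply hQ.1
      intro y
      rw [QuadraticMap.polarBilin_apply_apply]
      unfold QuadraticMap.polar
      rw [hcon, hcon, hcon]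
      simp
    have h3 := congrFun h1 i
    simp at h3
  have hle := c2P_le_commutator Q hQ c2_fin_hsq hex'
  have hgen := fin_cartan_dieudonne Q hQ hex g
  rcases cd_parity Q (reflG Q v0 hv0) ⟨_, hv0, rfl⟩ g hgen with h1 | h1
  · exact hle h1
  · exfalso
    have e3 := Abelianization.commutator_subset_ker D (hle h1)
    rw [MonoidHom.mem_ker, map_mul, hg, one_mul, hD] at e3
    have e4 : (1 : F) = 0 := by
      have := congrArg Multiplicative.toAdd e3
      simp at this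
    exact one_ne_zero e4

end DicksonMem

section OrthSum

variable {ι₁ ι₂ : Type} [Fintype ι₁] [DecidableEq ι₁] [Fintype ι₂] [DecidableEq ι₂]
variable {F : Type*} [Field F]
variable (Q₁ : QuadraticForm F (ι₁ → F)) (Q₂ : QuadraticForm F (ι₂ → F))

/-- The orthogonal direct sum of two quadratic forms. -/
noncomputable def osum : QuadraticForm F (ι₁ ⊕ ι₂ → F) :=
  Q₁.comp (LinearMap.funLeft F F Sum.inl) + Q₂.comp (LinearMap.funLeft F F Sum.inr)

theorem osum_apply (v : ι₁ ⊕ ι₂ → F) :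
    osum Q₁ Q₂ v = Q₁ (v ∘ Sum.inl) + Q₂ (v ∘ Sum.inr) := rfl

theorem osum_polar (x y : ι₁ ⊕ ι₂ → F) :
    QuadraticMap.polar (⇑(osum Q₁ Q₂)) x y
      = QuadraticMap.polar (⇑Q₁) (x ∘ Sum.inl) (y ∘ Sum.inl)
        + QuadraticMap.polar (⇑Q₂) (x ∘ Sum.inr) (y ∘ Sum.inr) := by
  unfold QuadraticMap.polar
  simp only [osum_apply]
  have e1 : (x + y) ∘ Sum.inl = x ∘ Sum.inl + y ∘ (Sum.inl : ι₁ → ι₁ ⊕ ι₂) := rfl
  have e2 : (x + y) ∘ Sum.inr = x ∘ Sum.inr + y ∘ (Sum.inr : ι₂ → ι₁ ⊕ ι₂) := rfl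
  rw [e1, e2]
  ring

theorem osum_nondeg (h₁ : (QuadraticMap.polarBilin Q₁).Nondegenerate)
    (h₂ : (QuadraticMap.polarBilin Q₂).Nondegenerate) :
    (QuadraticMap.polarBilin (osum Q₁ Q₂)).Nondegenerate := by
  apply nondeg_of_sepLeft
  intro x hx
  have e1 : x ∘ Sum.inl = 0 := by
    apply h₁.1
    intro y
    rw [QuadraticMap.polarBilin_apply_apply, QuadraticMap.polar_comm]
    have := hx (Sum.elim y 0)
    rw [osum_polar] at this
    simpa using this
  have e2 : x ∘ Sum.inr = 0 := by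
    apply h₂.1
    intro y
    rw [QuadraticMap.polarBilin_apply_apply, QuadraticMap.polar_comm]
    have := hx (Sum.elim 0 y)
    rw [osum_polar] at this
    simpa using this
  funext i
  rcases i with i | i
  · exact congrFun e1 i
  · exact congrFun e2 i

omit [DecidableEq ι₁] in
theorem big_mulVec' (G : Matrix ι₁ ι₁ F) (w : ι₁ ⊕ ι₂ → F) :
    Matrix.fromBlocks G 0 0 (1 : Matrix ι₂ ι₂ F) *ᵥ w
      = Sum.elim (G *ᵥ (w ∘ Sum.inl)) (w ∘ Sum.inr) := by
  conv_lhs => rw [← Sum.elim_comp_inl_inr w]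
  rw [Matrix.fromBlocks_mulVec]
  simp

theorem osum_refl (v : ι₁ → F) :
    Cfsg.reflectionMatrix (⇑(osum Q₁ Q₂)) (Sum.elim v 0)
      = Matrix.fromBlocks (Cfsg.reflectionMatrix (⇑Q₁) v) 0 0 1 := by
  apply Matrix.mulVec_injective
  funext x
  rw [big_mulVec', refl_mulVec (osum Q₁ Q₂), refl_mulVec Q₁, osum_apply, osum_polar]
  simp only [Sum.elim_comp_inl, Sum.elim_comp_inr, map_zero, add_zero,
    QuadraticMap.polar_zero_left]
  funext i
  rcases i with i | i <;> simp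

/-- The isometry `diag(g, 1)` of the orthogonal sum. -/
noncomputable def osumG (g : ↥(Cfsg.isometryGroup F (⇑Q₁))) :
    ↥(Cfsg.isometryGroup F (⇑(osum Q₁ Q₂))) :=
  ⟨⟨Matrix.fromBlocks ((g : Matrix.GeneralLinearGroup ι₁ F) : Matrix ι₁ ι₁ F) 0 0 1,
    Matrix.fromBlocks (((g : Matrix.GeneralLinearGroup ι₁ F)⁻¹ : Matrix.GeneralLinearGroup ι₁ F) :
      Matrix ι₁ ι₁ F) 0 0 1,
    by rw [Matrix.fromBlocks_multiply]; simp [Matrix.fromBlocks_one],
    by rw [Matrix.fromBlocks_multiply]; simp [Matrix.fromBlocks_one]⟩,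
    (Cfsg.Agent.Lib.Helper16.mem_isometryGroup_iff (osum Q₁ Q₂) _).2 (fun x => by
      show osum Q₁ Q₂ (Matrix.fromBlocks ((g : Matrix.GeneralLinearGroup ι₁ F) :
        Matrix ι₁ ι₁ F) 0 0 1 *ᵥ x) = _
      rw [big_mulVec', osum_apply, osum_apply, Sum.elim_comp_inl, Sum.elim_comp_inr,
        isomG_map])⟩

theorem osumG_coe (g : ↥(Cfsg.isometryGroup F (⇑Q₁))) :
    ((osumG Q₁ Q₂ g : Matrix.GeneralLinearGroup (ι₁ ⊕ ι₂) F) : Matrix (ι₁ ⊕ ι₂) (ι₁ ⊕ ι₂) F)
      = Matrix.fromBlocks ((g : Matrix.GeneralLinearGroup ι₁ F) : Matrix ι₁ ι₁ F) 0 0 1 := rfl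

/-- `g ↦ diag(g, 1)` as a homomorphism. -/
noncomputable def osumHom :
    ↥(Cfsg.isometryGroup F (⇑Q₁)) →* ↥(Cfsg.isometryGroup F (⇑(osum Q₁ Q₂))) where
  toFun := osumG Q₁ Q₂
  map_one' := by
    apply isomG_ext (osum Q₁ Q₂)
    rw [osumG_coe, isomG_one_coe, isomG_one_coe, Matrix.fromBlocks_one]
  map_mul' g h := by
    apply isomG_ext (osum Q₁ Q₂)
    rw [osumG_coe, isomG_mul_coe, isomG_mul_coe, osumG_coe, osumG_coe, Matrix.fromBlocks_multiply]
    simp

theorem osum_mem_of_mem (g : ↥(Cfsg.isometryGroup F (⇑Q₁)))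
    (hg : g ∈ Cfsg.Omega F (⇑Q₁)) : osumG Q₁ Q₂ g ∈ Cfsg.Omega F (⇑(osum Q₁ Q₂)) := by
  have h1 : (commutator ↥(Cfsg.isometryGroup F (⇑Q₁))).map (osumHom Q₁ Q₂)
      ≤ commutator ↥(Cfsg.isometryGroup F (⇑(osum Q₁ Q₂))) := by
    rw [commutator_def, Subgroup.map_commutator, commutator_def]
    exact Subgroup.commutator_mono le_top le_top
  exact h1 (Subgroup.mem_map_of_mem _ hg)

omit [DecidableEq ι₁] [Fintype ι₁] in
theorem fromBlocks_list_prod [Fintype ι₁] [DecidableEq ι₁] (l : List (Matrix ι₁ ι₁ F)) :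
    (l.map (fun A => Matrix.fromBlocks A 0 0 (1 : Matrix ι₂ ι₂ F))).prod
      = Matrix.fromBlocks l.prod 0 0 1 := by
  induction l with
  | nil => simp [Matrix.fromBlocks_one]
  | cons a l ih =>
    rw [List.map_cons, List.prod_cons, ih, Matrix.fromBlocks_multiply, List.prod_cons]
    simp

/-- `diag(g, 1) ∈ Ω(Q₁ ⊕ Q₂)` iff `g ∈ Ω(Q₁)`. -/
theorem osum_mem_omega_iff [Fintype F] (hex₁ : Fintype.card F ≠ 2 ∨ Fintype.card ι₁ ≠ 4)
    (h₁ : (QuadraticMap.polarBilin Q₁).Nondegenerate)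
    (h₂ : (QuadraticMap.polarBilin Q₂).Nondegenerate) (g₁ : ↥(Cfsg.isometryGroup F (⇑Q₁))) :
    osumG Q₁ Q₂ g₁ ∈ Cfsg.Omega F (⇑(osum Q₁ Q₂)) ↔ g₁ ∈ Cfsg.Omega F (⇑Q₁) := by
  refine ⟨fun hmem => ?_, osum_mem_of_mem Q₁ Q₂ g₁⟩
  have hQ := osum_nondeg Q₁ Q₂ h₁ h₂
  by_cases h2 : (2 : F) = 0
  · rcases isEmpty_or_nonempty ι₁ with he | hne
    · have : g₁ = 1 := isomG_ext Q₁ (Subsingleton.elim _ _)
      rw [this]
      exact one_mem _
    obtain ⟨D, hD⟩ := exists_dickson_hom (osum Q₁ Q₂) h2 hQ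
    obtain ⟨D₁, hD₁⟩ := exists_dickson_hom Q₁ h2 h₁
    have hcomp : D.comp (osumHom Q₁ Q₂) = D₁ := by
      apply MonoidHom.eq_of_eqOn_dense (s := cdR Q₁)
      · rw [eq_top_iff]
        intro g _
        exact fin_cartan_dieudonne Q₁ h₁ hex₁ g
      · intro r hr
        obtain ⟨v, hv, hrv⟩ := hr
        have e1 : r = reflG Q₁ v hv := isomG_ext Q₁ hrv
        have hv' : osum Q₁ Q₂ (Sum.elim v 0) ≠ 0 := by
          rw [osum_apply]
          simpa using hv
        have e2 : osumG Q₁ Q₂ (reflG Q₁ v hv) = reflG (osum Q₁ Q₂) (Sum.elim v 0) hv' := by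
          apply isomG_ext (osum Q₁ Q₂)
          rw [reflG_coe, osum_refl]
          rfl
        show D (osumG Q₁ Q₂ r) = D₁ r
        rw [e1, e2, hD, hD₁]
    have h1 : D₁ g₁ = 1 := by
      rw [← hcomp]
      have := Abelianization.commutator_subset_ker D hmem
      rwa [MonoidHom.mem_ker] at this
    exact mem_omega_of_dickson Q₁ h2 h₁ hex₁ D₁ hD₁ g₁ h1
  · by_cases hn : 2 ≤ Fintype.card ι₁
    · obtain ⟨vs, hvs, hg⟩ := exists_refl_list_matrix Q₁ h2 h₁ g₁
      rw [spinor_criterion Q₁ h2 h₁ hn g₁ vs hvs hg]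
      have key := (spinor_criterion (osum Q₁ Q₂) h2 hQ (by
          rw [Fintype.card_sum]
          omega) (osumG Q₁ Q₂ g₁)
        (vs.map (fun v => (Sum.elim v 0 : ι₁ ⊕ ι₂ → F)))
        (by
          intro v hv
          obtain ⟨v', hv', rfl⟩ := List.mem_map.1 hv
          rw [osum_apply]
          simpa using hvs v' hv')
        (by
          rw [osumG_coe, hg, List.map_map, ← fromBlocks_list_prod, List.map_map]
          congr 1
          apply List.map_congr_left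
          intro v _
          simp only [Function.comp_apply]
          rw [osum_refl])).1 hmem
      rw [List.length_map, List.map_map] at key
      have e3 : (vs.map ((fun v => osum Q₁ Q₂ v) ∘ fun v => (Sum.elim v 0 : ι₁ ⊕ ι₂ → F)))
          = vs.map (fun v => Q₁ v) := by
        apply List.map_congr_left
        intro v _
        simp only [Function.comp_apply]
        rw [osum_apply]
        simp
      rw [e3] at key
      exact key
    · have hsub : Subsingleton ι₁ := Fintype.card_le_one_iff_subsingleton.1 (by omega)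
      have hdet := det_of_mem_omega (osum Q₁ Q₂) hmem
      rw [osumG_coe, Matrix.det_fromBlocks_zero₁₂, Matrix.det_one, mul_one] at hdet
      have : g₁ = 1 := by
        apply isomG_ext Q₁
        ext i j
        have hij : i = j := Subsingleton.elim i j
        subst hij
        have e5 := Matrix.det_eq_elem_of_subsingleton
          ((g₁ : Matrix.GeneralLinearGroup ι₁ F) : Matrix ι₁ ι₁ F) i
        rw [isomG_one_coe, Matrix.one_apply_eq, ← e5, hdet]
      rw [this]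
      exact one_mem _

end OrthSum

end Cfsg.Agent.Lib.Helper3
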