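import Mathlib
import Cfsg.Prelude.Def_SporadicB
import Cfsg.Agent.Lib.Helper16.SpinCrit
import Cfsg.Agent.Lib.Helper17.CDChar2App
import Cfsg.Agent.Lib.Helper3.OmegaCenter

/-!
Orthogonal transvections over the field with two elements: the isometries `g` with `g - 1` of
rank one are exactly the reflections, and they form a generating conjugacy class of
3-transpositions.
-/

set_option autoImplicit false

namespace Cfsg.Agent.Lib.Helper3

open Cfsg.Agent.Lib.Helper16 Cfsg.Agent.Lib.Helper17 Matrix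

section Rank

variable {ι : Type} [Fintype ι] [DecidableEq ι] {F : Type*} [Field F]
variable (Q : QuadraticForm F (ι → F))

theorem refl_sub_one_mulVec (v x : ι → F) :
    (Cfsg.reflectionMatrix (⇑Q) v - 1) *ᵥ x
      = (-((Q v)⁻¹ * QuadraticMap.polar (⇑Q) v x)) • v := by
  rw [Matrix.sub_mulVec, refl_mulVec, Matrix.one_mulVec, neg_smul]
  abel

theorem rank_refl_sub_one (hQ : (QuadraticMap.polarBilin Q).Nondegenerate) (v : ι → F)
    (hv : Q v ≠ 0) : (Cfsg.reflectionMatrix (⇑Q) v - 1).rank = 1 := by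
  have hv0 : v ≠ 0 := by
    rintro rfl
    exact hv (map_zero Q)
  unfold Matrix.rank
  rw [finrank_eq_one_iff']
  obtain ⟨y, hy⟩ : ∃ y, QuadraticMap.polar (⇑Q) v y ≠ 0 := by
    by_contra hcon
    push Not at hcon
    exact hv0 (hQ.1 v (fun y => by rw [QuadraticMap.polarBilin_apply_apply]; exact hcon y))
  refine ⟨⟨v, ?_⟩, ?_, ?_⟩
  · rw [LinearMap.mem_range]
    refine ⟨(-(Q v) * (QuadraticMap.polar (⇑Q) v y)⁻¹) • y, ?_⟩
    rw [Matrix.mulVecLin_apply, refl_sub_one_mulVec, QuadraticMap.polar_smul_right, smul_eq_mul]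
    have : -((Q v)⁻¹ * (-(Q v) * (QuadraticMap.polar (⇑Q) v y)⁻¹ * QuadraticMap.polar (⇑Q) v y))
        = 1 := by
      have h1 : (QuadraticMap.polar (⇑Q) v y)⁻¹ * QuadraticMap.polar (⇑Q) v y = 1 :=
        inv_mul_cancel₀ hy
      have h2 : (Q v)⁻¹ * Q v = 1 := inv_mul_cancel₀ hv
      linear_combination (Q v)⁻¹ * Q v * h1 + h2
    rw [this, one_smul]
  · intro h
    exact hv0 (congrArg Subtype.val h)
  · rintro ⟨w, hw⟩
    rw [LinearMap.mem_range] at hw
    obtain ⟨x, rfl⟩ := hw
    refine ⟨-((Q v)⁻¹ * QuadraticMap.polar (⇑Q) v x), ?_⟩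
    apply Subtype.ext
    show (-((Q v)⁻¹ * QuadraticMap.polar (⇑Q) v x)) • v
      = (Cfsg.reflectionMatrix (⇑Q) v - 1) *ᵥ x
    rw [refl_sub_one_mulVec]

end Rank

section Two

variable {ι : Type} [Fintype ι] [DecidableEq ι]
variable (Q : QuadraticForm (ZMod 2) (ι → ZMod 2))

theorem zmod2_cases : ∀ a : ZMod 2, a = 0 ∨ a = 1 := by
  decide

/-- Over the field with two elements an isometry `g` with `g - 1` of rank one is a reflection. -/
theorem eq_refl_of_rank_one (hQ : (QuadraticMap.polarBilin Q).Nondegenerate)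
    (g : ↥(Cfsg.isometryGroup (ZMod 2) (⇑Q)))
    (hg : (((g : Matrix.GeneralLinearGroup ι (ZMod 2)) : Matrix ι ι (ZMod 2)) - 1).rank = 1) :
    ∃ (v : ι → ZMod 2) (hv : Q v ≠ 0), g = reflG Q v hv := by
  set G := ((g : Matrix.GeneralLinearGroup ι (ZMod 2)) : Matrix ι ι (ZMod 2)) with hG
  unfold Matrix.rank at hg
  rw [finrank_eq_one_iff'] at hg
  obtain ⟨⟨w, hwr⟩, hw0, hall⟩ := hg
  have hw0' : w ≠ 0 := fun h => hw0 (Subtype.ext h)
  have hc : ∀ x : ι → ZMod 2, ∃ c : ZMod 2, (G - 1) *ᵥ x = c • w := by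
    intro x
    obtain ⟨c, hc⟩ := hall ⟨(G - 1) *ᵥ x, LinearMap.mem_range.2 ⟨x, rfl⟩⟩
    exact ⟨c, (congrArg Subtype.val hc).symm⟩
  choose c hc using hc
  have hGx : ∀ x, G *ᵥ x = x + c x • w := by
    intro x
    have := hc x
    rw [Matrix.sub_mulVec, Matrix.one_mulVec] at this
    rw [← this]
    abel
  have hadd : ∀ x y, c (x + y) = c x + c y := by
    intro x y
    have h1 := hc (x + y)
    rw [Matrix.mulVec_add, hc x, hc y, ← add_smul] at h1
    obtain ⟨i, hi⟩ : ∃ i, w i ≠ 0 := by
      by_contra h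
      push Not at h
      exact hw0' (funext h)
    have := congrFun h1 i
    simp only [Pi.smul_apply, smul_eq_mul] at this
    exact (mul_right_cancel₀ hi this).symm
  have hiso : ∀ x, c x * c x * Q w + c x * QuadraticMap.polar (⇑Q) x w = 0 := by
    intro x
    have := isomG_map Q g x
    rw [← hG, hGx, QuadraticMap.map_add (⇑Q), QuadraticMap.map_smul,
      QuadraticMap.polar_smul_right] at this
    simp only [smul_eq_mul] at this
    linear_combination this
  obtain ⟨x₀, hx₀⟩ : ∃ x₀, c x₀ = 1 := by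
    obtain ⟨y, hy⟩ := LinearMap.mem_range.1 hwr
    rw [Matrix.mulVecLin_apply, hc y] at hy
    refine ⟨y, ?_⟩
    rcases zmod2_cases (c y) with h | h
    · rw [h, zero_smul] at hy
      exact absurd hy.symm hw0'
    · exact h
  have hQw : Q w = 1 := by
    rcases zmod2_cases (Q w) with h | h
    · exfalso
      have h1 : ∀ x, c x = 1 → QuadraticMap.polar (⇑Q) x w = 0 := by
        intro x hx
        have := hiso x
        rw [hx, h] at this
        simpa using this
      have hB : ∀ x, QuadraticMap.polar (⇑Q) x w = 0 := by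
        intro x
        rcases zmod2_cases (c x) with hx | hx
        · have h2 := h1 (x + x₀) (by rw [hadd, hx, hx₀, zero_add])
          rw [QuadraticMap.polar_add_left, h1 x₀ hx₀, add_zero] at h2
          exact h2
        · exact h1 x hx
      exact hw0' (hQ.1 w (fun y => by
        rw [QuadraticMap.polarBilin_apply_apply, QuadraticMap.polar_comm]
        exact hB y))
    · exact h
  have h1 : ∀ x, c x = 1 → QuadraticMap.polar (⇑Q) x w = 1 := by
    intro x hx
    have := hiso x
    rw [hx, hQw] at this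
    rcases zmod2_cases (QuadraticMap.polar (⇑Q) x w) with h | h
    · rw [h] at this
      simp at this
    · exact h
  have hcB : ∀ x, c x = QuadraticMap.polar (⇑Q) x w := by
    intro x
    rcases zmod2_cases (c x) with hx | hx
    · have h2 := h1 (x + x₀) (by rw [hadd, hx, hx₀, zero_add])
      rw [QuadraticMap.polar_add_left, h1 x₀ hx₀] at h2
      rw [hx]
      exact (add_eq_right.1 h2).symm
    · rw [hx, h1 x hx]
  refine ⟨w, by rw [hQw]; exact one_ne_zero, ?_⟩
  apply isomG_ext
  apply Matrix.mulVec_injective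
  funext x
  rw [reflG_coe, ← hG, hGx, refl_mulVec, hQw, hcB, QuadraticMap.polar_comm]
  funext i
  simp [CharTwo.sub_eq_add]

/-- The orthogonal transvections over the field with two elements form a generating conjugacy
class of 3-transpositions (dimension four excluded). -/
theorem transv_class [Nonempty ι] (hQ : (QuadraticMap.polarBilin Q).Nondegenerate)
    (hcard : Fintype.card ι ≠ 4) :
    Cfsg.IsThreeTranspositionClass {g : ↥(Cfsg.isometryGroup (ZMod 2) (⇑Q)) |
      (((g : Matrix.GeneralLinearGroup ι (ZMod 2)) : Matrix ι ι (ZMod 2)) - 1).rank = 1} := by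
  have hD : ∀ g : ↥(Cfsg.isometryGroup (ZMod 2) (⇑Q)),
      (((g : Matrix.GeneralLinearGroup ι (ZMod 2)) : Matrix ι ι (ZMod 2)) - 1).rank = 1
        ↔ ∃ (v : ι → ZMod 2) (hv : Q v ≠ 0), g = reflG Q v hv := by
    intro g
    constructor
    · exact eq_refl_of_rank_one Q hQ g
    · rintro ⟨v, hv, rfl⟩
      exact rank_refl_sub_one Q hQ v hv
  have hQ1 : ∀ v, Q v ≠ 0 → Q v = 1 := fun v hv => (zmod2_cases (Q v)).resolve_left hv
  have hconj : ∀ (a b : ι → ZMod 2) (ha : Q a ≠ 0) (hb : Q b ≠ 0)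
      (hab' : Q (Cfsg.reflectionMatrix (⇑Q) a *ᵥ b) ≠ 0),
      reflG Q a ha * reflG Q b hb * reflG Q a ha
        = reflG Q (Cfsg.reflectionMatrix (⇑Q) a *ᵥ b) hab' := by
    intro a b ha hb hab'
    have := refl_conj Q (reflG Q a ha) b hb hab'
    rwa [reflG_inv] at this
  refine ⟨⟨?_, ?_⟩, ?_, ?_⟩
  · intro d hd
    obtain ⟨v, hv, rfl⟩ := (hD d).1 hd
    apply orderOf_eq_prime
    · rw [pow_two]
      exact reflG_mul_self Q v hv
    · intro h1
      have := rank_refl_sub_one Q hQ v hv
      rw [← reflG_coe Q v hv, h1, isomG_one_coe, sub_self, Matrix.rank_zero] at this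
      exact zero_ne_one this
  · intro d hd e he
    obtain ⟨u, hu, rfl⟩ := (hD d).1 hd
    obtain ⟨v, hv, rfl⟩ := (hD e).1 he
    rcases zmod2_cases (QuadraticMap.polar (⇑Q) u v) with h0 | h1
    · left
      have e1 : Cfsg.reflectionMatrix (⇑Q) u *ᵥ v = v := by
        rw [refl_mulVec, h0]
        simp
      have h4 : reflG Q u hu * reflG Q v hv * reflG Q u hu = reflG Q v hv := by
        rw [hconj u v hu hv (by rw [e1]; exact hv)]
        apply isomG_ext
        rw [reflG_coe, reflG_coe, e1]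
      rw [pow_two, ← mul_assoc, h4, reflG_mul_self]
    · right
      have e1 : Cfsg.reflectionMatrix (⇑Q) u *ᵥ v = u + v := by
        rw [refl_mulVec, h1, hQ1 u hu]
        funext i
        simp [CharTwo.sub_eq_add, add_comm]
      have e2 : Cfsg.reflectionMatrix (⇑Q) v *ᵥ u = u + v := by
        rw [refl_mulVec, QuadraticMap.polar_comm, h1, hQ1 v hv]
        funext i
        simp [CharTwo.sub_eq_add]
      have huv : Q (u + v) ≠ 0 := by
        rw [← e1]
        have := isomG_map Q (reflG Q u hu) v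
        rw [reflG_coe] at this
        rw [this]
        exact hv
      have h3 : reflG Q u hu * reflG Q v hv * reflG Q u hu = reflG Q (u + v) huv := by
        rw [hconj u v hu hv (by rw [e1]; exact huv)]
        apply isomG_ext
        rw [reflG_coe, reflG_coe, e1]
      have h4 : reflG Q v hv * reflG Q u hu * reflG Q v hv = reflG Q (u + v) huv := by
        rw [hconj v u hv hu (by rw [e2]; exact huv)]
        apply isomG_ext
        rw [reflG_coe, reflG_coe, e2]
      have e5 : (reflG Q u hu * reflG Q v hv) ^ 3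
          = (reflG Q u hu * reflG Q v hv * reflG Q u hu)
            * (reflG Q v hv * reflG Q u hu * reflG Q v hv) := by
        simp only [pow_succ, pow_zero, one_mul, mul_assoc]
      rw [e5, h3, h4, reflG_mul_self]
  · obtain ⟨v0, hv0⟩ : ∃ v : ι → ZMod 2, Q v ≠ 0 := by
      by_contra hcon
      push Not at hcon
      obtain ⟨i⟩ := ‹Nonempty ι›
      have h1 : (Pi.single i 1 : ι → ZMod 2) = 0 := by
        apply hQ.1
        intro y
        rw [QuadraticMap.polarBilin_apply_apply]
        unfold QuadraticMap.polar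
        rw [hcon, hcon, hcon]
        simp
      have h3 := congrFun h1 i
      simp at h3
    refine ⟨reflG Q v0 hv0, (hD _).2 ⟨v0, hv0, rfl⟩, ?_⟩
    ext g
    rw [Set.mem_ofPred_eq, hD]
    show _ ↔ IsConj (reflG Q v0 hv0) g
    rw [isConj_iff]
    constructor
    · rintro ⟨v, hv, rfl⟩
      obtain ⟨ρ, -, hρ⟩ := c2_trans Q hQ (Or.inr hcard) v0 v (by rw [hQ1 v0 hv0, hQ1 v hv]) hv0
      refine ⟨ρ, ?_⟩
      have hv' : Q (((ρ : Matrix.GeneralLinearGroup ι (ZMod 2)) : Matrix ι ι (ZMod 2)) *ᵥ v0)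
          ≠ 0 := by
        rw [isomG_map]
        exact hv0
      rw [refl_conj Q ρ v0 hv0 hv']
      apply isomG_ext
      rw [reflG_coe, reflG_coe]
      congr 1
    · rintro ⟨c, rfl⟩
      have hv' : Q (((c : Matrix.GeneralLinearGroup ι (ZMod 2)) : Matrix ι ι (ZMod 2)) *ᵥ v0)
          ≠ 0 := by
        rw [isomG_map]
        exact hv0
      rw [refl_conj Q c v0 hv0 hv']
      exact ⟨_, hv', rfl⟩
  · rw [eq_top_iff]
    intro g _
    have := fin_cartan_dieudonne Q hQ (Or.inr hcard) g
    refine Subgroup.closure_mono ?_ this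
    intro r hr
    obtain ⟨v, hv, hrv⟩ := hr
    exact (hD r).2 ⟨v, hv, isomG_ext Q hrv⟩

end Two

end Cfsg.Agent.Lib.Helper3
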