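import Mathlib
import Cfsg.Agent.Lib.Helper3.Transv2
import Cfsg.Agent.Lib.Helper3.OrthSum
import Cfsg.Agent.Lib.Helper3.DicksonGen

/-!
The Dickson invariant is the parity of `rank (g - 1)`: multiplying an isometry by a reflection
changes `rank (g - 1)` by exactly one.  Consequence (characteristic two): an isometry lies in
the commutator subgroup iff `rank (g - 1)` is even.
-/

set_option autoImplicit false

namespace Cfsg.Agent.Lib.Helper3

open Cfsg.Agent.Lib.Helper16 Cfsg.Agent.Lib.Helper17 Matrix

section RankParity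

variable {ι : Type} [Fintype ι] [DecidableEq ι] {F : Type*} [Field F]

theorem rank_add_le' (A B : Matrix ι ι F) : (A + B).rank ≤ A.rank + B.rank := by
  unfold Matrix.rank
  have h1 : LinearMap.range (A + B).mulVecLin
      ≤ LinearMap.range A.mulVecLin ⊔ LinearMap.range B.mulVecLin := by
    rintro _ ⟨x, rfl⟩
    rw [Matrix.mulVecLin_add, LinearMap.add_apply]
    exact Submodule.add_mem_sup (LinearMap.mem_range_self _ x) (LinearMap.mem_range_self _ x)
  exact (Submodule.finrank_mono h1).trans (Submodule.finrank_add_le_finrank_add_finrank _ _)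

theorem rank_add_ker (A : Matrix ι ι F) :
    A.rank + Module.finrank F (LinearMap.ker A.mulVecLin) = Fintype.card ι := by
  unfold Matrix.rank
  rw [LinearMap.finrank_range_add_finrank_ker, Module.finrank_fintype_fun_eq_card]

variable (Q : QuadraticForm F (ι → F))

/-- If `w = (g - 1) x` is nonsingular then `rank (r_w g - 1) = rank (g - 1) - 1`. -/
theorem rank_refl_mul_of_mem (hQ : (QuadraticMap.polarBilin Q).Nondegenerate)
    (g : ↥(Cfsg.isometryGroup F (⇑Q))) (x : ι → F)
    (hw : Q ((((g : Matrix.GeneralLinearGroup ι F) : Matrix ι ι F) - 1) *ᵥ x) ≠ 0) :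
    (Cfsg.reflectionMatrix (⇑Q) ((((g : Matrix.GeneralLinearGroup ι F) : Matrix ι ι F) - 1) *ᵥ x)
        * ((g : Matrix.GeneralLinearGroup ι F) : Matrix ι ι F) - 1).rank + 1
      = (((g : Matrix.GeneralLinearGroup ι F) : Matrix ι ι F) - 1).rank := by
  set G := ((g : Matrix.GeneralLinearGroup ι F) : Matrix ι ι F) with hG
  set w := (G - 1) *ᵥ x with hwdef
  set R := Cfsg.reflectionMatrix (⇑Q) w with hR
  have hGx : G *ᵥ x = x + w := by
    rw [hwdef, Matrix.sub_mulVec, Matrix.one_mulVec]
    abel
  have hw0 : w ≠ 0 := by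
    intro h
    rw [h, map_zero] at hw
    exact hw rfl
  apply le_antisymm
  · have hlt : LinearMap.ker (G - 1).mulVecLin < LinearMap.ker (R * G - 1).mulVecLin := by
      rw [SetLike.lt_iff_le_and_exists]
      refine ⟨?_, x, ?_, ?_⟩
      · intro y hy
        rw [LinearMap.mem_ker, Matrix.mulVecLin_apply, Matrix.sub_mulVec, Matrix.one_mulVec,
          sub_eq_zero] at hy ⊢
        have h1 : QuadraticMap.polar (⇑Q) (G *ᵥ x) y = QuadraticMap.polar (⇑Q) x y := by
          have := isomG_polar Q g x y
          rw [← hG, hy] at this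
          exact this
        have hB : QuadraticMap.polar (⇑Q) w y = 0 := by
          rw [hwdef, Matrix.sub_mulVec, Matrix.one_mulVec, QuadraticMap.polar_sub_left, h1,
            sub_self]
        rw [← Matrix.mulVec_mulVec, hy, hR, refl_mulVec, hB]
        simp
      · rw [LinearMap.mem_ker, Matrix.mulVecLin_apply, Matrix.sub_mulVec, Matrix.one_mulVec,
          sub_eq_zero, ← Matrix.mulVec_mulVec, hGx, hR, refl_mulVec]
        have h1 := isomG_map Q g x
        rw [← hG, hGx, QuadraticMap.map_add (⇑Q)] at h1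
        have h2 : QuadraticMap.polar (⇑Q) w (x + w) = Q w := by
          rw [QuadraticMap.polar_add_right, QuadraticMap.polar_self, QuadraticMap.polar_comm,
            nsmul_eq_mul]
          push_cast
          linear_combination h1
        rw [h2, inv_mul_cancel₀ hw, one_smul]
        abel
      · rw [LinearMap.mem_ker, Matrix.mulVecLin_apply]
        exact hw0
    have h1 := rank_add_ker (G - 1)
    have h2 := rank_add_ker (R * G - 1)
    have h3 := Submodule.finrank_lt_finrank_of_lt hlt
    omega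
  · have e : G - 1 = R * (R * G - 1) + (R - 1) := by
      rw [Matrix.mul_sub, ← Matrix.mul_assoc, refl_mul_self Q hw, Matrix.one_mul, Matrix.mul_one]
      abel
    have h1 := rank_add_le' (R * (R * G - 1)) (R - 1)
    rw [← e] at h1
    have h2 := Matrix.rank_mul_le_right R (R * G - 1)
    have h3 := rank_refl_sub_one Q hQ w hw
    rw [← hR] at h3
    omega

/-- If the nonsingular `v` is not in the image of `g - 1` then
`rank (r_v g - 1) = rank (g - 1) + 1`. -/
theorem rank_refl_mul_of_not_mem (hQ : (QuadraticMap.polarBilin Q).Nondegenerate)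
    (g : ↥(Cfsg.isometryGroup F (⇑Q))) (v : ι → F) (hv : Q v ≠ 0)
    (hnot : v ∉ LinearMap.range
      (((g : Matrix.GeneralLinearGroup ι F) : Matrix ι ι F) - 1).mulVecLin) :
    (Cfsg.reflectionMatrix (⇑Q) v * ((g : Matrix.GeneralLinearGroup ι F) : Matrix ι ι F) - 1).rank
      = (((g : Matrix.GeneralLinearGroup ι F) : Matrix ι ι F) - 1).rank + 1 := by
  set G := ((g : Matrix.GeneralLinearGroup ι F) : Matrix ι ι F) with hG
  obtain ⟨x, hx, hvx⟩ : ∃ x, G *ᵥ x = x ∧ QuadraticMap.polar (⇑Q) v x ≠ 0 := by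
    by_contra hcon
    push Not at hcon
    apply hnot
    have hrefl : (QuadraticMap.polarBilin Q).IsRefl := by
      intro a b h
      rw [QuadraticMap.polarBilin_apply_apply] at h ⊢
      rw [QuadraticMap.polar_comm]
      exact h
    rw [← LinearMap.BilinForm.orthogonal_orthogonal hQ hrefl
      (LinearMap.range (G - 1).mulVecLin), LinearMap.BilinForm.mem_orthogonal_iff]
    intro y hy
    rw [QuadraticMap.polarBilin_apply_apply, QuadraticMap.polar_comm]
    apply hcon
    rw [LinearMap.BilinForm.mem_orthogonal_iff] at hy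
    have h1 : ∀ z, QuadraticMap.polar (⇑Q) (G *ᵥ z) (y - G *ᵥ y) = 0 := by
      intro z
      have h3 := hy ((G - 1) *ᵥ z) (LinearMap.mem_range_self _ z)
      rw [QuadraticMap.polarBilin_apply_apply, Matrix.sub_mulVec, Matrix.one_mulVec,
        QuadraticMap.polar_sub_left] at h3
      rw [QuadraticMap.polar_sub_right, isomG_polar Q g z y]
      exact h3
    have h4 : y - G *ᵥ y = 0 := by
      apply hQ.2
      intro u
      rw [QuadraticMap.polarBilin_apply_apply]
      have h5 := h1 ((((g⁻¹ : ↥(Cfsg.isometryGroup F (⇑Q))) : Matrix.GeneralLinearGroup ι F) :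
        Matrix ι ι F) *ᵥ u)
      rw [Matrix.mulVec_mulVec, hG, ← isomG_mul_coe, mul_inv_cancel, isomG_one_coe,
        Matrix.one_mulVec] at h5
      exact h5
    exact (sub_eq_zero.1 h4).symm
  have hv0 : v ≠ 0 := by
    rintro rfl
    exact hv (map_zero Q)
  set c := -(Q v) * (QuadraticMap.polar (⇑Q) v x)⁻¹ with hc
  have hG2 : (((reflG Q v hv * g : ↥(Cfsg.isometryGroup F (⇑Q))) :
      Matrix.GeneralLinearGroup ι F) : Matrix ι ι F) = Cfsg.reflectionMatrix (⇑Q) v * G := by
    rw [isomG_mul_coe, reflG_coe]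
  have hx' : (Cfsg.reflectionMatrix (⇑Q) v * G - 1) *ᵥ (c • x) = v := by
    rw [Matrix.mulVec_smul, Matrix.sub_mulVec, Matrix.one_mulVec, ← Matrix.mulVec_mulVec, hx,
      refl_mulVec, sub_sub_cancel_left, smul_neg, smul_smul, hc]
    have : -(Q v) * (QuadraticMap.polar (⇑Q) v x)⁻¹ * ((Q v)⁻¹ * QuadraticMap.polar (⇑Q) v x)
        = -1 := by
      have h1 : (QuadraticMap.polar (⇑Q) v x)⁻¹ * QuadraticMap.polar (⇑Q) v x = 1 :=
        inv_mul_cancel₀ hvx
      have h2 : (Q v)⁻¹ * Q v = 1 := inv_mul_cancel₀ hv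
      linear_combination -(Q v)⁻¹ * Q v * h1 - h2
    rw [this]
    simp
  have key := rank_refl_mul_of_mem Q hQ (reflG Q v hv * g) (c • x) (by
    rw [hG2, hx']
    exact hv)
  rw [hG2, hx', ← Matrix.mul_assoc, refl_mul_self Q hv, Matrix.one_mul] at key
  exact key.symm

/-- Multiplying by a reflection flips the parity of `rank (g - 1)`. -/
theorem rank_refl_mul_parity (hQ : (QuadraticMap.polarBilin Q).Nondegenerate)
    (g : ↥(Cfsg.isometryGroup F (⇑Q))) (v : ι → F) (hv : Q v ≠ 0) :
    Even (Cfsg.reflectionMatrix (⇑Q) v * ((g : Matrix.GeneralLinearGroup ι F) : Matrix ι ι F)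
        - 1).rank
      ↔ ¬ Even (((g : Matrix.GeneralLinearGroup ι F) : Matrix ι ι F) - 1).rank := by
  by_cases hmem : v ∈ LinearMap.range
      (((g : Matrix.GeneralLinearGroup ι F) : Matrix ι ι F) - 1).mulVecLin
  · obtain ⟨x, hx⟩ := hmem
    rw [Matrix.mulVecLin_apply] at hx
    have := rank_refl_mul_of_mem Q hQ g x (by rw [hx]; exact hv)
    rw [hx] at this
    rw [← this, Nat.even_add_one, not_not]
  · rw [rank_refl_mul_of_not_mem Q hQ g v hv hmem, Nat.even_add_one]

theorem cast_parity (h2 : (2 : F) = 0) (n : ℕ) : (n : F) = if Even n then 0 else 1 := by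
  rcases Nat.even_or_odd' n with ⟨k, rfl | rfl⟩
  · rw [if_pos (even_two_mul k)]
    push_cast
    rw [h2, zero_mul]
  · rw [if_neg (by rw [Nat.not_even_iff_odd]; exact odd_two_mul_add_one k)]
    push_cast
    rw [h2, zero_mul, zero_add]

/-- `rank (g - 1)` as an element of the field. -/
noncomputable def rkF (g : ↥(Cfsg.isometryGroup F (⇑Q))) : F :=
  (Matrix.rank (((g : Matrix.GeneralLinearGroup ι F) : Matrix ι ι F) - 1) : ℕ)

/-- A Dickson-type homomorphism computes the parity of `rank (g - 1)` on every product of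
reflections. -/
theorem dickson_eq_rank (h2 : (2 : F) = 0) (hQ : (QuadraticMap.polarBilin Q).Nondegenerate)
    (D : ↥(Cfsg.isometryGroup F (⇑Q)) →* Multiplicative F)
    (hD : ∀ (v : ι → F) (hv : Q v ≠ 0), D (reflG Q v hv) = Multiplicative.ofAdd 1)
    (g : ↥(Cfsg.isometryGroup F (⇑Q))) (hg : g ∈ Subgroup.closure (cdR Q)) :
    D g = Multiplicative.ofAdd (rkF Q g) := by
  have step : ∀ (v : ι → F) (hv : Q v ≠ 0) (y : ↥(Cfsg.isometryGroup F (⇑Q))),
      D y = Multiplicative.ofAdd (rkF Q y) →
      D (reflG Q v hv * y) = Multiplicative.ofAdd (rkF Q (reflG Q v hv * y)) := by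
    intro v hv y ih
    rw [map_mul, hD, ih, ← ofAdd_add]
    congr 1
    unfold rkF
    rw [isomG_mul_coe, reflG_coe]
    have hp := rank_refl_mul_parity Q hQ y v hv
    rw [cast_parity h2, cast_parity h2]
    by_cases he : Even (((y : Matrix.GeneralLinearGroup ι F) : Matrix ι ι F) - 1).rank
    · rw [if_pos he, if_neg (by rw [hp]; exact not_not.2 he), add_zero]
    · rw [if_neg he, if_pos (hp.2 he)]
      linear_combination h2
  induction hg using Subgroup.closure_induction_left with
  | one =>
    unfold rkF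
    rw [map_one, isomG_one_coe, sub_self, Matrix.rank_zero, Nat.cast_zero]
    rfl
  | mul_left r hr y hy ih =>
    obtain ⟨v, hv, hrv⟩ := hr
    have e1 : r = reflG Q v hv := isomG_ext Q hrv
    rw [e1]
    exact step v hv y ih
  | inv_mul_cancel r hr y hy ih =>
    obtain ⟨v, hv, hrv⟩ := hr
    have e1 : r = reflG Q v hv := isomG_ext Q hrv
    have e2 : (reflG Q v hv)⁻¹ = reflG Q v hv := isomG_ext Q rfl
    rw [e1, e2]
    exact step v hv y ih

/-- Characteristic two: an isometry lies in the commutator subgroup iff `rank (g - 1)` is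
even. -/
theorem mem_omega_iff_even_rank [Fintype F] [Nonempty ι] (h2 : (2 : F) = 0)
    (hQ : (QuadraticMap.polarBilin Q).Nondegenerate)
    (hex : Fintype.card F ≠ 2 ∨ Fintype.card ι ≠ 4) (g : ↥(Cfsg.isometryGroup F (⇑Q))) :
    g ∈ Cfsg.Omega F (⇑Q)
      ↔ Even (((g : Matrix.GeneralLinearGroup ι F) : Matrix ι ι F) - 1).rank := by
  obtain ⟨D, hD⟩ := exists_dickson_hom Q h2 hQ
  have hgen := fin_cartan_dieudonne Q hQ hex g
  have hDg := dickson_eq_rank Q h2 hQ D hD g hgen
  unfold rkF at hDg
  rw [cast_parity h2] at hDg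
  constructor
  · intro hmem
    have := Abelianization.commutator_subset_ker D hmem
    rw [MonoidHom.mem_ker, hDg] at this
    by_contra he
    rw [if_neg he] at this
    have e4 : (1 : F) = 0 := by
      have := congrArg Multiplicative.toAdd this
      simp at this
    exact one_ne_zero e4
  · intro he
    apply mem_omega_of_dickson Q h2 hQ hex D hD g
    rw [hDg, if_pos he]
    rfl

end RankParity

end Cfsg.Agent.Lib.Helper3
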