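import Mathlib
import Cfsg.Agent.Lib.Helper3.WreathDL

set_option autoImplicit false

namespace Cfsg.Agent.Lib.Helper3

open RegularWreathProduct

universe u

/-- an injective hom from a `p`-group into a finite group pushes derived-length lower bounds
into every Sylow `p`-subgroup -/
theorem derived_ne_bot_of_injective {W H : Type*} [Group W] [Group H] [Finite H] (p : ℕ)
    [Fact p.Prime] (hW : IsPGroup p W) (f : W →* H) (hf : Function.Injective f) (P : Sylow p H)
    (k : ℕ) (h : derivedSeries W k ≠ ⊥) : derivedSeries ↥(P : Subgroup H) k ≠ ⊥ := by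
  classical
  have hpg : IsPGroup p f.range :=
    IsPGroup.of_surjective hW _ (MonoidHom.rangeRestrict_surjective _)
  obtain ⟨S, hS⟩ := hpg.exists_le_sylow
  obtain ⟨c, hc⟩ := MulAction.exists_smul_eq H S P
  have hmem : ∀ w : W, ((MulAut.conj c).toMonoidHom.comp f) w ∈ (P : Subgroup H) := by
    intro w
    have h1 : f w ∈ (S : Subgroup H) := hS ⟨w, rfl⟩
    have h2 := Subgroup.smul_mem_pointwise_smul _ (MulAut.conj c) _ h1
    rw [← hc, Sylow.coe_subgroup_smul]
    exact h2
  have hψ : Function.Injective (((MulAut.conj c).toMonoidHom.comp f).codRestrict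
      (P : Subgroup H) hmem) := by
    rw [MonoidHom.injective_codRestrict]
    exact (MulAut.conj c).injective.comp hf
  obtain ⟨ψ, hψi⟩ : ∃ ψ : W →* ↥(P : Subgroup H), Function.Injective ψ := ⟨_, hψ⟩
  have key := map_derivedSeries_le_derivedSeries ψ k
  intro h0
  rw [h0, le_bot_iff] at key
  apply h
  rw [eq_bot_iff]
  intro x hx
  have hx' := Subgroup.mem_map_of_mem ψ hx
  rw [key, Subgroup.mem_bot] at hx'
  rw [Subgroup.mem_bot]
  exact hψi (hx'.trans (map_one ψ).symm)

section mats

variable {F : Type*} [Field F]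

/-- reindexing along an equivalence, as a monoid hom -/
def subHom {ι ι' : Type*} [Fintype ι] [DecidableEq ι] [Fintype ι'] [DecidableEq ι'] (ε : ι' ≃ ι) :
    Matrix ι ι F →* Matrix ι' ι' F where
  toFun M := M.submatrix ε ε
  map_one' := Matrix.submatrix_one_equiv ε
  map_mul' M N := (Matrix.submatrix_mul_equiv M N ε ε ε).symm

theorem subHom_injective {ι ι' : Type*} [Fintype ι] [DecidableEq ι] [Fintype ι'] [DecidableEq ι']
    (ε : ι' ≃ ι) : Function.Injective (subHom (F := F) ε) := by
  intro M N h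
  ext i j
  have h1 := congrFun (congrFun h (ε.symm i)) (ε.symm j)
  simpa [subHom] using h1

/-- padding with an identity block, as a monoid hom -/
def padHom (ι J : Type*) [Fintype ι] [DecidableEq ι] [Fintype J] [DecidableEq J] :
    Matrix ι ι F →* Matrix (ι ⊕ J) (ι ⊕ J) F where
  toFun A := Matrix.fromBlocks A 0 0 1
  map_one' := Matrix.fromBlocks_one
  map_mul' A B := by
    rw [Matrix.fromBlocks_multiply]
    simp

theorem padHom_injective (ι J : Type*) [Fintype ι] [DecidableEq ι] [Fintype J] [DecidableEq J] :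
    Function.Injective (padHom (F := F) ι J) := by
  intro A B h
  exact (Matrix.fromBlocks_inj.mp h).1

variable {D Q : Type*} [Group D] [Group Q] [Fintype Q] [DecidableEq Q]
variable {ι : Type*} [Fintype ι] [DecidableEq ι]

/-- block-monomial matrices: a matrix representation of `D` induces one of `D ≀ᵣ Q` -/
def wrMat (ρ : D →* Matrix ι ι F) : D ≀ᵣ Q →* Matrix (Q × ι) (Q × ι) F where
  toFun a := Matrix.of fun (x : Q × ι) (y : Q × ι) =>
    if x.1 = a.right * y.1 then ρ (a.left x.1) x.2 y.2 else 0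
  map_one' := by
    ext ⟨x, i⟩ ⟨y, j⟩
    by_cases hxy : x = y
    · subst hxy
      by_cases hij : i = j
      · subst hij; simp
      · simp [hij]
    · simp [hxy]
  map_mul' a b := by
    ext ⟨x, i⟩ ⟨z, l⟩
    rw [Matrix.mul_apply, Fintype.sum_prod_type]
    rw [Finset.sum_eq_single (a.right⁻¹ * x)]
    · by_cases h : x = a.right * b.right * z
      · subst h
        simp [mul_assoc, RegularWreathProduct.mul_left, RegularWreathProduct.mul_right,
          Matrix.mul_apply, map_mul]
      · have h' : ¬ a.right⁻¹ * x = b.right * z := by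
          intro h2; apply h; rw [mul_assoc, ← h2]; group
        simp [h, h', RegularWreathProduct.mul_right]
    · intro y _ hy
      have h2 : ¬ x = a.right * y := by
        intro h2; apply hy; rw [h2]; group
      simp [h2]
    · intro h; exact absurd (Finset.mem_univ _) h

theorem wrMat_injective [Nonempty ι] (ρ : D →* Matrix ι ι F) (hρ : Function.Injective ρ) :
    Function.Injective (wrMat (Q := Q) ρ) := by
  rw [injective_iff_map_eq_one]
  intro a ha
  obtain ⟨i⟩ := ‹Nonempty ι›
  have hr : a.right = 1 := by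
    by_contra hne
    have h1 := congrFun (congrFun ha (1, i)) (1, i)
    have hne' : ¬ (1 : Q) = a.right := fun h => hne h.symm
    simp [wrMat, hne'] at h1
  have hl : a.left = 1 := by
    funext x
    apply hρ
    rw [Pi.one_apply, map_one]
    ext i j
    have h1 := congrFun (congrFun ha (x, i)) (x, j)
    simpa [wrMat, hr, Matrix.one_apply] using h1
  exact RegularWreathProduct.ext hl hr

end mats

theorem exists_rep (G : Type u) [Group G] [Fintype G] [DecidableEq G] {F : Type u} [Field F]
    {ι₀ : Type u} [Fintype ι₀] [DecidableEq ι₀] [Nonempty ι₀]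
    (ρ₀ : G →* Matrix ι₀ ι₀ F) (hρ₀ : Function.Injective ρ₀) :
    ∀ j : ℕ, ∃ (ι : Type u) (_ : Fintype ι) (_ : DecidableEq ι) (_ : Nonempty ι)
      (ρ : IteratedWreathProduct G (j + 1) →* Matrix ι ι F),
      Function.Injective ρ ∧ Fintype.card ι = Fintype.card ι₀ * Fintype.card G ^ j
  | 0 => by
    refine ⟨ι₀, inferInstance, inferInstance, inferInstance,
      ρ₀.comp (rightHom : IteratedWreathProduct G 0 ≀ᵣ G →* G), ?_, by simp⟩
    intro a b hab
    have h1 : (rightHom : IteratedWreathProduct G 0 ≀ᵣ G →* G) a =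
        (rightHom : IteratedWreathProduct G 0 ≀ᵣ G →* G) b := hρ₀ hab
    have h2 : RegularWreathProduct.left a = RegularWreathProduct.left b := by
      funext x
      exact Subsingleton.elim (α := PUnit) _ _
    exact RegularWreathProduct.ext h2 h1
  | j + 1 => by
    obtain ⟨ι, _, _, _, ρ, hρ, hc⟩ := exists_rep G ρ₀ hρ₀ j
    refine ⟨G × ι, inferInstance, inferInstance, inferInstance,
      (wrMat ρ : IteratedWreathProduct G (j + 1) ≀ᵣ G →* Matrix (G × ι) (G × ι) F),
      wrMat_injective ρ hρ, ?_⟩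
    rw [Fintype.card_prod, hc]; ring

/-- the lower bound for the derived length of a Sylow `p`-subgroup of `GL_n(q)`, `p ∤ q` -/
theorem sylow_gl_derived_ne_bot (p : ℕ) [Fact p.Prime] (F : Type u) [Field F] [Fintype F] (q : ℕ)
    (hq : Fintype.card F = q) (hpq : ¬ p ∣ q) (n : ℕ) (hn : orderOf (q : ZMod p) ≤ n)
    (P : Sylow p (Matrix.GeneralLinearGroup (Fin n) F)) :
    derivedSeries ↥(P : Subgroup (Matrix.GeneralLinearGroup (Fin n) F))
      (Nat.log p (n / orderOf (q : ZMod p))) ≠ ⊥ := by
  classical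
  have hp : p.Prime := Fact.out
  have hq0 : (q : ZMod p) ≠ 0 := by
    intro h0
    exact hpq ((ZMod.natCast_eq_zero_iff q p).mp h0)
  have hfin : IsOfFinOrder (q : ZMod p) := by
    rw [isOfFinOrder_iff_pow_eq_one]
    exact ⟨p - 1, Nat.sub_pos_of_lt hp.one_lt, ZMod.pow_card_sub_one_eq_one hq0⟩
  have he0 : 0 < orderOf (q : ZMod p) := hfin.orderOf_pos
  have hpow : (q : ZMod p) ^ orderOf (q : ZMod p) = 1 := pow_orderOf_eq_one _
  generalize orderOf (q : ZMod p) = e at hn he0 hpow ⊢
  have hpe : p ∣ q ^ e - 1 := by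
    have hqpos : 0 < q := by rw [← hq]; exact Fintype.card_pos
    have hge : 1 ≤ q ^ e := Nat.one_le_pow _ _ hqpos
    have h2 : ((q ^ e - 1 : ℕ) : ZMod p) = 0 := by
      rw [Nat.cast_sub hge, Nat.cast_pow, hpow, Nat.cast_one, sub_self]
    exact (ZMod.natCast_eq_zero_iff _ _).mp h2
  have hne : n / e ≠ 0 := (Nat.div_pos hn he0).ne'
  have hpk : p ^ Nat.log p (n / e) ≤ n / e := Nat.pow_log_le_self p hne
  generalize Nat.log p (n / e) = k at hpk ⊢
  have hdim : e * p ^ k ≤ n :=
    (Nat.mul_le_mul_left e hpk).trans (Nat.mul_div_le n e)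
  have hcardGL : p ∣ Nat.card (Matrix.GeneralLinearGroup (Fin e) F) := by
    rw [Matrix.card_GL_field, hq]
    have h1 : q ^ e - q ^ ((⟨0, he0⟩ : Fin e) : ℕ) ∣ ∏ i : Fin e, (q ^ e - q ^ (i : ℕ)) :=
      Finset.dvd_prod_of_mem _ (Finset.mem_univ _)
    simp only [pow_zero] at h1
    exact hpe.trans h1
  have : Fintype (Matrix.GeneralLinearGroup (Fin e) F) := Fintype.ofFinite _
  obtain ⟨x, hx⟩ := exists_prime_orderOf_dvd_card (G := Matrix.GeneralLinearGroup (Fin e) F) p
    (by rwa [← Nat.card_eq_fintype_card])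
  have hGcard : Nat.card ↥(Subgroup.zpowers x) = p := by rw [Nat.card_zpowers, hx]
  have hg : (⟨x, Subgroup.mem_zpowers x⟩ : ↥(Subgroup.zpowers x)) ≠ 1 := by
    intro h1
    have h2 : x = 1 := congrArg Subtype.val h1
    rw [h2, orderOf_one] at hx
    exact hp.one_lt.ne hx
  have : Fintype ↥(Subgroup.zpowers x) := Fintype.ofFinite _
  have hGcard' : Fintype.card ↥(Subgroup.zpowers x) = p := by
    rw [← Nat.card_eq_fintype_card, hGcard]
  have : Nonempty (ULift.{u} (Fin e)) := ⟨⟨⟨0, he0⟩⟩⟩
  have hρ₀ : Function.Injective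
      ((subHom (F := F) (Equiv.ulift : ULift.{u} (Fin e) ≃ Fin e)).comp
        ((Units.coeHom (Matrix (Fin e) (Fin e) F)).comp (Subgroup.zpowers x).subtype)) := by
    intro a b hab
    have h1 := subHom_injective _ hab
    exact Subtype.ext (Units.ext h1)
  obtain ⟨ι, _, _, _, ρ, hρ, hc⟩ := exists_rep ↥(Subgroup.zpowers x) _ hρ₀ k
  have hc' : Fintype.card ι = e * p ^ k := by
    rw [hc, hGcard']; simp
  have hle : Fintype.card ι ≤ n := hc' ▸ hdim
  have hcardsum : Fintype.card (Fin n) = Fintype.card (ι ⊕ Fin (n - Fintype.card ι)) := by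
    rw [Fintype.card_sum, Fintype.card_fin, Fintype.card_fin]; omega
  have hΨ : Function.Injective ((subHom (F := F) (Fintype.equivOfCardEq hcardsum)).comp
      ((padHom (F := F) ι (Fin (n - Fintype.card ι))).comp ρ)) :=
    (subHom_injective _).comp ((padHom_injective ι _).comp hρ)
  have hΨu : Function.Injective (((subHom (F := F) (Fintype.equivOfCardEq hcardsum)).comp
      ((padHom (F := F) ι (Fin (n - Fintype.card ι))).comp ρ)).toHomUnits) := by
    intro a b hab
    apply hΨ
    have h1 := congrArg (fun v : (Matrix (Fin n) (Fin n) F)ˣ => (v : Matrix (Fin n) (Fin n) F)) hab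
    exact h1
  have hW : IsPGroup p (IteratedWreathProduct ↥(Subgroup.zpowers x) (k + 1)) :=
    IsPGroup.of_card (n := ∑ i ∈ Finset.range (k + 1), p ^ i)
      (by rw [IteratedWreathProduct.card, hGcard])
  exact derived_ne_bot_of_injective p hW _ hΨu P k (iter_ne_bot _ _ hg k)

end Cfsg.Agent.Lib.Helper3
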