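import Mathlib
import Cfsg.Agent.Lib.Helper16.SpinSO
import Cfsg.Agent.Lib.Helper3.DicksonRank

/-!
Isometries `g` with `g - 1` of rank one are reflections (any field), and the three reflections
theorem: for nonsingular `a`, `b`, `e` with `a` in the span of `b`, `e` (and `b`, `e`
independent) the product of the three reflections is a reflection.
-/

set_option autoImplicit false

namespace Cfsg.Agent.Lib.Helper3

open Cfsg.Agent.Lib.Helper16 Cfsg.Agent.Lib.Helper17 Matrix

section RankOne

variable {ι : Type} [Fintype ι] [DecidableEq ι] {F : Type*} [Field F]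
variable (Q : QuadraticForm F (ι → F))

theorem eq_refl_of_rank_one' (hQ : (QuadraticMap.polarBilin Q).Nondegenerate)
    (g : ↥(Cfsg.isometryGroup F (⇑Q)))
    (hg : (((g : Matrix.GeneralLinearGroup ι F) : Matrix ι ι F) - 1).rank = 1) :
    ∃ (v : ι → F) (hv : Q v ≠ 0), g = reflG Q v hv := by
  set G := ((g : Matrix.GeneralLinearGroup ι F) : Matrix ι ι F) with hG
  unfold Matrix.rank at hg
  rw [finrank_eq_one_iff'] at hg
  obtain ⟨⟨w, hwr⟩, hw0, hall⟩ := hg
  have hw0' : w ≠ 0 := fun h => hw0 (Subtype.ext h)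
  have hc : ∀ x : ι → F, ∃ c : F, (G - 1) *ᵥ x = c • w := by
    intro x
    obtain ⟨c, hc⟩ := hall ⟨(G - 1) *ᵥ x, LinearMap.mem_range.2 ⟨x, rfl⟩⟩
    exact ⟨c, (congrArg Subtype.val hc).symm⟩
  choose c hc using hc
  have hGx : ∀ x, G *ᵥ x = x + c x • w := by
    intro x
    have := hc x
    rw [Matrix.sub_mulVec, Matrix.one_mulVec] at this
    rw [← this]
    abel
  have hadd : ∀ x y, c (x + y) = c x + c y := by
    intro x y
    have h1 := hc (x + y)
    rw [Matrix.mulVec_add, hc x, hc y, ← add_smul] at h1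
    obtain ⟨i, hi⟩ : ∃ i, w i ≠ 0 := by
      by_contra h
      push Not at h
      exact hw0' (funext h)
    have := congrFun h1 i
    simp only [Pi.smul_apply, smul_eq_mul] at this
    exact (mul_right_cancel₀ hi this).symm
  have hiso : ∀ x, c x * (c x * Q w + QuadraticMap.polar (⇑Q) x w) = 0 := by
    intro x
    have := isomG_map Q g x
    rw [← hG, hGx, QuadraticMap.map_add (⇑Q), QuadraticMap.map_smul,
      QuadraticMap.polar_smul_right] at this
    simp only [smul_eq_mul] at this
    linear_combination this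
  obtain ⟨x₀, hx₀⟩ : ∃ x₀, c x₀ ≠ 0 := by
    obtain ⟨y, hy⟩ := LinearMap.mem_range.1 hwr
    rw [Matrix.mulVecLin_apply, hc y] at hy
    refine ⟨y, ?_⟩
    intro h
    rw [h, zero_smul] at hy
    exact hw0' hy.symm
  have hl : ∀ x, c x * Q w + QuadraticMap.polar (⇑Q) x w = 0 := by
    have h1 : ∀ x, c x ≠ 0 → c x * Q w + QuadraticMap.polar (⇑Q) x w = 0 := by
      intro x hx
      exact (mul_eq_zero.1 (hiso x)).resolve_left hx
    intro x
    by_cases hx : c x = 0
    · have h2 := h1 (x + x₀) (by rw [hadd, hx, zero_add]; exact hx₀)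
      have h3 := h1 x₀ hx₀
      rw [hadd, QuadraticMap.polar_add_left] at h2
      linear_combination h2 - h3
    · exact h1 x hx
  have hQw : Q w ≠ 0 := by
    intro h
    apply hw0'
    apply hQ.1 w
    intro y
    rw [QuadraticMap.polarBilin_apply_apply, QuadraticMap.polar_comm]
    have := hl y
    rw [h, mul_zero, zero_add] at this
    exact this
  refine ⟨w, hQw, ?_⟩
  apply isomG_ext
  apply Matrix.mulVec_injective
  funext x
  rw [reflG_coe, ← hG, hGx, refl_mulVec]
  have h1 : c x = -((Q w)⁻¹ * QuadraticMap.polar (⇑Q) w x) := by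
    have := hl x
    rw [QuadraticMap.polar_comm] at this
    field_simp
    linear_combination this
  rw [h1, neg_smul]
  abel

/-- **Three reflections**: if `a` lies in the span of the independent nonsingular `b`, `e`
then `r_a r_b r_e` is a reflection. -/
theorem three_refl (hQ : (QuadraticMap.polarBilin Q).Nondegenerate) (a b e : ι → F)
    (ha : Q a ≠ 0) (hb : Q b ≠ 0) (he : Q e ≠ 0) (hbe : ∀ t : F, b ≠ t • e) (l m : F)
    (hab : a = l • b + m • e) :
    ∃ (y : ι → F) (hy : Q y ≠ 0),
      reflG Q a ha * reflG Q b hb * reflG Q e he = reflG Q y hy := by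
  classical
  set g0 := reflG Q b hb * reflG Q e he with hg0
  have hG0 : ((g0 : Matrix.GeneralLinearGroup ι F) : Matrix ι ι F)
      = Cfsg.reflectionMatrix (⇑Q) b * Cfsg.reflectionMatrix (⇑Q) e := by
    rw [hg0, isomG_mul_coe, reflG_coe, reflG_coe]
  have hnot : b ∉ LinearMap.range
      (((reflG Q e he : Matrix.GeneralLinearGroup ι F) : Matrix ι ι F) - 1).mulVecLin := by
    rintro ⟨x, hx⟩
    rw [Matrix.mulVecLin_apply, reflG_coe, refl_sub_one_mulVec] at hx
    exact hbe _ hx.symm
  have hr2 : (((g0 : Matrix.GeneralLinearGroup ι F) : Matrix ι ι F) - 1).rank = 2 := by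
    have h1 := rank_refl_mul_of_not_mem Q hQ (reflG Q e he) b hb hnot
    rw [reflG_coe, rank_refl_sub_one Q hQ e he] at h1
    rw [hG0, h1]
  have hle : LinearMap.range
      (((g0 : Matrix.GeneralLinearGroup ι F) : Matrix ι ι F) - 1).mulVecLin
        ≤ Submodule.span F ((({b, e} : Finset (ι → F)) : Set (ι → F))) := by
    rintro _ ⟨x, rfl⟩
    rw [Matrix.mulVecLin_apply, hG0]
    have e1 : (Cfsg.reflectionMatrix (⇑Q) b * Cfsg.reflectionMatrix (⇑Q) e - 1) *ᵥ x
        = (Cfsg.reflectionMatrix (⇑Q) b - 1) *ᵥ (Cfsg.reflectionMatrix (⇑Q) e *ᵥ x)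
          + (Cfsg.reflectionMatrix (⇑Q) e - 1) *ᵥ x := by
      simp only [Matrix.sub_mulVec, Matrix.one_mulVec, ← Matrix.mulVec_mulVec]
      abel
    rw [e1, refl_sub_one_mulVec, refl_sub_one_mulVec]
    apply Submodule.add_mem
    · exact Submodule.smul_mem _ _ (Submodule.subset_span (by simp))
    · exact Submodule.smul_mem _ _ (Submodule.subset_span (by simp))
  have hfin : Module.finrank F (Submodule.span F ((({b, e} : Finset (ι → F)) : Set (ι → F))))
      ≤ Module.finrank F (LinearMap.range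
      (((g0 : Matrix.GeneralLinearGroup ι F) : Matrix ι ι F) - 1).mulVecLin) := by
    have h1 := finrank_span_finset_le_card (R := F) ({b, e} : Finset (ι → F))
    unfold Set.finrank at h1
    have h2 : ({b, e} : Finset (ι → F)).card ≤ 2 := Finset.card_le_two
    have h3 : Module.finrank F (LinearMap.range
      (((g0 : Matrix.GeneralLinearGroup ι F) : Matrix ι ι F) - 1).mulVecLin) = 2 := hr2
    omega
  have heq := Submodule.eq_of_le_of_finrank_le hle hfin
  have hamem : a ∈ LinearMap.range
      (((g0 : Matrix.GeneralLinearGroup ι F) : Matrix ι ι F) - 1).mulVecLin := by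
    rw [heq, hab]
    apply Submodule.add_mem
    · exact Submodule.smul_mem _ _ (Submodule.subset_span (by simp))
    · exact Submodule.smul_mem _ _ (Submodule.subset_span (by simp))
  obtain ⟨x, hx⟩ := hamem
  rw [Matrix.mulVecLin_apply] at hx
  have h4 := rank_refl_mul_of_mem Q hQ g0 x (by rw [hx]; exact ha)
  rw [hx, hr2] at h4
  have h5 : ((((reflG Q a ha * g0 : ↥(Cfsg.isometryGroup F (⇑Q))) :
      Matrix.GeneralLinearGroup ι F) : Matrix ι ι F) - 1).rank = 1 := by
    rw [isomG_mul_coe, reflG_coe]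
    omega
  obtain ⟨y, hy, hyy⟩ := eq_refl_of_rank_one' Q hQ _ h5
  refine ⟨y, hy, ?_⟩
  rw [← hyy, hg0, mul_assoc]

end RankOne

end Cfsg.Agent.Lib.Helper3
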