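import Mathlib
import Cfsg.Agent.Lib.Helper16.SpinQuot
import Cfsg.Agent.Lib.Helper16.SpinRank
import Cfsg.Agent.Lib.Helper3.ReflThree

/-!
The subgroup of the isometry group of a nondegenerate quadratic form over a finite field of odd
order generated by the reflections in vectors whose norm lies in a fixed square class has
index two.
-/

set_option autoImplicit false
set_option linter.unusedSectionVars false

namespace Cfsg.Agent.Lib.Helper3

open Cfsg.Agent.Lib.Helper16 Cfsg.Agent.Lib.Helper17 Matrix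

section ReflClass

variable {ι : Type} [Fintype ι] [DecidableEq ι] {F : Type*} [Field F] [Fintype F]
variable (Q : QuadraticForm F (ι → F))

/-- The reflections in vectors of norm in the square class of `c`. -/
def hcSet (c : F) : Set ↥(Cfsg.isometryGroup F (⇑Q)) :=
  {g | ∃ (v : ι → F) (t : F), t ≠ 0 ∧ Q v = c * t ^ 2 ∧
    ((g : Matrix.GeneralLinearGroup ι F) : Matrix ι ι F) = Cfsg.reflectionMatrix (⇑Q) v}

/-- The subgroup they generate. -/
def hcSub (c : F) : Subgroup ↥(Cfsg.isometryGroup F (⇑Q)) := Subgroup.closure (hcSet Q c)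

theorem hc_mem {c : F} (hc : c ≠ 0) (v : ι → F) (hv : Q v ≠ 0) (hs : IsSquare (Q v * c)) :
    reflG Q v hv ∈ hcSub Q c := by
  obtain ⟨r, hr⟩ := hs
  have hr0 : r ≠ 0 := by
    rintro rfl
    rw [mul_zero] at hr
    exact (mul_ne_zero hv hc) hr
  apply Subgroup.subset_closure
  refine ⟨v, r / c, div_ne_zero hr0 hc, ?_, reflG_coe Q v hv⟩
  field_simp
  linear_combination hr

theorem hc_gen {c : F} (hc : c ≠ 0) (g : ↥(Cfsg.isometryGroup F (⇑Q))) (hg : g ∈ hcSet Q c) :
    ∃ (v : ι → F) (hv : Q v ≠ 0), IsSquare (Q v * c) ∧ g = reflG Q v hv := by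
  obtain ⟨v, t, ht, hv, hg⟩ := hg
  have hv0 : Q v ≠ 0 := by
    rw [hv]
    exact mul_ne_zero hc (pow_ne_zero 2 ht)
  refine ⟨v, hv0, ⟨c * t, by rw [hv]; ring⟩, isomG_ext Q (by rw [hg, reflG_coe])⟩

theorem hc_normal {c : F} (hc : c ≠ 0) : (hcSub Q c).Normal := by
  constructor
  intro n hn g
  induction hn using Subgroup.closure_induction with
  | mem x hx =>
    obtain ⟨v, hv, hs, rfl⟩ := hc_gen Q hc x hx
    have hv' : Q (((g : Matrix.GeneralLinearGroup ι F) : Matrix ι ι F) *ᵥ v) ≠ 0 := by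
      rw [isomG_map]
      exact hv
    rw [refl_conj Q g v hv hv']
    exact hc_mem Q hc _ hv' (by rw [isomG_map]; exact hs)
  | one =>
    rw [mul_one, mul_inv_cancel]
    exact Subgroup.one_mem _
  | mul a b _ _ ha hb =>
    have e : g * (a * b) * g⁻¹ = (g * a * g⁻¹) * (g * b * g⁻¹) := by group
    rw [e]
    exact Subgroup.mul_mem _ ha hb
  | inv a _ ha =>
    have e : g * a⁻¹ * g⁻¹ = (g * a * g⁻¹)⁻¹ := by group
    rw [e]
    exact Subgroup.inv_mem _ ha

theorem detSign_refl (v : ι → F) (hv : Q v ≠ 0) :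
    detSign Q (reflG Q v hv) = (-1, signHom Q (reflG Q v hv)) := by
  apply Prod.ext
  · apply Units.ext
    rw [detSign_fst, reflG_coe, refl_det Q hv]
    simp
  · rfl

theorem sign_same (h2 : (2 : F) ≠ 0) (hQ : (QuadraticMap.polarBilin Q).Nondegenerate)
    (hn : 2 ≤ Fintype.card ι) {u v : ι → F} (hu : Q u ≠ 0) (hv : Q v ≠ 0)
    (hs : IsSquare (Q u * Q v)) : signHom Q (reflG Q u hu) = signHom Q (reflG Q v hv) :=
  (signHom_refl_cases Q h2 hQ hn u v hu hv).1 hs

theorem sign_diff (h2 : (2 : F) ≠ 0) (hQ : (QuadraticMap.polarBilin Q).Nondegenerate)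
    (hn : 2 ≤ Fintype.card ι) {u v : ι → F} (hu : Q u ≠ 0) (hv : Q v ≠ 0)
    (hs : ¬ IsSquare (Q u * Q v)) : signHom Q (reflG Q u hu) = -signHom Q (reflG Q v hv) :=
  (signHom_refl_cases Q h2 hQ hn u v hu hv).2 hs

theorem sq_of_sign (h2 : (2 : F) ≠ 0) (hQ : (QuadraticMap.polarBilin Q).Nondegenerate)
    (hn : 2 ≤ Fintype.card ι) {u v : ι → F} (hu : Q u ≠ 0) (hv : Q v ≠ 0)
    (h : signHom Q (reflG Q u hu) = signHom Q (reflG Q v hv)) : IsSquare (Q u * Q v) := by
  by_contra hs
  have := sign_diff Q h2 hQ hn hu hv hs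
  rw [h] at this
  exact units_ne_neg_self _ this

theorem hc_detSign (h2 : (2 : F) ≠ 0) (hQ : (QuadraticMap.polarBilin Q).Nondegenerate)
    (hn : 2 ≤ Fintype.card ι) {c : F} (hc : c ≠ 0) (x0 : ι → F) (hx0 : Q x0 ≠ 0)
    (hx0c : Q x0 = c) :
    ∀ h ∈ hcSub Q c, detSign Q h = 1 ∨ detSign Q h = (-1, signHom Q (reflG Q x0 hx0)) := by
  have hsq : (((-1 : Fˣ), signHom Q (reflG Q x0 hx0)) : Fˣ × ℤˣ)
      * ((-1 : Fˣ), signHom Q (reflG Q x0 hx0)) = 1 := by
    rw [Prod.mk_mul_mk, Int.units_mul_self]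
    simp
  intro h hh
  induction hh using Subgroup.closure_induction with
  | mem x hx =>
    right
    obtain ⟨v, hv, hs, rfl⟩ := hc_gen Q hc x hx
    rw [detSign_refl, sign_same Q h2 hQ hn hv hx0 (by rw [hx0c]; exact hs)]
  | one =>
    left
    exact map_one _
  | mul a b _ _ ha hb =>
    rw [map_mul]
    rcases ha with ha | ha <;> rcases hb with hb | hb <;> rw [ha, hb]
    · left
      exact one_mul _
    · right
      exact one_mul _
    · right
      exact mul_one _
    · left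
      exact hsq
  | inv a _ ha =>
    rw [map_inv]
    rcases ha with ha | ha <;> rw [ha]
    · left
      exact inv_one
    · right
      exact inv_eq_of_mul_eq_one_left hsq

theorem hc_not_mem (h2 : (2 : F) ≠ 0) (hQ : (QuadraticMap.polarBilin Q).Nondegenerate)
    (hn : 2 ≤ Fintype.card ι) {c : F} (hc : c ≠ 0) (x0 : ι → F) (hx0 : Q x0 ≠ 0)
    (hx0c : Q x0 = c) (u : ι → F) (hu : Q u ≠ 0) (hns : ¬ IsSquare (Q u * c)) :
    reflG Q u hu ∉ hcSub Q c := by
  intro hmem
  have h1 := hc_detSign Q h2 hQ hn hc x0 hx0 hx0c _ hmem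
  rw [detSign_refl] at h1
  rcases h1 with h1 | h1
  · have h3 := congrArg (fun p : Fˣ × ℤˣ => ((p.1 : Fˣ) : F)) h1
    simp only [Prod.fst_one, Units.val_neg, Units.val_one] at h3
    apply h2
    linear_combination -h3
  · have h3 := congrArg Prod.snd h1
    simp only at h3
    rw [sign_diff Q h2 hQ hn hu hx0 (by rw [hx0c]; exact hns)] at h3
    exact units_ne_neg_self _ h3.symm

theorem isSquare_of_sq_mul {b y : F} (hb : b ≠ 0) (h : IsSquare (b * b * y)) : IsSquare y := by
  obtain ⟨r, hr⟩ := h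
  refine ⟨r / b, ?_⟩
  field_simp
  linear_combination hr

/-- Two reflections of the other class whose plane contains a vector of class `c`. -/
theorem stepA (h2 : (2 : F) ≠ 0) (hQ : (QuadraticMap.polarBilin Q).Nondegenerate)
    (hn : 2 ≤ Fintype.card ι) {c : F} (hc : c ≠ 0) (x0 : ι → F) (hx0 : Q x0 ≠ 0)
    (hx0c : Q x0 = c) (u u' x : ι → F) (hu : Q u ≠ 0) (hu' : Q u' ≠ 0) (hx : Q x ≠ 0)
    (hnu : ¬ IsSquare (Q u * c)) (hnu' : ¬ IsSquare (Q u' * c)) (hsx : IsSquare (Q x * c))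
    (a b : F) (hxab : x = a • u + b • u') :
    reflG Q u hu * reflG Q u' hu' ∈ hcSub Q c := by
  have ha : a ≠ 0 := by
    rintro rfl
    rw [zero_smul, zero_add] at hxab
    apply hnu'
    have hb : b ≠ 0 := by
      rintro rfl
      rw [zero_smul] at hxab
      rw [hxab] at hx
      exact hx (map_zero Q)
    apply isSquare_of_sq_mul hb
    have e : Q x = b * b * Q u' := by rw [hxab, QuadraticMap.map_smul, smul_eq_mul]
    rw [← mul_assoc, ← e]
    exact hsx
  have hbe : ∀ t : F, u' ≠ t • x := by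
    intro t ht
    apply hnu'
    rw [ht, QuadraticMap.map_smul, smul_eq_mul, mul_assoc]
    exact (IsSquare.mul_self t).mul hsx
  obtain ⟨y, hy, hyy⟩ := three_refl Q hQ u u' x hu hu' hx hbe (-(a⁻¹ * b)) a⁻¹ (by
    rw [hxab, smul_add, smul_smul, smul_smul, inv_mul_cancel₀ ha, one_smul, neg_smul]
    abel)
  have hsy : signHom Q (reflG Q y hy) = signHom Q (reflG Q x0 hx0) := by
    rw [← hyy, map_mul, map_mul, sign_diff Q h2 hQ hn hu hx0 (by rw [hx0c]; exact hnu),
      sign_diff Q h2 hQ hn hu' hx0 (by rw [hx0c]; exact hnu'),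
      sign_same Q h2 hQ hn hx hx0 (by rw [hx0c]; exact hsx), neg_mul_neg, Int.units_mul_self,
      one_mul]
  have hym : reflG Q y hy ∈ hcSub Q c :=
    hc_mem Q hc y hy (by rw [← hx0c]; exact sq_of_sign Q h2 hQ hn hy hx0 hsy)
  have hxm : reflG Q x hx ∈ hcSub Q c := hc_mem Q hc x hx hsx
  have e : reflG Q u hu * reflG Q u' hu' = reflG Q y hy * reflG Q x hx := by
    rw [← hyy, mul_assoc (reflG Q u hu * reflG Q u' hu'), reflG_mul_self, mul_one]
  rw [e]
  exact Subgroup.mul_mem _ hym hxm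

/-- Orthogonal pairs. -/
theorem stepB (h2 : (2 : F) ≠ 0) (hQ : (QuadraticMap.polarBilin Q).Nondegenerate)
    (hn : 2 ≤ Fintype.card ι) {c : F} (hc : c ≠ 0) (x0 : ι → F) (hx0 : Q x0 ≠ 0)
    (hx0c : Q x0 = c) (u u' : ι → F) (hu : Q u ≠ 0) (hu' : Q u' ≠ 0)
    (hnu : ¬ IsSquare (Q u * c)) (hnu' : ¬ IsSquare (Q u' * c))
    (horth : QuadraticMap.polar (⇑Q) u u' = 0) :
    reflG Q u hu * reflG Q u' hu' ∈ hcSub Q c := by
  obtain ⟨a, b, hab⟩ := exists_binary_rep h2 (Q u) (Q u') c hu hu'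
  have hQx : Q (a • u + b • u') = c := by
    rw [QuadraticMap.map_add (⇑Q), QuadraticMap.map_smul, QuadraticMap.map_smul,
      QuadraticMap.polar_smul_left, QuadraticMap.polar_smul_right, horth]
    simp only [smul_eq_mul]
    linear_combination hab
  exact stepA Q h2 hQ hn hc x0 hx0 hx0c u u' (a • u + b • u') hu hu' (by rw [hQx]; exact hc)
    hnu hnu' (by rw [hQx]; exact ⟨c, rfl⟩) a b rfl

/-- Pairs spanning a nondegenerate plane. -/
theorem stepC1 (h2 : (2 : F) ≠ 0) (hQ : (QuadraticMap.polarBilin Q).Nondegenerate)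
    (hn : 2 ≤ Fintype.card ι) {c : F} (hc : c ≠ 0) (x0 : ι → F) (hx0 : Q x0 ≠ 0)
    (hx0c : Q x0 = c) (u u' : ι → F) (hu : Q u ≠ 0) (hu' : Q u' ≠ 0)
    (hnu : ¬ IsSquare (Q u * c)) (hnu' : ¬ IsSquare (Q u' * c))
    (hnd : QuadraticMap.polar (⇑Q) u u' ^ 2 ≠ 4 * Q u * Q u') :
    reflG Q u hu * reflG Q u' hu' ∈ hcSub Q c := by
  set B := QuadraticMap.polar (⇑Q) u u' with hB
  set k := B / (2 * Q u) with hk
  have h2u : 2 * Q u ≠ 0 := mul_ne_zero h2 hu
  have hk' : k * (2 * Q u) = B := by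
    rw [hk]
    field_simp
  have hQ'' : Q (u' - k • u) * (4 * Q u) = 4 * Q u * Q u' - B ^ 2 := by
    rw [quad_sub_smul, ← hB]
    linear_combination (k * (2 * Q u) - B) * hk'
  have hne : Q (u' - k • u) ≠ 0 := by
    intro h
    apply hnd
    rw [h, zero_mul] at hQ''
    linear_combination hQ''
  have horth : QuadraticMap.polar (⇑Q) u (u' - k • u) = 0 := by
    rw [QuadraticMap.polar_sub_right, QuadraticMap.polar_smul_right, cd_polar_self, ← hB,
      smul_eq_mul]
    linear_combination -hk'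
  obtain ⟨a, b, hab⟩ := exists_binary_rep h2 (Q u) (Q (u' - k • u)) c hu hne
  have hQx : Q (a • u + b • (u' - k • u)) = c := by
    rw [QuadraticMap.map_add (⇑Q), QuadraticMap.map_smul, QuadraticMap.map_smul,
      QuadraticMap.polar_smul_left, QuadraticMap.polar_smul_right, horth]
    simp only [smul_eq_mul]
    linear_combination hab
  exact stepA Q h2 hQ hn hc x0 hx0 hx0c u u' (a • u + b • (u' - k • u)) hu hu'
    (by rw [hQx]; exact hc) hnu hnu' (by rw [hQx]; exact ⟨c, rfl⟩) (a - b * k) b (by module)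

theorem polar_refl' : (QuadraticMap.polarBilin Q).IsRefl := by
  intro a b h
  rw [QuadraticMap.polarBilin_apply_apply] at h ⊢
  rw [QuadraticMap.polar_comm]
  exact h

/-- A nonsingular vector orthogonal to a proper nondegenerate subspace. -/
theorem exists_perp_ns (hQ : (QuadraticMap.polarBilin Q).Nondegenerate)
    (T : Submodule F (ι → F))
    (hT : ∀ x ∈ T, (∀ t ∈ T, QuadraticMap.polar (⇑Q) t x = 0) → x = 0)
    (hdim : Module.finrank F T < Fintype.card ι) :
    ∃ b : ι → F, Q b ≠ 0 ∧ ∀ t ∈ T, QuadraticMap.polar (⇑Q) t b = 0 := by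
  by_contra hcon
  push Not at hcon
  set W := LinearMap.BilinForm.orthogonal (QuadraticMap.polarBilin Q) T with hW
  have hmem : ∀ x, x ∈ W ↔ ∀ t ∈ T, QuadraticMap.polar (⇑Q) t x = 0 := by
    intro x
    rw [hW, LinearMap.BilinForm.mem_orthogonal_iff]
    rfl
  have hsing : ∀ x ∈ W, Q x = 0 := by
    intro x hx
    by_contra h
    obtain ⟨t, ht, hne⟩ := hcon x h
    exact hne ((hmem x).1 hx t ht)
  have hle : W ≤ T := by
    rw [← LinearMap.BilinForm.orthogonal_orthogonal hQ (polar_refl' Q) T]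
    intro x hx
    rw [LinearMap.BilinForm.mem_orthogonal_iff]
    intro y hy
    show QuadraticMap.polarBilin Q y x = 0
    rw [QuadraticMap.polarBilin_apply_apply]
    have h1 := hsing (y + x) (W.add_mem hy hx)
    rw [QuadraticMap.map_add (⇑Q), hsing y hy, hsing x hx] at h1
    linear_combination h1
  have hbot : W = ⊥ := by
    rw [eq_bot_iff]
    intro x hx
    exact hT x (hle hx) ((hmem x).1 hx)
  have h1 := LinearMap.BilinForm.finrank_orthogonal hQ T
  rw [← hW, hbot, finrank_bot, Module.finrank_fintype_fun_eq_card] at h1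
  omega

/-- A vector of prescribed norm orthogonal to a nondegenerate subspace of codimension at least
two. -/
theorem exists_perp_rep (h2 : (2 : F) ≠ 0) (hQ : (QuadraticMap.polarBilin Q).Nondegenerate)
    (T : Submodule F (ι → F))
    (hT : ∀ x ∈ T, (∀ t ∈ T, QuadraticMap.polar (⇑Q) t x = 0) → x = 0)
    (hdim : Module.finrank F T + 2 ≤ Fintype.card ι) (c : F) :
    ∃ z : ι → F, Q z = c ∧ ∀ t ∈ T, QuadraticMap.polar (⇑Q) t z = 0 := by
  obtain ⟨b₁, hb₁, h1⟩ := exists_perp_ns Q hQ T hT (by omega)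
  have hb₁0 : b₁ ≠ 0 := by
    rintro rfl
    exact hb₁ (map_zero Q)
  have hb₁m : b₁ ∈ T ⊔ Submodule.span F {b₁} :=
    Submodule.mem_sup_right (Submodule.mem_span_singleton_self b₁)
  have hT₁' : ∀ x ∈ T ⊔ Submodule.span F {b₁},
      (∀ t ∈ T ⊔ Submodule.span F {b₁}, QuadraticMap.polar (⇑Q) t x = 0) → x = 0 := by
    intro x hx hall
    rw [Submodule.mem_sup] at hx
    obtain ⟨t, ht, y, hy, rfl⟩ := hx
    rw [Submodule.mem_span_singleton] at hy
    obtain ⟨a, rfl⟩ := hy
    have h3 := hall b₁ hb₁m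
    rw [QuadraticMap.polar_add_right, QuadraticMap.polar_smul_right, cd_polar_self,
      QuadraticMap.polar_comm, h1 t ht, zero_add, smul_eq_mul] at h3
    have ha : a = 0 := by
      rcases mul_eq_zero.1 h3 with h | h
      · exact h
      · exact absurd h (mul_ne_zero h2 hb₁)
    rw [ha, zero_smul, add_zero] at hall ⊢
    exact hT t ht (fun t' ht' => hall t' (Submodule.mem_sup_left ht'))
  have hdim₁ : Module.finrank F ↥(T ⊔ Submodule.span F {b₁}) < Fintype.card ι := by
    have h3 := Submodule.finrank_add_le_finrank_add_finrank T (Submodule.span F {b₁})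
    have h4 : Module.finrank F (Submodule.span F ({b₁} : Set (ι → F))) = 1 :=
      finrank_span_singleton hb₁0
    omega
  obtain ⟨b₂, hb₂, h5⟩ := exists_perp_ns Q hQ _ hT₁' hdim₁
  have h12 : QuadraticMap.polar (⇑Q) b₁ b₂ = 0 := h5 b₁ hb₁m
  obtain ⟨a, b, hab⟩ := exists_binary_rep h2 (Q b₁) (Q b₂) c hb₁ hb₂
  refine ⟨a • b₁ + b • b₂, ?_, ?_⟩
  · rw [QuadraticMap.map_add (⇑Q), QuadraticMap.map_smul, QuadraticMap.map_smul,
      QuadraticMap.polar_smul_left, QuadraticMap.polar_smul_right, h12]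
    simp only [smul_eq_mul]
    linear_combination hab
  · intro t ht
    rw [QuadraticMap.polar_add_right, QuadraticMap.polar_smul_right,
      QuadraticMap.polar_smul_right, h1 t ht, h5 t (Submodule.mem_sup_left ht), smul_zero,
      smul_zero, add_zero]

/-- A singular vector orthogonal to `u` pairing nontrivially with the singular `s`. -/
theorem exists_hyp_partner' (h2 : (2 : F) ≠ 0) (hQ : (QuadraticMap.polarBilin Q).Nondegenerate)
    (u s : ι → F) (hu : Q u ≠ 0) (hs0 : s ≠ 0) (hs : Q s = 0)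
    (hus : QuadraticMap.polar (⇑Q) u s = 0) :
    ∃ y : ι → F, Q y = 0 ∧ QuadraticMap.polar (⇑Q) u y = 0 ∧
      QuadraticMap.polar (⇑Q) s y ≠ 0 := by
  obtain ⟨y₀, hy₀⟩ : ∃ y, QuadraticMap.polar (⇑Q) s y ≠ 0 := by
    by_contra hcon
    push Not at hcon
    exact hs0 (hQ.1 s (fun y => by rw [QuadraticMap.polarBilin_apply_apply]; exact hcon y))
  have h2u : 2 * Q u ≠ 0 := mul_ne_zero h2 hu
  obtain ⟨y₁, hy₁⟩ : ∃ y₁, y₁ = y₀ - (QuadraticMap.polar (⇑Q) u y₀ / (2 * Q u)) • u := ⟨_, rfl⟩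
  have e1 : QuadraticMap.polar (⇑Q) u y₁ = 0 := by
    rw [hy₁, QuadraticMap.polar_sub_right, QuadraticMap.polar_smul_right, cd_polar_self,
      smul_eq_mul, div_mul_cancel₀ _ h2u, sub_self]
  have e2 : QuadraticMap.polar (⇑Q) s y₁ = QuadraticMap.polar (⇑Q) s y₀ := by
    rw [hy₁, QuadraticMap.polar_sub_right, QuadraticMap.polar_smul_right,
      QuadraticMap.polar_comm (⇑Q) s u, hus, smul_zero, sub_zero]
  have hβ : QuadraticMap.polar (⇑Q) s y₁ ≠ 0 := by
    rw [e2]
    exact hy₀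
  have hss : QuadraticMap.polar (⇑Q) s s = 0 := by rw [cd_polar_self, hs, mul_zero]
  refine ⟨y₁ - (Q y₁ / QuadraticMap.polar (⇑Q) s y₁) • s, ?_, ?_, ?_⟩
  · rw [quad_sub_smul, hs, mul_zero, add_zero, div_mul_cancel₀ _ hβ, sub_self]
  · rw [QuadraticMap.polar_sub_right, QuadraticMap.polar_smul_right, e1, hus, smul_zero,
      sub_zero]
  · rw [QuadraticMap.polar_sub_right, QuadraticMap.polar_smul_right, hss, smul_zero, sub_zero]
    exact hβ

/-- Degenerate plane, field of more than three elements. -/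
theorem stepC2 (h2 : (2 : F) ≠ 0) (hQ : (QuadraticMap.polarBilin Q).Nondegenerate)
    (hn : 2 ≤ Fintype.card ι) {c : F} (hc : c ≠ 0) (x0 : ι → F) (hx0 : Q x0 ≠ 0)
    (hx0c : Q x0 = c) (hq : Fintype.card F ≠ 3) (u u' : ι → F) (hu : Q u ≠ 0) (hu' : Q u' ≠ 0)
    (hnu : ¬ IsSquare (Q u * c)) (hnu' : ¬ IsSquare (Q u' * c))
    (s : ι → F) (k : F) (hu's : u' = s + k • u) (hs0 : s ≠ 0) (hs : Q s = 0)
    (hus : QuadraticMap.polar (⇑Q) u s = 0) :
    reflG Q u hu * reflG Q u' hu' ∈ hcSub Q c := by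
  classical
  obtain ⟨y, hy, huy, hsy⟩ := exists_hyp_partner' Q h2 hQ u s hu hs0 hs hus
  obtain ⟨β, hβ⟩ : ∃ β, β = QuadraticMap.polar (⇑Q) s y := ⟨_, rfl⟩
  obtain ⟨δ, hδ⟩ : ∃ δ, δ = Q u := ⟨_, rfl⟩
  have hβ0 : β ≠ 0 := by rw [hβ]; exact hsy
  have hδ0 : δ ≠ 0 := by rw [hδ]; exact hu
  obtain ⟨θ, hθ0, hθ1, hθ2⟩ : ∃ θ : F, θ ≠ 0 ∧ θ ≠ 2 * k * δ ∧ θ ≠ -(2 * k * δ) := by
    by_contra hcon
    push Not at hcon
    have hsub : (Finset.univ : Finset F) ⊆ {0, 2 * k * δ, -(2 * k * δ)} := by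
      intro θ _
      by_cases h0 : θ = 0
      · simp [h0]
      · by_cases h1 : θ = 2 * k * δ
        · simp [h1]
        · simp [hcon θ h0 h1]
    have h3 := Finset.card_le_card hsub
    have h4 : ({0, 2 * k * δ, -(2 * k * δ)} : Finset F).card ≤ 3 := Finset.card_le_three
    rw [Finset.card_univ] at h3
    have h5 : Fintype.card F % 2 = 1 :=
      FiniteField.odd_card_of_char_ne_two (ringChar_ne_two_of h2)
    have h6 : 1 < Fintype.card F := Fintype.one_lt_card
    omega
  have hss : QuadraticMap.polar (⇑Q) s s = 0 := by rw [cd_polar_self, hs, mul_zero]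
  obtain ⟨w, hw⟩ : ∃ w, w = (δ / θ) • s + (θ / β) • y := ⟨_, rfl⟩
  have hQw : Q w = δ := by
    rw [hw, QuadraticMap.map_add (⇑Q), QuadraticMap.map_smul, QuadraticMap.map_smul, hs, hy,
      QuadraticMap.polar_smul_left, QuadraticMap.polar_smul_right, ← hβ]
    simp only [smul_eq_mul]
    field_simp
    ring
  have huw : QuadraticMap.polar (⇑Q) u w = 0 := by
    rw [hw, QuadraticMap.polar_add_right, QuadraticMap.polar_smul_right,
      QuadraticMap.polar_smul_right, hus, huy, smul_zero, smul_zero, add_zero]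
  have hw0 : Q w ≠ 0 := by rw [hQw]; exact hδ0
  have hnw : ¬ IsSquare (Q w * c) := by rw [hQw, hδ]; exact hnu
  have hwu' : QuadraticMap.polar (⇑Q) w u' = θ := by
    rw [hu's, QuadraticMap.polar_add_right, QuadraticMap.polar_smul_right,
      QuadraticMap.polar_comm (⇑Q) w u, huw, smul_zero, add_zero, hw,
      QuadraticMap.polar_add_left, QuadraticMap.polar_smul_left, QuadraticMap.polar_smul_left,
      hss, QuadraticMap.polar_comm (⇑Q) y s, ← hβ]
    simp only [smul_eq_mul]
    field_simp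
    ring
  have hQu' : Q u' = k * k * δ := by
    rw [hu's, QuadraticMap.map_add (⇑Q), QuadraticMap.map_smul, hs,
      QuadraticMap.polar_smul_right, QuadraticMap.polar_comm (⇑Q) s u, hus, hδ]
    simp
  have h1 := stepB Q h2 hQ hn hc x0 hx0 hx0c u w hu hw0 hnu hnw huw
  have h2' := stepC1 Q h2 hQ hn hc x0 hx0 hx0c w u' hw0 hu' hnw hnu' (by
    rw [hwu', hQw, hQu']
    intro h
    have h3 : (θ - 2 * k * δ) * (θ + 2 * k * δ) = 0 := by linear_combination h
    rcases mul_eq_zero.1 h3 with h4 | h4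
    · exact hθ1 (by linear_combination h4)
    · exact hθ2 (by linear_combination h4))
  have e : reflG Q u hu * reflG Q u' hu'
      = (reflG Q u hu * reflG Q w hw0) * (reflG Q w hw0 * reflG Q u' hu') := by
    rw [mul_assoc, ← mul_assoc (reflG Q w hw0), reflG_mul_self, one_mul]
  rw [e]
  exact Subgroup.mul_mem _ h1 h2'

/-- Degenerate plane, dimension at least five. -/
theorem stepC3 (h2 : (2 : F) ≠ 0) (hQ : (QuadraticMap.polarBilin Q).Nondegenerate)
    (hn : 2 ≤ Fintype.card ι) {c : F} (hc : c ≠ 0) (x0 : ι → F) (hx0 : Q x0 ≠ 0)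
    (hx0c : Q x0 = c) (h5 : 5 ≤ Fintype.card ι) (u u' : ι → F) (hu : Q u ≠ 0)
    (hu' : Q u' ≠ 0) (hnu : ¬ IsSquare (Q u * c)) (hnu' : ¬ IsSquare (Q u' * c))
    (s : ι → F) (k : F) (hu's : u' = s + k • u) (hs0 : s ≠ 0) (hs : Q s = 0)
    (hus : QuadraticMap.polar (⇑Q) u s = 0) :
    reflG Q u hu * reflG Q u' hu' ∈ hcSub Q c := by
  classical
  obtain ⟨y, hy, huy, hsy⟩ := exists_hyp_partner' Q h2 hQ u s hu hs0 hs hus
  have hss : QuadraticMap.polar (⇑Q) s s = 0 := by rw [cd_polar_self, hs, mul_zero]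
  have hyy : QuadraticMap.polar (⇑Q) y y = 0 := by rw [cd_polar_self, hy, mul_zero]
  have hsu : QuadraticMap.polar (⇑Q) s u = 0 := by rw [QuadraticMap.polar_comm, hus]
  have hyu : QuadraticMap.polar (⇑Q) y u = 0 := by rw [QuadraticMap.polar_comm, huy]
  have hys : QuadraticMap.polar (⇑Q) y s ≠ 0 := by rw [QuadraticMap.polar_comm]; exact hsy
  obtain ⟨T, hT⟩ : ∃ T : Submodule F (ι → F), T = Submodule.span F ({u, s, y} : Set (ι → F)) :=
    ⟨_, rfl⟩
  have hu_mem : u ∈ T := by rw [hT]; exact Submodule.subset_span (by simp)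
  have hs_mem : s ∈ T := by rw [hT]; exact Submodule.subset_span (by simp)
  have hy_mem : y ∈ T := by rw [hT]; exact Submodule.subset_span (by simp)
  have hTn : ∀ x ∈ T, (∀ t ∈ T, QuadraticMap.polar (⇑Q) t x = 0) → x = 0 := by
    intro x hx hall
    rw [hT, Submodule.mem_span_triple] at hx
    obtain ⟨a, b, e, rfl⟩ := hx
    have h1 := hall u hu_mem
    have h2' := hall s hs_mem
    have h3 := hall y hy_mem
    rw [QuadraticMap.polar_add_right, QuadraticMap.polar_add_right,
      QuadraticMap.polar_smul_right, QuadraticMap.polar_smul_right,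
      QuadraticMap.polar_smul_right] at h1 h2' h3
    rw [cd_polar_self, hus, huy, smul_zero, smul_zero, add_zero, add_zero, smul_eq_mul] at h1
    rw [hsu, hss, smul_zero, smul_zero, zero_add, zero_add, smul_eq_mul] at h2'
    rw [hyu, hyy, smul_zero, smul_zero, zero_add, add_zero, smul_eq_mul] at h3
    have ha : a = 0 := (mul_eq_zero.1 h1).resolve_right (mul_ne_zero h2 hu)
    have he : e = 0 := (mul_eq_zero.1 h2').resolve_right hsy
    have hb : b = 0 := (mul_eq_zero.1 h3).resolve_right hys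
    rw [ha, he, hb, zero_smul, zero_smul, zero_smul, add_zero, add_zero]
  have hdim : Module.finrank F T + 2 ≤ Fintype.card ι := by
    have h1 := finrank_span_finset_le_card (R := F) ({u, s, y} : Finset (ι → F))
    unfold Set.finrank at h1
    have h2 : ({u, s, y} : Finset (ι → F)).card ≤ 3 := Finset.card_le_three
    have h3 : Module.finrank F T
        = Module.finrank F (Submodule.span F ((({u, s, y} : Finset (ι → F))) : Set (ι → F))) := by
      rw [hT, Finset.coe_insert, Finset.coe_insert, Finset.coe_singleton]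
    omega
  obtain ⟨z, hz, hzT⟩ := exists_perp_rep Q h2 hQ T hTn hdim (Q u)
  have huz := hzT u hu_mem
  have hsz := hzT s hs_mem
  have hz0 : Q z ≠ 0 := by rw [hz]; exact hu
  have hnz : ¬ IsSquare (Q z * c) := by rw [hz]; exact hnu
  have hzu' : QuadraticMap.polar (⇑Q) z u' = 0 := by
    rw [hu's, QuadraticMap.polar_add_right, QuadraticMap.polar_smul_right,
      QuadraticMap.polar_comm (⇑Q) z s, hsz, QuadraticMap.polar_comm (⇑Q) z u, huz, smul_zero,
      add_zero]
  have h1 := stepB Q h2 hQ hn hc x0 hx0 hx0c u z hu hz0 hnu hnz huz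
  have h2' := stepB Q h2 hQ hn hc x0 hx0 hx0c z u' hz0 hu' hnz hnu' hzu'
  have e : reflG Q u hu * reflG Q u' hu'
      = (reflG Q u hu * reflG Q z hz0) * (reflG Q z hz0 * reflG Q u' hu') := by
    rw [mul_assoc, ← mul_assoc (reflG Q z hz0), reflG_mul_self, one_mul]
  rw [e]
  exact Subgroup.mul_mem _ h1 h2'

theorem three_le_card (h2 : (2 : F) ≠ 0) (u s y : ι → F) (hu : Q u ≠ 0) (hs : Q s = 0)
    (hy : Q y = 0) (hus : QuadraticMap.polar (⇑Q) u s = 0)
    (huy : QuadraticMap.polar (⇑Q) u y = 0) (hsy : QuadraticMap.polar (⇑Q) s y ≠ 0) :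
    3 ≤ Fintype.card ι := by
  have hss : QuadraticMap.polar (⇑Q) s s = 0 := by rw [cd_polar_self, hs, mul_zero]
  have hyy : QuadraticMap.polar (⇑Q) y y = 0 := by rw [cd_polar_self, hy, mul_zero]
  have hsu : QuadraticMap.polar (⇑Q) s u = 0 := by rw [QuadraticMap.polar_comm, hus]
  have hyu : QuadraticMap.polar (⇑Q) y u = 0 := by rw [QuadraticMap.polar_comm, huy]
  have hys : QuadraticMap.polar (⇑Q) y s ≠ 0 := by rw [QuadraticMap.polar_comm]; exact hsy
  have hli : LinearIndependent F ![u, s, y] := by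
    rw [Fintype.linearIndependent_iff]
    intro g hg
    rw [Fin.sum_univ_three] at hg
    simp only [Matrix.cons_val_zero, Matrix.cons_val_one, Matrix.cons_val_two,
      Matrix.head_cons, Matrix.tail_cons] at hg
    have h1 := congrArg (fun x => QuadraticMap.polar (⇑Q) u x) hg
    have h2' := congrArg (fun x => QuadraticMap.polar (⇑Q) s x) hg
    have h3 := congrArg (fun x => QuadraticMap.polar (⇑Q) y x) hg
    simp only [QuadraticMap.polar_add_right, QuadraticMap.polar_smul_right,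
      QuadraticMap.polar_zero_right] at h1 h2' h3
    rw [cd_polar_self, hus, huy, smul_zero, smul_zero, add_zero, add_zero, smul_eq_mul] at h1
    rw [hsu, hss, smul_zero, smul_zero, zero_add, zero_add, smul_eq_mul] at h2'
    rw [hyu, hyy, smul_zero, smul_zero, zero_add, add_zero, smul_eq_mul] at h3
    have ha : g 0 = 0 := (mul_eq_zero.1 h1).resolve_right (mul_ne_zero h2 hu)
    have he : g 2 = 0 := (mul_eq_zero.1 h2').resolve_right hsy
    have hb : g 1 = 0 := (mul_eq_zero.1 h3).resolve_right hys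
    intro i
    fin_cases i
    · exact ha
    · exact hb
    · exact he
  have := hli.fintype_card_le_finrank
  rw [Fintype.card_fin, Module.finrank_fintype_fun_eq_card] at this
  exact this

/-- **Key lemma**: the product of two reflections of the other class lies in the subgroup
generated by the reflections of class `c`. -/
theorem hc_key (h2 : (2 : F) ≠ 0) (hQ : (QuadraticMap.polarBilin Q).Nondegenerate)
    (hn : 2 ≤ Fintype.card ι) {c : F} (hc : c ≠ 0) (x0 : ι → F) (hx0 : Q x0 ≠ 0)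
    (hx0c : Q x0 = c)
    (hex : Fintype.card F ≠ 3 ∨ 5 ≤ Fintype.card ι ∨ Fintype.card ι ≤ 2)
    (u u' : ι → F) (hu : Q u ≠ 0) (hu' : Q u' ≠ 0)
    (hnu : ¬ IsSquare (Q u * c)) (hnu' : ¬ IsSquare (Q u' * c)) :
    reflG Q u hu * reflG Q u' hu' ∈ hcSub Q c := by
  by_cases hnd : QuadraticMap.polar (⇑Q) u u' ^ 2 = 4 * Q u * Q u'
  swap
  · exact stepC1 Q h2 hQ hn hc x0 hx0 hx0c u u' hu hu' hnu hnu' hnd
  obtain ⟨B, hB⟩ : ∃ B, B = QuadraticMap.polar (⇑Q) u u' := ⟨_, rfl⟩
  obtain ⟨k, hk⟩ : ∃ k, k = B / (2 * Q u) := ⟨_, rfl⟩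
  have h2u : 2 * Q u ≠ 0 := mul_ne_zero h2 hu
  have h4u : 4 * Q u ≠ 0 := by
    have : (4 : F) = 2 * 2 := by norm_num
    rw [this]
    exact mul_ne_zero (mul_ne_zero h2 h2) hu
  have hk' : k * (2 * Q u) = B := by
    rw [hk, div_mul_cancel₀ _ h2u]
  obtain ⟨s, hs⟩ : ∃ s, s = u' - k • u := ⟨_, rfl⟩
  have hu's : u' = s + k • u := by
    rw [hs]
    abel
  have hQs : Q s = 0 := by
    have h3 : Q s * (4 * Q u) = 4 * Q u * Q u' - B ^ 2 := by
      rw [hs, quad_sub_smul, ← hB]
      linear_combination (k * (2 * Q u) - B) * hk'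
    rw [hB, hnd, sub_self] at h3
    exact (mul_eq_zero.1 h3).resolve_right h4u
  have hus : QuadraticMap.polar (⇑Q) u s = 0 := by
    rw [hs, QuadraticMap.polar_sub_right, QuadraticMap.polar_smul_right, cd_polar_self, ← hB,
      smul_eq_mul]
    linear_combination -hk'
  by_cases hs0 : s = 0
  · have e1 : u' = k • u := by rw [hu's, hs0, zero_add]
    have hk0 : k ≠ 0 := by
      rintro rfl
      rw [zero_smul] at e1
      rw [e1] at hu'
      exact hu' (map_zero Q)
    have e : reflG Q u' hu' = reflG Q u hu := by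
      apply isomG_ext
      rw [reflG_coe, reflG_coe]
      conv_lhs => rw [e1]
      exact refl_smul Q k hk0 u
    rw [e, reflG_mul_self]
    exact Subgroup.one_mem _
  · rcases hex with hq | h5 | hle
    · exact stepC2 Q h2 hQ hn hc x0 hx0 hx0c hq u u' hu hu' hnu hnu' s k hu's hs0 hQs hus
    · exact stepC3 Q h2 hQ hn hc x0 hx0 hx0c h5 u u' hu hu' hnu hnu' s k hu's hs0 hQs hus
    · exfalso
      obtain ⟨y, hy, huy, hsy⟩ := exists_hyp_partner' Q h2 hQ u s hu hs0 hQs hus
      have := three_le_card Q h2 u s y hu hQs hy hus huy hsy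
      omega

/-- **Index two**: the reflections of one square class generate a subgroup of index two. -/
theorem hc_index (h2 : (2 : F) ≠ 0) (hQ : (QuadraticMap.polarBilin Q).Nondegenerate)
    (hn : 2 ≤ Fintype.card ι) {c : F} (hc : c ≠ 0)
    (hex : Fintype.card F ≠ 3 ∨ 5 ≤ Fintype.card ι ∨ Fintype.card ι ≤ 2) :
    (hcSub Q c).index = 2 := by
  classical
  obtain ⟨x0, hx0c⟩ := exists_quad_eq Q h2 hQ hn c
  have hx0 : Q x0 ≠ 0 := by rw [hx0c]; exact hc
  obtain ⟨δ, hδ⟩ := FiniteField.exists_nonsquare (ringChar_ne_two_of h2)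
  obtain ⟨u, hu⟩ := exists_quad_eq Q h2 hQ hn (δ * c⁻¹)
  have hnu : ¬ IsSquare (Q u * c) := by
    rw [hu, inv_mul_cancel_right₀ hc]
    exact hδ
  have hu0 : Q u ≠ 0 := by
    intro h
    apply hnu
    rw [h, zero_mul]
    exact IsSquare.zero
  have hnorm := hc_normal Q hc
  have hnot := hc_not_mem Q h2 hQ hn hc x0 hx0 hx0c u hu0 hnu
  obtain ⟨r, hr⟩ : ∃ r, r = reflG Q u hu0 := ⟨_, rfl⟩
  have hrr : r * r = 1 := by rw [hr]; exact reflG_mul_self Q u hu0
  have hrinv : r⁻¹ = r := by rw [hr]; exact reflG_inv Q u hu0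
  have hor : ∀ b : ↥(Cfsg.isometryGroup F (⇑Q)), b ∈ hcSub Q c ∨ b * r ∈ hcSub Q c := by
    intro b
    have hb := cartan_dieudonne Q h2 hQ b
    induction hb using Subgroup.closure_induction with
    | mem x hx =>
      obtain ⟨v, hv, hxv⟩ := hx
      have hx' : x = reflG Q v hv := isomG_ext Q hxv
      by_cases hs : IsSquare (Q v * c)
      · left
        rw [hx']
        exact hc_mem Q hc v hv hs
      · right
        rw [hx', hr]
        exact hc_key Q h2 hQ hn hc x0 hx0 hx0c hex v u hv hu0 hs hnu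
    | one =>
      left
      exact Subgroup.one_mem _
    | mul a b _ _ ha hb =>
      rcases ha with ha | ha <;> rcases hb with hb | hb
      · left
        exact Subgroup.mul_mem _ ha hb
      · right
        rw [mul_assoc]
        exact Subgroup.mul_mem _ ha hb
      · right
        have e : a * b * r = (a * r) * (r * b * r⁻¹) := by
          rw [hrinv]
          simp only [mul_assoc]
          rw [← mul_assoc r r, hrr, one_mul]
        rw [e]
        exact Subgroup.mul_mem _ ha (hnorm.conj_mem b hb r)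
      · left
        have e : a * b = (a * r) * (r * (b * r) * r⁻¹) := by
          rw [hrinv]
          simp only [mul_assoc]
          rw [hrr, mul_one, ← mul_assoc r r, hrr, one_mul]
        rw [e]
        exact Subgroup.mul_mem _ ha (hnorm.conj_mem (b * r) hb r)
    | inv a _ ha =>
      rcases ha with ha | ha
      · left
        exact Subgroup.inv_mem _ ha
      · right
        have e : a⁻¹ * r = r * (a * r)⁻¹ * r⁻¹ := by
          rw [_root_.mul_inv_rev, hrinv]
          simp only [mul_assoc]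
          rw [← mul_assoc r r, hrr, one_mul]
        rw [e]
        exact hnorm.conj_mem _ (Subgroup.inv_mem _ ha) r
  rw [Subgroup.index_eq_two_iff]
  refine ⟨r, fun b => ?_⟩
  have hboth : b ∈ hcSub Q c → b * r ∈ hcSub Q c → False := by
    intro hb hbr
    apply hnot
    have e : reflG Q u hu0 = b⁻¹ * (b * r) := by
      rw [hr]
      group
    rw [e]
    exact Subgroup.mul_mem _ (Subgroup.inv_mem _ hb) hbr
  rcases hor b with hb | hb
  · right
    exact ⟨hb, fun hbr => hboth hb hbr⟩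
  · left
    exact ⟨hb, fun hb' => hboth hb' hb⟩

end ReflClass

end Cfsg.Agent.Lib.Helper3
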