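import Mathlib
import Cfsg.Prelude.Def_ClassicalGeometry
import Cfsg.Agent.Lib.Helper16.SpinRefl
import Cfsg.Agent.Lib.Helper16.SpinCD
import Cfsg.Agent.Lib.Helper16.SpinIndex
import Cfsg.Agent.Lib.Helper3.ReflClass
import Cfsg.Agent.Lib.Helper3.OmegaCenter

/-!
# Long root elements (Siegel transformations) of orthogonal groups

Computations with `Cfsg.siegelMatrix`, the elements `siegelG` of the isometry group, the Eichler
maps `eichF`, and the theorem that in odd characteristic and dimension at least five the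
commutator subgroup of the isometry group is generated by the long root elements.
-/

set_option autoImplicit false
set_option linter.unusedSectionVars false

namespace Cfsg.Agent.Lib.Helper3

open Cfsg.Agent.Lib.Helper16 Matrix

section Siegel

variable {ι : Type} [Fintype ι] [DecidableEq ι] {F : Type*} [Field F]
variable (Q : QuadraticForm F (ι → F))

/-- Action of the Siegel matrix. -/
theorem siegel_mulVec (u v : ι → F) (c : F) (x : ι → F) :
    Cfsg.siegelMatrix (⇑Q) u v c *ᵥ x
      = x + (c * QuadraticMap.polar (⇑Q) u x) • v - (c * QuadraticMap.polar (⇑Q) v x) • u := by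
  unfold Cfsg.siegelMatrix
  rw [Matrix.add_mulVec, Matrix.one_mulVec, Matrix.smul_mulVec, Matrix.sub_mulVec,
    Matrix.vecMulVec_mulVec, Matrix.vecMulVec_mulVec, polarVec_dot, polarVec_dot]
  funext i
  simp only [Pi.add_apply, Pi.sub_apply, Pi.smul_apply, MulOpposite.smul_eq_mul_unop,
    MulOpposite.unop_op, smul_eq_mul]
  ring

/-- The Eichler map attached to a singular `u` and a vector `w` orthogonal to it. -/
def eichF (u w x : ι → F) : ι → F :=
  x + QuadraticMap.polar (⇑Q) u x • w - QuadraticMap.polar (⇑Q) w x • u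
    - (Q w * QuadraticMap.polar (⇑Q) u x) • u

theorem polar_self_zero {u : ι → F} (hu : Q u = 0) : QuadraticMap.polar (⇑Q) u u = 0 := by
  rw [cd_polar_self, hu, mul_zero]

/-- A long root element is an Eichler map. -/
theorem siegel_eq_eich (u v : ι → F) (c : F) (hv : Q v = 0) (x : ι → F) :
    Cfsg.siegelMatrix (⇑Q) u v c *ᵥ x = eichF Q u (c • v) x := by
  rw [siegel_mulVec]
  unfold eichF
  rw [QuadraticMap.map_smul, hv, QuadraticMap.polar_smul_left]
  funext i
  simp only [Pi.add_apply, Pi.sub_apply, Pi.smul_apply, smul_eq_mul]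
  ring

/-- Eichler maps at a fixed singular vector compose additively. -/
theorem eich_add (u w w' : ι → F) (hu : Q u = 0)
    (hw : QuadraticMap.polar (⇑Q) u w = 0) (hw' : QuadraticMap.polar (⇑Q) u w' = 0)
    (x : ι → F) : eichF Q u w (eichF Q u w' x) = eichF Q u (w + w') x := by
  have huu := polar_self_zero Q hu
  have hwu : QuadraticMap.polar (⇑Q) w u = 0 := by rw [QuadraticMap.polar_comm]; exact hw
  unfold eichF
  simp only [QuadraticMap.polar_add_right, QuadraticMap.polar_sub_right,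
    QuadraticMap.polar_smul_right, QuadraticMap.polar_add_left, huu, hw', hwu,
    QuadraticMap.map_add (⇑Q), smul_eq_mul, mul_zero, sub_zero, add_zero]
  funext i
  simp only [Pi.add_apply, Pi.sub_apply, Pi.smul_apply, smul_eq_mul]
  ring

/-- An Eichler map at a nonsingular `w` is a product of two reflections. -/
theorem refl_pair_eich (u w : ι → F) (hu : Q u = 0) (hw : Q w ≠ 0)
    (hwu : QuadraticMap.polar (⇑Q) w u = 0) (x : ι → F) :
    Cfsg.reflectionMatrix (⇑Q) w *ᵥ (Cfsg.reflectionMatrix (⇑Q) (w + Q w • u) *ᵥ x)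
      = eichF Q u w x := by
  have hq : Q (w + Q w • u) = Q w := by
    rw [QuadraticMap.map_add (⇑Q), QuadraticMap.map_smul, hu, QuadraticMap.polar_smul_right, hwu]
    simp
  have hww : QuadraticMap.polar (⇑Q) w w = 2 * Q w := cd_polar_self Q w
  rw [refl_mulVec, refl_mulVec, hq]
  unfold eichF
  simp only [QuadraticMap.polar_add_right, QuadraticMap.polar_sub_right,
    QuadraticMap.polar_smul_right, QuadraticMap.polar_add_left, QuadraticMap.polar_smul_left,
    hww, hwu, smul_eq_mul, mul_zero, add_zero]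
  funext i
  simp only [Pi.add_apply, Pi.sub_apply, Pi.smul_apply, smul_eq_mul]
  field_simp
  ring

theorem quad_pair_eq (u w : ι → F) (hu : Q u = 0)
    (hwu : QuadraticMap.polar (⇑Q) w u = 0) : Q (w + Q w • u) = Q w := by
  rw [QuadraticMap.map_add (⇑Q), QuadraticMap.map_smul, hu, QuadraticMap.polar_smul_right, hwu]
  simp

/-- Long root elements preserve the form. -/
theorem siegel_isom (u v : ι → F) (c : F) (hu : Q u = 0) (hv : Q v = 0)
    (huv : QuadraticMap.polar (⇑Q) u v = 0) (x : ι → F) :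
    Q (Cfsg.siegelMatrix (⇑Q) u v c *ᵥ x) = Q x := by
  have hvu : QuadraticMap.polar (⇑Q) v u = 0 := by rw [QuadraticMap.polar_comm]; exact huv
  rw [siegel_mulVec, sub_eq_add_neg, ← neg_smul, QuadraticMap.map_add (⇑Q),
    QuadraticMap.map_add (⇑Q), QuadraticMap.map_smul, QuadraticMap.map_smul, hu, hv,
    QuadraticMap.polar_smul_right, QuadraticMap.polar_smul_right, QuadraticMap.polar_add_left,
    QuadraticMap.polar_smul_left, hvu, QuadraticMap.polar_comm (⇑Q) x v,
    QuadraticMap.polar_comm (⇑Q) x u]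
  simp only [smul_eq_mul]
  ring

/-- Long root elements with the same pair of vectors multiply additively. -/
theorem siegel_mul (u v : ι → F) (c c' : F) (hu : Q u = 0) (hv : Q v = 0)
    (huv : QuadraticMap.polar (⇑Q) u v = 0) :
    Cfsg.siegelMatrix (⇑Q) u v c * Cfsg.siegelMatrix (⇑Q) u v c'
      = Cfsg.siegelMatrix (⇑Q) u v (c + c') := by
  have hvu : QuadraticMap.polar (⇑Q) v u = 0 := by rw [QuadraticMap.polar_comm]; exact huv
  have huu := polar_self_zero Q hu
  have hvv := polar_self_zero Q hv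
  apply Matrix.mulVec_injective
  funext x
  rw [← Matrix.mulVec_mulVec, siegel_mulVec, siegel_mulVec, siegel_mulVec]
  simp only [QuadraticMap.polar_add_right, QuadraticMap.polar_sub_right,
    QuadraticMap.polar_smul_right, huu, hvv, huv, hvu, smul_eq_mul, mul_zero, sub_zero, add_zero]
  funext i
  simp only [Pi.add_apply, Pi.sub_apply, Pi.smul_apply, smul_eq_mul]
  ring

theorem siegel_zero (u v : ι → F) : Cfsg.siegelMatrix (⇑Q) u v 0 = 1 := by
  unfold Cfsg.siegelMatrix
  rw [zero_smul, add_zero]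

/-- The long root element as an element of the isometry group. -/
noncomputable def siegelG (u v : ι → F) (c : F) (hu : Q u = 0) (hv : Q v = 0)
    (huv : QuadraticMap.polar (⇑Q) u v = 0) : ↥(Cfsg.isometryGroup F (⇑Q)) :=
  ⟨⟨Cfsg.siegelMatrix (⇑Q) u v c, Cfsg.siegelMatrix (⇑Q) u v (-c),
      by rw [siegel_mul Q u v c (-c) hu hv huv, add_neg_cancel, siegel_zero],
      by rw [siegel_mul Q u v (-c) c hu hv huv, neg_add_cancel, siegel_zero]⟩,
    (mem_isometryGroup_iff Q _).2 fun x => siegel_isom Q u v c hu hv huv x⟩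

@[simp] theorem siegelG_coe (u v : ι → F) (c : F) (hu : Q u = 0) (hv : Q v = 0)
    (huv : QuadraticMap.polar (⇑Q) u v = 0) :
    (((siegelG Q u v c hu hv huv : ↥(Cfsg.isometryGroup F (⇑Q))) :
      Matrix.GeneralLinearGroup ι F) : Matrix ι ι F) = Cfsg.siegelMatrix (⇑Q) u v c := rfl

/-- The set of long root elements. -/
def siegelSet : Set ↥(Cfsg.isometryGroup F (⇑Q)) :=
  {g | ∃ (u v : ι → F) (c : F), Q u = 0 ∧ Q v = 0 ∧ QuadraticMap.polar (⇑Q) u v = 0 ∧
    ((g : Matrix.GeneralLinearGroup ι F) : Matrix ι ι F) = Cfsg.siegelMatrix (⇑Q) u v c}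

/-- The subgroup generated by the long root elements. -/
def siegelSub : Subgroup ↥(Cfsg.isometryGroup F (⇑Q)) := Subgroup.closure (siegelSet Q)

theorem siegelG_mem (u v : ι → F) (c : F) (hu : Q u = 0) (hv : Q v = 0)
    (huv : QuadraticMap.polar (⇑Q) u v = 0) : siegelG Q u v c hu hv huv ∈ siegelSub Q :=
  Subgroup.subset_closure ⟨u, v, c, hu, hv, huv, rfl⟩

/-- Conjugating a long root element by an isometry. -/
theorem siegel_conj (g : ↥(Cfsg.isometryGroup F (⇑Q))) (u v : ι → F) (c : F) :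
    ((g : Matrix.GeneralLinearGroup ι F) : Matrix ι ι F) * Cfsg.siegelMatrix (⇑Q) u v c
        * (((g⁻¹ : ↥(Cfsg.isometryGroup F (⇑Q))) : Matrix.GeneralLinearGroup ι F) : Matrix ι ι F)
      = Cfsg.siegelMatrix (⇑Q)
          (((g : Matrix.GeneralLinearGroup ι F) : Matrix ι ι F) *ᵥ u)
          (((g : Matrix.GeneralLinearGroup ι F) : Matrix ι ι F) *ᵥ v) c := by
  apply Matrix.mulVec_injective
  funext x
  rw [← Matrix.mulVec_mulVec, ← Matrix.mulVec_mulVec, siegel_mulVec, siegel_mulVec,
    Matrix.mulVec_sub, Matrix.mulVec_add, Matrix.mulVec_smul, Matrix.mulVec_smul,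
    isomG_inv_mulVec]
  congr 3
  · rw [← isomG_polar Q g u, isomG_inv_mulVec]
  · rw [← isomG_polar Q g v, isomG_inv_mulVec]

theorem siegelSub_normal : (siegelSub Q).Normal := by
  constructor
  intro n hn g
  induction hn using Subgroup.closure_induction with
  | mem x hx =>
    obtain ⟨u, v, c, hu, hv, huv, hx⟩ := hx
    refine Subgroup.subset_closure
      ⟨((g : Matrix.GeneralLinearGroup ι F) : Matrix ι ι F) *ᵥ u,
        ((g : Matrix.GeneralLinearGroup ι F) : Matrix ι ι F) *ᵥ v, c, ?_, ?_, ?_, ?_⟩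
    · rw [isomG_map]; exact hu
    · rw [isomG_map]; exact hv
    · rw [isomG_polar]; exact huv
    · rw [isomG_mul_coe, isomG_mul_coe, hx, siegel_conj]
  | one =>
    rw [mul_one, mul_inv_cancel]
    exact Subgroup.one_mem _
  | mul a b _ _ ha hb =>
    have e : g * (a * b) * g⁻¹ = (g * a * g⁻¹) * (g * b * g⁻¹) := by group
    rw [e]
    exact Subgroup.mul_mem _ ha hb
  | inv a _ ha =>
    have e : g * a⁻¹ * g⁻¹ = (g * a * g⁻¹)⁻¹ := by group
    rw [e]
    exact Subgroup.inv_mem _ ha

end Siegel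

section Gen

variable {ι : Type} [Fintype ι] [DecidableEq ι] {F : Type*} [Field F] [Fintype F]
variable (Q : QuadraticForm F (ι → F))

/-- A nonsingular vector orthogonal to a subspace of dimension less than half. -/
theorem exists_perp_ns_small (hQ : (QuadraticMap.polarBilin Q).Nondegenerate)
    (T : Submodule F (ι → F)) (hdim : 2 * Module.finrank F T < Fintype.card ι) :
    ∃ b : ι → F, Q b ≠ 0 ∧ ∀ t ∈ T, QuadraticMap.polar (⇑Q) t b = 0 := by
  by_contra hcon
  push Not at hcon
  set W := LinearMap.BilinForm.orthogonal (QuadraticMap.polarBilin Q) T with hW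
  have hmem : ∀ x, x ∈ W ↔ ∀ t ∈ T, QuadraticMap.polar (⇑Q) t x = 0 := by
    intro x
    rw [hW, LinearMap.BilinForm.mem_orthogonal_iff]
    rfl
  have hsing : ∀ x ∈ W, Q x = 0 := by
    intro x hx
    by_contra h
    obtain ⟨t, ht, hne⟩ := hcon x h
    exact hne ((hmem x).1 hx t ht)
  have hle : W ≤ T := by
    rw [← LinearMap.BilinForm.orthogonal_orthogonal hQ (polar_refl' Q) T]
    intro x hx
    rw [LinearMap.BilinForm.mem_orthogonal_iff]
    intro y hy
    show QuadraticMap.polarBilin Q y x = 0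
    rw [QuadraticMap.polarBilin_apply_apply]
    have h1 := hsing (y + x) (W.add_mem hy hx)
    rw [QuadraticMap.map_add (⇑Q), hsing y hy, hsing x hx] at h1
    linear_combination h1
  have h1 := LinearMap.BilinForm.finrank_orthogonal hQ T
  rw [← hW, Module.finrank_fintype_fun_eq_card] at h1
  have h2 := Submodule.finrank_mono hle
  omega

/-- A vector of prescribed norm orthogonal to a nonsingular vector and to a singular vector
orthogonal to it, in dimension at least five. -/
theorem exists_perp_pair_rep (h2 : (2 : F) ≠ 0) (hQ : (QuadraticMap.polarBilin Q).Nondegenerate)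
    (h5 : 5 ≤ Fintype.card ι) (u s : ι → F) (hu : Q u ≠ 0) (hs0 : s ≠ 0) (hs : Q s = 0)
    (hus : QuadraticMap.polar (⇑Q) u s = 0) (c : F) :
    ∃ z : ι → F, Q z = c ∧ QuadraticMap.polar (⇑Q) u z = 0 ∧ QuadraticMap.polar (⇑Q) s z = 0 := by
  classical
  obtain ⟨y, hy, huy, hsy⟩ := exists_hyp_partner' Q h2 hQ u s hu hs0 hs hus
  have hss : QuadraticMap.polar (⇑Q) s s = 0 := by rw [cd_polar_self, hs, mul_zero]
  have hyy : QuadraticMap.polar (⇑Q) y y = 0 := by rw [cd_polar_self, hy, mul_zero]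
  have hsu : QuadraticMap.polar (⇑Q) s u = 0 := by rw [QuadraticMap.polar_comm, hus]
  have hyu : QuadraticMap.polar (⇑Q) y u = 0 := by rw [QuadraticMap.polar_comm, huy]
  have hys : QuadraticMap.polar (⇑Q) y s ≠ 0 := by rw [QuadraticMap.polar_comm]; exact hsy
  obtain ⟨T, hT⟩ : ∃ T : Submodule F (ι → F), T = Submodule.span F ({u, s, y} : Set (ι → F)) :=
    ⟨_, rfl⟩
  have hu_mem : u ∈ T := by rw [hT]; exact Submodule.subset_span (by simp)
  have hs_mem : s ∈ T := by rw [hT]; exact Submodule.subset_span (by simp)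
  have hy_mem : y ∈ T := by rw [hT]; exact Submodule.subset_span (by simp)
  have hTn : ∀ x ∈ T, (∀ t ∈ T, QuadraticMap.polar (⇑Q) t x = 0) → x = 0 := by
    intro x hx hall
    rw [hT, Submodule.mem_span_triple] at hx
    obtain ⟨a, b, e, rfl⟩ := hx
    have h1 := hall u hu_mem
    have h2' := hall s hs_mem
    have h3 := hall y hy_mem
    rw [QuadraticMap.polar_add_right, QuadraticMap.polar_add_right,
      QuadraticMap.polar_smul_right, QuadraticMap.polar_smul_right,
      QuadraticMap.polar_smul_right] at h1 h2' h3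
    rw [cd_polar_self, hus, huy, smul_zero, smul_zero, add_zero, add_zero, smul_eq_mul] at h1
    rw [hsu, hss, smul_zero, smul_zero, zero_add, zero_add, smul_eq_mul] at h2'
    rw [hyu, hyy, smul_zero, smul_zero, zero_add, add_zero, smul_eq_mul] at h3
    have ha : a = 0 := (mul_eq_zero.1 h1).resolve_right (mul_ne_zero h2 hu)
    have he : e = 0 := (mul_eq_zero.1 h2').resolve_right hsy
    have hb : b = 0 := (mul_eq_zero.1 h3).resolve_right hys
    rw [ha, he, hb, zero_smul, zero_smul, zero_smul, add_zero, add_zero]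
  have hdim : Module.finrank F T + 2 ≤ Fintype.card ι := by
    have h1 := finrank_span_finset_le_card (R := F) ({u, s, y} : Finset (ι → F))
    unfold Set.finrank at h1
    have h2 : ({u, s, y} : Finset (ι → F)).card ≤ 3 := Finset.card_le_three
    have h3 : Module.finrank F T
        = Module.finrank F (Submodule.span F ((({u, s, y} : Finset (ι → F))) : Set (ι → F))) := by
      rw [hT, Finset.coe_insert, Finset.coe_insert, Finset.coe_singleton]
    omega
  obtain ⟨z, hz, hzT⟩ := exists_perp_rep Q h2 hQ T hTn hdim c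
  exact ⟨z, hz, hzT u hu_mem, hzT s hs_mem⟩

/-- The product of the reflections in `a` and `a + u`, with `u` singular and orthogonal to
`a`, is a product of two long root elements. -/
theorem refl_pair_singular_mem (h2 : (2 : F) ≠ 0)
    (hQ : (QuadraticMap.polarBilin Q).Nondegenerate) (h5 : 5 ≤ Fintype.card ι)
    (a u : ι → F) (ha : Q a ≠ 0) (hu : Q u = 0) (hau : QuadraticMap.polar (⇑Q) a u = 0)
    (ha' : Q (a + u) ≠ 0) : reflG Q a ha * reflG Q (a + u) ha' ∈ siegelSub Q := by
  by_cases hu0 : u = 0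
  · have e : reflG Q (a + u) ha' = reflG Q a ha := by
      apply isomG_ext
      rw [reflG_coe, reflG_coe, hu0, add_zero]
    rw [e, reflG_mul_self]
    exact Subgroup.one_mem _
  obtain ⟨z, hz, haz, huz⟩ := exists_perp_pair_rep Q h2 hQ h5 a u ha hu0 hu hau (-(Q a))
  have hua : QuadraticMap.polar (⇑Q) u a = 0 := by rw [QuadraticMap.polar_comm]; exact hau
  -- the rescaled singular vector
  obtain ⟨u', hu'⟩ : ∃ u' : ι → F, u' = (Q a)⁻¹ • u := ⟨_, rfl⟩
  have hQu' : Q u' = 0 := by rw [hu', QuadraticMap.map_smul, hu, smul_zero]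
  have hu'a : QuadraticMap.polar (⇑Q) u' a = 0 := by
    rw [hu', QuadraticMap.polar_smul_left, hua, smul_zero]
  have hu'z : QuadraticMap.polar (⇑Q) u' z = 0 := by
    rw [hu', QuadraticMap.polar_smul_left, huz, smul_zero]
  have hau' : QuadraticMap.polar (⇑Q) a u' = 0 := by rw [QuadraticMap.polar_comm]; exact hu'a
  have e0 : a + u = a + Q a • u' := by
    rw [hu', smul_smul, mul_inv_cancel₀ ha, one_smul]
  have h2i : (2 : F)⁻¹ * 2 = 1 := inv_mul_cancel₀ h2
  obtain ⟨v₁, hv₁⟩ : ∃ v₁ : ι → F, v₁ = (2 : F)⁻¹ • (a + z) := ⟨_, rfl⟩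
  obtain ⟨v₂, hv₂⟩ : ∃ v₂ : ι → F, v₂ = (2 : F)⁻¹ • (a - z) := ⟨_, rfl⟩
  have hQv₁ : Q v₁ = 0 := by
    rw [hv₁, QuadraticMap.map_smul, QuadraticMap.map_add (⇑Q), hz, haz]
    simp
  have hQv₂ : Q v₂ = 0 := by
    rw [hv₂, QuadraticMap.map_smul, sub_eq_add_neg, QuadraticMap.map_add (⇑Q),
      QuadraticMap.map_neg, hz, QuadraticMap.polar_neg_right, haz]
    simp
  have hu'v₁ : QuadraticMap.polar (⇑Q) u' v₁ = 0 := by
    rw [hv₁, QuadraticMap.polar_smul_right, QuadraticMap.polar_add_right, hu'a, hu'z]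
    simp
  have hu'v₂ : QuadraticMap.polar (⇑Q) u' v₂ = 0 := by
    rw [hv₂, QuadraticMap.polar_smul_right, QuadraticMap.polar_sub_right, hu'a, hu'z]
    simp
  have hsum : v₁ + v₂ = a := by
    rw [hv₁, hv₂, ← smul_add]
    have : a + z + (a - z) = (2 : F) • a := by rw [two_smul]; abel
    rw [this, smul_smul, h2i, one_smul]
  have e : reflG Q a ha * reflG Q (a + u) ha'
      = siegelG Q u' v₁ 1 hQu' hQv₁ hu'v₁ * siegelG Q u' v₂ 1 hQu' hQv₂ hu'v₂ := by
    apply isomG_ext
    apply Matrix.mulVec_injective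
    funext x
    rw [isomG_mul_coe, isomG_mul_coe, reflG_coe, reflG_coe, siegelG_coe, siegelG_coe,
      ← Matrix.mulVec_mulVec, ← Matrix.mulVec_mulVec, e0,
      refl_pair_eich Q u' a hQu' ha hau', siegel_eq_eich Q u' v₂ 1 hQv₂,
      siegel_eq_eich Q u' v₁ 1 hQv₁, one_smul, one_smul,
      eich_add Q u' v₁ v₂ hQu' hu'v₁ hu'v₂, hsum]
  rw [e]
  exact Subgroup.mul_mem _ (siegelG_mem Q _ _ _ _ _ _) (siegelG_mem Q _ _ _ _ _ _)

/-- Reflections in two vectors of the same norm whose difference is singular. -/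
theorem refl_pair_close_mem (h2 : (2 : F) ≠ 0)
    (hQ : (QuadraticMap.polarBilin Q).Nondegenerate) (h5 : 5 ≤ Fintype.card ι)
    (a b : ι → F) (ha : Q a ≠ 0) (hb : Q b ≠ 0) (hab : Q a = Q b)
    (hp : QuadraticMap.polar (⇑Q) a b = 2 * Q a) :
    reflG Q a ha * reflG Q b hb ∈ siegelSub Q := by
  have e : b = a + (b - a) := by abel
  have hb' : Q (a + (b - a)) ≠ 0 := by rw [← e]; exact hb
  have e2 : reflG Q b hb = reflG Q (a + (b - a)) hb' := by
    apply isomG_ext
    rw [reflG_coe, reflG_coe, ← e]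
  rw [e2]
  refine refl_pair_singular_mem Q h2 hQ h5 a (b - a) ha ?_ ?_ hb'
  · rw [cd_Q_sub, QuadraticMap.polar_comm, hp, ← hab]
    ring
  · rw [QuadraticMap.polar_sub_right, hp, cd_polar_self]
    ring

/-- **Reflection pairs**: in odd characteristic and dimension at least five, the product of
two reflections in vectors of the same norm is a product of long root elements. -/
theorem refl_pair_mem_siegel (h2 : (2 : F) ≠ 0)
    (hQ : (QuadraticMap.polarBilin Q).Nondegenerate) (h5 : 5 ≤ Fintype.card ι)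
    (a b : ι → F) (ha : Q a ≠ 0) (hb : Q b ≠ 0) (hab : Q a = Q b) :
    reflG Q a ha * reflG Q b hb ∈ siegelSub Q := by
  classical
  by_cases hp1 : QuadraticMap.polar (⇑Q) a b = 2 * Q a
  · exact refl_pair_close_mem Q h2 hQ h5 a b ha hb hab hp1
  by_cases hp2 : QuadraticMap.polar (⇑Q) a b = -(2 * Q a)
  · have hnb : Q (-b) ≠ 0 := by rw [QuadraticMap.map_neg]; exact hb
    have e : reflG Q b hb = reflG Q (-b) hnb := by
      apply isomG_ext
      rw [reflG_coe, reflG_coe, ← neg_one_smul F b, refl_smul Q (-1) (by norm_num) b]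
    rw [e]
    refine refl_pair_close_mem Q h2 hQ h5 a (-b) ha hnb ?_ ?_
    · rw [QuadraticMap.map_neg]; exact hab
    · rw [QuadraticMap.polar_neg_right, hp2, neg_neg]
  -- the generic case: the two vectors span a nondegenerate plane
  obtain ⟨κ, hκ⟩ : ∃ κ : F, κ = Q a := ⟨_, rfl⟩
  obtain ⟨φ, hφ⟩ : ∃ φ : F, φ = QuadraticMap.polar (⇑Q) a b := ⟨_, rfl⟩
  have hκ0 : κ ≠ 0 := by rw [hκ]; exact ha
  have hQb : Q b = κ := by rw [← hab, hκ]
  have hd1 : 2 * κ + φ ≠ 0 := by
    intro h
    apply hp2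
    rw [← hφ, ← hκ]
    linear_combination h
  have hd2 : 2 * κ - φ ≠ 0 := by
    intro h
    apply hp1
    rw [← hφ, ← hκ]
    linear_combination -h
  have hba : QuadraticMap.polar (⇑Q) b a = φ := by rw [QuadraticMap.polar_comm, hφ]
  have haa : QuadraticMap.polar (⇑Q) a a = 2 * κ := by rw [cd_polar_self, hκ]
  have hbb : QuadraticMap.polar (⇑Q) b b = 2 * κ := by rw [cd_polar_self, hQb]
  obtain ⟨T, hT⟩ : ∃ T : Submodule F (ι → F), T = Submodule.span F ({a, b} : Set (ι → F)) :=
    ⟨_, rfl⟩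
  have ha_mem : a ∈ T := by rw [hT]; exact Submodule.subset_span (by simp)
  have hb_mem : b ∈ T := by rw [hT]; exact Submodule.subset_span (by simp)
  have hTn : ∀ x ∈ T, (∀ t ∈ T, QuadraticMap.polar (⇑Q) t x = 0) → x = 0 := by
    intro x hx hall
    rw [hT, Submodule.mem_span_pair] at hx
    obtain ⟨α, β, rfl⟩ := hx
    have h1 := hall a ha_mem
    have h3 := hall b hb_mem
    rw [QuadraticMap.polar_add_right, QuadraticMap.polar_smul_right,
      QuadraticMap.polar_smul_right] at h1 h3
    rw [haa, ← hφ, smul_eq_mul, smul_eq_mul] at h1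
    rw [hba, hbb, smul_eq_mul, smul_eq_mul] at h3
    have hα : α = 0 := by
      have : (2 * κ + φ) * (2 * κ - φ) * α = 0 := by linear_combination 2 * κ * h1 - φ * h3
      rcases mul_eq_zero.1 this with h | h
      · exact absurd h (mul_ne_zero hd1 hd2)
      · exact h
    have hβ : β = 0 := by
      have : (2 * κ + φ) * (2 * κ - φ) * β = 0 := by linear_combination 2 * κ * h3 - φ * h1
      rcases mul_eq_zero.1 this with h | h
      · exact absurd h (mul_ne_zero hd1 hd2)
      · exact h
    rw [hα, hβ, zero_smul, zero_smul, add_zero]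
  have hdim : Module.finrank F T + 2 ≤ Fintype.card ι := by
    have h1 := finrank_span_finset_le_card (R := F) ({a, b} : Finset (ι → F))
    unfold Set.finrank at h1
    have h2 : ({a, b} : Finset (ι → F)).card ≤ 2 := Finset.card_le_two
    have h3 : Module.finrank F T
        = Module.finrank F (Submodule.span F ((({a, b} : Finset (ι → F))) : Set (ι → F))) := by
      rw [hT, Finset.coe_insert, Finset.coe_singleton]
    omega
  obtain ⟨α, hα⟩ : ∃ α : F, α = 2 * κ / (2 * κ + φ) := ⟨_, rfl⟩
  obtain ⟨p, hp⟩ : ∃ p : ι → F, p = α • (a + b) := ⟨_, rfl⟩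
  obtain ⟨z, hz, hzT⟩ := exists_perp_rep Q h2 hQ T hTn hdim (κ - Q p)
  have haz := hzT a ha_mem
  have hbz := hzT b hb_mem
  have hpz : QuadraticMap.polar (⇑Q) p z = 0 := by
    rw [hp, QuadraticMap.polar_smul_left, QuadraticMap.polar_add_left, haz, hbz]
    simp
  have hα1 : α * (2 * κ + φ) = 2 * κ := by
    rw [hα]
    field_simp
  obtain ⟨c, hc⟩ : ∃ c : ι → F, c = p + z := ⟨_, rfl⟩
  have hQc : Q c = κ := by
    rw [hc, QuadraticMap.map_add (⇑Q), hz, hpz]
    ring
  have hc0 : Q c ≠ 0 := by rw [hQc]; exact hκ0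
  have hac : QuadraticMap.polar (⇑Q) a c = 2 * κ := by
    rw [hc, QuadraticMap.polar_add_right, haz, hp, QuadraticMap.polar_smul_right,
      QuadraticMap.polar_add_right, haa, ← hφ, smul_eq_mul, add_zero]
    exact hα1
  have hcb : QuadraticMap.polar (⇑Q) c b = 2 * κ := by
    rw [QuadraticMap.polar_comm, hc, QuadraticMap.polar_add_right, hbz, hp,
      QuadraticMap.polar_smul_right, QuadraticMap.polar_add_right, hba, hbb, smul_eq_mul,
      add_zero]
    linear_combination hα1
  have e : reflG Q a ha * reflG Q b hb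
      = (reflG Q a ha * reflG Q c hc0) * (reflG Q c hc0 * reflG Q b hb) := by
    rw [mul_assoc, ← mul_assoc (reflG Q c hc0), reflG_mul_self, one_mul]
  rw [e]
  refine Subgroup.mul_mem _ (refl_pair_close_mem Q h2 hQ h5 a c ha hc0 ?_ ?_)
    (refl_pair_close_mem Q h2 hQ h5 c b hc0 hb ?_ ?_)
  · rw [hQc, hκ]
  · rw [hac, hκ]
  · rw [hQc, hQb]
  · rw [hcb, hQc]

end Gen

section GroupLemma

/-- If a group is generated by a set whose elements commute modulo a normal subgroup, then
its commutator subgroup lies in that normal subgroup. -/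
theorem commutator_le_of_gens {G : Type*} [Group G] (R : Set G)
    (hR : Subgroup.closure R = ⊤) (N : Subgroup G) [hN : N.Normal]
    (h : ∀ r ∈ R, ∀ s ∈ R, r * s * r⁻¹ * s⁻¹ ∈ N) : commutator G ≤ N := by
  have hc : Subgroup.closure ((QuotientGroup.mk' N) '' R) = ⊤ := by
    rw [← MonoidHom.map_closure, hR, ← MonoidHom.range_eq_map, MonoidHom.range_eq_top]
    exact QuotientGroup.mk'_surjective N
  have hcomm : ∀ x ∈ (QuotientGroup.mk' N) '' R, ∀ y ∈ (QuotientGroup.mk' N) '' R,
      x * y = y * x := by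
    rintro _ ⟨r, hr, rfl⟩ _ ⟨s, hs, rfl⟩
    have h1 : (QuotientGroup.mk' N) (r * s * r⁻¹ * s⁻¹) = 1 :=
      (QuotientGroup.eq_one_iff _).2 (h r hr s hs)
    rw [map_mul, map_mul, map_mul, map_inv, map_inv, mul_inv_eq_one, mul_inv_eq_iff_eq_mul] at h1
    exact h1
  have h1 : ∀ x : G ⧸ N, ∀ y ∈ (QuotientGroup.mk' N) '' R, y * x = x * y := by
    intro x
    have hx : x ∈ Subgroup.closure ((QuotientGroup.mk' N) '' R) := by rw [hc]; trivial
    have hle : Subgroup.closure ((QuotientGroup.mk' N) '' R)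
        ≤ Subgroup.centralizer ((QuotientGroup.mk' N) '' R) := by
      rw [Subgroup.closure_le]
      intro z hz
      rw [SetLike.mem_coe, Subgroup.mem_centralizer_iff]
      intro y hy
      exact hcomm y hy z hz
    exact Subgroup.mem_centralizer_iff.1 (hle hx)
  have h2 : ∀ x y : G ⧸ N, x * y = y * x := by
    intro x y
    have hy : y ∈ Subgroup.closure ((QuotientGroup.mk' N) '' R) := by rw [hc]; trivial
    have hle : Subgroup.closure ((QuotientGroup.mk' N) '' R) ≤ Subgroup.center (G ⧸ N) := by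
      rw [Subgroup.closure_le]
      intro z hz
      rw [SetLike.mem_coe, Subgroup.mem_center_iff]
      intro g
      exact (h1 g z hz).symm
    exact Subgroup.mem_center_iff.1 (hle hy) x
  rw [commutator_def, Subgroup.commutator_le]
  intro g₁ _ g₂ _
  rw [← QuotientGroup.eq_one_iff, commutatorElement_def]
  have h3 := h2 (QuotientGroup.mk' N g₁) (QuotientGroup.mk' N g₂)
  have h4 : (QuotientGroup.mk' N) (g₁ * g₂ * g₁⁻¹ * g₂⁻¹) = 1 := by
    rw [map_mul, map_mul, map_mul, map_inv, map_inv, mul_inv_eq_one, mul_inv_eq_iff_eq_mul]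
    exact h3
  exact h4

end GroupLemma

section Main

variable {ι : Type} [Fintype ι] [DecidableEq ι] {F : Type*} [Field F] [Fintype F]
variable (Q : QuadraticForm F (ι → F))

/-- In odd characteristic and dimension at least five, the commutator subgroup of the isometry
group is contained in the subgroup generated by the long root elements. -/
theorem omega_le_siegelSub (h2 : (2 : F) ≠ 0) (hQ : (QuadraticMap.polarBilin Q).Nondegenerate)
    (h5 : 5 ≤ Fintype.card ι) : Cfsg.Omega F (⇑Q) ≤ siegelSub Q := by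
  have := siegelSub_normal Q
  apply commutator_le_of_gens (cdR Q) (eq_top_iff.2 fun g _ => cartan_dieudonne Q h2 hQ g)
  rintro r ⟨a, ha, hr⟩ s ⟨b, hb, hs⟩
  have er : r = reflG Q a ha := isomG_ext Q (by rw [hr, reflG_coe])
  have es : s = reflG Q b hb := isomG_ext Q (by rw [hs, reflG_coe])
  rw [er, es, reflG_inv, reflG_inv]
  have hq : Q (((reflG Q b hb : Matrix.GeneralLinearGroup ι F) : Matrix ι ι F) *ᵥ a) ≠ 0 := by
    rw [isomG_map]
    exact ha
  have e1 := refl_conj Q (reflG Q b hb) a ha hq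
  rw [reflG_inv] at e1
  have e2 : reflG Q a ha * reflG Q b hb * reflG Q a ha * reflG Q b hb
      = reflG Q a ha * (reflG Q b hb * reflG Q a ha * reflG Q b hb) := by group
  rw [e2, e1]
  exact refl_pair_mem_siegel Q h2 hQ h5 a _ ha hq (by rw [isomG_map])

/-- Long root elements lie in the commutator subgroup of the isometry group. -/
theorem siegelSub_le_omega (hQ : (QuadraticMap.polarBilin Q).Nondegenerate)
    (h5 : 5 ≤ Fintype.card ι) : siegelSub Q ≤ Cfsg.Omega F (⇑Q) := by
  classical
  unfold siegelSub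
  rw [Subgroup.closure_le]
  rintro g ⟨u, v, c, hu, hv, huv, hg⟩
  rw [SetLike.mem_coe]
  have hvu : QuadraticMap.polar (⇑Q) v u = 0 := by rw [QuadraticMap.polar_comm]; exact huv
  obtain ⟨T, hT⟩ : ∃ T : Submodule F (ι → F), T = Submodule.span F ({u, v} : Set (ι → F)) :=
    ⟨_, rfl⟩
  have hu_mem : u ∈ T := by rw [hT]; exact Submodule.subset_span (by simp)
  have hv_mem : v ∈ T := by rw [hT]; exact Submodule.subset_span (by simp)
  have hdim : 2 * Module.finrank F T < Fintype.card ι := by
    have h1 := finrank_span_finset_le_card (R := F) ({u, v} : Finset (ι → F))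
    unfold Set.finrank at h1
    have h2 : ({u, v} : Finset (ι → F)).card ≤ 2 := Finset.card_le_two
    have h3 : Module.finrank F T
        = Module.finrank F (Submodule.span F ((({u, v} : Finset (ι → F))) : Set (ι → F))) := by
      rw [hT, Finset.coe_insert, Finset.coe_singleton]
    omega
  obtain ⟨w, hw, hwT⟩ := exists_perp_ns_small Q hQ T hdim
  have huw := hwT u hu_mem
  have hvw := hwT v hv_mem
  have hwu : QuadraticMap.polar (⇑Q) w u = 0 := by rw [QuadraticMap.polar_comm]; exact huw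
  obtain ⟨w', hw'⟩ : ∃ w' : ι → F, w' = c • v - w := ⟨_, rfl⟩
  have hQw' : Q w' = Q w := by
    rw [hw', cd_Q_sub, QuadraticMap.map_smul, hv, QuadraticMap.polar_smul_left, hvw]
    simp
  have hw'0 : Q w' ≠ 0 := by rw [hQw']; exact hw
  have huw' : QuadraticMap.polar (⇑Q) u w' = 0 := by
    rw [hw', QuadraticMap.polar_sub_right, QuadraticMap.polar_smul_right, huv, huw]
    simp
  have hw'u : QuadraticMap.polar (⇑Q) w' u = 0 := by rw [QuadraticMap.polar_comm]; exact huw'
  have hq1 : Q (w + Q w • u) ≠ 0 := by rw [quad_pair_eq Q u w hu hwu]; exact hw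
  have hq2 : Q (w' + Q w' • u) ≠ 0 := by rw [quad_pair_eq Q u w' hu hw'u]; exact hw'0
  have hex : Fintype.card F ≠ 2 ∨ Fintype.card ι ≠ 4 := Or.inr (by omega)
  have e : g = (reflG Q w hw * reflG Q (w + Q w • u) hq1)
      * (reflG Q w' hw'0 * reflG Q (w' + Q w' • u) hq2) := by
    apply isomG_ext
    apply Matrix.mulVec_injective
    funext x
    rw [hg, isomG_mul_coe, isomG_mul_coe, isomG_mul_coe, reflG_coe, reflG_coe, reflG_coe,
      reflG_coe, ← Matrix.mulVec_mulVec, ← Matrix.mulVec_mulVec, ← Matrix.mulVec_mulVec,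
      refl_pair_eich Q u w' hu hw'0 hw'u, refl_pair_eich Q u w hu hw hwu,
      eich_add Q u w w' hu huw huw', siegel_eq_eich Q u v c hv]
    congr 1
    rw [hw']
    abel
  rw [e]
  refine Subgroup.mul_mem _ (refl_pair_mem_omega Q hQ hex hw hq1 ?_)
    (refl_pair_mem_omega Q hQ hex hw'0 hq2 ?_)
  · rw [quad_pair_eq Q u w hu hwu]
    exact ⟨Q w, rfl⟩
  · rw [quad_pair_eq Q u w' hu hw'u]
    exact ⟨Q w', rfl⟩

/-- **Generation by long root elements** (odd characteristic, dimension at least five). -/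
theorem omega_eq_siegelSub (h2 : (2 : F) ≠ 0) (hQ : (QuadraticMap.polarBilin Q).Nondegenerate)
    (h5 : 5 ≤ Fintype.card ι) : Cfsg.Omega F (⇑Q) = siegelSub Q :=
  le_antisymm (omega_le_siegelSub Q h2 hQ h5) (siegelSub_le_omega Q hQ h5)

end Main

end Cfsg.Agent.Lib.Helper3
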