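import Mathlib
import Cfsg.Prelude.Def_ClassicalGeometry
import Cfsg.Agent.Lib.Helper3.Siegel
import Cfsg.Agent.S5676

/-!
# Eichler elements and the geometry of singular vectors

Vector-level lemmas used for the simplicity of the projective commutator subgroups of the
orthogonal groups: the group of Eichler maps at a singular vector, its transitivity on the
singular vectors not orthogonal to it, and the existence lemmas needed for primitivity.
-/

set_option autoImplicit false
set_option linter.unusedSectionVars false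

namespace Cfsg.Agent.Lib.Helper3

open Cfsg.Agent.Lib.Helper16 Matrix

section Eich

variable {ι : Type} [Fintype ι] [DecidableEq ι] {F : Type*} [Field F]
variable (Q : QuadraticForm F (ι → F))

theorem eich_zero (u y : ι → F) : eichF Q u 0 y = y := by
  unfold eichF
  simp

theorem eich_smul (a : F) (u w y : ι → F) : eichF Q (a • u) w y = eichF Q u (a • w) y := by
  unfold eichF
  rw [QuadraticMap.polar_smul_left, QuadraticMap.polar_smul_left, QuadraticMap.map_smul]
  funext i
  simp only [Pi.add_apply, Pi.sub_apply, Pi.smul_apply, smul_eq_mul]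
  ring

/-- Conjugating an Eichler map by an isometry. -/
theorem eich_conj (g : ↥(Cfsg.isometryGroup F (⇑Q))) (u w y : ι → F) :
    ((g : Matrix.GeneralLinearGroup ι F) : Matrix ι ι F) *ᵥ
      eichF Q u w ((((g⁻¹ : ↥(Cfsg.isometryGroup F (⇑Q))) : Matrix.GeneralLinearGroup ι F) :
        Matrix ι ι F) *ᵥ y)
      = eichF Q (((g : Matrix.GeneralLinearGroup ι F) : Matrix ι ι F) *ᵥ u)
          (((g : Matrix.GeneralLinearGroup ι F) : Matrix ι ι F) *ᵥ w) y := by
  unfold eichF
  rw [Matrix.mulVec_sub, Matrix.mulVec_sub, Matrix.mulVec_add, Matrix.mulVec_smul,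
    Matrix.mulVec_smul, Matrix.mulVec_smul, isomG_inv_mulVec, isomG_map]
  congr 3
  · rw [← isomG_polar Q g u, isomG_inv_mulVec]
  · rw [← isomG_polar Q g w, isomG_inv_mulVec]
  · rw [← isomG_polar Q g u, isomG_inv_mulVec]

/-- The group of Eichler maps at a singular vector. -/
def eichSub' (u : ι → F) (hu : Q u = 0) : Subgroup ↥(Cfsg.isometryGroup F (⇑Q)) where
  carrier := {g | ∃ w : ι → F, QuadraticMap.polar (⇑Q) u w = 0 ∧
    ∀ y, ((g : Matrix.GeneralLinearGroup ι F) : Matrix ι ι F) *ᵥ y = eichF Q u w y}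
  mul_mem' := by
    rintro g g' ⟨w, hw, h⟩ ⟨w', hw', h'⟩
    refine ⟨w + w', by rw [QuadraticMap.polar_add_right, hw, hw', add_zero], fun y => ?_⟩
    rw [isomG_mul_coe, ← Matrix.mulVec_mulVec, h', h, eich_add Q u w w' hu hw hw']
  one_mem' := ⟨0, by simp, fun y => by rw [isomG_one_coe, Matrix.one_mulVec, eich_zero]⟩
  inv_mem' := by
    rintro g ⟨w, hw, h⟩
    refine ⟨-w, by rw [QuadraticMap.polar_neg_right, hw, neg_zero], fun y => ?_⟩
    have h1 : ((g : Matrix.GeneralLinearGroup ι F) : Matrix ι ι F) *ᵥ eichF Q u (-w) y = y := by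
      rw [h, eich_add Q u w (-w) hu hw (by rw [QuadraticMap.polar_neg_right, hw, neg_zero]),
        add_neg_cancel, eich_zero]
    rw [← h1, isomG_inv_mulVec', h1]

open Classical in
/-- The group of Eichler maps at a vector (trivial unless the vector is singular). -/
noncomputable def eichSub (u : ι → F) : Subgroup ↥(Cfsg.isometryGroup F (⇑Q)) :=
  if hu : Q u = 0 then eichSub' Q u hu else ⊥

theorem mem_eichSub (u : ι → F) (hu : Q u = 0) (g : ↥(Cfsg.isometryGroup F (⇑Q))) :
    g ∈ eichSub Q u ↔ ∃ w : ι → F, QuadraticMap.polar (⇑Q) u w = 0 ∧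
      ∀ y, ((g : Matrix.GeneralLinearGroup ι F) : Matrix ι ι F) *ᵥ y = eichF Q u w y := by
  unfold eichSub
  rw [dif_pos hu]
  rfl

theorem eichSub_smul (a : F) (ha : a ≠ 0) (u : ι → F) (hu : Q u = 0) :
    eichSub Q (a • u) = eichSub Q u := by
  have hau : Q (a • u) = 0 := by rw [QuadraticMap.map_smul, hu, smul_zero]
  ext g
  rw [mem_eichSub Q _ hau, mem_eichSub Q _ hu]
  constructor
  · rintro ⟨w, hw, h⟩
    refine ⟨a • w, ?_, fun y => by rw [h, eich_smul]⟩
    rw [QuadraticMap.polar_smul_left, smul_eq_mul] at hw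
    rw [QuadraticMap.polar_smul_right, smul_eq_mul]
    exact hw
  · rintro ⟨w, hw, h⟩
    refine ⟨a⁻¹ • w, ?_, fun y => by rw [h, eich_smul, smul_smul, mul_inv_cancel₀ ha, one_smul]⟩
    rw [QuadraticMap.polar_smul_left, QuadraticMap.polar_smul_right, hw, smul_zero, smul_zero]

theorem eichSub_conj (g h : ↥(Cfsg.isometryGroup F (⇑Q))) (u : ι → F) (hu : Q u = 0) :
    h ∈ eichSub Q (((g : Matrix.GeneralLinearGroup ι F) : Matrix ι ι F) *ᵥ u)
      ↔ g⁻¹ * h * g ∈ eichSub Q u := by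
  have hgu : Q (((g : Matrix.GeneralLinearGroup ι F) : Matrix ι ι F) *ᵥ u) = 0 := by
    rw [isomG_map]; exact hu
  rw [mem_eichSub Q _ hgu, mem_eichSub Q _ hu]
  constructor
  · rintro ⟨w, hw, h1⟩
    refine ⟨(((g⁻¹ : ↥(Cfsg.isometryGroup F (⇑Q))) : Matrix.GeneralLinearGroup ι F) :
        Matrix ι ι F) *ᵥ w, ?_, fun y => ?_⟩
    · rw [← isomG_polar Q g, isomG_inv_mulVec]
      exact hw
    · rw [isomG_mul_coe, isomG_mul_coe, ← Matrix.mulVec_mulVec, ← Matrix.mulVec_mulVec, h1]
      have h2 := eich_conj Q g⁻¹ (((g : Matrix.GeneralLinearGroup ι F) : Matrix ι ι F) *ᵥ u) w y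
      rw [inv_inv, isomG_inv_mulVec'] at h2
      exact h2
  · rintro ⟨w, hw, h1⟩
    refine ⟨((g : Matrix.GeneralLinearGroup ι F) : Matrix ι ι F) *ᵥ w, ?_, fun y => ?_⟩
    · rw [isomG_polar]
      exact hw
    · rw [← eich_conj, ← h1, isomG_mul_coe, isomG_mul_coe, ← Matrix.mulVec_mulVec,
        ← Matrix.mulVec_mulVec, isomG_inv_mulVec, isomG_inv_mulVec]

theorem eichSub_comm (u : ι → F) (hu : Q u = 0) (g h : ↥(Cfsg.isometryGroup F (⇑Q)))
    (hg : g ∈ eichSub Q u) (hh : h ∈ eichSub Q u) : g * h = h * g := by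
  rw [mem_eichSub Q u hu] at hg hh
  obtain ⟨w, hw, h1⟩ := hg
  obtain ⟨w', hw', h2⟩ := hh
  apply isomG_ext
  apply Matrix.mulVec_injective
  funext y
  rw [isomG_mul_coe, isomG_mul_coe, ← Matrix.mulVec_mulVec, ← Matrix.mulVec_mulVec, h2, h1, h1,
    h2, eich_add Q u w w' hu hw hw', eich_add Q u w' w hu hw' hw, add_comm]

end Eich

section EichFin

variable {ι : Type} [Fintype ι] [DecidableEq ι] {F : Type*} [Field F] [Fintype F]
variable (Q : QuadraticForm F (ι → F))

/-- Eichler maps are realised by elements of the commutator subgroup. -/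
theorem exists_eich (hQ : (QuadraticMap.polarBilin Q).Nondegenerate) (h5 : 5 ≤ Fintype.card ι)
    (u w : ι → F) (hu : Q u = 0) (huw : QuadraticMap.polar (⇑Q) u w = 0) :
    ∃ g : ↥(Cfsg.isometryGroup F (⇑Q)), g ∈ Cfsg.Omega F (⇑Q) ∧
      ∀ y, ((g : Matrix.GeneralLinearGroup ι F) : Matrix ι ι F) *ᵥ y = eichF Q u w y := by
  have hwu : QuadraticMap.polar (⇑Q) w u = 0 := by rw [QuadraticMap.polar_comm]; exact huw
  by_cases hw : Q w = 0
  · refine ⟨siegelG Q u w 1 hu hw huw, siegelSub_le_omega Q hQ h5 (siegelG_mem Q _ _ _ _ _ _),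
      fun y => ?_⟩
    rw [siegelG_coe, siegel_eq_eich Q u w 1 hw, one_smul]
  · have hq1 : Q (w + Q w • u) ≠ 0 := by rw [quad_pair_eq Q u w hu hwu]; exact hw
    have hex : Fintype.card F ≠ 2 ∨ Fintype.card ι ≠ 4 := Or.inr (by omega)
    refine ⟨reflG Q w hw * reflG Q (w + Q w • u) hq1,
      refl_pair_mem_omega Q hQ hex hw hq1 ?_, fun y => ?_⟩
    · rw [quad_pair_eq Q u w hu hwu]
      exact ⟨Q w, rfl⟩
    · rw [isomG_mul_coe, reflG_coe, reflG_coe, ← Matrix.mulVec_mulVec,
        refl_pair_eich Q u w hu hw hwu]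

theorem eichSub_le_omega (hQ : (QuadraticMap.polarBilin Q).Nondegenerate)
    (h5 : 5 ≤ Fintype.card ι) (u : ι → F) (hu : Q u = 0) :
    eichSub Q u ≤ Cfsg.Omega F (⇑Q) := by
  intro g hg
  rw [mem_eichSub Q u hu] at hg
  obtain ⟨w, hw, h1⟩ := hg
  obtain ⟨g', hg', h2⟩ := exists_eich Q hQ h5 u w hu hw
  have e : g = g' := by
    apply isomG_ext
    apply Matrix.mulVec_injective
    funext y
    rw [h1, h2]
  rw [e]
  exact hg'

/-- The Eichler group at `u` is transitive on the singular points not orthogonal to `u`. -/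
theorem eich_trans (hQ : (QuadraticMap.polarBilin Q).Nondegenerate) (h5 : 5 ≤ Fintype.card ι)
    (u y y' : ι → F) (hu : Q u = 0) (hy : Q y = 0) (hy' : Q y' = 0)
    (huy : QuadraticMap.polar (⇑Q) u y ≠ 0) (huy' : QuadraticMap.polar (⇑Q) u y' ≠ 0) :
    ∃ g : ↥(Cfsg.isometryGroup F (⇑Q)), g ∈ Cfsg.Omega F (⇑Q) ∧ g ∈ eichSub Q u ∧
      ∃ a : F, a ≠ 0 ∧ ((g : Matrix.GeneralLinearGroup ι F) : Matrix ι ι F) *ᵥ y = a • y' := by
  obtain ⟨α, hα⟩ : ∃ α : F, α = QuadraticMap.polar (⇑Q) u y := ⟨_, rfl⟩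
  obtain ⟨α', hα'⟩ : ∃ α' : F, α' = QuadraticMap.polar (⇑Q) u y' := ⟨_, rfl⟩
  obtain ⟨β, hβ⟩ : ∃ β : F, β = QuadraticMap.polar (⇑Q) y' y := ⟨_, rfl⟩
  have hα0 : α ≠ 0 := by rw [hα]; exact huy
  have hα'0 : α' ≠ 0 := by rw [hα']; exact huy'
  obtain ⟨w, hw⟩ : ∃ w : ι → F, w = α'⁻¹ • y' - α⁻¹ • y := ⟨_, rfl⟩
  have huw : QuadraticMap.polar (⇑Q) u w = 0 := by
    rw [hw, QuadraticMap.polar_sub_right, QuadraticMap.polar_smul_right,
      QuadraticMap.polar_smul_right, ← hα, ← hα', smul_eq_mul, smul_eq_mul,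
      inv_mul_cancel₀ hα0, inv_mul_cancel₀ hα'0, sub_self]
  have hyy : QuadraticMap.polar (⇑Q) y y = 0 := polar_self_zero Q hy
  have hwy : QuadraticMap.polar (⇑Q) w y = α'⁻¹ * β := by
    rw [hw, QuadraticMap.polar_sub_left, QuadraticMap.polar_smul_left,
      QuadraticMap.polar_smul_left, hyy, ← hβ, smul_eq_mul, smul_zero, sub_zero]
  have hQw : Q w = -(α'⁻¹ * α⁻¹ * β) := by
    rw [hw, cd_Q_sub, QuadraticMap.map_smul, QuadraticMap.map_smul, hy, hy',
      QuadraticMap.polar_smul_left, QuadraticMap.polar_smul_right, ← hβ]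
    simp only [smul_eq_mul]
    ring
  obtain ⟨g, hg, h1⟩ := exists_eich Q hQ h5 u w hu huw
  refine ⟨g, hg, (mem_eichSub Q u hu g).2 ⟨w, huw, h1⟩, α * α'⁻¹,
    mul_ne_zero hα0 (inv_ne_zero hα'0), ?_⟩
  rw [h1]
  unfold eichF
  rw [hwy, hQw, ← hα, hw]
  funext i
  simp only [Pi.add_apply, Pi.sub_apply, Pi.smul_apply, smul_eq_mul]
  field_simp
  ring

end EichFin

section Exist

variable {ι : Type} [Fintype ι] [DecidableEq ι] {F : Type*} [Field F] [Fintype F]
variable (Q : QuadraticForm F (ι → F))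

/-- A vector orthogonal to a subspace but not to a given vector outside it. -/
theorem exists_perp_sub_not_perp (hQ : (QuadraticMap.polarBilin Q).Nondegenerate)
    (T : Submodule F (ι → F)) (x : ι → F) (hx : x ∉ T) :
    ∃ z : ι → F, (∀ t ∈ T, QuadraticMap.polar (⇑Q) t z = 0) ∧
      QuadraticMap.polar (⇑Q) x z ≠ 0 := by
  by_contra hcon
  push Not at hcon
  apply hx
  rw [← LinearMap.BilinForm.orthogonal_orthogonal hQ (polar_refl' Q) T,
    LinearMap.BilinForm.mem_orthogonal_iff]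
  intro z hz
  rw [LinearMap.BilinForm.mem_orthogonal_iff] at hz
  show QuadraticMap.polarBilin Q z x = 0
  rw [QuadraticMap.polarBilin_apply_apply, QuadraticMap.polar_comm]
  apply hcon z
  intro t ht
  have := hz t ht
  exact this

/-- A vector orthogonal to `v` but not to `u`, when `u` is not a multiple of `v`. -/
theorem exists_perp_not_perp (hQ : (QuadraticMap.polarBilin Q).Nondegenerate) (u v : ι → F)
    (h : u ∉ Submodule.span F ({v} : Set (ι → F))) :
    ∃ z : ι → F, QuadraticMap.polar (⇑Q) v z = 0 ∧ QuadraticMap.polar (⇑Q) u z ≠ 0 := by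
  obtain ⟨z, hz, hzu⟩ := exists_perp_sub_not_perp Q hQ _ u h
  exact ⟨z, hz v (Submodule.mem_span_singleton_self v), hzu⟩

/-- A singular vector orthogonal to `v` but not to `u`. -/
theorem exists_sing_perp_not_perp (hQ : (QuadraticMap.polarBilin Q).Nondegenerate)
    (u v : ι → F) (hu : Q u = 0) (huv : QuadraticMap.polar (⇑Q) u v = 0)
    (h : u ∉ Submodule.span F ({v} : Set (ι → F))) :
    ∃ z : ι → F, Q z = 0 ∧ QuadraticMap.polar (⇑Q) v z = 0 ∧
      QuadraticMap.polar (⇑Q) u z ≠ 0 := by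
  obtain ⟨z₀, hvz, huz⟩ := exists_perp_not_perp Q hQ u v h
  have hvu : QuadraticMap.polar (⇑Q) v u = 0 := by rw [QuadraticMap.polar_comm]; exact huv
  refine ⟨z₀ - (Q z₀ / QuadraticMap.polar (⇑Q) u z₀) • u, ?_, ?_, ?_⟩
  · rw [quad_sub_smul, hu, mul_zero, add_zero, div_mul_cancel₀ _ huz, sub_self]
  · rw [QuadraticMap.polar_sub_right, QuadraticMap.polar_smul_right, hvu, hvz, smul_zero,
      sub_zero]
  · rw [QuadraticMap.polar_sub_right, QuadraticMap.polar_smul_right, polar_self_zero Q hu,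
      smul_zero, sub_zero]
    exact huz

/-- A nonsingular vector orthogonal to two given vectors. -/
theorem exists_ns_perp_two (hQ : (QuadraticMap.polarBilin Q).Nondegenerate)
    (h5 : 5 ≤ Fintype.card ι) (u v : ι → F) :
    ∃ w : ι → F, Q w ≠ 0 ∧ QuadraticMap.polar (⇑Q) u w = 0 ∧
      QuadraticMap.polar (⇑Q) v w = 0 := by
  classical
  obtain ⟨T, hT⟩ : ∃ T : Submodule F (ι → F), T = Submodule.span F ({u, v} : Set (ι → F)) :=
    ⟨_, rfl⟩
  have hu_mem : u ∈ T := by rw [hT]; exact Submodule.subset_span (by simp)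
  have hv_mem : v ∈ T := by rw [hT]; exact Submodule.subset_span (by simp)
  have hdim : 2 * Module.finrank F T < Fintype.card ι := by
    have h1 := finrank_span_finset_le_card (R := F) ({u, v} : Finset (ι → F))
    unfold Set.finrank at h1
    have h2 : ({u, v} : Finset (ι → F)).card ≤ 2 := Finset.card_le_two
    have h3 : Module.finrank F T
        = Module.finrank F (Submodule.span F ((({u, v} : Finset (ι → F))) : Set (ι → F))) := by
      rw [hT, Finset.coe_insert, Finset.coe_singleton]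
    omega
  obtain ⟨w, hw, hwT⟩ := exists_perp_ns_small Q hQ T hdim
  exact ⟨w, hw, hwT u hu_mem, hwT v hv_mem⟩

/-- A singular vector orthogonal to neither of two given nonzero singular vectors. -/
theorem exists_sing_not_perp (hQ : (QuadraticMap.polarBilin Q).Nondegenerate)
    (h5 : 5 ≤ Fintype.card ι) (u v : ι → F) (hu0 : u ≠ 0) (hv0 : v ≠ 0) (hu : Q u = 0)
    (hv : Q v = 0) :
    ∃ z : ι → F, Q z = 0 ∧ QuadraticMap.polar (⇑Q) u z ≠ 0 ∧
      QuadraticMap.polar (⇑Q) v z ≠ 0 := by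
  by_cases huv : QuadraticMap.polar (⇑Q) u v = 0
  · obtain ⟨a, ha⟩ : ∃ a, QuadraticMap.polar (⇑Q) u a ≠ 0 := by
      by_contra hcon
      push Not at hcon
      exact hu0 (hQ.1 u (fun y => by rw [QuadraticMap.polarBilin_apply_apply]; exact hcon y))
    obtain ⟨b, hb⟩ : ∃ b, QuadraticMap.polar (⇑Q) v b ≠ 0 := by
      by_contra hcon
      push Not at hcon
      exact hv0 (hQ.1 v (fun y => by rw [QuadraticMap.polarBilin_apply_apply]; exact hcon y))
    obtain ⟨z₀, h1, h2⟩ : ∃ z₀, QuadraticMap.polar (⇑Q) u z₀ ≠ 0 ∧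
        QuadraticMap.polar (⇑Q) v z₀ ≠ 0 := by
      by_cases h3 : QuadraticMap.polar (⇑Q) v a = 0
      · by_cases h4 : QuadraticMap.polar (⇑Q) u b = 0
        · refine ⟨a + b, ?_, ?_⟩
          · rw [QuadraticMap.polar_add_right, h4, add_zero]; exact ha
          · rw [QuadraticMap.polar_add_right, h3, zero_add]; exact hb
        · exact ⟨b, h4, hb⟩
      · exact ⟨a, ha, h3⟩
    have hvu : QuadraticMap.polar (⇑Q) v u = 0 := by rw [QuadraticMap.polar_comm]; exact huv
    refine ⟨z₀ - (Q z₀ / QuadraticMap.polar (⇑Q) u z₀) • u, ?_, ?_, ?_⟩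
    · rw [quad_sub_smul, hu, mul_zero, add_zero, div_mul_cancel₀ _ h1, sub_self]
    · rw [QuadraticMap.polar_sub_right, QuadraticMap.polar_smul_right, polar_self_zero Q hu,
        smul_zero, sub_zero]
      exact h1
    · rw [QuadraticMap.polar_sub_right, QuadraticMap.polar_smul_right, hvu, smul_zero, sub_zero]
      exact h2
  · obtain ⟨w, hw, huw, hvw⟩ := exists_ns_perp_two Q hQ h5 u v
    have hvu : QuadraticMap.polar (⇑Q) v u ≠ 0 := by rw [QuadraticMap.polar_comm]; exact huv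
    obtain ⟨t, ht⟩ : ∃ t : F, t = -(Q w) / QuadraticMap.polar (⇑Q) u v := ⟨_, rfl⟩
    have ht' : t * QuadraticMap.polar (⇑Q) u v = -(Q w) := by
      rw [ht, div_mul_cancel₀ _ huv]
    refine ⟨u + t • v + w, ?_, ?_, ?_⟩
    · rw [QuadraticMap.map_add (⇑Q), QuadraticMap.map_add (⇑Q), QuadraticMap.map_smul, hu, hv,
        QuadraticMap.polar_add_left, QuadraticMap.polar_smul_left, QuadraticMap.polar_smul_right,
        huw, hvw]
      simp only [smul_eq_mul]
      linear_combination ht'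
    · rw [QuadraticMap.polar_add_right, QuadraticMap.polar_add_right,
        QuadraticMap.polar_smul_right, polar_self_zero Q hu, huw, smul_eq_mul, ht']
      simpa using hw
    · rw [QuadraticMap.polar_add_right, QuadraticMap.polar_add_right,
        QuadraticMap.polar_smul_right, polar_self_zero Q hv, hvw, smul_zero, add_zero, add_zero]
      exact hvu

/-- For independent orthogonal singular vectors `u`, `v`: an element of the commutator
subgroup fixing `v` and moving `u` to a vector not orthogonal to `u`. -/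
theorem exists_fix_move (hQ : (QuadraticMap.polarBilin Q).Nondegenerate)
    (h5 : 5 ≤ Fintype.card ι) (u v : ι → F) (hu : Q u = 0)
    (huv : QuadraticMap.polar (⇑Q) u v = 0)
    (hind : u ∉ Submodule.span F ({v} : Set (ι → F))) :
    ∃ g : ↥(Cfsg.isometryGroup F (⇑Q)), g ∈ Cfsg.Omega F (⇑Q) ∧
      ((g : Matrix.GeneralLinearGroup ι F) : Matrix ι ι F) *ᵥ v = v ∧
      QuadraticMap.polar (⇑Q) u (((g : Matrix.GeneralLinearGroup ι F) : Matrix ι ι F) *ᵥ u)
        ≠ 0 := by
  obtain ⟨z, hz, hvz, huz⟩ := exists_sing_perp_not_perp Q hQ u v hu huv hind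
  obtain ⟨w, hw, hzw, hvw⟩ := exists_ns_perp_two Q hQ h5 z v
  obtain ⟨g, hg, h1⟩ := exists_eich Q hQ h5 z w hz hzw
  have hzv : QuadraticMap.polar (⇑Q) z v = 0 := by rw [QuadraticMap.polar_comm]; exact hvz
  have hwv : QuadraticMap.polar (⇑Q) w v = 0 := by rw [QuadraticMap.polar_comm]; exact hvw
  refine ⟨g, hg, ?_, ?_⟩
  · rw [h1]
    unfold eichF
    rw [hzv, hwv]
    simp
  · rw [h1]
    unfold eichF
    rw [QuadraticMap.polar_sub_right, QuadraticMap.polar_sub_right, QuadraticMap.polar_add_right,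
      QuadraticMap.polar_smul_right, QuadraticMap.polar_smul_right, QuadraticMap.polar_smul_right,
      polar_self_zero Q hu, QuadraticMap.polar_comm (⇑Q) z u, QuadraticMap.polar_comm (⇑Q) w u]
    simp only [smul_eq_mul]
    have e : 0 + QuadraticMap.polar (⇑Q) u z * QuadraticMap.polar (⇑Q) u w
        - QuadraticMap.polar (⇑Q) u w * QuadraticMap.polar (⇑Q) u z
        - Q w * QuadraticMap.polar (⇑Q) u z * QuadraticMap.polar (⇑Q) u z
        = -(Q w * QuadraticMap.polar (⇑Q) u z * QuadraticMap.polar (⇑Q) u z) := by ring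
    rw [e]
    exact neg_ne_zero.2 (mul_ne_zero (mul_ne_zero hw huz) huz)

end Exist

section Perfect

variable {ι : Type} [Fintype ι] [DecidableEq ι] {F : Type*} [Field F] [Fintype F]
variable (Q : QuadraticForm F (ι → F))

theorem siegel_smul_smul (a b : F) (u v : ι → F) (c : F) :
    Cfsg.siegelMatrix (⇑Q) (a • u) (b • v) c = Cfsg.siegelMatrix (⇑Q) u v (a * b * c) := by
  apply Matrix.mulVec_injective
  funext x
  rw [siegel_mulVec, siegel_mulVec, QuadraticMap.polar_smul_left, QuadraticMap.polar_smul_left]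
  funext i
  simp only [Pi.add_apply, Pi.sub_apply, Pi.smul_apply, smul_eq_mul]
  ring

theorem siegel_dep_left (a : F) (v : ι → F) (c : F) :
    Cfsg.siegelMatrix (⇑Q) (a • v) v c = 1 := by
  apply Matrix.mulVec_injective
  funext x
  rw [siegel_mulVec, Matrix.one_mulVec, QuadraticMap.polar_smul_left]
  funext i
  simp only [Pi.add_apply, Pi.sub_apply, Pi.smul_apply, smul_eq_mul]
  ring

theorem siegel_dep_right (a : F) (u : ι → F) (c : F) :
    Cfsg.siegelMatrix (⇑Q) u (a • u) c = 1 := by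
  apply Matrix.mulVec_injective
  funext x
  rw [siegel_mulVec, Matrix.one_mulVec, QuadraticMap.polar_smul_left]
  funext i
  simp only [Pi.add_apply, Pi.sub_apply, Pi.smul_apply, smul_eq_mul]
  ring

theorem siegelG_inv (u v : ι → F) (c : F) (hu : Q u = 0) (hv : Q v = 0)
    (huv : QuadraticMap.polar (⇑Q) u v = 0) :
    (siegelG Q u v c hu hv huv)⁻¹ = siegelG Q u v (-c) hu hv huv :=
  isomG_ext Q rfl

/-- Every long root element is a commutator of two elements of the commutator subgroup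
(odd characteristic, dimension at least seven). -/
theorem siegel_is_commutator (hQ : (QuadraticMap.polarBilin Q).Nondegenerate)
    (hodd : Odd (Fintype.card F)) (h7 : 7 ≤ Fintype.card ι) (u v' : ι → F) (c : F)
    (hu : Q u = 0) (hv' : Q v' = 0) (huv' : QuadraticMap.polar (⇑Q) u v' = 0) :
    ∃ g₁ g₂ : ↥(Cfsg.isometryGroup F (⇑Q)), g₁ ∈ Cfsg.Omega F (⇑Q) ∧ g₂ ∈ Cfsg.Omega F (⇑Q) ∧
      siegelG Q u v' c hu hv' huv' = g₁ * g₂ * g₁⁻¹ * g₂⁻¹ := by
  have h5 : 5 ≤ Fintype.card ι := by omega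
  by_cases hdep : u ∈ Submodule.span F ({v'} : Set (ι → F))
  · refine ⟨1, 1, one_mem _, one_mem _, ?_⟩
    rw [Submodule.mem_span_singleton] at hdep
    obtain ⟨a, ha⟩ := hdep
    apply isomG_ext
    rw [siegelG_coe]
    simp only [mul_one, inv_one, isomG_one_coe]
    rw [← ha, siegel_dep_left]
  by_cases hdep' : v' ∈ Submodule.span F ({u} : Set (ι → F))
  · refine ⟨1, 1, one_mem _, one_mem _, ?_⟩
    rw [Submodule.mem_span_singleton] at hdep'
    obtain ⟨a, ha⟩ := hdep'
    apply isomG_ext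
    rw [siegelG_coe]
    simp only [mul_one, inv_one, isomG_one_coe]
    rw [← ha, siegel_dep_right]
  obtain ⟨a, hv'a, hua⟩ := exists_perp_not_perp Q hQ u v' hdep
  obtain ⟨b, hub, hv'b⟩ := exists_perp_not_perp Q hQ v' u hdep'
  obtain ⟨v, hv0, hv, hvperp⟩ := Cfsg.Agent.S5676.gsing Q hQ hodd ![u, v', a, b] (by omega)
  have huv : QuadraticMap.polar (⇑Q) u v = 0 := hvperp 0
  have hv'v : QuadraticMap.polar (⇑Q) v' v = 0 := hvperp 1
  have hav : QuadraticMap.polar (⇑Q) a v = 0 := hvperp 2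
  have hbv : QuadraticMap.polar (⇑Q) b v = 0 := hvperp 3
  have hvu : QuadraticMap.polar (⇑Q) v u = 0 := by rw [QuadraticMap.polar_comm]; exact huv
  have hvv' : QuadraticMap.polar (⇑Q) v v' = 0 := by rw [QuadraticMap.polar_comm]; exact hv'v
  have hv'u : QuadraticMap.polar (⇑Q) v' u = 0 := by rw [QuadraticMap.polar_comm]; exact huv'
  have hvT : v ∉ Submodule.span F ({u, v'} : Set (ι → F)) := by
    intro hmem
    rw [Submodule.mem_span_pair] at hmem
    obtain ⟨α, β, rfl⟩ := hmem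
    have h1 := hav
    have h3 := hbv
    rw [QuadraticMap.polar_add_right, QuadraticMap.polar_smul_right,
      QuadraticMap.polar_smul_right] at h1 h3
    rw [QuadraticMap.polar_comm (⇑Q) a v', hv'a, smul_zero, add_zero,
      QuadraticMap.polar_comm (⇑Q) a u, smul_eq_mul] at h1
    rw [QuadraticMap.polar_comm (⇑Q) b u, hub, smul_zero, zero_add,
      QuadraticMap.polar_comm (⇑Q) b v', smul_eq_mul] at h3
    have hα : α = 0 := (mul_eq_zero.1 h1).resolve_right hua
    have hβ : β = 0 := (mul_eq_zero.1 h3).resolve_right hv'b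
    apply hv0
    rw [hα, hβ, zero_smul, zero_smul, add_zero]
  obtain ⟨z₀, hz₀T, hvz₀⟩ := exists_perp_sub_not_perp Q hQ _ v hvT
  have huz₀ : QuadraticMap.polar (⇑Q) u z₀ = 0 := hz₀T u (Submodule.subset_span (by simp))
  have hv'z₀ : QuadraticMap.polar (⇑Q) v' z₀ = 0 := hz₀T v' (Submodule.subset_span (by simp))
  obtain ⟨z, hz⟩ : ∃ z : ι → F, z = z₀ - (Q z₀ / QuadraticMap.polar (⇑Q) v z₀) • v := ⟨_, rfl⟩
  have hQz : Q z = 0 := by
    rw [hz, quad_sub_smul, hv, mul_zero, add_zero, div_mul_cancel₀ _ hvz₀, sub_self]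
  have huz : QuadraticMap.polar (⇑Q) u z = 0 := by
    rw [hz, QuadraticMap.polar_sub_right, QuadraticMap.polar_smul_right, huv, huz₀, smul_zero,
      sub_zero]
  have hv'z : QuadraticMap.polar (⇑Q) v' z = 0 := by
    rw [hz, QuadraticMap.polar_sub_right, QuadraticMap.polar_smul_right, hv'v, hv'z₀, smul_zero,
      sub_zero]
  have hzv : QuadraticMap.polar (⇑Q) z v ≠ 0 := by
    rw [QuadraticMap.polar_comm, hz, QuadraticMap.polar_sub_right, QuadraticMap.polar_smul_right,
      polar_self_zero Q hv, smul_zero, sub_zero]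
    exact hvz₀
  have hzu : QuadraticMap.polar (⇑Q) z u = 0 := by rw [QuadraticMap.polar_comm]; exact huz
  obtain ⟨t, ht⟩ : ∃ t : F, t = -(QuadraticMap.polar (⇑Q) z v)⁻¹ := ⟨_, rfl⟩
  have ht' : t * QuadraticMap.polar (⇑Q) z v = -1 := by
    rw [ht, neg_mul, inv_mul_cancel₀ hzv]
  obtain ⟨g₁, hg₁⟩ : ∃ g₁ : ↥(Cfsg.isometryGroup F (⇑Q)), g₁ = siegelG Q v' z t hv' hQz hv'z :=
    ⟨_, rfl⟩
  have hg₁m : g₁ ∈ Cfsg.Omega F (⇑Q) := by
    rw [hg₁]
    exact siegelSub_le_omega Q hQ h5 (siegelG_mem Q _ _ _ _ _ _)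
  have e1 : ((g₁ : Matrix.GeneralLinearGroup ι F) : Matrix ι ι F) *ᵥ u = u := by
    rw [hg₁, siegelG_coe, siegel_mulVec, hv'u, hzu]
    simp
  have e2 : ((g₁ : Matrix.GeneralLinearGroup ι F) : Matrix ι ι F) *ᵥ v = v + v' := by
    rw [hg₁, siegelG_coe, siegel_mulVec, hv'v, ht']
    simp
  have hQvv' : Q (v + v') = 0 := by
    rw [QuadraticMap.map_add (⇑Q), hv, hv', hvv']
    simp
  have huvv' : QuadraticMap.polar (⇑Q) u (v + v') = 0 := by
    rw [QuadraticMap.polar_add_right, huv, huv', add_zero]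
  have key : g₁ * siegelG Q u v c hu hv huv * g₁⁻¹
      = siegelG Q u (v + v') c hu hQvv' huvv' := by
    apply isomG_ext
    rw [isomG_mul_coe, isomG_mul_coe, siegelG_coe, siegelG_coe, siegel_conj, e1, e2]
  refine ⟨g₁, siegelG Q u v c hu hv huv, hg₁m,
    siegelSub_le_omega Q hQ h5 (siegelG_mem Q _ _ _ _ _ _), ?_⟩
  rw [key, siegelG_inv]
  apply isomG_ext
  rw [isomG_mul_coe, siegelG_coe, siegelG_coe, siegelG_coe]
  apply Matrix.mulVec_injective
  funext x
  rw [← Matrix.mulVec_mulVec, siegel_eq_eich Q u v (-c) hv, siegel_eq_eich Q u (v + v') c hQvv',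
    siegel_eq_eich Q u v' c hv', eich_add Q u _ _ hu]
  · congr 1
    rw [smul_add, neg_smul]
    abel
  · rw [QuadraticMap.polar_smul_right, huvv', smul_zero]
  · rw [QuadraticMap.polar_smul_right, huv, smul_zero]

/-- A long root element fixing every singular point is trivial. -/
theorem siegel_fix_trivial (hQ : (QuadraticMap.polarBilin Q).Nondegenerate) (u v : ι → F)
    (c : F) (hu : Q u = 0) (huv : QuadraticMap.polar (⇑Q) u v = 0)
    (hind : u ∉ Submodule.span F ({v} : Set (ι → F))) (hv0 : v ≠ 0)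
    (hfix : ∀ y, Q y = 0 → ∃ a : F, Cfsg.siegelMatrix (⇑Q) u v c *ᵥ y = a • y) : c = 0 := by
  obtain ⟨y, hy, hvy, huy⟩ := exists_sing_perp_not_perp Q hQ u v hu huv hind
  obtain ⟨a, ha⟩ := hfix y hy
  rw [siegel_mulVec, hvy, mul_zero, zero_smul, sub_zero] at ha
  have h1 := congrArg (fun x => QuadraticMap.polar (⇑Q) u x) ha
  simp only [QuadraticMap.polar_add_right, QuadraticMap.polar_smul_right, huv, smul_zero,
    add_zero, smul_eq_mul] at h1
  have ha1 : a = 1 := by
    have : (a - 1) * QuadraticMap.polar (⇑Q) u y = 0 := by linear_combination -h1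
    rcases mul_eq_zero.1 this with h | h
    · linear_combination h
    · exact absurd h huy
  rw [ha1, one_smul] at ha
  have h2 : (c * QuadraticMap.polar (⇑Q) u y) • v = 0 := by simpa using ha
  rcases smul_eq_zero.1 h2 with h | h
  · exact (mul_eq_zero.1 h).resolve_right huy
  · exact absurd h hv0

/-- An isometry fixing every singular point, all of whose commutators with a long root element
also fix every singular point, commutes with that long root element. -/
theorem comm_siegel_of_fix (hQ : (QuadraticMap.polarBilin Q).Nondegenerate)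
    (n : ↥(Cfsg.isometryGroup F (⇑Q))) (u v : ι → F) (c : F) (hu : Q u = 0) (hv : Q v = 0)
    (huv : QuadraticMap.polar (⇑Q) u v = 0)
    (hn : ∀ y, Q y = 0 → ∃ a : F,
      ((n : Matrix.GeneralLinearGroup ι F) : Matrix ι ι F) *ᵥ y = a • y)
    (hfix : ∀ y, Q y = 0 → ∃ a : F,
      (((n * siegelG Q u v c hu hv huv * n⁻¹ * (siegelG Q u v c hu hv huv)⁻¹ :
        ↥(Cfsg.isometryGroup F (⇑Q))) : Matrix.GeneralLinearGroup ι F) : Matrix ι ι F) *ᵥ y
        = a • y) :
    n * siegelG Q u v c hu hv huv = siegelG Q u v c hu hv huv * n := by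
  by_cases hdep : u ∈ Submodule.span F ({v} : Set (ι → F))
  · rw [Submodule.mem_span_singleton] at hdep
    obtain ⟨a, ha⟩ := hdep
    have e : siegelG Q u v c hu hv huv = 1 := by
      apply isomG_ext
      rw [siegelG_coe, isomG_one_coe, ← ha, siegel_dep_left]
    rw [e, mul_one, one_mul]
  by_cases hv0 : v = 0
  · have e : siegelG Q u v c hu hv huv = 1 := by
      apply isomG_ext
      rw [siegelG_coe, isomG_one_coe]
      have := siegel_dep_right Q 0 u c
      rw [zero_smul] at this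
      rw [hv0, this]
    rw [e, mul_one, one_mul]
  obtain ⟨l, hl⟩ := hn u hu
  obtain ⟨m, hm⟩ := hn v hv
  have key : n * siegelG Q u v c hu hv huv * n⁻¹ = siegelG Q u v (l * m * c) hu hv huv := by
    apply isomG_ext
    rw [isomG_mul_coe, isomG_mul_coe, siegelG_coe, siegelG_coe, siegel_conj, hl, hm,
      siegel_smul_smul]
  have hc : l * m * c + -c = 0 := by
    apply siegel_fix_trivial Q hQ u v _ hu huv hdep hv0
    intro y hy
    obtain ⟨a, ha⟩ := hfix y hy
    refine ⟨a, ?_⟩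
    rw [← ha, key, siegelG_inv, isomG_mul_coe, siegelG_coe, siegelG_coe,
      siegel_mul Q u v _ _ hu hv huv]
  have h3 : n * siegelG Q u v c hu hv huv * n⁻¹ = siegelG Q u v c hu hv huv := by
    rw [key]
    apply isomG_ext
    rw [siegelG_coe, siegelG_coe]
    congr 1
    linear_combination hc
  calc n * siegelG Q u v c hu hv huv
      = (n * siegelG Q u v c hu hv huv * n⁻¹) * n := by group
    _ = siegelG Q u v c hu hv huv * n := by rw [h3]

end Perfect

end Cfsg.Agent.Lib.Helper3
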