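import Mathlib
import Cfsg.Prelude.Def_ClassicalGeometry
import Cfsg.Agent.Lib.Helper3.OmegaPrim

/-!
# Simplicity of the projective commutator subgroups of orthogonal groups

The commutator subgroup of the isometry group acts primitively on the singular points; the
Eichler groups form an Iwasawa structure; hence, in odd characteristic and dimension at least
seven, the quotient of the commutator subgroup by its centre is simple.
-/

set_option autoImplicit false
set_option linter.unusedSectionVars false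

namespace Cfsg.Agent.Lib.Helper3

open Cfsg.Agent.Lib.Helper16 Matrix
open scoped LinearAlgebra.Projectivization
open scoped Pointwise
open scoped commutatorElement

section Points

variable {ι : Type} [Fintype ι] [DecidableEq ι] {F : Type*} [Field F]
variable (Q : QuadraticForm F (ι → F))

theorem isom_mulVec_ne_zero (g : ↥(Cfsg.isometryGroup F (⇑Q))) (v : ι → F) (hv : v ≠ 0) :
    ((g : Matrix.GeneralLinearGroup ι F) : Matrix ι ι F) *ᵥ v ≠ 0 := by
  intro h0
  apply hv
  rw [← isomG_inv_mulVec' Q g v, h0, Matrix.mulVec_zero]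

theorem isom_smul_mk (g : ↥(Cfsg.isometryGroup F (⇑Q))) (v : ι → F) (hv : v ≠ 0)
    (hv' : ((g : Matrix.GeneralLinearGroup ι F) : Matrix ι ι F) *ᵥ v ≠ 0) :
    g • Projectivization.mk F v hv
      = Projectivization.mk F (((g : Matrix.GeneralLinearGroup ι F) : Matrix ι ι F) *ᵥ v) hv' :=
  rfl

theorem sing_mk (v : ι → F) (hv : v ≠ 0) :
    Q (Projectivization.mk F v hv).rep = 0 ↔ Q v = 0 := by
  obtain ⟨a, ha⟩ := Projectivization.exists_smul_eq_mk_rep F v hv
  rw [← ha, Units.smul_def, QuadraticMap.map_smul, smul_eq_mul]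
  constructor
  · intro h
    rcases mul_eq_zero.1 h with h | h
    · exact absurd h (mul_ne_zero a.ne_zero a.ne_zero)
    · exact h
  · intro h
    rw [h, mul_zero]

/-- The singular points, as a set of projective points stable under the isometry group. -/
def singPts : SubMulAction ↥(Cfsg.isometryGroup F (⇑Q)) (ℙ F (ι → F)) where
  carrier := {p | Q p.rep = 0}
  smul_mem' := by
    intro g p hp
    have hp' : Q p.rep = 0 := hp
    show Q (g • p).rep = 0
    have h1 : g • p = Projectivization.mk F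
        (((g : Matrix.GeneralLinearGroup ι F) : Matrix ι ι F) *ᵥ p.rep)
        (isom_mulVec_ne_zero Q g _ p.rep_nonzero) := by
      conv_lhs => rw [← p.mk_rep]
      exact isom_smul_mk Q g p.rep p.rep_nonzero _
    rw [h1, sing_mk, isomG_map]
    exact hp'

theorem singPts_rep (p : ↥(singPts Q)) : Q (p : ℙ F (ι → F)).rep = 0 := p.2

/-- The singular point spanned by a nonzero singular vector. -/
def mkPt (z : ι → F) (hz0 : z ≠ 0) (hz : Q z = 0) : ↥(singPts Q) :=
  ⟨Projectivization.mk F z hz0, (sing_mk Q z hz0).2 hz⟩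

theorem mkPt_rep (z : ι → F) (hz0 : z ≠ 0) (hz : Q z = 0) :
    ∃ a : F, a ≠ 0 ∧ ((mkPt Q z hz0 hz : ↥(singPts Q)) : ℙ F (ι → F)).rep = a • z := by
  obtain ⟨a, ha⟩ := Projectivization.exists_smul_eq_mk_rep F z hz0
  exact ⟨a, a.ne_zero, ha.symm⟩

/-- The representative of the image of a point. -/
theorem smul_rep (g : ↥(Cfsg.isometryGroup F (⇑Q))) (p : ↥(singPts Q)) :
    ∃ a : F, a ≠ 0 ∧ ((g • p : ↥(singPts Q)) : ℙ F (ι → F)).rep
      = a • (((g : Matrix.GeneralLinearGroup ι F) : Matrix ι ι F) *ᵥ (p : ℙ F (ι → F)).rep) := by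
  have h1 : ((g • p : ↥(singPts Q)) : ℙ F (ι → F)) = Projectivization.mk F
      (((g : Matrix.GeneralLinearGroup ι F) : Matrix ι ι F) *ᵥ (p : ℙ F (ι → F)).rep)
      (isom_mulVec_ne_zero Q g _ (p : ℙ F (ι → F)).rep_nonzero) := by
    rw [SubMulAction.val_smul]
    conv_lhs => rw [← (p : ℙ F (ι → F)).mk_rep]
    exact isom_smul_mk Q g _ (p : ℙ F (ι → F)).rep_nonzero _
  obtain ⟨a, ha⟩ := Projectivization.exists_smul_eq_mk_rep F
    (((g : Matrix.GeneralLinearGroup ι F) : Matrix ι ι F) *ᵥ (p : ℙ F (ι → F)).rep)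
    (isom_mulVec_ne_zero Q g _ (p : ℙ F (ι → F)).rep_nonzero)
  exact ⟨a, a.ne_zero, by rw [h1, ← ha]; rfl⟩

/-- An isometry mapping a representative of `p` to a multiple of a representative of `q`
maps `p` to `q`. -/
theorem pt_smul_eq (g : ↥(Cfsg.isometryGroup F (⇑Q))) (p q : ↥(singPts Q)) (a : F)
    (h : ((g : Matrix.GeneralLinearGroup ι F) : Matrix ι ι F) *ᵥ (p : ℙ F (ι → F)).rep
      = a • (q : ℙ F (ι → F)).rep) : g • p = q := by
  apply Subtype.ext
  rw [SubMulAction.val_smul]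
  conv_lhs => rw [← (p : ℙ F (ι → F)).mk_rep]
  conv_rhs => rw [← (q : ℙ F (ι → F)).mk_rep]
  rw [isom_smul_mk Q g _ (p : ℙ F (ι → F)).rep_nonzero
    (isom_mulVec_ne_zero Q g _ (p : ℙ F (ι → F)).rep_nonzero), Projectivization.mk_eq_mk_iff']
  exact ⟨a, h.symm⟩

/-- An isometry fixing a point scales its representative. -/
theorem pt_fix (g : ↥(Cfsg.isometryGroup F (⇑Q))) (p : ↥(singPts Q)) (h : g • p = p) :
    ∃ a : F, ((g : Matrix.GeneralLinearGroup ι F) : Matrix ι ι F) *ᵥ (p : ℙ F (ι → F)).rep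
      = a • (p : ℙ F (ι → F)).rep := by
  have h1 := congrArg (fun x : ↥(singPts Q) => (x : ℙ F (ι → F))) h
  simp only [SubMulAction.val_smul] at h1
  have h2 : g • (p : ℙ F (ι → F)) = Projectivization.mk F
      (((g : Matrix.GeneralLinearGroup ι F) : Matrix ι ι F) *ᵥ (p : ℙ F (ι → F)).rep)
      (isom_mulVec_ne_zero Q g _ (p : ℙ F (ι → F)).rep_nonzero) := by
    conv_lhs => rw [← (p : ℙ F (ι → F)).mk_rep]
    exact isom_smul_mk Q g _ (p : ℙ F (ι → F)).rep_nonzero _
  rw [h2] at h1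
  have h3 : Projectivization.mk F
      (((g : Matrix.GeneralLinearGroup ι F) : Matrix ι ι F) *ᵥ (p : ℙ F (ι → F)).rep)
      (isom_mulVec_ne_zero Q g _ (p : ℙ F (ι → F)).rep_nonzero)
      = Projectivization.mk F (p : ℙ F (ι → F)).rep (p : ℙ F (ι → F)).rep_nonzero := by
    rw [h1, Projectivization.mk_rep]
  rw [Projectivization.mk_eq_mk_iff'] at h3
  obtain ⟨a, ha⟩ := h3
  exact ⟨a, ha.symm⟩

/-- An isometry fixing all singular points scales every singular vector. -/
theorem fix_vec_of_fix_pts (g : ↥(Cfsg.isometryGroup F (⇑Q)))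
    (hg : ∀ p : ↥(singPts Q), g • p = p) (y : ι → F) (hy : Q y = 0) :
    ∃ a : F, ((g : Matrix.GeneralLinearGroup ι F) : Matrix ι ι F) *ᵥ y = a • y := by
  by_cases hy0 : y = 0
  · exact ⟨1, by rw [hy0, Matrix.mulVec_zero, smul_zero]⟩
  obtain ⟨b, hb0, hb⟩ := mkPt_rep Q y hy0 hy
  obtain ⟨a, ha⟩ := pt_fix Q g (mkPt Q y hy0 hy) (hg _)
  refine ⟨a, ?_⟩
  rw [hb, Matrix.mulVec_smul, smul_comm a b y] at ha
  exact smul_right_injective _ hb0 ha

end Points

section Prim

variable {ι : Type} [Fintype ι] [DecidableEq ι] {F : Type*} [Field F] [Fintype F]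
variable (Q : QuadraticForm F (ι → F))

theorem eichSub_fix (u : ι → F) (hu : Q u = 0) (g : ↥(Cfsg.isometryGroup F (⇑Q)))
    (hg : g ∈ eichSub Q u) : ((g : Matrix.GeneralLinearGroup ι F) : Matrix ι ι F) *ᵥ u = u := by
  rw [mem_eichSub Q u hu] at hg
  obtain ⟨w, hw, h1⟩ := hg
  rw [h1]
  unfold eichF
  rw [polar_self_zero Q hu, QuadraticMap.polar_comm (⇑Q) w u, hw]
  simp

/-- The action of the commutator subgroup on the singular points. -/
@[reducible] noncomputable def omegaAct :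
    MulAction ↥(Cfsg.Omega F (⇑Q)) ↥(singPts Q) :=
  MulAction.compHom ↥(singPts Q) (Subgroup.subtype (Cfsg.Omega F (⇑Q)))

/-- The scalar multiplication underlying `omegaAct`. -/
@[reducible] noncomputable def omegaSMul :
    SMul ↥(Cfsg.Omega F (⇑Q)) ↥(singPts Q) :=
  (omegaAct Q).toSemigroupAction.toSMul

attribute [local instance] omegaAct omegaSMul

theorem omegaAct_smul (g : ↥(Cfsg.isometryGroup F (⇑Q))) (hg : g ∈ Cfsg.Omega F (⇑Q))
    (p : ↥(singPts Q)) : (⟨g, hg⟩ : ↥(Cfsg.Omega F (⇑Q))) • p = g • p := rfl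

/-- The commutator subgroup is transitive on singular points. -/
theorem omega_pretransitive (hQ : (QuadraticMap.polarBilin Q).Nondegenerate)
    (h5 : 5 ≤ Fintype.card ι) :
    MulAction.IsPretransitive ↥(Cfsg.Omega F (⇑Q)) ↥(singPts Q) := by
  refine ⟨fun p q => ?_⟩
  obtain ⟨z, hz, hpz, hqz⟩ := exists_sing_not_perp Q hQ h5 _ _
    (p : ℙ F (ι → F)).rep_nonzero (q : ℙ F (ι → F)).rep_nonzero p.2 q.2
  obtain ⟨g, hg, -, a, -, h1⟩ := eich_trans Q hQ h5 z _ _ hz p.2 q.2
    (by rw [QuadraticMap.polar_comm]; exact hpz) (by rw [QuadraticMap.polar_comm]; exact hqz)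
  exact ⟨⟨g, hg⟩, pt_smul_eq Q g p q a h1⟩

/-- The commutator subgroup is primitive on singular points. -/
theorem omega_preprimitive (hQ : (QuadraticMap.polarBilin Q).Nondegenerate)
    (h5 : 5 ≤ Fintype.card ι) :
    MulAction.IsPreprimitive ↥(Cfsg.Omega F (⇑Q)) ↥(singPts Q) := by
  have hpt := omega_pretransitive Q hQ h5
  refine ⟨fun {B} hB => ?_⟩
  -- the key step: a block containing two non-orthogonal points contains all points
  -- not orthogonal to the first
  have star : ∀ p ∈ B, ∀ q ∈ B,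
      QuadraticMap.polar (⇑Q) (p : ℙ F (ι → F)).rep (q : ℙ F (ι → F)).rep ≠ 0 →
      ∀ r : ↥(singPts Q),
        QuadraticMap.polar (⇑Q) (p : ℙ F (ι → F)).rep (r : ℙ F (ι → F)).rep ≠ 0 → r ∈ B := by
    intro p hp q hq hpq r hpr
    obtain ⟨g, hg, hge, a, -, h1⟩ := eich_trans Q hQ h5 _ _ _ p.2 q.2 r.2 hpq hpr
    have h2 : (⟨g, hg⟩ : ↥(Cfsg.Omega F (⇑Q))) • p = p :=
      pt_smul_eq Q g p p 1 (by rw [eichSub_fix Q _ p.2 g hge, one_smul])
    have h3 : (⟨g, hg⟩ : ↥(Cfsg.Omega F (⇑Q))) • q = r := pt_smul_eq Q g q r a h1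
    have h4 : (⟨g, hg⟩ : ↥(Cfsg.Omega F (⇑Q))) • B = B :=
      hB.smul_eq_of_mem hp (by rw [h2]; exact hp)
    rw [← h4, ← h3]
    exact Set.smul_mem_smul_set hq
  by_cases hsub : B.Subsingleton
  · exact Or.inl hsub
  right
  rw [Set.not_subsingleton_iff] at hsub
  obtain ⟨p, hp, q, hq, hpq⟩ := hsub
  by_cases hex : ∃ p ∈ B, ∃ q ∈ B,
      QuadraticMap.polar (⇑Q) (p : ℙ F (ι → F)).rep (q : ℙ F (ι → F)).rep ≠ 0
  · obtain ⟨p, hp, q, hq, hpq⟩ := hex
    rw [Set.eq_univ_iff_forall]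
    intro r
    obtain ⟨z, hz, hpz, hrz⟩ := exists_sing_not_perp Q hQ h5 _ _
      (p : ℙ F (ι → F)).rep_nonzero (r : ℙ F (ι → F)).rep_nonzero p.2 r.2
    have hz0 : z ≠ 0 := by
      rintro rfl
      exact hpz (by simp)
    obtain ⟨b, hb0, hb⟩ := mkPt_rep Q z hz0 hz
    have hzB : mkPt Q z hz0 hz ∈ B := by
      apply star p hp q hq hpq
      rw [hb, QuadraticMap.polar_smul_right, smul_eq_mul]
      exact mul_ne_zero hb0 hpz
    apply star (mkPt Q z hz0 hz) hzB p hp
    · rw [hb, QuadraticMap.polar_smul_left, smul_eq_mul, QuadraticMap.polar_comm]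
      exact mul_ne_zero hb0 hpz
    · rw [hb, QuadraticMap.polar_smul_left, smul_eq_mul, QuadraticMap.polar_comm]
      exact mul_ne_zero hb0 hrz
  · exfalso
    push Not at hex
    have hperp := hex p hp q hq
    have hind : (p : ℙ F (ι → F)).rep ∉ Submodule.span F ({(q : ℙ F (ι → F)).rep} : Set (ι → F)) := by
      intro hmem
      rw [Submodule.mem_span_singleton] at hmem
      obtain ⟨a, ha⟩ := hmem
      apply hpq
      apply Subtype.ext
      rw [← (p : ℙ F (ι → F)).mk_rep, ← (q : ℙ F (ι → F)).mk_rep, Projectivization.mk_eq_mk_iff']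
      exact ⟨a, ha⟩
    obtain ⟨g, hg, hgq, hgp⟩ := exists_fix_move Q hQ h5 _ _ p.2 hperp hind
    have h2 : (⟨g, hg⟩ : ↥(Cfsg.Omega F (⇑Q))) • q = q :=
      pt_smul_eq Q g q q 1 (by rw [hgq, one_smul])
    have h4 : (⟨g, hg⟩ : ↥(Cfsg.Omega F (⇑Q))) • B = B :=
      hB.smul_eq_of_mem hq (by rw [h2]; exact hq)
    have h5' : (⟨g, hg⟩ : ↥(Cfsg.Omega F (⇑Q))) • p ∈ B := by
      rw [← h4]
      exact Set.smul_mem_smul_set hp
    obtain ⟨a, ha0, ha⟩ := smul_rep Q g p
    have h6 := hex p hp _ h5'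
    rw [omegaAct_smul, ha, QuadraticMap.polar_smul_right, smul_eq_mul] at h6
    exact mul_ne_zero ha0 hgp h6

end Prim

section Main

variable {ι : Type} [Fintype ι] [DecidableEq ι] {F : Type*} [Field F] [Fintype F]
variable (Q : QuadraticForm F (ι → F))

attribute [local instance] omegaAct omegaSMul

/-- The Iwasawa structure given by the Eichler groups. -/
noncomputable def omegaIwasawa (h2 : (2 : F) ≠ 0)
    (hQ : (QuadraticMap.polarBilin Q).Nondegenerate) (h5 : 5 ≤ Fintype.card ι) :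
    MulAction.IwasawaStructure ↥(Cfsg.Omega F (⇑Q)) ↥(singPts Q) where
  T p := (eichSub Q (p : ℙ F (ι → F)).rep).subgroupOf (Cfsg.Omega F (⇑Q))
  is_comm p := by
    refine ⟨⟨fun a b => ?_⟩⟩
    apply Subtype.ext
    apply Subtype.ext
    exact eichSub_comm Q _ p.2 _ _ (Subgroup.mem_subgroupOf.1 a.2) (Subgroup.mem_subgroupOf.1 b.2)
  is_conj g p := by
    ext h
    rw [Subgroup.mem_pointwise_smul_iff_inv_smul_mem, MulAut.smul_def, ← map_inv,
      MulAut.conj_apply, inv_inv, Subgroup.mem_subgroupOf, Subgroup.mem_subgroupOf]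
    obtain ⟨a, ha0, ha⟩ := smul_rep Q (g : ↥(Cfsg.isometryGroup F (⇑Q))) p
    have e : ((g • p : ↥(singPts Q)) : ℙ F (ι → F)).rep
        = a • (((g : ↥(Cfsg.isometryGroup F (⇑Q))) : Matrix.GeneralLinearGroup ι F) :
          Matrix ι ι F) *ᵥ (p : ℙ F (ι → F)).rep := ha
    have hgu : Q ((((g : ↥(Cfsg.isometryGroup F (⇑Q))) : Matrix.GeneralLinearGroup ι F) :
        Matrix ι ι F) *ᵥ (p : ℙ F (ι → F)).rep) = 0 := by
      rw [isomG_map]; exact p.2
    rw [e, eichSub_smul Q a ha0 _ hgu, eichSub_conj Q _ _ _ p.2]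
    rfl
  is_generator := by
    rw [eq_top_iff]
    have key : ∀ x ∈ siegelSub Q, ∀ hx : x ∈ Cfsg.Omega F (⇑Q),
        (⟨x, hx⟩ : ↥(Cfsg.Omega F (⇑Q))) ∈ ⨆ p : ↥(singPts Q),
          (eichSub Q (p : ℙ F (ι → F)).rep).subgroupOf (Cfsg.Omega F (⇑Q)) := by
      intro x hx
      unfold siegelSub at hx
      induction hx using Subgroup.closure_induction with
      | mem x hx =>
        intro hxo
        obtain ⟨u, v, c, hu, hv, huv, hm⟩ := hx
        by_cases hu0 : u = 0
        · have e : (⟨x, hxo⟩ : ↥(Cfsg.Omega F (⇑Q))) = 1 := by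
            apply Subtype.ext
            apply isomG_ext
            have h3 := siegel_dep_left Q 0 v c
            rw [zero_smul] at h3
            rw [hm, hu0, h3]
            rfl
          rw [e]
          exact one_mem _
        · apply Subgroup.mem_iSup_of_mem (mkPt Q u hu0 hu)
          rw [Subgroup.mem_subgroupOf]
          obtain ⟨a, ha0, ha⟩ := mkPt_rep Q u hu0 hu
          rw [ha, eichSub_smul Q a ha0 u hu, mem_eichSub Q u hu]
          refine ⟨c • v, ?_, fun y => ?_⟩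
          · rw [QuadraticMap.polar_smul_right, huv, smul_zero]
          · show ((x : Matrix.GeneralLinearGroup ι F) : Matrix ι ι F) *ᵥ y = _
            rw [hm, siegel_eq_eich Q u v c hv]
      | one =>
        intro hxo
        exact one_mem _
      | mul x y hx hy ihx ihy =>
        intro hxo
        have hx' : x ∈ Cfsg.Omega F (⇑Q) := siegelSub_le_omega Q hQ h5 hx
        have hy' : y ∈ Cfsg.Omega F (⇑Q) := siegelSub_le_omega Q hQ h5 hy
        exact mul_mem (ihx hx') (ihy hy')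
      | inv x hx ihx =>
        intro hxo
        have hx' : x ∈ Cfsg.Omega F (⇑Q) := siegelSub_le_omega Q hQ h5 hx
        exact inv_mem (ihx hx')
    intro g _
    have hg : (g : ↥(Cfsg.isometryGroup F (⇑Q))) ∈ siegelSub Q := by
      rw [← omega_eq_siegelSub Q h2 hQ h5]
      exact g.2
    exact key g hg g.2

/-- The commutator subgroup is perfect (odd characteristic, dimension at least seven). -/
theorem omega_perfect (h2 : (2 : F) ≠ 0) (hQ : (QuadraticMap.polarBilin Q).Nondegenerate)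
    (hodd : Odd (Fintype.card F)) (h7 : 7 ≤ Fintype.card ι) :
    commutator ↥(Cfsg.Omega F (⇑Q)) = ⊤ := by
  have h5 : 5 ≤ Fintype.card ι := by omega
  rw [eq_top_iff]
  have key : ∀ x ∈ siegelSub Q, ∀ hx : x ∈ Cfsg.Omega F (⇑Q),
      (⟨x, hx⟩ : ↥(Cfsg.Omega F (⇑Q))) ∈ commutator ↥(Cfsg.Omega F (⇑Q)) := by
    intro x hx
    unfold siegelSub at hx
    induction hx using Subgroup.closure_induction with
    | mem x hx =>
      intro hxo
      obtain ⟨u, v, c, hu, hv, huv, hm⟩ := hx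
      obtain ⟨g₁, g₂, hg₁, hg₂, h3⟩ := siegel_is_commutator Q hQ hodd h7 u v c hu hv huv
      have e : (⟨x, hxo⟩ : ↥(Cfsg.Omega F (⇑Q)))
          = ⁅(⟨g₁, hg₁⟩ : ↥(Cfsg.Omega F (⇑Q))), (⟨g₂, hg₂⟩ : ↥(Cfsg.Omega F (⇑Q)))⁆ := by
        apply Subtype.ext
        rw [commutatorElement_def]
        show x = g₁ * g₂ * g₁⁻¹ * g₂⁻¹
        rw [← h3]
        apply isomG_ext
        rw [hm, siegelG_coe]
      rw [e, commutator_def]
      exact Subgroup.commutator_mem_commutator (Subgroup.mem_top _) (Subgroup.mem_top _)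
    | one =>
      intro hxo
      exact one_mem _
    | mul x y hx hy ihx ihy =>
      intro hxo
      have hx' : x ∈ Cfsg.Omega F (⇑Q) := siegelSub_le_omega Q hQ h5 hx
      have hy' : y ∈ Cfsg.Omega F (⇑Q) := siegelSub_le_omega Q hQ h5 hy
      exact mul_mem (ihx hx') (ihy hy')
    | inv x hx ihx =>
      intro hxo
      have hx' : x ∈ Cfsg.Omega F (⇑Q) := siegelSub_le_omega Q hQ h5 hx
      exact inv_mem (ihx hx')
  intro g _
  have hg : (g : ↥(Cfsg.isometryGroup F (⇑Q))) ∈ siegelSub Q := by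
    rw [← omega_eq_siegelSub Q h2 hQ h5]
    exact g.2
  exact key g hg g.2

/-- A normal subgroup of the commutator subgroup fixing every singular point is central. -/
theorem omega_central_of_fix (h2 : (2 : F) ≠ 0) (hQ : (QuadraticMap.polarBilin Q).Nondegenerate)
    (h5 : 5 ≤ Fintype.card ι) (N : Subgroup ↥(Cfsg.Omega F (⇑Q))) [hN : N.Normal]
    (hfix : ∀ n ∈ N, ∀ p : ↥(singPts Q), n • p = p) :
    N ≤ Subgroup.center ↥(Cfsg.Omega F (⇑Q)) := by
  intro n hn
  rw [Subgroup.mem_center_iff]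
  have key : ∀ x ∈ siegelSub Q,
      x * (n : ↥(Cfsg.isometryGroup F (⇑Q))) = (n : ↥(Cfsg.isometryGroup F (⇑Q))) * x := by
    intro x hx
    unfold siegelSub at hx
    induction hx using Subgroup.closure_induction with
    | mem x hx =>
      obtain ⟨u, v, c, hu, hv, huv, hm⟩ := hx
      have ex : x = siegelG Q u v c hu hv huv := isomG_ext Q (by rw [hm, siegelG_coe])
      have hxo : x ∈ Cfsg.Omega F (⇑Q) := by
        rw [ex]
        exact siegelSub_le_omega Q hQ h5 (siegelG_mem Q _ _ _ _ _ _)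
      have hcm : n * ⟨x, hxo⟩ * n⁻¹ * (⟨x, hxo⟩ : ↥(Cfsg.Omega F (⇑Q)))⁻¹ ∈ N := by
        have h3 := hN.conj_mem n⁻¹ (N.inv_mem hn) ⟨x, hxo⟩
        have h4 := N.mul_mem hn h3
        rw [← mul_assoc, ← mul_assoc] at h4
        exact h4
      rw [ex]
      symm
      apply comm_siegel_of_fix Q hQ (n : ↥(Cfsg.isometryGroup F (⇑Q))) u v c hu hv huv
      · exact fix_vec_of_fix_pts Q _ (fun p => hfix n hn p)
      · have h6 := fix_vec_of_fix_pts Q _ (fun p => hfix _ hcm p)
        rw [← ex]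
        exact h6
    | one => rw [one_mul, mul_one]
    | mul x y _ _ ihx ihy => rw [mul_assoc, ihy, ← mul_assoc, ihx, mul_assoc]
    | inv x _ ihx =>
      rw [eq_mul_inv_iff_mul_eq, mul_assoc, ← ihx, ← mul_assoc, inv_mul_cancel, one_mul]
  intro g
  have hg : (g : ↥(Cfsg.isometryGroup F (⇑Q))) ∈ siegelSub Q := by
    rw [← omega_eq_siegelSub Q h2 hQ h5]
    exact g.2
  apply Subtype.ext
  exact key g hg

/-- A normal subgroup of the commutator subgroup is central or everything. -/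
theorem omega_normal_central_or_top (h2 : (2 : F) ≠ 0)
    (hQ : (QuadraticMap.polarBilin Q).Nondegenerate) (hodd : Odd (Fintype.card F))
    (h7 : 7 ≤ Fintype.card ι) (N : Subgroup ↥(Cfsg.Omega F (⇑Q))) [N.Normal] :
    N ≤ Subgroup.center ↥(Cfsg.Omega F (⇑Q)) ∨ N = ⊤ := by
  have h5 : 5 ≤ Fintype.card ι := by omega
  have := omega_preprimitive Q hQ h5
  by_cases hfix : MulAction.fixedPoints N ↥(singPts Q) = Set.univ
  · left
    apply omega_central_of_fix Q h2 hQ h5 N
    intro n hn p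
    have hp : p ∈ MulAction.fixedPoints N ↥(singPts Q) := by
      rw [hfix]; exact Set.mem_univ p
    exact hp ⟨n, hn⟩
  · right
    have h3 := (omegaIwasawa Q h2 hQ h5).commutator_le N hfix
    rw [omega_perfect Q h2 hQ hodd h7] at h3
    exact top_le_iff.mp h3

/-- **Simplicity**: in odd characteristic and dimension at least seven the quotient of the
commutator subgroup of the isometry group by its centre is simple. -/
theorem pomega_simple_odd (hQ : (QuadraticMap.polarBilin Q).Nondegenerate)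
    (hodd : Odd (Fintype.card F)) (h7 : 7 ≤ Fintype.card ι) :
    IsSimpleGroup (Cfsg.POmega F (⇑Q)) := by
  have h2 : (2 : F) ≠ 0 := Cfsg.Agent.S5644.two_ne hodd
  have h5 : 5 ≤ Fintype.card ι := by omega
  have hperf := omega_perfect Q h2 hQ hodd h7
  have key := fun (N : Subgroup ↥(Cfsg.Omega F (⇑Q))) (hN : N.Normal) =>
    @omega_normal_central_or_top ι _ _ F _ _ Q h2 hQ hodd h7 N hN
  have hnt : Nontrivial (Cfsg.POmega F (⇑Q)) := by
    by_contra hnt
    rw [not_nontrivial_iff_subsingleton] at hnt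
    have hcen : Subgroup.center ↥(Cfsg.Omega F (⇑Q)) = ⊤ := by
      rw [eq_top_iff]
      intro g _
      have h1 : (QuotientGroup.mk g : Cfsg.POmega F (⇑Q)) = 1 := Subsingleton.elim _ _
      exact (QuotientGroup.eq_one_iff g).mp h1
    have hbot := (commutator_eq_bot_iff_center_eq_top _).mpr hcen
    rw [hperf] at hbot
    -- two distinct singular points
    obtain ⟨u, hu0, hu, -⟩ := Cfsg.Agent.S5676.gsing Q hQ hodd (k := 0) (fun i => i.elim0)
      (by omega)
    obtain ⟨z, hz, huz, -⟩ := exists_sing_not_perp Q hQ h5 u u hu0 hu0 hu hu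
    have hz0 : z ≠ 0 := by
      rintro rfl
      exact huz (by simp)
    have hpt := omega_pretransitive Q hQ h5
    obtain ⟨g, hg⟩ := MulAction.exists_smul_eq ↥(Cfsg.Omega F (⇑Q)) (mkPt Q u hu0 hu)
      (mkPt Q z hz0 hz)
    have hg1 : g = 1 := by
      have h3 : g ∈ (⊤ : Subgroup ↥(Cfsg.Omega F (⇑Q))) := Subgroup.mem_top g
      rw [hbot] at h3
      exact Subgroup.mem_bot.mp h3
    rw [hg1, one_smul] at hg
    have h4 := congrArg (fun x : ↥(singPts Q) => (x : ℙ F (ι → F))) hg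
    simp only [mkPt] at h4
    rw [Projectivization.mk_eq_mk_iff'] at h4
    obtain ⟨a, ha⟩ := h4
    apply huz
    rw [← ha, QuadraticMap.polar_smul_left, QuadraticMap.polar_comm, polar_self_zero Q hz,
      smul_zero]
  refine ⟨fun K hK => ?_⟩
  rcases key (K.comap (QuotientGroup.mk' (Subgroup.center ↥(Cfsg.Omega F (⇑Q)))))
    inferInstance with h1 | h1
  · left
    rw [eq_bot_iff]
    intro k hk
    obtain ⟨g, rfl⟩ := QuotientGroup.mk_surjective k
    rw [Subgroup.mem_bot]
    exact (QuotientGroup.eq_one_iff g).mpr (h1 hk)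
  · right
    rw [eq_top_iff]
    intro k _
    obtain ⟨g, rfl⟩ := QuotientGroup.mk_surjective k
    have h2' : g ∈ K.comap (QuotientGroup.mk' (Subgroup.center ↥(Cfsg.Omega F (⇑Q)))) := by
      rw [h1]; exact Subgroup.mem_top g
    exact h2'

end Main

end Cfsg.Agent.Lib.Helper3
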