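import Mathlib

set_option autoImplicit false

namespace Cfsg.Agent.Lib.Helper3

open Matrix
open scoped commutatorElement

/-- If the central quotient of a perfect group is simple, a homomorphism that is not trivial
has central kernel. -/
theorem ker_le_center_of_simple {S T : Type*} [Group S] [Group T] (f : S →* T)
    (hsimple : IsSimpleGroup (S ⧸ Subgroup.center S)) (hperf : commutator S = ⊤) (x : S)
    (hx : f x ≠ 1) : f.ker ≤ Subgroup.center S := by
  have hN : (f.ker.map (QuotientGroup.mk' (Subgroup.center S))).Normal :=
    Subgroup.Normal.map inferInstance _ (QuotientGroup.mk'_surjective _)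
  rcases hN.eq_bot_or_eq_top with h | h
  · have := (Subgroup.map_eq_bot_iff _).1 h
    rwa [QuotientGroup.ker_mk'] at this
  · exfalso
    have hz : ∀ a : S, ∃ z ∈ Subgroup.center S, f a = f z := by
      intro a
      have ha : (QuotientGroup.mk' (Subgroup.center S)) a
          ∈ f.ker.map (QuotientGroup.mk' (Subgroup.center S)) := by
        rw [h]
        exact Subgroup.mem_top _
      obtain ⟨k, hk, hka⟩ := ha
      have hmem : k⁻¹ * a ∈ Subgroup.center S := QuotientGroup.eq.1 hka
      refine ⟨k⁻¹ * a, hmem, ?_⟩
      rw [map_mul, map_inv, MonoidHom.mem_ker.1 hk, inv_one, one_mul]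
    have hcomm : commutator S ≤ f.ker := by
      rw [commutator_def, Subgroup.commutator_le]
      intro a _ b _
      obtain ⟨z, hz1, hz2⟩ := hz a
      obtain ⟨z', hz1', hz2'⟩ := hz b
      rw [MonoidHom.mem_ker, map_commutatorElement, hz2, hz2', ← map_commutatorElement]
      have : ⁅z, z'⁆ = 1 := by
        rw [commutatorElement_eq_one_iff_commute]
        exact (Subgroup.mem_center_iff.1 hz1 z').symm
      rw [this, map_one]
    rw [hperf] at hcomm
    exact hx (MonoidHom.mem_ker.1 (hcomm (Subgroup.mem_top x)))

/-- An element of a finite extension fixed by the relative Frobenius lies in the base field. -/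
theorem exists_algebraMap_eq_of_pow_card {F K : Type*} [Field F] [Fintype F] [Field K]
    [Algebra F K] (κ : K) (h : κ ^ Fintype.card F = κ) : ∃ s : F, algebraMap F K s = κ := by
  classical
  by_contra hcon
  push Not at hcon
  have hq : 1 < Fintype.card F := Fintype.one_lt_card
  set f : Polynomial K := Polynomial.X ^ Fintype.card F - Polynomial.X with hf
  have hdeg : f.natDegree = Fintype.card F := FiniteField.X_pow_card_sub_X_natDegree_eq K hq
  have hf0 : f ≠ 0 := FiniteField.X_pow_card_sub_X_ne_zero K hq
  have hroot : ∀ s : F, algebraMap F K s ∈ f.roots := by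
    intro s
    rw [Polynomial.mem_roots hf0, Polynomial.IsRoot, hf]
    simp only [Polynomial.eval_sub, Polynomial.eval_pow, Polynomial.eval_X]
    rw [← map_pow, FiniteField.pow_card, sub_self]
  have hκ : κ ∈ f.roots := by
    rw [Polynomial.mem_roots hf0, Polynomial.IsRoot, hf]
    simp only [Polynomial.eval_sub, Polynomial.eval_pow, Polynomial.eval_X]
    rw [h, sub_self]
  have hsub : insert κ (Finset.univ.image (algebraMap F K)) ⊆ f.roots.toFinset := by
    intro y hy
    rw [Finset.mem_insert] at hy
    rw [Multiset.mem_toFinset]
    rcases hy with rfl | hy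
    · exact hκ
    · obtain ⟨s, -, rfl⟩ := Finset.mem_image.1 hy
      exact hroot s
  have hc1 : (insert κ (Finset.univ.image (algebraMap F K))).card = Fintype.card F + 1 := by
    rw [Finset.card_insert_of_notMem, Finset.card_image_of_injective _ (algebraMap F K).injective,
      Finset.card_univ]
    intro hmem
    obtain ⟨s, -, hs⟩ := Finset.mem_image.1 hmem
    exact hcon s hs
  have hc2 : f.roots.toFinset.card ≤ Fintype.card F := by
    calc f.roots.toFinset.card ≤ Multiset.card f.roots := Multiset.toFinset_card_le _
      _ ≤ f.natDegree := Polynomial.card_roots' f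
      _ = Fintype.card F := hdeg
  have := Finset.card_le_card hsub
  omega

/-- The centre of `SL₂` over a field has at most two elements. -/
theorem card_center_SL2_le (K : Type*) [Field K] :
    Nat.card (Subgroup.center (Matrix.SpecialLinearGroup (Fin 2) K)) ≤ 2 := by
  rw [Nat.card_congr
    (Matrix.SpecialLinearGroup.center_equiv_rootsOfUnity' (R := K) (0 : Fin 2)).toEquiv,
    Fintype.card_fin]
  exact card_rootsOfUnity K 2

/-- In characteristic two, the centre of `SL₂` is trivial. -/
theorem card_center_SL2_char_two (K : Type*) [Field K] (h2 : (2 : K) = 0) :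
    Nat.card (Subgroup.center (Matrix.SpecialLinearGroup (Fin 2) K)) = 1 := by
  rw [Nat.card_congr
    (Matrix.SpecialLinearGroup.center_equiv_rootsOfUnity' (R := K) (0 : Fin 2)).toEquiv,
    Fintype.card_fin]
  have : Subsingleton (rootsOfUnity 2 K) := by
    refine ⟨fun x y => ?_⟩
    have key : ∀ z : rootsOfUnity 2 K, z = 1 := by
      intro z
      have hz := z.2
      rw [mem_rootsOfUnity] at hz
      have hz' : ((z : Kˣ) : K) ^ 2 = 1 := by
        have := congrArg (fun u : Kˣ => (u : K)) hz
        simpa using this
      have : (((z : Kˣ) : K) - 1) ^ 2 = 0 := by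
        linear_combination hz' - (((z : Kˣ) : K) - 1) * h2
      have h3 : ((z : Kˣ) : K) = 1 := sub_eq_zero.1 (pow_eq_zero_iff two_ne_zero |>.1 this)
      apply Subtype.ext
      apply Units.ext
      exact h3
    rw [key x, key y]
  exact Nat.card_eq_one_iff_unique.2 ⟨this, ⟨1⟩⟩

/-- A field with at least four elements has an element `a ≠ 0` with `a ^ 2 ≠ 1`. -/
theorem exists_ne_zero_sq_ne_one (K : Type*) [Field K] [Fintype K] (h4 : 4 ≤ Fintype.card K) :
    ∃ a : K, a ≠ 0 ∧ a ^ 2 ≠ 1 := by
  classical
  by_contra hcon
  push Not at hcon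
  have : Fintype.card K ≤ 3 := by
    rw [← Finset.card_univ]
    calc (Finset.univ : Finset K).card ≤ ({0, 1, -1} : Finset K).card := by
          apply Finset.card_le_card
          intro x _
          by_cases hx : x = 0
          · simp [hx]
          · have h1 := hcon x hx
            have h2 : x * x = 1 := by rw [← h1]; ring
            rcases mul_self_eq_one_iff.1 h2 with h | h <;> simp [h]
      _ ≤ 3 := Finset.card_le_three
  omega

end Cfsg.Agent.Lib.Helper3
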