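import Mathlib
import Cfsg.Prelude
import Cfsg.Agent.S0750
import Cfsg.Agent.Lib.Helper3.SpCount

set_option autoImplicit false

namespace Cfsg.Agent.Lib.Helper3

open Cfsg Matrix QuadraticMap

section orthcount

variable {F : Type*} [Field F] {ι : Type} [Fintype ι] [DecidableEq ι]

theorem mem_isometryGroup_iff (Q : (ι → F) → F) (g : Matrix.GeneralLinearGroup ι F) :
    g ∈ Cfsg.isometryGroup F Q ↔ ∀ u, Q ((g : Matrix ι ι F) *ᵥ u) = Q u := by
  constructor
  · intro h u
    exact h u u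
  · intro h u _
    exact h u

/-- frames of a quadratic form: families with the same form values as the standard basis -/
def IsQFrame (Q : QuadraticForm F (ι → F)) (a : ι → ι → F) : Prop :=
  (∀ k, Q (a k) = Q (Pi.single k 1)) ∧
    ∀ k l, polar Q (a k) (a l) = polar Q (Pi.single k (1 : F)) (Pi.single l 1)

omit [Fintype ι] [DecidableEq ι] in
theorem quad_sum_eq {κ : Type*} [Fintype κ] (Q : QuadraticForm F (ι → F)) (a b : κ → ι → F)
    (h1 : ∀ k, Q (a k) = Q (b k)) (h2 : ∀ k l, polar Q (a k) (a l) = polar Q (b k) (b l))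
    (x : κ → F) : Q (∑ k, x k • a k) = Q (∑ k, x k • b k) := by
  rw [QuadraticMap.map_sum', QuadraticMap.map_sum']
  congr 1
  · refine Finset.sum_congr rfl fun ij _ => ?_
    induction ij using Sym2.ind with
    | _ i j =>
      simp only [Sym2.map_mk, polarSym2_sym2Mk, polar_smul_left, polar_smul_right, h2]
  · refine Finset.sum_congr rfl fun k _ => ?_
    rw [QuadraticMap.map_smul, QuadraticMap.map_smul, h1]

omit [DecidableEq ι] in
theorem mulVec_eq_sum_col (A : Matrix ι ι F) (x : ι → F) :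
    A *ᵥ x = ∑ k, x k • (fun i => A i k) := by
  funext i
  simp [Matrix.mulVec, dotProduct, mul_comm]

theorem eq_sum_single (x : ι → F) : x = ∑ k, x k • (Pi.single k (1 : F) : ι → F) := by
  funext i
  simp [Pi.single_apply]

theorem isom_iff_frame (Q : QuadraticForm F (ι → F)) (A : Matrix ι ι F) :
    (∀ x, Q (A *ᵥ x) = Q x) ↔ IsQFrame Q (fun k i => A i k) := by
  have hcol : ∀ k, A *ᵥ Pi.single k 1 = fun i => A i k := fun k => by
    rw [Matrix.mulVec_single_one]; rfl
  constructor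
  · intro h
    refine ⟨fun k => ?_, fun k l => ?_⟩
    · show Q (fun i => A i k) = _
      rw [← hcol, h]
    · show polar (⇑Q) (fun i => A i k) (fun i => A i l) = _
      rw [← hcol, ← hcol]
      unfold polar
      rw [← Matrix.mulVec_add, h, h, h]
  · intro h x
    rw [mulVec_eq_sum_col]
    conv_rhs => rw [eq_sum_single x]
    exact quad_sum_eq Q _ _ h.1 h.2 x

theorem isUnit_of_frame (Q : QuadraticForm F (ι → F))
    (hnd : ∀ x, (∀ y, polar Q x y = 0) → x = 0)
    (A : Matrix ι ι F) (hA : IsQFrame Q (fun k i => A i k)) : IsUnit A := by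
  rw [← Matrix.mulVec_injective_iff_isUnit]
  have hiso := (isom_iff_frame Q A).mpr hA
  have hpol : ∀ x y, polar Q (A *ᵥ x) (A *ᵥ y) = polar Q x y := by
    intro x y
    unfold polar
    rw [← Matrix.mulVec_add, hiso, hiso, hiso]
  intro x y hxy
  have h0 : x - y = 0 := by
    apply hnd
    intro z
    rw [← hpol, Matrix.mulVec_sub, hxy, sub_self]
    simp [polar]
  exact sub_eq_zero.mp h0

theorem card_isom_eq_frames (Q : QuadraticForm F (ι → F))
    (hnd : ∀ x, (∀ y, polar Q x y = 0) → x = 0) :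
    Nat.card (Cfsg.isometryGroup F (⇑Q)) = Nat.card {a : ι → ι → F // IsQFrame Q a} := by
  apply Nat.card_congr
  refine Equiv.ofBijective (fun A => ⟨fun k i =>
    ((A : Matrix.GeneralLinearGroup ι F) : Matrix ι ι F) i k, ?_⟩) ⟨?_, ?_⟩
  · exact (isom_iff_frame Q _).mp ((mem_isometryGroup_iff _ A.1).mp A.2)
  · intro A B h
    apply Subtype.ext
    apply Units.ext
    ext i k
    exact congrFun (congrFun (congrArg Subtype.val h) k) i
  · rintro ⟨a, ha⟩
    have hu : IsUnit (Matrix.of (fun i k => a k i) : Matrix ι ι F) := isUnit_of_frame Q hnd _ ha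
    obtain ⟨g, hg⟩ := hu
    refine ⟨⟨g, (mem_isometryGroup_iff _ g).mpr ?_⟩, ?_⟩
    · rw [hg]; exact (isom_iff_frame Q _).mpr ha
    · apply Subtype.ext
      funext k i
      show (g : Matrix ι ι F) i k = a k i
      rw [hg]; rfl


omit [DecidableEq ι] in
/-- Witt transitivity on hyperbolic pairs -/
theorem exists_isom_hyp [Finite F] (Q : QuadraticForm F (ι → F))
    (hnd : ∀ x, (∀ y, polar Q x y = 0) → x = 0)
    (u v u' v' : ι → F) (hu : Q u = 0) (hv : Q v = 0) (huv : polar Q u v = 1)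
    (hu' : Q u' = 0) (hv' : Q v' = 0) (huv' : polar Q u' v' = 1) :
    ∃ g : (ι → F) ≃ₗ[F] (ι → F), (∀ x, Q (g x) = Q x) ∧ g u = u' ∧ g v = v' := by
  have key : ∀ (u v : ι → F), Q u = 0 → Q v = 0 → polar Q u v = 1 →
      ∃ f : (F × F) →ₗ[F] (ι → F), Function.Injective f ∧ (∀ c, Q (f c) = c.1 * c.2) ∧
        f (1, 0) = u ∧ f (0, 1) = v := by
    intro u v hu hv huv
    refine ⟨(LinearMap.fst F F F).smulRight u + (LinearMap.snd F F F).smulRight v,
      ?_, ?_, ?_, ?_⟩
    · rw [injective_iff_map_eq_zero]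
      intro c hc
      simp only [LinearMap.add_apply, LinearMap.smulRight_apply, LinearMap.fst_apply,
        LinearMap.snd_apply] at hc
      have h1 : polar Q (c.1 • u + c.2 • v) v = 0 := by rw [hc]; simp [polar]
      have h2 : polar Q (c.1 • u + c.2 • v) u = 0 := by rw [hc]; simp [polar]
      rw [polar_add_left, polar_smul_left, polar_smul_left, huv, polar_self, hv] at h1
      rw [polar_add_left, polar_smul_left, polar_smul_left, polar_self, hu, polar_comm,
        huv] at h2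
      simp only [smul_eq_mul, mul_one, smul_zero, mul_zero, add_zero, zero_add] at h1 h2
      exact Prod.ext h1 h2
    · intro c
      simp only [LinearMap.add_apply, LinearMap.smulRight_apply, LinearMap.fst_apply,
        LinearMap.snd_apply]
      rw [QuadraticMap.map_add (⇑Q), QuadraticMap.map_smul, QuadraticMap.map_smul, hu, hv,
        polar_smul_left, polar_smul_right, huv]
      simp
    · simp
    · simp
  obtain ⟨f, hf, hfQ, hfu, hfv⟩ := key u v hu hv huv
  obtain ⟨f', hf', hfQ', hfu', hfv'⟩ := key u' v' hu' hv' huv'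
  set e := LinearEquiv.ofInjective f hf with he
  set e' := LinearEquiv.ofInjective f' hf' with he'
  obtain ⟨g, hg1, hg2⟩ := Cfsg.Agent.S0750.result Q
    ⟨fun x hx => hnd x hx, fun y hy => hnd y (fun x => by rw [polar_comm]; exact hy x)⟩
    (LinearMap.range f) (LinearMap.range f') (e.symm.trans e') (by
      intro x
      obtain ⟨c, rfl⟩ := e.surjective x
      rw [LinearEquiv.trans_apply, LinearEquiv.symm_apply_apply]
      show Q (f' c) = Q (f c)
      rw [hfQ, hfQ'])
  refine ⟨g, hg1, ?_, ?_⟩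
  · have h1 := hg2 (e (1, 0))
    rw [LinearEquiv.trans_apply, LinearEquiv.symm_apply_apply] at h1
    have h2 : ((e (1, 0) : LinearMap.range f) : ι → F) = u := hfu
    have h3 : ((e' (1, 0) : LinearMap.range f') : ι → F) = u' := hfu'
    rw [h2, h3] at h1
    exact h1
  · have h1 := hg2 (e (0, 1))
    rw [LinearEquiv.trans_apply, LinearEquiv.symm_apply_apply] at h1
    have h2 : ((e (0, 1) : LinearMap.range f) : ι → F) = v := hfv
    have h3 : ((e' (0, 1) : LinearMap.range f') : ι → F) = v' := hfv'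
    rw [h2, h3] at h1
    exact h1

omit [Fintype ι] [DecidableEq ι] in
theorem exists_hyp_partner (Q : QuadraticForm F (ι → F))
    (hnd : ∀ x, (∀ y, polar Q x y = 0) → x = 0) (u : ι → F) (hu0 : u ≠ 0) (hu : Q u = 0) :
    ∃ v, Q v = 0 ∧ polar Q u v = 1 := by
  obtain ⟨w, hw⟩ : ∃ w, polar Q u w ≠ 0 := by
    by_contra hcon
    push Not at hcon
    exact hu0 (hnd u hcon)
  obtain ⟨w', hw'⟩ : ∃ w', polar Q u w' = 1 :=
    ⟨(polar Q u w)⁻¹ • w, by rw [polar_smul_right, smul_eq_mul, inv_mul_cancel₀ hw]⟩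
  refine ⟨w' + (-Q w') • u, ?_, ?_⟩
  · rw [QuadraticMap.map_add (⇑Q), QuadraticMap.map_smul, hu, polar_smul_right, polar_comm, hw']
    simp
  · rw [polar_add_right, polar_smul_right, polar_self, hu, hw']
    simp

end orthcount

section hypext

variable {F : Type*} [Field F] {κ : Type} [Fintype κ] [DecidableEq κ]
variable (Q : QuadraticForm F (κ ⊕ Fin 2 → F)) (Q' : QuadraticForm F (κ → F))

/-- extension by zero on the two new coordinates -/
def qExt0 (y : κ → F) : κ ⊕ Fin 2 → F := Sum.elim y 0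

omit [Fintype κ] [DecidableEq κ] in
theorem qExt0_comp (y : κ → F) : qExt0 y ∘ Sum.inl = y := rfl

omit [Fintype κ] [DecidableEq κ] in
theorem qExt0_inr (y : κ → F) (t : Fin 2) : qExt0 y (Sum.inr t) = 0 := rfl

omit [Fintype κ] in
theorem single_inr_comp (t : Fin 2) :
    (Pi.single (Sum.inr t) (1 : F) : κ ⊕ Fin 2 → F) ∘ Sum.inl = 0 := by
  funext k
  simp

omit [Fintype κ] in
theorem single_inl_eq (k : κ) :
    (Pi.single (Sum.inl k) (1 : F) : κ ⊕ Fin 2 → F) = qExt0 (Pi.single k 1) := by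
  funext i
  rcases i with i | i
  · by_cases h : i = k
    · subst h; simp [qExt0]
    · simp [qExt0, h]
  · simp [qExt0]

section withhQ

variable (hQ : ∀ x, Q x = Q' (x ∘ Sum.inl) + x (Sum.inr 0) * x (Sum.inr 1))
include hQ

omit [Fintype κ] [DecidableEq κ] in
theorem hyp_polar (x y : κ ⊕ Fin 2 → F) :
    polar Q x y = polar Q' (x ∘ Sum.inl) (y ∘ Sum.inl) + x (Sum.inr 0) * y (Sum.inr 1)
      + x (Sum.inr 1) * y (Sum.inr 0) := by
  unfold polar
  rw [hQ, hQ, hQ]
  have h1 : (x + y) ∘ Sum.inl = x ∘ Sum.inl + y ∘ Sum.inl := rfl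
  rw [h1]
  simp only [Pi.add_apply]
  ring

omit [Fintype κ] [DecidableEq κ] in
theorem hyp_Q_ext0 (y : κ → F) : Q (qExt0 y) = Q' y := by
  rw [hQ, qExt0_comp, qExt0_inr, zero_mul, add_zero]

omit [Fintype κ] [DecidableEq κ] in
theorem hyp_polar_ext0 (y y' : κ → F) : polar Q (qExt0 y) (qExt0 y') = polar Q' y y' := by
  rw [hyp_polar Q Q' hQ, qExt0_comp, qExt0_comp]
  simp only [qExt0_inr, zero_mul, add_zero]

omit [Fintype κ] in
theorem hyp_Q_single_inr (t : Fin 2) : Q (Pi.single (Sum.inr t) 1) = 0 := by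
  rw [hQ, single_inr_comp, QuadraticMap.map_zero, zero_add]
  fin_cases t <;> simp

omit [Fintype κ] in
theorem hyp_polar_e0 (y : κ ⊕ Fin 2 → F) :
    polar Q (Pi.single (Sum.inr 0) 1) y = y (Sum.inr 1) := by
  rw [hyp_polar Q Q' hQ, single_inr_comp]
  simp [polar]

omit [Fintype κ] in
theorem hyp_polar_e1 (y : κ ⊕ Fin 2 → F) :
    polar Q (Pi.single (Sum.inr 1) 1) y = y (Sum.inr 0) := by
  rw [hyp_polar Q Q' hQ, single_inr_comp]
  simp [polar]

omit [Fintype κ] in
theorem hyp_polar_ext0_single (y : κ → F) (s : Fin 2) :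
    polar Q (qExt0 y) (Pi.single (Sum.inr s) 1) = 0 := by
  rw [hyp_polar Q Q' hQ, single_inr_comp]
  simp [polar, qExt0_inr]

/-- the frame obtained from a smaller one by adding the standard hyperbolic pair -/
def qExtFrame (a : κ → κ → F) : κ ⊕ Fin 2 → κ ⊕ Fin 2 → F :=
  Sum.elim (fun k => qExt0 (a k)) (fun t => Pi.single (Sum.inr t) 1)

omit [Fintype κ] in
theorem isQFrame_ext (a : κ → κ → F) (ha : IsQFrame Q' a) : IsQFrame Q (qExtFrame a) := by
  constructor
  · rintro (k | t)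
    · show Q (qExt0 (a k)) = _
      rw [hyp_Q_ext0 Q Q' hQ, ha.1, single_inl_eq, hyp_Q_ext0 Q Q' hQ]
    · rfl
  · rintro (k | t) (l | s)
    · show polar Q (qExt0 (a k)) (qExt0 (a l)) = _
      rw [hyp_polar_ext0 Q Q' hQ, ha.2, single_inl_eq, single_inl_eq, hyp_polar_ext0 Q Q' hQ]
    · show polar Q (qExt0 (a k)) (Pi.single (Sum.inr s) 1) = _
      rw [single_inl_eq, hyp_polar_ext0_single Q Q' hQ, hyp_polar_ext0_single Q Q' hQ]
    · show polar Q (Pi.single (Sum.inr t) 1) (qExt0 (a l)) = _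
      rw [single_inl_eq, polar_comm, hyp_polar_ext0_single Q Q' hQ, polar_comm,
        hyp_polar_ext0_single Q Q' hQ]
    · rfl

omit [Fintype κ] in
theorem card_qframes_fix :
    Nat.card {a : {a : κ ⊕ Fin 2 → κ ⊕ Fin 2 → F // IsQFrame Q a} //
        a.1 (Sum.inr 0) = Pi.single (Sum.inr 0) 1 ∧ a.1 (Sum.inr 1) = Pi.single (Sum.inr 1) 1}
      = Nat.card {a : κ → κ → F // IsQFrame Q' a} := by
  symm
  apply Nat.card_congr
  refine Equiv.ofBijective (fun a => ⟨⟨qExtFrame a.1, isQFrame_ext Q Q' hQ a.1 a.2⟩,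
    rfl, rfl⟩) ⟨?_, ?_⟩
  · intro a b h
    apply Subtype.ext
    funext k
    have h1 : qExt0 (a.1 k) = qExt0 (b.1 k) :=
      congrFun (congrArg (fun z => z.1.1) h) (Sum.inl k)
    exact congrArg (fun y => y ∘ Sum.inl) h1
  · rintro ⟨⟨a, ha⟩, ha1, ha2⟩
    simp only at ha1 ha2
    have hz0 : ∀ k : κ, a (Sum.inl k) (Sum.inr 0) = 0 := by
      intro k
      have h1 := ha.2 (Sum.inr 1) (Sum.inl k)
      rw [ha2, hyp_polar_e1 Q Q' hQ, hyp_polar_e1 Q Q' hQ] at h1
      rw [h1]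
      simp
    have hz1 : ∀ k : κ, a (Sum.inl k) (Sum.inr 1) = 0 := by
      intro k
      have h1 := ha.2 (Sum.inr 0) (Sum.inl k)
      rw [ha1, hyp_polar_e0 Q Q' hQ, hyp_polar_e0 Q Q' hQ] at h1
      rw [h1]
      simp
    have hext : ∀ k : κ, a (Sum.inl k) = qExt0 (a (Sum.inl k) ∘ Sum.inl) := by
      intro k
      funext i
      rcases i with i | i
      · rfl
      · fin_cases i
        · exact hz0 k
        · exact hz1 k
    have hfr : IsQFrame Q' (fun k => a (Sum.inl k) ∘ Sum.inl) := by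
      constructor
      · intro k
        rw [← hyp_Q_ext0 Q Q' hQ, ← hext, ha.1, single_inl_eq, hyp_Q_ext0 Q Q' hQ]
      · intro k l
        rw [← hyp_polar_ext0 Q Q' hQ, ← hext, ← hext, ha.2, single_inl_eq, single_inl_eq,
          hyp_polar_ext0 Q Q' hQ]
    refine ⟨⟨_, hfr⟩, ?_⟩
    apply Subtype.ext
    apply Subtype.ext
    funext k
    rcases k with k | t
    · exact (hext k).symm
    · fin_cases t
      · exact ha1.symm
      · exact ha2.symm

theorem card_hyp_partner_std [Fintype F] :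
    Nat.card {v : κ ⊕ Fin 2 → F // Q v = 0 ∧ polar Q (Pi.single (Sum.inr 0) 1) v = 1}
      = Fintype.card F ^ Fintype.card κ := by
  rw [← Fintype.card_fun, ← Nat.card_eq_fintype_card]
  apply Nat.card_congr
  refine ⟨fun v => v.1 ∘ Sum.inl, fun y => ⟨Sum.elim y ![-Q' y, 1], ?_, ?_⟩, ?_, ?_⟩
  · rw [hQ]
    simp
  · rw [hyp_polar_e0 Q Q' hQ]
    simp
  · rintro ⟨v, hv1, hv2⟩
    apply Subtype.ext
    rw [hyp_polar_e0 Q Q' hQ] at hv2
    rw [hQ, hv2, mul_one] at hv1
    funext i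
    rcases i with i | i
    · rfl
    · fin_cases i
      · simp only [Sum.elim_inr]
        show -Q' (v ∘ Sum.inl) = v (Sum.inr 0)
        linear_combination -hv1
      · simp only [Sum.elim_inr]
        exact hv2.symm
  · intro y
    rfl

theorem card_hyp_partner [Fintype F] (hnd : ∀ x, (∀ y, polar Q x y = 0) → x = 0)
    (u : κ ⊕ Fin 2 → F) (hu0 : u ≠ 0) (hu : Q u = 0) :
    Nat.card {v : κ ⊕ Fin 2 → F // Q v = 0 ∧ polar Q u v = 1}
      = Fintype.card F ^ Fintype.card κ := by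
  obtain ⟨v, hv, huv⟩ := exists_hyp_partner Q hnd u hu0 hu
  obtain ⟨g, hg, hgu, -⟩ := exists_isom_hyp Q hnd (Pi.single (Sum.inr 0) 1)
    (Pi.single (Sum.inr 1) 1) u v (hyp_Q_single_inr Q Q' hQ 0) (hyp_Q_single_inr Q Q' hQ 1)
    (by rw [hyp_polar_e0 Q Q' hQ]; simp) hu hv huv
  rw [← card_hyp_partner_std Q Q' hQ]
  symm
  apply Nat.card_congr
  have hpol : ∀ x y, polar Q (g x) (g y) = polar Q x y := by
    intro x y
    unfold polar
    rw [← map_add, hg, hg, hg]
  refine ⟨fun w => ⟨g w.1, by rw [hg]; exact w.2.1, by rw [← hgu, hpol]; exact w.2.2⟩,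
    fun w => ⟨g.symm w.1, by rw [← hg, LinearEquiv.apply_symm_apply]; exact w.2.1,
      by rw [← hpol, hgu, LinearEquiv.apply_symm_apply]; exact w.2.2⟩, ?_, ?_⟩
  · intro w
    apply Subtype.ext
    exact g.symm_apply_apply _
  · intro w
    apply Subtype.ext
    exact g.apply_symm_apply _

theorem card_hyp_pairs [Fintype F] (hnd : ∀ x, (∀ y, polar Q x y = 0) → x = 0) :
    Nat.card {p : (κ ⊕ Fin 2 → F) × (κ ⊕ Fin 2 → F) //
        Q p.1 = 0 ∧ Q p.2 = 0 ∧ polar Q p.1 p.2 = 1}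
      = (Nat.card {x : κ ⊕ Fin 2 → F // Q x = 0} - 1) * Fintype.card F ^ Fintype.card κ := by
  classical
  rw [Nat.card_congr (Equiv.subtypeProdEquivSigmaSubtype
    (fun (u v : κ ⊕ Fin 2 → F) => Q u = 0 ∧ Q v = 0 ∧ polar Q u v = 1)), Nat.card_sigma]
  have h1 : ∀ u : κ ⊕ Fin 2 → F,
      Nat.card {v : κ ⊕ Fin 2 → F // Q u = 0 ∧ Q v = 0 ∧ polar Q u v = 1}
        = if (Q u = 0 ∧ u ≠ 0) then Fintype.card F ^ Fintype.card κ else 0 := by
    intro u
    split_ifs with h
    · rw [← card_hyp_partner Q Q' hQ hnd u h.2 h.1]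
      exact Nat.card_congr (Equiv.subtypeEquivRight (fun v => by simp [h.1]))
    · rw [Nat.card_eq_zero]
      left
      constructor
      rintro ⟨v, hv1, hv2, hv3⟩
      apply h
      refine ⟨hv1, ?_⟩
      rintro rfl
      simp [polar] at hv3
  rw [Finset.sum_congr rfl (fun u _ => h1 u), Finset.sum_ite, Finset.sum_const_zero, add_zero,
    Finset.sum_const, smul_eq_mul]
  congr 1
  rw [Nat.card_eq_fintype_card, Fintype.card_subtype]
  have h2 : Finset.univ.filter (fun u : κ ⊕ Fin 2 → F => Q u = 0 ∧ u ≠ 0)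
      = (Finset.univ.filter (fun u : κ ⊕ Fin 2 → F => Q u = 0)).erase 0 := by
    ext u
    simp [and_comm]
  rw [h2, Finset.card_erase_of_mem (by simp)]

theorem card_qframes_succ [Fintype F] (hnd : ∀ x, (∀ y, polar Q x y = 0) → x = 0) :
    Nat.card {a : κ ⊕ Fin 2 → κ ⊕ Fin 2 → F // IsQFrame Q a}
      = (Nat.card {x : κ ⊕ Fin 2 → F // Q x = 0} - 1) * Fintype.card F ^ Fintype.card κ
        * Nat.card {a : κ → κ → F // IsQFrame Q' a} := by
  classical
  set P := {p : (κ ⊕ Fin 2 → F) × (κ ⊕ Fin 2 → F) //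
    Q p.1 = 0 ∧ Q p.2 = 0 ∧ polar Q p.1 p.2 = 1} with hP
  set X := {a : κ ⊕ Fin 2 → κ ⊕ Fin 2 → F // IsQFrame Q a} with hX
  have he0 : Q (Pi.single (Sum.inr 0) 1) = 0 := hyp_Q_single_inr Q Q' hQ 0
  have he1 : Q (Pi.single (Sum.inr 1) 1) = 0 := hyp_Q_single_inr Q Q' hQ 1
  have he01 : polar Q (Pi.single (Sum.inr 0) 1) (Pi.single (Sum.inr 1) 1) = 1 := by
    rw [hyp_polar_e0 Q Q' hQ]; simp
  let f : X → P := fun a => ⟨(a.1 (Sum.inr 0), a.1 (Sum.inr 1)), by
    refine ⟨?_, ?_, ?_⟩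
    · show Q (a.1 (Sum.inr 0)) = 0
      rw [a.2.1, he0]
    · show Q (a.1 (Sum.inr 1)) = 0
      rw [a.2.1, he1]
    · show polar Q (a.1 (Sum.inr 0)) (a.1 (Sum.inr 1)) = 1
      rw [a.2.2, he01]⟩
  have hfib : ∀ p : P, Nat.card {a : X // f a = p}
      = Nat.card {a : X // a.1 (Sum.inr 0) = Pi.single (Sum.inr 0) 1 ∧
          a.1 (Sum.inr 1) = Pi.single (Sum.inr 1) 1} := by
    intro p
    obtain ⟨g, hg, hg0, hg1⟩ := exists_isom_hyp Q hnd _ _ p.1.1 p.1.2 he0 he1 he01
      p.2.1 p.2.2.1 p.2.2.2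
    have hpol : ∀ x y, polar Q (g x) (g y) = polar Q x y := by
      intro x y
      unfold polar
      rw [← map_add, hg, hg, hg]
    symm
    apply Nat.card_congr
    refine ⟨fun a => ⟨⟨fun i => g (a.1.1 i), ⟨fun k => by rw [hg]; exact a.1.2.1 k,
        fun k l => by rw [hpol]; exact a.1.2.2 k l⟩⟩, ?_⟩,
      fun a => ⟨⟨fun i => g.symm (a.1.1 i),
        ⟨fun k => by rw [← hg, g.apply_symm_apply]; exact a.1.2.1 k,
          fun k l => by
            rw [← hpol, g.apply_symm_apply, g.apply_symm_apply]; exact a.1.2.2 k l⟩⟩,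
        ?_, ?_⟩, ?_, ?_⟩
    · apply Subtype.ext
      apply Prod.ext
      · show g (a.1.1 (Sum.inr 0)) = p.1.1
        rw [a.2.1, hg0]
      · show g (a.1.1 (Sum.inr 1)) = p.1.2
        rw [a.2.2, hg1]
    · have h3 : a.1.1 (Sum.inr 0) = p.1.1 := congrArg (fun z : P => z.1.1) a.2
      show g.symm (a.1.1 (Sum.inr 0)) = _
      rw [h3, ← hg0, g.symm_apply_apply]
    · have h3 : a.1.1 (Sum.inr 1) = p.1.2 := congrArg (fun z : P => z.1.2) a.2
      show g.symm (a.1.1 (Sum.inr 1)) = _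
      rw [h3, ← hg1, g.symm_apply_apply]
    · intro a
      apply Subtype.ext
      apply Subtype.ext
      funext i
      exact g.symm_apply_apply _
    · intro a
      apply Subtype.ext
      apply Subtype.ext
      funext i
      exact g.apply_symm_apply _
  have h1 : Nat.card X = Nat.card (Σ p : P, {a : X // f a = p}) :=
    Nat.card_congr (Equiv.sigmaFiberEquiv f).symm
  have : Fintype P := Fintype.ofFinite P
  rw [h1, Nat.card_sigma, Finset.sum_congr rfl (fun p _ => hfib p), Finset.sum_const,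
    Finset.card_univ, smul_eq_mul, card_qframes_fix Q Q' hQ, ← Nat.card_eq_fintype_card, hP,
    card_hyp_pairs Q Q' hQ hnd]

omit [Fintype κ] in
theorem hyp_nondeg (hnd' : ∀ x, (∀ y, polar Q' x y = 0) → x = 0) :
    ∀ x, (∀ y, polar Q x y = 0) → x = 0 := by
  intro x hx
  have h0 : x (Sum.inr 0) = 0 := by
    have h := hx (Pi.single (Sum.inr 1) 1)
    rw [polar_comm, hyp_polar_e1 Q Q' hQ] at h
    exact h
  have h1 : x (Sum.inr 1) = 0 := by
    have h := hx (Pi.single (Sum.inr 0) 1)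
    rw [polar_comm, hyp_polar_e0 Q Q' hQ] at h
    exact h
  have h2 : x ∘ Sum.inl = 0 := by
    apply hnd'
    intro y
    have h := hx (qExt0 y)
    rw [hyp_polar Q Q' hQ, qExt0_comp] at h
    simp only [qExt0_inr, mul_zero, add_zero] at h
    exact h
  funext i
  rcases i with i | i
  · exact congrFun h2 i
  · fin_cases i
    · exact h0
    · exact h1

theorem card_isom_hyp [Fintype F] (hnd' : ∀ x, (∀ y, polar Q' x y = 0) → x = 0) :
    Nat.card (Cfsg.isometryGroup F (⇑Q))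
      = (Nat.card {x : κ ⊕ Fin 2 → F // Q x = 0} - 1) * Fintype.card F ^ Fintype.card κ
        * Nat.card (Cfsg.isometryGroup F (⇑Q')) := by
  rw [card_isom_eq_frames Q (hyp_nondeg Q Q' hQ hnd'), card_isom_eq_frames Q' hnd',
    card_qframes_succ Q Q' hQ (hyp_nondeg Q Q' hQ hnd')]

end withhQ

end hypext

section reindex

variable {F : Type*} [Field F] {ι : Type} [Fintype ι] [DecidableEq ι]

theorem card_isom_reindex {ι₁ : Type} [Fintype ι₁] [DecidableEq ι₁] (e : ι ≃ ι₁)
    (Q₁ : (ι₁ → F) → F) :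
    Nat.card (Cfsg.isometryGroup F (fun x : ι → F => Q₁ (x ∘ e.symm)))
      = Nat.card (Cfsg.isometryGroup F Q₁) := by
  apply Nat.card_congr
  let φ : Matrix.GeneralLinearGroup ι F ≃* Matrix.GeneralLinearGroup ι₁ F :=
    Units.mapEquiv (Matrix.reindexAlgEquiv F F e).toMulEquiv
  have hφ : ∀ (g : Matrix.GeneralLinearGroup ι F) (y : ι₁ → F),
      ((φ g : Matrix.GeneralLinearGroup ι₁ F) : Matrix ι₁ ι₁ F) *ᵥ y
        = ((g : Matrix ι ι F) *ᵥ (y ∘ e)) ∘ e.symm := by
    intro g y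
    show (Matrix.reindex e e (g : Matrix ι ι F)) *ᵥ y = _
    rw [Matrix.reindex_apply, Matrix.submatrix_mulVec_equiv, Equiv.symm_symm]
  refine Equiv.subtypeEquiv φ.toEquiv (fun g => ?_)
  rw [mem_isometryGroup_iff, mem_isometryGroup_iff]
  constructor
  · intro h y
    have h1 := h (y ∘ e)
    have h2 : (y ∘ e) ∘ e.symm = y := by
      funext i
      simp
    rw [h2] at h1
    show Q₁ (((φ g : Matrix.GeneralLinearGroup ι₁ F) : Matrix ι₁ ι₁ F) *ᵥ y) = Q₁ y
    rw [hφ]
    exact h1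
  · intro h x
    have h1 : Q₁ (((φ g : Matrix.GeneralLinearGroup ι₁ F) : Matrix ι₁ ι₁ F) *ᵥ (x ∘ e.symm))
        = Q₁ (x ∘ e.symm) := h (x ∘ e.symm)
    rw [hφ] at h1
    have h2 : (x ∘ e.symm) ∘ e = x := by
      funext i
      simp
    rw [h2] at h1
    exact h1

variable {κ : Type} [Fintype κ] [DecidableEq κ]

/-- the form transported to `κ ⊕ Fin 2` -/
noncomputable def qPull (e : κ ⊕ Fin 2 ≃ ι) (Q : QuadraticForm F (ι → F)) :
    QuadraticForm F (κ ⊕ Fin 2 → F) :=
  Q.comp (LinearMap.funLeft F F e.symm)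

omit [Fintype ι] [DecidableEq ι] [Fintype κ] [DecidableEq κ] in
theorem qPull_apply (e : κ ⊕ Fin 2 ≃ ι) (Q : QuadraticForm F (ι → F)) (x : κ ⊕ Fin 2 → F) :
    qPull e Q x = Q (x ∘ e.symm) := rfl

omit [Fintype ι] [DecidableEq ι] [Fintype κ] [DecidableEq κ] in
theorem qPull_comp (e : κ ⊕ Fin 2 ≃ ι) (Q : QuadraticForm F (ι → F)) (x : ι → F) :
    qPull e Q (x ∘ e) = Q x := by
  rw [qPull_apply]
  congr 1
  funext i
  simp

section step

variable (e : κ ⊕ Fin 2 ≃ ι) (Q : QuadraticForm F (ι → F)) (Q' : QuadraticForm F (κ → F))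
  (hQ : ∀ x, Q x = Q' (fun k => x (e (Sum.inl k))) + x (e (Sum.inr 0)) * x (e (Sum.inr 1)))
include hQ

omit [Fintype ι] [DecidableEq ι] [Fintype κ] [DecidableEq κ] in
theorem qPull_hyp (x : κ ⊕ Fin 2 → F) :
    qPull e Q x = Q' (x ∘ Sum.inl) + x (Sum.inr 0) * x (Sum.inr 1) := by
  rw [qPull_apply, hQ]
  simp only [Function.comp_apply, Equiv.symm_apply_apply]
  rfl

omit [Fintype ι] [DecidableEq ι] [Fintype κ] in
/-- nondegeneracy passes to a hyperbolic extension -/
theorem nondeg_step (hnd' : ∀ x, (∀ y, polar Q' x y = 0) → x = 0) :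
    ∀ x, (∀ y, polar Q x y = 0) → x = 0 := by
  intro x hx
  have h1 : x ∘ e = 0 := by
    apply hyp_nondeg (qPull e Q) Q' (qPull_hyp e Q Q' hQ) hnd'
    intro y
    have h2 : y = (y ∘ e.symm) ∘ e := by
      funext i
      simp
    rw [h2]
    have h3 := hx (y ∘ e.symm)
    unfold polar at h3 ⊢
    have h4 : x ∘ e + (y ∘ e.symm) ∘ e = (x + y ∘ e.symm) ∘ e := rfl
    rw [h4, qPull_comp, qPull_comp, qPull_comp]
    exact h3
  funext i
  have := congrFun h1 (e.symm i)
  simpa using this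

/-- the order of the isometry group of a hyperbolic extension -/
theorem card_isom_step [Fintype F] (hnd' : ∀ x, (∀ y, polar Q' x y = 0) → x = 0) :
    Nat.card (Cfsg.isometryGroup F (⇑Q))
      = (Nat.card {x : ι → F // Q x = 0} - 1) * Fintype.card F ^ Fintype.card κ
        * Nat.card (Cfsg.isometryGroup F (⇑Q')) := by
  have h1 := card_isom_hyp (qPull e Q) Q' (qPull_hyp e Q Q' hQ) hnd'
  have h2 : Nat.card (Cfsg.isometryGroup F (⇑(qPull e Q)))
      = Nat.card (Cfsg.isometryGroup F (⇑Q)) := card_isom_reindex e (⇑Q)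
  have h3 : Nat.card {x : κ ⊕ Fin 2 → F // qPull e Q x = 0}
      = Nat.card {x : ι → F // Q x = 0} := by
    symm
    apply Nat.card_congr
    refine Equiv.subtypeEquiv (Equiv.arrowCongr e.symm (Equiv.refl F)) (fun x => ?_)
    have h4 : (Equiv.arrowCongr e.symm (Equiv.refl F)) x = x ∘ e := by
      funext i
      simp [Equiv.arrowCongr]
    rw [h4, qPull_comp]
  rw [h2, h3] at h1
  exact h1

end step

end reindex

end Cfsg.Agent.Lib.Helper3
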