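import Mathlib
import Cfsg.Prelude
import Cfsg.Agent.Lib.Helper3.OrthCount

set_option autoImplicit false

namespace Cfsg.Agent.Lib.Helper3

open Cfsg Matrix

section binary

variable {F : Type*} [Field F]

/-- in characteristic two an anisotropic binary form has a nonzero mixed coefficient -/
theorem aniso_a_ne_zero [Finite F] (a b : F)
    (hab : ∀ z₁ z₂ : F, z₁ ^ 2 + a * z₁ * z₂ + b * z₂ ^ 2 = 0 → z₁ = 0 ∧ z₂ = 0)
    (h2 : (2 : F) = 0) : a ≠ 0 := by
  rintro rfl
  have : Fintype F := Fintype.ofFinite F
  have h3 : ringChar F ∣ 2 := by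
    apply ringChar.dvd
    exact_mod_cast h2
  have hp : (ringChar F).Prime := CharP.char_is_prime F (ringChar F)
  have h4 : ringChar F = 2 := (Nat.prime_dvd_prime_iff_eq hp Nat.prime_two).mp h3
  obtain ⟨c, hc⟩ := FiniteField.isSquare_of_char_two h4 b
  have h5 := hab c 1 (by rw [hc]; linear_combination (c * c) * h2)
  exact one_ne_zero h5.2

/-- points of the conic of an anisotropic binary form -/
theorem card_conic_aniso [Fintype F] (a b : F)
    (hab : ∀ z₁ z₂ : F, z₁ ^ 2 + a * z₁ * z₂ + b * z₂ ^ 2 = 0 → z₁ = 0 ∧ z₂ = 0) :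
    Nat.card {p : F × F // p.1 ^ 2 + a * p.1 * p.2 + b * p.2 ^ 2 = 1} = Fintype.card F + 1 := by
  classical
  have hN : ∀ s : F, s ^ 2 + a * s + b ≠ 0 := by
    intro s hs
    have := hab s 1 (by rw [← hs]; ring)
    exact one_ne_zero this.2
  -- the points with second coordinate nonzero
  have e1 : {p : F × F // p.1 ^ 2 + a * p.1 * p.2 + b * p.2 ^ 2 = 1 ∧ p.2 ≠ 0}
      ≃ {s : F // 2 * s + a ≠ 0} := by
    refine ⟨fun p => ⟨(p.1.1 - 1) / p.1.2, ?_⟩,
      fun s => ⟨(1 + (-(2 * s.1 + a) / (s.1 ^ 2 + a * s.1 + b)) * s.1,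
        -(2 * s.1 + a) / (s.1 ^ 2 + a * s.1 + b)), ?_, ?_⟩, ?_, ?_⟩
    · obtain ⟨⟨x, y⟩, hp, hy⟩ := p
      simp only at hp hy ⊢
      intro hcon
      set s := (x - 1) / y with hs
      have hx : x = 1 + s * y := by
        rw [hs]; field_simp; ring
      have h3 : y * (2 * s + a) + y ^ 2 * (s ^ 2 + a * s + b) = 0 := by
        rw [hx] at hp
        linear_combination hp
      rw [hcon, mul_zero, zero_add] at h3
      rcases mul_eq_zero.mp h3 with h | h
      · exact hy (pow_eq_zero_iff (two_ne_zero) |>.mp h)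
      · exact hN s h
    · have hl : (-(2 * s.1 + a) / (s.1 ^ 2 + a * s.1 + b)) * (s.1 ^ 2 + a * s.1 + b)
          = -(2 * s.1 + a) := div_mul_cancel₀ _ (hN s.1)
      simp only
      generalize (-(2 * s.1 + a) / (s.1 ^ 2 + a * s.1 + b)) = l at hl
      linear_combination l * hl
    · have := hN s.1
      have h3 := s.2
      simp only
      intro h
      rcases div_eq_zero_iff.mp h with h | h
      · exact h3 (neg_eq_zero.mp h)
      · exact this h
    · rintro ⟨⟨x, y⟩, hp, hy⟩
      simp only at hp hy
      apply Subtype.ext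
      simp only
      set s := (x - 1) / y with hs
      have hx : x = 1 + s * y := by
        rw [hs]; field_simp; ring
      have h3 : y * (2 * s + a) + y ^ 2 * (s ^ 2 + a * s + b) = 0 := by
        rw [hx] at hp
        linear_combination hp
      have h4 : (2 * s + a) + y * (s ^ 2 + a * s + b) = 0 := by
        have h5 : y * ((2 * s + a) + y * (s ^ 2 + a * s + b)) = 0 := by linear_combination h3
        rcases mul_eq_zero.mp h5 with h | h
        · exact absurd h hy
        · exact h
      have h6 : -(2 * s + a) / (s ^ 2 + a * s + b) = y := by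
        rw [div_eq_iff (hN s)]
        linear_combination -h4
      rw [h6]
      apply Prod.ext
      · simp only
        rw [hx]; ring
      · rfl
    · rintro ⟨s, hs⟩
      apply Subtype.ext
      simp only
      have := hN s
      have h3 : -(2 * s + a) / (s ^ 2 + a * s + b) ≠ 0 := by
        intro h
        rcases div_eq_zero_iff.mp h with h | h
        · exact hs (neg_eq_zero.mp h)
        · exact this h
      rw [add_sub_cancel_left, mul_comm, mul_div_assoc, div_self h3, mul_one]
  -- the points with second coordinate zero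
  have e0 : {p : F × F // p.1 ^ 2 + a * p.1 * p.2 + b * p.2 ^ 2 = 1 ∧ ¬ p.2 ≠ 0}
      ≃ {x : F // x ^ 2 = 1} := by
    refine ⟨fun p => ⟨p.1.1, ?_⟩, fun x => ⟨(x.1, 0), ?_, ?_⟩, ?_, ?_⟩
    · obtain ⟨⟨x, y⟩, hp, hy⟩ := p
      simp only [ne_eq, not_not] at hp hy ⊢
      rw [hy] at hp
      linear_combination hp
    · simp only
      have := x.2
      linear_combination this
    · simp
    · rintro ⟨⟨x, y⟩, hp, hy⟩
      simp only [ne_eq, not_not] at hy
      apply Subtype.ext
      simp only
      rw [hy]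
    · intro x
      rfl
  have hsplit : Nat.card {p : F × F // p.1 ^ 2 + a * p.1 * p.2 + b * p.2 ^ 2 = 1}
      = Nat.card {p : F × F // p.1 ^ 2 + a * p.1 * p.2 + b * p.2 ^ 2 = 1 ∧ p.2 ≠ 0}
        + Nat.card {p : F × F // p.1 ^ 2 + a * p.1 * p.2 + b * p.2 ^ 2 = 1 ∧ ¬ p.2 ≠ 0} := by
    rw [Nat.card_eq_fintype_card, Nat.card_eq_fintype_card, Nat.card_eq_fintype_card,
      Fintype.card_subtype, Fintype.card_subtype, Fintype.card_subtype,
      ← Finset.card_filter_add_card_filter_not (s := Finset.univ.filter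
        (fun p : F × F => p.1 ^ 2 + a * p.1 * p.2 + b * p.2 ^ 2 = 1)) (fun p : F × F => p.2 ≠ 0),
      Finset.filter_filter, Finset.filter_filter]
  rw [hsplit, Nat.card_congr e1, Nat.card_congr e0]
  by_cases h2 : (2 : F) = 0
  · have ha := aniso_a_ne_zero a b hab h2
    have h3 : Nat.card {s : F // 2 * s + a ≠ 0} = Fintype.card F := by
      rw [← Nat.card_eq_fintype_card]
      apply Nat.card_congr
      refine Equiv.subtypeUnivEquiv (fun s => ?_)
      rw [h2, zero_mul, zero_add]
      exact ha
    have h4 : Nat.card {x : F // x ^ 2 = 1} = 1 := by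
      have : Unique {x : F // x ^ 2 = 1} :=
        { default := ⟨1, one_pow 2⟩
          uniq := fun x => by
            apply Subtype.ext
            have h5 := x.2
            have h6 : (x.1 - 1) ^ 2 = 0 := by linear_combination h5 + (1 - x.1) * h2
            exact sub_eq_zero.mp (pow_eq_zero_iff (two_ne_zero) |>.mp h6) }
      exact Nat.card_unique
    rw [h3, h4]
  · have h3 : Nat.card {s : F // 2 * s + a ≠ 0} = Fintype.card F - 1 := by
      rw [Nat.card_eq_fintype_card, Fintype.card_subtype]
      have h5 : Finset.univ.filter (fun s : F => 2 * s + a ≠ 0) = Finset.univ.erase (-a / 2) := by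
        ext s
        simp only [Finset.mem_filter, Finset.mem_univ, true_and, Finset.mem_erase, and_true]
        constructor
        · intro h hs
          apply h
          rw [hs]; field_simp; ring
        · intro h hs
          apply h
          rw [eq_div_iff h2]
          linear_combination hs
      rw [h5, Finset.card_erase_of_mem (Finset.mem_univ _), Finset.card_univ]
    have h4 : Nat.card {x : F // x ^ 2 = 1} = 2 := by
      rw [Nat.card_eq_fintype_card, Fintype.card_subtype]
      have h5 : Finset.univ.filter (fun c : F => c ^ 2 = 1) = {1, -1} := by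
        ext c
        simp
      rw [h5, Finset.card_pair]
      intro h
      apply h2
      linear_combination h
    rw [h3, h4]
    have : 1 ≤ Fintype.card F := Fintype.card_pos
    omega

/-- the binary form on `Fin 2 → F` -/
def binQ (a b : F) (z : Fin 2 → F) : F := z 0 ^ 2 + a * z 0 * z 1 + b * z 1 ^ 2

/-- multiplication by `u` in the quadratic algebra -/
def binR (a b : F) (u : Fin 2 → F) : Matrix (Fin 2) (Fin 2) F :=
  !![u 0, -b * u 1; u 1, u 0 + a * u 1]

/-- the conjugation -/
def binS (a : F) : Matrix (Fin 2) (Fin 2) F := !![1, a; 0, -1]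

/-- the conjugate vector -/
def binC (a : F) (u : Fin 2 → F) : Fin 2 → F := ![u 0 + a * u 1, -u 1]

theorem binR_mulVec (a b : F) (u z : Fin 2 → F) :
    binR a b u *ᵥ z = ![u 0 * z 0 - b * u 1 * z 1, u 1 * z 0 + (u 0 + a * u 1) * z 1] := by
  funext i
  fin_cases i <;> simp [binR, Matrix.mulVec, dotProduct, Fin.sum_univ_two] <;> ring

theorem binS_mulVec (a : F) (z : Fin 2 → F) :
    binS a *ᵥ z = ![z 0 + a * z 1, -z 1] := by
  funext i
  fin_cases i <;> simp [binS, Matrix.mulVec, dotProduct, Fin.sum_univ_two]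

theorem binQ_binR (a b : F) (u z : Fin 2 → F) :
    binQ a b (binR a b u *ᵥ z) = binQ a b u * binQ a b z := by
  rw [binR_mulVec]
  simp only [binQ, Matrix.cons_val_zero, Matrix.cons_val_one]
  ring

theorem binQ_binS (a b : F) (z : Fin 2 → F) : binQ a b (binS a *ᵥ z) = binQ a b z := by
  rw [binS_mulVec]
  simp only [binQ, Matrix.cons_val_zero, Matrix.cons_val_one]
  ring

theorem binQ_binC (a b : F) (u : Fin 2 → F) : binQ a b (binC a u) = binQ a b u := by
  simp only [binQ, binC, Matrix.cons_val_zero, Matrix.cons_val_one]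
  ring

theorem binS_mul_self (a : F) : binS a * binS a = 1 := by
  ext i j
  fin_cases i <;> fin_cases j <;> simp [binS, Matrix.mul_apply, Fin.sum_univ_two]

theorem binR_mul (a b : F) (u v : Fin 2 → F) :
    binR a b u * binR a b v = binR a b (binR a b u *ᵥ v) := by
  rw [binR_mulVec]
  ext i j
  fin_cases i <;> fin_cases j <;> simp [binR, Matrix.mul_apply, Fin.sum_univ_two] <;> ring

theorem binR_comm (a b : F) (u v : Fin 2 → F) :
    binR a b u * binR a b v = binR a b v * binR a b u := by
  ext i j
  fin_cases i <;> fin_cases j <;> simp [binR, Matrix.mul_apply, Fin.sum_univ_two] <;> ring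

theorem binR_mul_conj (a b : F) (u : Fin 2 → F) :
    binR a b u * binR a b (binC a u) = binQ a b u • (1 : Matrix (Fin 2) (Fin 2) F) := by
  ext i j
  fin_cases i <;> fin_cases j <;>
    simp [binR, binC, binQ, Matrix.mul_apply, Fin.sum_univ_two] <;> ring

theorem binS_binR_binS (a b : F) (u : Fin 2 → F) :
    binS a * binR a b u * binS a = binR a b (binC a u) := by
  ext i j
  fin_cases i <;> fin_cases j <;>
    simp [binR, binC, binS, Matrix.mul_apply, Fin.sum_univ_two] <;> ring

theorem binR_col (a b : F) (u : Fin 2 → F) (i : Fin 2) : binR a b u i 0 = u i := by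
  fin_cases i <;> simp [binR]

theorem binR_mul_binS_col (a b : F) (u : Fin 2 → F) (i : Fin 2) :
    (binR a b u * binS a) i 0 = u i := by
  fin_cases i <;> simp [binR, binS, Matrix.mul_apply, Fin.sum_univ_two]

theorem binS_ne_one [Finite F] (a b : F)
    (hab : ∀ z₁ z₂ : F, z₁ ^ 2 + a * z₁ * z₂ + b * z₂ ^ 2 = 0 → z₁ = 0 ∧ z₂ = 0) :
    binS a ≠ 1 := by
  intro h
  have h1 : a = 0 := by
    have := congrFun (congrFun h 0) 1
    simpa [binS] using this
  have h2 : (2 : F) = 0 := by
    have := congrFun (congrFun h 1) 1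
    simp only [binS, Matrix.of_apply, Matrix.cons_val', Matrix.cons_val_one, Matrix.cons_val_fin_one,
      Matrix.one_apply_eq] at this
    linear_combination -this
  exact aniso_a_ne_zero a b hab h2 h1

theorem bin_solve [Finite F] (a b : F)
    (hab : ∀ z₁ z₂ : F, z₁ ^ 2 + a * z₁ * z₂ + b * z₂ ^ 2 = 0 → z₁ = 0 ∧ z₂ = 0)
    (s t : F) (h1 : s ^ 2 + a * s * t + b * t ^ 2 = b) (h2 : 2 * s + a * t = a) :
    (s = 0 ∧ t = 1) ∨ (s = a ∧ t = -1) := by
  by_cases h : (2 : F) = 0
  · have ha := aniso_a_ne_zero a b hab h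
    have ht : t = 1 := by
      have h3 : a * (t - 1) = 0 := by linear_combination h2 - s * h
      rcases mul_eq_zero.mp h3 with h4 | h4
      · exact absurd h4 ha
      · exact sub_eq_zero.mp h4
    subst ht
    have h3 : s * (s + a) = 0 := by linear_combination h1
    rcases mul_eq_zero.mp h3 with h4 | h4
    · exact Or.inl ⟨h4, rfl⟩
    · right
      constructor
      · linear_combination h4 - a * h
      · linear_combination h
  · have hd : a ^ 2 - 4 * b ≠ 0 := by
      intro hd
      have := hab (-a) 2 (by linear_combination -hd)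
      exact h this.2
    have h3 : (1 - t) * (1 + t) * (a ^ 2 - 4 * b) = 0 := by
      linear_combination 4 * h1 - (2 * s + a * t + a) * h2
    rcases mul_eq_zero.mp h3 with h4 | h4
    · rcases mul_eq_zero.mp h4 with h5 | h5
      · left
        have ht : t = 1 := by linear_combination -h5
        subst ht
        have h6 : 2 * s = 0 := by linear_combination h2
        rcases mul_eq_zero.mp h6 with h7 | h7
        · exact absurd h7 h
        · exact ⟨h7, rfl⟩
      · right
        have ht : t = -1 := by linear_combination h5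
        subst ht
        have h6 : 2 * (s - a) = 0 := by linear_combination h2
        rcases mul_eq_zero.mp h6 with h7 | h7
        · exact absurd h7 h
        · exact ⟨sub_eq_zero.mp h7, rfl⟩
    · exact absurd h4 hd

/-- every isometry of an anisotropic binary form is a rotation or a rotation times the
conjugation -/
theorem bin_isom_cases [Finite F] (a b : F)
    (hab : ∀ z₁ z₂ : F, z₁ ^ 2 + a * z₁ * z₂ + b * z₂ ^ 2 = 0 → z₁ = 0 ∧ z₂ = 0)
    (g : Matrix (Fin 2) (Fin 2) F) (hg : ∀ z, binQ a b (g *ᵥ z) = binQ a b z) :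
    binQ a b ![g 0 0, g 1 0] = 1 ∧
    (g = binR a b ![g 0 0, g 1 0] ∨ g = binR a b ![g 0 0, g 1 0] * binS a) := by
  have hmv : ∀ z : Fin 2 → F, g *ᵥ z = ![g 0 0 * z 0 + g 0 1 * z 1, g 1 0 * z 0 + g 1 1 * z 1] := by
    intro z
    funext i
    fin_cases i <;> simp [Matrix.mulVec, dotProduct, Fin.sum_univ_two]
  have e1 := hg ![1, 0]
  have e2 := hg ![0, 1]
  have e3 := hg ![1, 1]
  rw [hmv] at e1 e2 e3
  simp only [binQ, Matrix.cons_val_zero, Matrix.cons_val_one, mul_one, mul_zero, add_zero,
    zero_add, one_pow, ne_eq, OfNat.ofNat_ne_zero, not_false_eq_true, zero_pow] at e1 e2 e3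
  set u0 := g 0 0 with hu0
  set u1 := g 1 0 with hu1
  set w0 := g 0 1 with hw0
  set w1 := g 1 1 with hw1
  have hP : 2 * u0 * w0 + a * (u0 * w1 + u1 * w0) + 2 * b * u1 * w1 = a := by
    linear_combination e3 - e1 - e2
  have hs := bin_solve a b hab ((u0 + a * u1) * w0 + b * u1 * w1) (u0 * w1 - u1 * w0)
    (by linear_combination (w0 ^ 2 + a * w0 * w1 + b * w1 ^ 2) * e1 + e2)
    (by linear_combination hP)
  have hw0' : w0 = u0 * ((u0 + a * u1) * w0 + b * u1 * w1) - b * u1 * (u0 * w1 - u1 * w0) := by
    linear_combination -w0 * e1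
  have hw1' : w1 = u1 * ((u0 + a * u1) * w0 + b * u1 * w1)
      + (u0 + a * u1) * (u0 * w1 - u1 * w0) := by
    linear_combination -w1 * e1
  refine ⟨?_, ?_⟩
  · simp only [binQ, Matrix.cons_val_zero, Matrix.cons_val_one]
    linear_combination e1
  rcases hs with ⟨hs1, hs2⟩ | ⟨hs1, hs2⟩
  · left
    rw [hs1, hs2] at hw0' hw1'
    ext i j
    fin_cases i <;> fin_cases j
    · simp [binR, hu0]
    · simp only [binR, Fin.zero_eta, Fin.mk_one, Matrix.of_apply, Matrix.cons_val', Matrix.cons_val_zero,
        Matrix.cons_val_one, Matrix.cons_val_fin_one]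
      rw [← hw0]
      linear_combination hw0'
    · simp [binR, hu1]
    · simp only [binR, Fin.mk_one, Matrix.of_apply, Matrix.cons_val', Matrix.cons_val_zero,
        Matrix.cons_val_one, Matrix.cons_val_fin_one]
      rw [← hw1]
      linear_combination hw1'
  · right
    rw [hs1, hs2] at hw0' hw1'
    ext i j
    fin_cases i <;> fin_cases j
    · simp [binR, binS, Matrix.mul_apply, Fin.sum_univ_two, hu0]
    · simp only [binR, binS, Matrix.mul_apply, Fin.sum_univ_two, Fin.zero_eta, Fin.mk_one,
        Matrix.of_apply, Matrix.cons_val', Matrix.cons_val_zero,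
        Matrix.cons_val_one, Matrix.cons_val_fin_one]
      rw [← hw0]
      linear_combination hw0'
    · simp [binR, binS, Matrix.mul_apply, Fin.sum_univ_two, hu1]
    · simp only [binR, binS, Matrix.mul_apply, Fin.sum_univ_two, Fin.mk_one,
        Matrix.of_apply, Matrix.cons_val', Matrix.cons_val_zero,
        Matrix.cons_val_one, Matrix.cons_val_fin_one]
      rw [← hw1]
      linear_combination hw1'

/-- rotations as units -/
def binRU (a b : F) (u : Fin 2 → F) (hu : binQ a b u = 1) :
    Matrix.GeneralLinearGroup (Fin 2) F :=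
  ⟨binR a b u, binR a b (binC a u), by rw [binR_mul_conj, hu, one_smul],
    by rw [binR_comm, binR_mul_conj, hu, one_smul]⟩

/-- the conjugation as a unit -/
def binSU (a : F) : Matrix.GeneralLinearGroup (Fin 2) F :=
  ⟨binS a, binS a, binS_mul_self a, binS_mul_self a⟩

theorem binRU_mem (a b : F) (u : Fin 2 → F) (hu : binQ a b u = 1) :
    binRU a b u hu ∈ Cfsg.isometryGroup F (binQ a b) := by
  refine (mem_isometryGroup_iff _ _).mpr (fun z => ?_)
  show binQ a b (binR a b u *ᵥ z) = _
  rw [binQ_binR, hu, one_mul]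

theorem binSU_mem (a b : F) : binSU a ∈ Cfsg.isometryGroup F (binQ a b) := by
  refine (mem_isometryGroup_iff _ _).mpr (fun z => ?_)
  show binQ a b (binS a *ᵥ z) = _
  rw [binQ_binS]

theorem card_binQ_one [Fintype F] (a b : F)
    (hab : ∀ z₁ z₂ : F, z₁ ^ 2 + a * z₁ * z₂ + b * z₂ ^ 2 = 0 → z₁ = 0 ∧ z₂ = 0) :
    Nat.card {u : Fin 2 → F // binQ a b u = 1} = Fintype.card F + 1 := by
  rw [← card_conic_aniso a b hab]
  apply Nat.card_congr
  refine Equiv.subtypeEquiv (finTwoArrowEquiv F) (fun u => ?_)
  simp [binQ, finTwoArrowEquiv]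

/-- the two-sheeted parametrisation of the isometry group -/
theorem bin_param_bijective [Finite F] (a b : F)
    (hab : ∀ z₁ z₂ : F, z₁ ^ 2 + a * z₁ * z₂ + b * z₂ ^ 2 = 0 → z₁ = 0 ∧ z₂ = 0) :
    Function.Bijective (fun p : {u : Fin 2 → F // binQ a b u = 1} × Bool =>
      (if p.2 then ⟨binRU a b p.1.1 p.1.2 * binSU a,
          mul_mem (binRU_mem a b p.1.1 p.1.2) (binSU_mem a b)⟩
        else ⟨binRU a b p.1.1 p.1.2, binRU_mem a b p.1.1 p.1.2⟩ :
        Cfsg.isometryGroup F (binQ a b))) := by
  constructor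
  · rintro ⟨⟨u, hu⟩, β⟩ ⟨⟨u', hu'⟩, β'⟩ h
    have hcol : u = u' := by
      funext i
      have h1 := congrArg (fun g : Cfsg.isometryGroup F (binQ a b) =>
        ((g : Matrix.GeneralLinearGroup (Fin 2) F) : Matrix (Fin 2) (Fin 2) F) i 0) h
      cases β <;> cases β' <;>
        simpa [binRU, binSU, binR_col, binR_mul_binS_col] using h1
    subst hcol
    have hβ : β = β' := by
      cases β <;> cases β'
      · rfl
      · exfalso
        have h1 : binRU a b u hu = binRU a b u hu * binSU a := congrArg Subtype.val h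
        have h2 : binSU a = 1 := by
          have := h1.symm
          simpa using this
        exact binS_ne_one a b hab (congrArg Units.val h2)
      · exfalso
        have h1 : binRU a b u hu * binSU a = binRU a b u hu := congrArg Subtype.val h
        have h2 : binSU a = 1 := by simpa using h1
        exact binS_ne_one a b hab (congrArg Units.val h2)
      · rfl
    subst hβ
    rfl
  · rintro ⟨g, hg⟩
    obtain ⟨hN, hcases⟩ := bin_isom_cases a b hab g.1 ((mem_isometryGroup_iff _ g).mp hg)
    rcases hcases with h | h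
    · refine ⟨(⟨_, hN⟩, false), ?_⟩
      apply Subtype.ext
      apply Units.ext
      exact h.symm
    · refine ⟨(⟨_, hN⟩, true), ?_⟩
      apply Subtype.ext
      apply Units.ext
      exact h.symm

theorem card_bin_isom [Fintype F] (a b : F)
    (hab : ∀ z₁ z₂ : F, z₁ ^ 2 + a * z₁ * z₂ + b * z₂ ^ 2 = 0 → z₁ = 0 ∧ z₂ = 0) :
    Nat.card (Cfsg.isometryGroup F (binQ a b)) = 2 * (Fintype.card F + 1) := by
  rw [← Nat.card_congr (Equiv.ofBijective _ (bin_param_bijective a b hab)), Nat.card_prod,
    card_binQ_one a b hab, Nat.card_eq_fintype_card (α := Bool), Fintype.card_bool, mul_comm]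

end binary

end Cfsg.Agent.Lib.Helper3
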