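import Mathlib
import Cfsg.Prelude
import Cfsg.Agent.Lib.Helper3.OrthCount
import Cfsg.Agent.Lib.Helper3.OrthBinary

set_option autoImplicit false

namespace Cfsg.Agent.Lib.Helper3

open Cfsg Matrix QuadraticMap

section orthminus

variable {F : Type*} [Field F]

/-- the minus-type form, bundled -/
noncomputable def minusQ (m : ℕ) (F : Type*) [Field F] (a b : F) :
    QuadraticForm F ((Fin m ⊕ Fin m) ⊕ Fin 2 → F) :=
  (∑ i : Fin m, QuadraticMap.linMulLin (LinearMap.proj (Sum.inl (Sum.inl i)))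
      (LinearMap.proj (Sum.inl (Sum.inr i))))
    + (QuadraticMap.linMulLin (LinearMap.proj (Sum.inr 0)) (LinearMap.proj (Sum.inr 0))
      + a • QuadraticMap.linMulLin (LinearMap.proj (Sum.inr 0)) (LinearMap.proj (Sum.inr 1))
      + b • QuadraticMap.linMulLin (LinearMap.proj (Sum.inr 1)) (LinearMap.proj (Sum.inr 1)))

theorem minusQ_coe (m : ℕ) (a b : F) : ⇑(minusQ m F a b) = Cfsg.quadFormMinus m F a b := by
  funext v
  simp [minusQ, Cfsg.quadFormMinus, QuadraticMap.linMulLin_apply, pow_two]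
  ring

def minusE (m : ℕ) :
    ((Fin m ⊕ Fin m) ⊕ Fin 2) ⊕ Fin 2 ≃ (Fin (m + 1) ⊕ Fin (m + 1)) ⊕ Fin 2 where
  toFun := Sum.elim (Sum.map (Sum.map Fin.succ Fin.succ) id)
    ![Sum.inl (Sum.inl 0), Sum.inl (Sum.inr 0)]
  invFun := Sum.elim
    (Sum.elim (Fin.cases (Sum.inr 0) (fun i => Sum.inl (Sum.inl (Sum.inl i))))
      (Fin.cases (Sum.inr 1) (fun i => Sum.inl (Sum.inl (Sum.inr i)))))
    (fun t => Sum.inl (Sum.inr t))
  left_inv := by
    rintro (((i | i) | s) | t)
    · simp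
    · simp
    · simp
    · fin_cases t <;> simp
  right_inv := by
    rintro ((i | i) | s)
    · refine Fin.cases ?_ (fun i => ?_) i <;> simp
    · refine Fin.cases ?_ (fun i => ?_) i <;> simp
    · simp

theorem minusQ_step (m : ℕ) (a b : F) (x : (Fin (m + 1) ⊕ Fin (m + 1)) ⊕ Fin 2 → F) :
    minusQ (m + 1) F a b x = minusQ m F a b (fun k => x (minusE m (Sum.inl k)))
      + x (minusE m (Sum.inr 0)) * x (minusE m (Sum.inr 1)) := by
  rw [minusQ_coe, minusQ_coe]
  unfold Cfsg.quadFormMinus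
  rw [Fin.sum_univ_succ]
  simp [minusE]
  ring

theorem minusQ_nondeg [Finite F] (a b : F)
    (hab : ∀ z₁ z₂ : F, z₁ ^ 2 + a * z₁ * z₂ + b * z₂ ^ 2 = 0 → z₁ = 0 ∧ z₂ = 0) (m : ℕ) :
    ∀ x, (∀ y, polar (minusQ m F a b) x y = 0) → x = 0 := by
  induction m with
  | zero =>
    intro x hx
    have key : ∀ y : (Fin 0 ⊕ Fin 0) ⊕ Fin 2 → F, polar (minusQ 0 F a b) x y
        = 2 * x (Sum.inr 0) * y (Sum.inr 0)
          + a * (x (Sum.inr 0) * y (Sum.inr 1) + x (Sum.inr 1) * y (Sum.inr 0))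
          + 2 * b * x (Sum.inr 1) * y (Sum.inr 1) := by
      intro y
      unfold polar
      rw [minusQ_coe]
      simp only [Cfsg.quadFormMinus, Finset.univ_eq_empty, Finset.sum_empty, zero_add,
        Pi.add_apply]
      ring
    have h1 := hx (Sum.elim (fun _ => 0) ![1, 0])
    have h2 := hx (Sum.elim (fun _ => 0) ![0, 1])
    rw [key] at h1 h2
    simp only [Sum.elim_inr, Matrix.cons_val_zero, Matrix.cons_val_one, mul_one, mul_zero,
      add_zero, zero_add] at h1 h2
    have h0 : x (Sum.inr 0) = 0 ∧ x (Sum.inr 1) = 0 := by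
      by_cases h : (2 : F) = 0
      · have ha := aniso_a_ne_zero a b hab h
        have h3 : a * x (Sum.inr 1) = 0 := by linear_combination h1 - x (Sum.inr 0) * h
        have h4 : a * x (Sum.inr 0) = 0 := by linear_combination h2 - b * x (Sum.inr 1) * h
        exact ⟨(mul_eq_zero.mp h4).resolve_left ha, (mul_eq_zero.mp h3).resolve_left ha⟩
      · apply hab
        have h3 : 2 * (x (Sum.inr 0) ^ 2 + a * x (Sum.inr 0) * x (Sum.inr 1)
            + b * x (Sum.inr 1) ^ 2) = 0 := by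
          linear_combination x (Sum.inr 0) * h1 + x (Sum.inr 1) * h2
        exact (mul_eq_zero.mp h3).resolve_left h
    funext i
    rcases i with (i | i) | t
    · exact i.elim0
    · exact i.elim0
    · fin_cases t
      · exact h0.1
      · exact h0.2
  | succ m ih => exact nondeg_step (minusE m) _ _ (minusQ_step m a b) ih

theorem card_minus_succ [Fintype F] (a b : F)
    (hab : ∀ z₁ z₂ : F, z₁ ^ 2 + a * z₁ * z₂ + b * z₂ ^ 2 = 0 → z₁ = 0 ∧ z₂ = 0) (m : ℕ) :
    Nat.card (Cfsg.isometryGroup F (Cfsg.quadFormMinus (m + 1) F a b))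
      = (Nat.card {x : (Fin (m + 1) ⊕ Fin (m + 1)) ⊕ Fin 2 → F //
          Cfsg.quadFormMinus (m + 1) F a b x = 0} - 1)
        * Fintype.card F ^ (2 * m + 2)
        * Nat.card (Cfsg.isometryGroup F (Cfsg.quadFormMinus m F a b)) := by
  have h := card_isom_step (minusE m) (minusQ (m + 1) F a b) (minusQ m F a b)
    (minusQ_step m a b) (minusQ_nondeg a b hab m)
  rw [minusQ_coe, minusQ_coe] at h
  rw [h]
  simp only [Fintype.card_sum, Fintype.card_fin]
  congr 3
  omega

/-- the index type of the binary form -/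
def minusE0 : Fin 2 ≃ (Fin 0 ⊕ Fin 0) ⊕ Fin 2 where
  toFun := Sum.inr
  invFun := Sum.elim (Sum.elim Fin.elim0 Fin.elim0) id
  left_inv := fun _ => rfl
  right_inv := by
    rintro ((i | i) | t)
    · exact i.elim0
    · exact i.elim0
    · rfl

theorem minus_zero_eq (a b : F) :
    (fun x : Fin 2 → F => Cfsg.quadFormMinus 0 F a b (x ∘ minusE0.symm)) = binQ a b := by
  funext x
  simp only [Cfsg.quadFormMinus, binQ, Finset.univ_eq_empty, Finset.sum_empty, zero_add,
    Function.comp_apply]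
  rfl

theorem card_minus_zero [Fintype F] (a b : F)
    (hab : ∀ z₁ z₂ : F, z₁ ^ 2 + a * z₁ * z₂ + b * z₂ ^ 2 = 0 → z₁ = 0 ∧ z₂ = 0) :
    Nat.card (Cfsg.isometryGroup F (Cfsg.quadFormMinus 0 F a b)) = 2 * (Fintype.card F + 1) := by
  have h := card_isom_reindex minusE0 (Cfsg.quadFormMinus 0 F a b)
  rw [minus_zero_eq] at h
  rw [← h, card_bin_isom a b hab]

end orthminus

end Cfsg.Agent.Lib.Helper3
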