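import Mathlib
import Cfsg.Prelude.Def_ClassicalGeometry
import Cfsg.Agent.Lib.Helper3.OmegaSimpleGen
import Cfsg.Agent.Lib.Helper17.CDChar2App

/-!
# Long root elements in characteristic two, and simplicity in every characteristic

In characteristic two the commutator subgroup of the isometry group of a nondegenerate
quadratic form in dimension at least seven is generated by the long root elements; together
with the generic Iwasawa argument this gives the simplicity of the projective commutator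
subgroup in every characteristic.
-/

set_option autoImplicit false
set_option linter.unusedSectionVars false

namespace Cfsg.Agent.Lib.Helper3

open Cfsg.Agent.Lib.Helper16 Cfsg.Agent.Lib.Helper17 Matrix

section Char2

variable {ι : Type} [Fintype ι] [DecidableEq ι] {F : Type*} [Field F] [Fintype F]
variable (Q : QuadraticForm F (ι → F))

/-- Square roots in a finite field of characteristic two. -/
theorem exists_sqrt_char2 (h2 : (2 : F) = 0) (a : F) : ∃ b : F, b * b = a := by
  have : CharP F 2 := charP_two_of_eq h2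
  exact c2_fin_hsq a

theorem quad_two_char2 (h2 : (2 : F) = 0) (x : F) : x + x = 0 := by
  rw [← two_mul, h2, zero_mul]

/-- A vector of prescribed norm orthogonal to a family (characteristic two). -/
theorem exists_rep_char2 (h2 : (2 : F) = 0) (hQ : (QuadraticMap.polarBilin Q).Nondegenerate)
    {k : ℕ} (v : Fin k → (ι → F)) (hk : 2 * k < Fintype.card ι) (c : F) :
    ∃ y : ι → F, Q y = c ∧ ∀ i, QuadraticMap.polar (⇑Q) (v i) y = 0 := by
  obtain ⟨x, hx, hxv⟩ := Cfsg.Agent.S5676.gns Q hQ v hk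
  obtain ⟨s, hs⟩ := exists_sqrt_char2 h2 (c / Q x)
  refine ⟨s • x, ?_, fun i => ?_⟩
  · rw [QuadraticMap.map_smul, hs, smul_eq_mul, div_mul_cancel₀ _ hx]
  · rw [QuadraticMap.polar_smul_right, hxv i, smul_zero]

/-- A nonzero singular vector orthogonal to a family (characteristic two). -/
theorem exists_sing_char2 (h2 : (2 : F) = 0) (hQ : (QuadraticMap.polarBilin Q).Nondegenerate)
    {k : ℕ} (v : Fin k → (ι → F)) (hk : k + 2 < Fintype.card ι) :
    ∃ x : ι → F, x ≠ 0 ∧ Q x = 0 ∧ ∀ i, QuadraticMap.polar (⇑Q) (v i) x = 0 := by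
  obtain ⟨b₁, hb₁0, h1⟩ := Cfsg.Agent.S5676.gperp Q hQ v (by omega)
  by_cases hq1 : Q b₁ = 0
  · exact ⟨b₁, hb₁0, hq1, h1⟩
  obtain ⟨t, ht⟩ : ∃ t, QuadraticMap.polar (⇑Q) b₁ t ≠ 0 := by
    by_contra hcon
    push Not at hcon
    exact hb₁0 (hQ.1 b₁ (fun y => by rw [QuadraticMap.polarBilin_apply_apply]; exact hcon y))
  obtain ⟨b₂, hb₂0, h3⟩ := Cfsg.Agent.S5676.gperp Q hQ
    (Fin.cons t (Fin.cons b₁ v) : Fin (k + 1 + 1) → (ι → F)) (by omega)
  have htb₂ : QuadraticMap.polar (⇑Q) t b₂ = 0 := by simpa using h3 0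
  have h12 : QuadraticMap.polar (⇑Q) b₁ b₂ = 0 := by simpa using h3 (Fin.succ 0)
  have h2' : ∀ i, QuadraticMap.polar (⇑Q) (v i) b₂ = 0 := fun i => by simpa using h3 i.succ.succ
  by_cases hq2 : Q b₂ = 0
  · exact ⟨b₂, hb₂0, hq2, h2'⟩
  obtain ⟨x, hx⟩ := exists_sqrt_char2 h2 (Q b₂ / Q b₁)
  have hx0 : x ≠ 0 := by
    rintro rfl
    rw [mul_zero] at hx
    exact (div_ne_zero hq2 hq1) hx.symm
  refine ⟨x • b₁ + b₂, ?_, ?_, fun i => ?_⟩
  · intro h0
    have e1 := congrArg (fun z => QuadraticMap.polar (⇑Q) t z) h0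
    simp only [QuadraticMap.polar_add_right, QuadraticMap.polar_smul_right, htb₂, add_zero,
      smul_eq_mul, QuadraticMap.polar_zero_right] at e1
    rw [QuadraticMap.polar_comm] at e1
    rcases mul_eq_zero.1 e1 with h | h
    · exact hx0 h
    · exact ht h
  · rw [QuadraticMap.map_add (⇑Q), QuadraticMap.map_smul, QuadraticMap.polar_smul_left, h12, hx,
      smul_eq_mul, div_mul_cancel₀ _ hq1, smul_zero, add_zero]
    exact quad_two_char2 h2 _
  · rw [QuadraticMap.polar_add_right, QuadraticMap.polar_smul_right, h1 i, h2' i, smul_zero,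
      add_zero]

/-- The product of the reflections in `a` and `a + u`, with `u` singular and orthogonal to
`a`, is a product of two long root elements (characteristic two). -/
theorem refl_pair_singular_mem_char2 (h2 : (2 : F) = 0)
    (hQ : (QuadraticMap.polarBilin Q).Nondegenerate) (h7 : 7 ≤ Fintype.card ι)
    (a u : ι → F) (ha : Q a ≠ 0) (hu : Q u = 0) (hau : QuadraticMap.polar (⇑Q) a u = 0)
    (ha' : Q (a + u) ≠ 0) : reflG Q a ha * reflG Q (a + u) ha' ∈ siegelSub Q := by
  by_cases hu0 : u = 0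
  · have e : reflG Q (a + u) ha' = reflG Q a ha := by
      apply isomG_ext
      rw [reflG_coe, reflG_coe, hu0, add_zero]
    rw [e, reflG_mul_self]
    exact Subgroup.one_mem _
  have hua : QuadraticMap.polar (⇑Q) u a = 0 := by rw [QuadraticMap.polar_comm]; exact hau
  have hind : a ∉ Submodule.span F ({u} : Set (ι → F)) := by
    intro hmem
    rw [Submodule.mem_span_singleton] at hmem
    obtain ⟨c, hc⟩ := hmem
    apply ha
    rw [← hc, QuadraticMap.map_smul, hu, smul_zero]
  obtain ⟨w₁, huw₁, haw₁⟩ := exists_perp_not_perp Q hQ a u hind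
  obtain ⟨y, hy, hyv⟩ := exists_rep_char2 Q h2 hQ ![u, a, w₁] (by omega) (Q w₁)
  have huy : QuadraticMap.polar (⇑Q) u y = 0 := hyv 0
  have hay : QuadraticMap.polar (⇑Q) a y = 0 := hyv 1
  have hw₁y : QuadraticMap.polar (⇑Q) w₁ y = 0 := hyv 2
  obtain ⟨z, hz⟩ : ∃ z : ι → F, z = w₁ + y := ⟨_, rfl⟩
  have hQz : Q z = 0 := by
    rw [hz, QuadraticMap.map_add (⇑Q), hy, hw₁y, add_zero]
    exact quad_two_char2 h2 _
  have huz : QuadraticMap.polar (⇑Q) u z = 0 := by
    rw [hz, QuadraticMap.polar_add_right, huw₁, huy, add_zero]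
  have haz : QuadraticMap.polar (⇑Q) a z ≠ 0 := by
    rw [hz, QuadraticMap.polar_add_right, hay, add_zero]
    exact haw₁
  -- the rescaled singular vector
  obtain ⟨u', hu'⟩ : ∃ u' : ι → F, u' = (Q a)⁻¹ • u := ⟨_, rfl⟩
  have hQu' : Q u' = 0 := by rw [hu', QuadraticMap.map_smul, hu, smul_zero]
  have hu'a : QuadraticMap.polar (⇑Q) u' a = 0 := by
    rw [hu', QuadraticMap.polar_smul_left, hua, smul_zero]
  have hu'z : QuadraticMap.polar (⇑Q) u' z = 0 := by
    rw [hu', QuadraticMap.polar_smul_left, huz, smul_zero]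
  have hau' : QuadraticMap.polar (⇑Q) a u' = 0 := by rw [QuadraticMap.polar_comm]; exact hu'a
  have e0 : a + u = a + Q a • u' := by
    rw [hu', smul_smul, mul_inv_cancel₀ ha, one_smul]
  obtain ⟨v₁, hv₁⟩ : ∃ v₁ : ι → F, v₁ = (Q a / QuadraticMap.polar (⇑Q) a z) • z := ⟨_, rfl⟩
  obtain ⟨v₂, hv₂⟩ : ∃ v₂ : ι → F, v₂ = a - v₁ := ⟨_, rfl⟩
  have hQv₁ : Q v₁ = 0 := by rw [hv₁, QuadraticMap.map_smul, hQz, smul_zero]
  have hav₁ : QuadraticMap.polar (⇑Q) a v₁ = Q a := by
    rw [hv₁, QuadraticMap.polar_smul_right, smul_eq_mul, div_mul_cancel₀ _ haz]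
  have hQv₂ : Q v₂ = 0 := by
    rw [hv₂, cd_Q_sub, hQv₁, hav₁]
    ring
  have hu'v₁ : QuadraticMap.polar (⇑Q) u' v₁ = 0 := by
    rw [hv₁, QuadraticMap.polar_smul_right, hu'z, smul_zero]
  have hu'v₂ : QuadraticMap.polar (⇑Q) u' v₂ = 0 := by
    rw [hv₂, QuadraticMap.polar_sub_right, hu'a, hu'v₁, sub_zero]
  have hsum : v₁ + v₂ = a := by
    rw [hv₂]
    abel
  have e : reflG Q a ha * reflG Q (a + u) ha'
      = siegelG Q u' v₁ 1 hQu' hQv₁ hu'v₁ * siegelG Q u' v₂ 1 hQu' hQv₂ hu'v₂ := by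
    apply isomG_ext
    apply Matrix.mulVec_injective
    funext x
    rw [isomG_mul_coe, isomG_mul_coe, reflG_coe, reflG_coe, siegelG_coe, siegelG_coe,
      ← Matrix.mulVec_mulVec, ← Matrix.mulVec_mulVec, e0,
      refl_pair_eich Q u' a hQu' ha hau', siegel_eq_eich Q u' v₂ 1 hQv₂,
      siegel_eq_eich Q u' v₁ 1 hQv₁, one_smul, one_smul,
      eich_add Q u' v₁ v₂ hQu' hu'v₁ hu'v₂, hsum]
  rw [e]
  exact Subgroup.mul_mem _ (siegelG_mem Q _ _ _ _ _ _) (siegelG_mem Q _ _ _ _ _ _)

/-- Reflections in two orthogonal vectors of the same norm (characteristic two). -/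
theorem refl_pair_close_mem_char2 (h2 : (2 : F) = 0)
    (hQ : (QuadraticMap.polarBilin Q).Nondegenerate) (h7 : 7 ≤ Fintype.card ι)
    (a b : ι → F) (ha : Q a ≠ 0) (hb : Q b ≠ 0) (hab : Q a = Q b)
    (hp : QuadraticMap.polar (⇑Q) a b = 0) :
    reflG Q a ha * reflG Q b hb ∈ siegelSub Q := by
  have e : b = a + (b - a) := by abel
  have hb' : Q (a + (b - a)) ≠ 0 := by rw [← e]; exact hb
  have e2 : reflG Q b hb = reflG Q (a + (b - a)) hb' := by
    apply isomG_ext
    rw [reflG_coe, reflG_coe, ← e]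
  rw [e2]
  refine refl_pair_singular_mem_char2 Q h2 hQ h7 a (b - a) ha ?_ ?_ hb'
  · rw [cd_Q_sub, QuadraticMap.polar_comm, hp, ← hab, sub_zero]
    exact quad_two_char2 h2 _
  · rw [QuadraticMap.polar_sub_right, hp, cd_polar_self, h2, zero_mul, sub_zero]

/-- **Reflection pairs** (characteristic two, dimension at least seven). -/
theorem refl_pair_mem_siegel_char2 (h2 : (2 : F) = 0)
    (hQ : (QuadraticMap.polarBilin Q).Nondegenerate) (h7 : 7 ≤ Fintype.card ι)
    (a b : ι → F) (ha : Q a ≠ 0) (hb : Q b ≠ 0) (hab : Q a = Q b) :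
    reflG Q a ha * reflG Q b hb ∈ siegelSub Q := by
  by_cases hp : QuadraticMap.polar (⇑Q) a b = 0
  · exact refl_pair_close_mem_char2 Q h2 hQ h7 a b ha hb hab hp
  obtain ⟨w, hw, haw, hbw⟩ := exists_ns_perp_two Q hQ (by omega) a b
  obtain ⟨s, hs⟩ := exists_sqrt_char2 h2 (Q a / Q w)
  obtain ⟨c, hc⟩ : ∃ c : ι → F, c = s • w := ⟨_, rfl⟩
  have hQc : Q c = Q a := by
    rw [hc, QuadraticMap.map_smul, hs, smul_eq_mul, div_mul_cancel₀ _ hw]
  have hc0 : Q c ≠ 0 := by rw [hQc]; exact ha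
  have hac : QuadraticMap.polar (⇑Q) a c = 0 := by
    rw [hc, QuadraticMap.polar_smul_right, haw, smul_zero]
  have hcb : QuadraticMap.polar (⇑Q) c b = 0 := by
    rw [QuadraticMap.polar_comm, hc, QuadraticMap.polar_smul_right, hbw, smul_zero]
  have e : reflG Q a ha * reflG Q b hb
      = (reflG Q a ha * reflG Q c hc0) * (reflG Q c hc0 * reflG Q b hb) := by
    rw [mul_assoc, ← mul_assoc (reflG Q c hc0), reflG_mul_self, one_mul]
  rw [e]
  exact Subgroup.mul_mem _ (refl_pair_close_mem_char2 Q h2 hQ h7 a c ha hc0 hQc.symm hac)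
    (refl_pair_close_mem_char2 Q h2 hQ h7 c b hc0 hb (by rw [hQc, hab]) hcb)

/-- In characteristic two and dimension at least seven, the commutator subgroup of the
isometry group is contained in the subgroup generated by the long root elements. -/
theorem omega_le_siegelSub_char2 (h2 : (2 : F) = 0)
    (hQ : (QuadraticMap.polarBilin Q).Nondegenerate) (h7 : 7 ≤ Fintype.card ι) :
    Cfsg.Omega F (⇑Q) ≤ siegelSub Q := by
  have := siegelSub_normal Q
  have hex : Fintype.card F ≠ 2 ∨ Fintype.card ι ≠ 4 := Or.inr (by omega)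
  apply commutator_le_of_gens (cdR Q)
    (eq_top_iff.2 fun g _ => fin_cartan_dieudonne Q hQ hex g)
  rintro r ⟨a, ha, hr⟩ s ⟨b, hb, hs⟩
  have er : r = reflG Q a ha := isomG_ext Q (by rw [hr, reflG_coe])
  have es : s = reflG Q b hb := isomG_ext Q (by rw [hs, reflG_coe])
  rw [er, es, reflG_inv, reflG_inv]
  have hq : Q (((reflG Q b hb : Matrix.GeneralLinearGroup ι F) : Matrix ι ι F) *ᵥ a) ≠ 0 := by
    rw [isomG_map]
    exact ha
  have e1 := refl_conj Q (reflG Q b hb) a ha hq
  rw [reflG_inv] at e1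
  have e2 : reflG Q a ha * reflG Q b hb * reflG Q a ha * reflG Q b hb
      = reflG Q a ha * (reflG Q b hb * reflG Q a ha * reflG Q b hb) := by group
  rw [e2, e1]
  exact refl_pair_mem_siegel_char2 Q h2 hQ h7 a _ ha hq (by rw [isomG_map])

/-- **Simplicity**: for a nondegenerate quadratic form in dimension at least seven over a
finite field, the quotient of the commutator subgroup of the isometry group by its centre is
simple. -/
theorem pomega_simple (hQ : (QuadraticMap.polarBilin Q).Nondegenerate)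
    (h7 : 7 ≤ Fintype.card ι) : IsSimpleGroup (Cfsg.POmega F (⇑Q)) := by
  by_cases h2 : (2 : F) = 0
  · refine pomega_simple_gen Q ?_ hQ ?_ h7
    · exact le_antisymm (omega_le_siegelSub_char2 Q h2 hQ h7) (siegelSub_le_omega Q hQ (by omega))
    · intro v
      exact exists_sing_char2 Q h2 hQ v (by omega)
  · refine pomega_simple_gen Q ?_ hQ ?_ h7
    · exact omega_eq_siegelSub Q h2 hQ (by omega)
    · intro v
      have hodd : Odd (Fintype.card F) := by
        by_contra hev
        rw [Nat.not_odd_iff_even] at hev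
        apply h2
        have h3 : ((Fintype.card F : ℕ) : F) = 0 := Nat.cast_card_eq_zero F
        obtain ⟨r, hr⟩ := hev
        obtain ⟨p, hp⟩ := CharP.exists F
        have hpp : p.Prime := CharP.char_is_prime F p
        have hdvd : p ∣ Fintype.card F := (CharP.cast_eq_zero_iff F p _).1 h3
        obtain ⟨n, hn⟩ := FiniteField.card F p
        have h2p : (2 : ℕ) ∣ (p : ℕ) ^ (n : ℕ) := by
          rw [← hn.2, hr]
          exact ⟨r, by ring⟩
        have h2p' : 2 ∣ p := Nat.Prime.dvd_of_dvd_pow Nat.prime_two h2p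
        have hp2 : p = 2 := ((Nat.prime_dvd_prime_iff_eq Nat.prime_two hpp).1 h2p').symm
        subst hp2
        exact_mod_cast CharP.cast_eq_zero F 2
      exact Cfsg.Agent.S5676.gsing Q hQ hodd v (by omega)

end Char2

end Cfsg.Agent.Lib.Helper3
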