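import Mathlib

/-!
Transfer of "squares lie in the commutator subgroup" from `B ⊓ N` (`B` a Sylow `2`-subgroup of `G`,
`N` a normal subgroup given as the range of an injective hom `f : H →* G`) to every Sylow
`2`-subgroup of `H`.
-/

set_option autoImplicit false

namespace Cfsg.Agent.Lib.Helper3

open scoped Pointwise

/-- the two ways of saying that squares lie in the commutator subgroup of a subgroup -/
theorem sq_mem_level {G : Type*} [Group G] (K : Subgroup G) :
    (∀ u : ↥K, u ^ 2 ∈ commutator ↥K) ↔ (∀ x ∈ K, x ^ 2 ∈ ⁅K, K⁆) := by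
  have key : (commutator ↥K).map K.subtype = ⁅K, K⁆ := by
    rw [commutator_def, Subgroup.map_commutator, ← MonoidHom.range_eq_map, Subgroup.range_subtype]
  constructor
  · intro h x hx
    rw [← key]
    exact ⟨(⟨x, hx⟩ : ↥K) ^ 2, h ⟨x, hx⟩, rfl⟩
  · intro h u
    have h1 := h (u : G) u.2
    rw [← key] at h1
    obtain ⟨w, hw, hwe⟩ := h1
    have h2 : w = u ^ 2 := Subtype.ext hwe
    rw [← h2]
    exact hw

/-- If `B` is a Sylow `2`-subgroup of `G`, `f : H →* G` is injective with normal range and all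
squares of `B ⊓ f.range` lie in its commutator subgroup, then the same holds for every Sylow
`2`-subgroup of `H`. -/
theorem sylow_sq_of_normal_range {G H : Type*} [Group G] [Group H] [Finite G]
    (f : H →* G) (hf : Function.Injective f) (hN : f.range.Normal) (B : Sylow 2 G)
    (hE : ∀ x ∈ (B : Subgroup G) ⊓ f.range,
      x ^ 2 ∈ ⁅(B : Subgroup G) ⊓ f.range, (B : Subgroup G) ⊓ f.range⁆)
    (P : Sylow 2 H) :
    ∀ x : ↥(P : Subgroup H), x ^ 2 ∈ commutator ↥(P : Subgroup H) := by
  classical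
  have hPm : IsPGroup 2 ((P : Subgroup H).map f) := P.isPGroup'.map f
  obtain ⟨B', hB'⟩ := hPm.exists_le_sylow
  obtain ⟨c, hc⟩ := MulAction.exists_smul_eq G B B'
  have hK2 : IsPGroup 2 (((B' : Subgroup G) ⊓ f.range).comap f) :=
    (B'.isPGroup'.to_le inf_le_left).comap_of_injective f hf
  have hPK : (P : Subgroup H) ≤ ((B' : Subgroup G) ⊓ f.range).comap f := by
    intro x hx
    exact ⟨hB' (Subgroup.mem_map_of_mem f hx), ⟨x, rfl⟩⟩
  have hKP : ((B' : Subgroup G) ⊓ f.range).comap f = (P : Subgroup H) := P.is_maximal' hK2 hPK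
  have hmap : (B' : Subgroup G) ⊓ f.range =
      ((B : Subgroup G) ⊓ f.range).map (MulAut.conj c).toMonoidHom := by
    ext x
    constructor
    · rintro ⟨hx1, hx2⟩
      refine ⟨c⁻¹ * x * c, ⟨?_, ?_⟩, ?_⟩
      · rw [← hc, Sylow.coe_subgroup_smul] at hx1
        have h1 := Subgroup.smul_mem_pointwise_smul _ (MulAut.conj c⁻¹) _ hx1
        rw [smul_smul, ← map_mul, inv_mul_cancel, map_one, one_smul] at h1
        have h2 : (MulAut.conj c⁻¹) • x = c⁻¹ * x * c := by
          rw [MulAut.smul_def, MulAut.conj_apply, inv_inv]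
        rw [h2] at h1
        exact h1
      · have h1 := hN.conj_mem x hx2 c⁻¹
        rw [inv_inv] at h1
        exact h1
      · show c * (c⁻¹ * x * c) * c⁻¹ = x
        group
    · rintro ⟨y, ⟨hy1, hy2⟩, rfl⟩
      refine ⟨?_, hN.conj_mem y hy2 c⟩
      rw [← hc, Sylow.coe_subgroup_smul]
      exact Subgroup.smul_mem_pointwise_smul _ (MulAut.conj c) _ hy1
  have hE' : ∀ x ∈ (B' : Subgroup G) ⊓ f.range,
      x ^ 2 ∈ ⁅(B' : Subgroup G) ⊓ f.range, (B' : Subgroup G) ⊓ f.range⁆ := by
    intro x hx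
    rw [hmap] at hx ⊢
    obtain ⟨y, hy, rfl⟩ := hx
    rw [← Subgroup.map_commutator, ← map_pow]
    exact Subgroup.mem_map_of_mem _ (hE y hy)
  have hmapP : (B' : Subgroup G) ⊓ f.range = (P : Subgroup H).map f := by
    rw [← hKP, Subgroup.map_comap_eq]
    exact le_antisymm (le_inf inf_le_right le_rfl) inf_le_right
  rw [sq_mem_level]
  intro x hx
  have h1 := hE' (f x) (hPK hx)
  rw [hmapP, ← Subgroup.map_commutator, ← map_pow] at h1
  obtain ⟨w, hw, hwe⟩ := h1
  rw [← hf hwe]
  exact hw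

end Cfsg.Agent.Lib.Helper3
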